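import Cfsg.Prelude.Def_BaumannBlocks
import Cfsg.Agent.Lib.Core
import Mathlib.GroupTheory.SpecificGroups.Alternating
import Mathlib.FieldTheory.Finite.Basic
import Mathlib.Tactic

/-! The module W / Z of a block is nontrivial and irreducible (owner helper5). -/

set_option autoImplicit false
set_option linter.unusedSectionVars false

namespace CfsgLib.BlockModule

open Matrix

variable {F : Type*} [Field F] [Fintype F]

local notation "SL" => Matrix.SpecialLinearGroup (Fin 2) F

/-- upper transvection -/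
def up (x : F) : SL := ⟨!![1, x; 0, 1], by simp [Matrix.det_fin_two_of]⟩
/-- lower transvection -/
def lo (y : F) : SL := ⟨!![1, 0; y, 1], by simp [Matrix.det_fin_two_of]⟩
/-- diagonal element -/
def diag (t : Fˣ) : SL := ⟨!![(t : F), 0; 0, (t⁻¹ : Fˣ)], by simp [Matrix.det_fin_two_of]⟩

theorem up_coe (x : F) : ((up x : SL) : Matrix (Fin 2) (Fin 2) F) = !![1, x; 0, 1] := rfl
theorem lo_coe (x : F) : ((lo x : SL) : Matrix (Fin 2) (Fin 2) F) = !![1, 0; x, 1] := rfl
theorem diag_coe (t : Fˣ) : ((diag t : SL) : Matrix (Fin 2) (Fin 2) F) = !![(t : F), 0; 0, (t⁻¹ : Fˣ)] := rfl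

theorem mem_commutator (a b : SL) : a * b * a⁻¹ * b⁻¹ ∈ commutator SL := by
  rw [← commutatorElement_def]
  exact Subgroup.commutator_mem_commutator (Subgroup.mem_top a) (Subgroup.mem_top b)

theorem exists_sq_ne_one (h : 3 < Fintype.card F) : ∃ t : Fˣ, (t : F) ^ 2 ≠ 1 := by
  classical
  by_contra hc
  push Not at hc
  have hsub : (Finset.univ : Finset F) ⊆ {0, 1, -1} := by
    intro x _
    by_cases hx : x = 0
    · simp [hx]
    · rcases sq_eq_one_iff.mp (hc (Units.mk0 x hx)) with h1 | h1 <;> simp at h1 <;> simp [h1]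
  have := (Finset.card_le_card hsub).trans Finset.card_le_three
  rw [Finset.card_univ] at this
  omega

theorem up_mem (h : 3 < Fintype.card F) (x : F) : up x ∈ commutator SL := by
  obtain ⟨t, ht⟩ := exists_sq_ne_one h
  have ht0 : (t : F) ^ 2 - 1 ≠ 0 := sub_ne_zero.mpr ht
  have := mem_commutator (diag t) (up (x / ((t : F) ^ 2 - 1)))
  convert this using 1
  apply Subtype.ext
  simp only [up_coe, diag_coe, Matrix.SpecialLinearGroup.coe_mul, Matrix.SpecialLinearGroup.coe_inv,
    Matrix.adjugate_fin_two_of]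
  ext i j
  fin_cases i <;> fin_cases j <;> simp [Matrix.mul_apply, Fin.sum_univ_two] <;> field_simp <;> ring

theorem lo_mem (h : 3 < Fintype.card F) (x : F) : lo x ∈ commutator SL := by
  obtain ⟨t, ht⟩ := exists_sq_ne_one h
  have ht0 : (t : F) ^ 2 - 1 ≠ 0 := sub_ne_zero.mpr ht
  have := mem_commutator (diag t) (lo ((t : F) ^ 2 * x / (1 - (t : F) ^ 2)))
  have ht1 : 1 - (t : F) ^ 2 ≠ 0 := sub_ne_zero.mpr (Ne.symm ht)
  convert this using 1
  apply Subtype.ext
  simp only [lo_coe, diag_coe, Matrix.SpecialLinearGroup.coe_mul, Matrix.SpecialLinearGroup.coe_inv,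
    Matrix.adjugate_fin_two_of]
  ext i j
  fin_cases i <;> fin_cases j <;> simp [Matrix.mul_apply, Fin.sum_univ_two] <;> field_simp <;> ring

/-- the commutator of `up 1` and `lo 1` -/
def cElt : SL := up 1 * lo 1 * (up 1)⁻¹ * (lo 1)⁻¹

theorem cElt_apply (v : Fin 2 → F) :
    ((cElt : SL) : Matrix (Fin 2) (Fin 2) F).mulVec v = ![3 * v 0 - v 1, v 0] := by
  simp only [cElt, up_coe, lo_coe, Matrix.SpecialLinearGroup.coe_mul, Matrix.SpecialLinearGroup.coe_inv,
    Matrix.adjugate_fin_two_of]
  ext i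
  fin_cases i <;> simp [Matrix.mulVec, dotProduct, Matrix.mul_apply, Fin.sum_univ_two] <;> ring

/-- An additive subgroup of `F²` invariant under the derived subgroup of `SL₂(F)` is zero or everything. -/
theorem sl2_irred (S : AddSubgroup (Fin 2 → F))
    (hS : ∀ g ∈ commutator SL, ∀ v ∈ S, (g : Matrix (Fin 2) (Fin 2) F).mulVec v ∈ S)
    {v : Fin 2 → F} (hv : v ∈ S) (hv0 : v ≠ 0) (w : Fin 2 → F) : w ∈ S := by
  classical
  by_cases hq : 3 < Fintype.card F
  · have hu : ∀ u ∈ S, ∀ x : F, ![x * u 1, 0] ∈ S := fun u hu x => by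
      convert S.sub_mem (hS _ (up_mem hq x) u hu) hu using 1
      ext i
      fin_cases i <;> simp [up_coe, Matrix.mulVec, dotProduct, Fin.sum_univ_two]
    have hl : ∀ u ∈ S, ∀ x : F, ![0, x * u 0] ∈ S := fun u hu x => by
      convert S.sub_mem (hS _ (lo_mem hq x) u hu) hu using 1
      ext i
      fin_cases i <;> simp [lo_coe, Matrix.mulVec, dotProduct, Fin.sum_univ_two]
    have hboth : ∀ a b : F, ![a, 0] ∈ S ∧ ![0, b] ∈ S := by
      by_cases h1 : v 1 = 0
      · have h0 : v 0 ≠ 0 := fun h0 => hv0 (by ext i; fin_cases i <;> simp [h0, h1])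
        have hlow : ∀ b, ![0, b] ∈ S := fun b => by
          have := hl v hv (b / v 0)
          rwa [div_mul_cancel₀ _ h0] at this
        exact fun a b => ⟨by simpa using hu _ (hlow 1) a, hlow b⟩
      · have hup : ∀ a, ![a, 0] ∈ S := fun a => by
          have := hu v hv (a / v 1)
          rwa [div_mul_cancel₀ _ h1] at this
        exact fun a b => ⟨hup a, by simpa using hl _ (hup 1) b⟩
    convert S.add_mem (hboth (w 0) (w 1)).1 (hboth (w 0) (w 1)).2 using 1
    ext i
    fin_cases i <;> simp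
  · have hcard : Fintype.card F = 2 ∨ Fintype.card F = 3 := by
      have := Fintype.one_lt_card (α := F)
      omega
    have hc : ![3 * v 0 - v 1, v 0] ∈ S := cElt_apply v ▸ hS _ (mem_commutator _ _) v hv
    have hprime : (Fintype.card F).Prime := by rcases hcard with h | h <;> rw [h] <;> norm_num
    haveI := Fact.mk hprime
    haveI : CharP F (Fintype.card F) := by
      obtain ⟨q, hq'⟩ := CharP.exists F
      haveI := hq'
      obtain ⟨n, hq2, hn2⟩ := FiniteField.card F q
      have : n = 1 := by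
        rw [hn2] at hprime
        exact PNat.coe_injective (Nat.Prime.eq_one_of_pow hprime)
      rw [hn2, this]
      simpa using hq'
    have hint : ∀ x : F, ∃ k : ℕ, x = k := by
      intro x
      obtain ⟨z, hz⟩ := ((Fintype.bijective_iff_injective_and_card (ZMod.castHom (dvd_refl (Fintype.card F)) F)).mpr
        ⟨ZMod.castHom_injective F, ZMod.card _⟩).2 x
      exact ⟨z.val, by rw [← hz, ZMod.castHom_apply, ZMod.natCast_val]⟩
    set d := v 0 * v 0 - v 1 * (3 * v 0 - v 1) with hd
    have hd0 : d ≠ 0 := by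
      obtain ⟨a, ha⟩ := hint (v 0)
      obtain ⟨b, hb⟩ := hint (v 1)
      have hne : ¬ (v 0 = 0 ∧ v 1 = 0) := fun h => hv0 (by ext i; fin_cases i <;> simp [h.1, h.2])
      rw [hd, ha, hb]
      rw [ha, hb] at hne
      rcases hcard with h | h
      · haveI : CharP F 2 := h ▸ (inferInstance : CharP F (Fintype.card F))
        have h2 : (2 : F) = 0 := CharP.cast_eq_zero F 2
        have hn : ∀ k : ℕ, (k : F) = 0 ∨ (k : F) = 1 := fun k => by
          rw [CharP.cast_eq_mod F 2 k]
          rcases Nat.mod_two_eq_zero_or_one k with hk | hk <;> simp [hk]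
        rcases hn a with h1 | h1 <;> rcases hn b with h3 | h3 <;> simp [h1, h3] at hne ⊢ <;>
          (intro hcon; exact one_ne_zero (α := F) (by linear_combination hcon + (1 : F) * h2))
      · haveI : CharP F 3 := h ▸ (inferInstance : CharP F (Fintype.card F))
        have h3 : (3 : F) = 0 := CharP.cast_eq_zero F 3
        have hn : ∀ k : ℕ, (k : F) = 0 ∨ (k : F) ^ 2 = 1 := fun k => by
          rw [CharP.cast_eq_mod F 3 k]
          have hk := Nat.mod_lt k (show 3 > 0 by norm_num)
          interval_cases k % 3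
          · simp
          · simp
          · right; push_cast; linear_combination h3
        intro hcon
        rcases hn a with h1 | h1 <;> rcases hn b with h2 | h2
        · exact hne ⟨h1, h2⟩
        · rw [h1] at hcon
          exact one_ne_zero (α := F) (by linear_combination hcon - h2)
        · rw [h2] at hcon
          exact one_ne_zero (α := F) (by linear_combination hcon - h1)
        · exact one_ne_zero (α := F) (by linear_combination h1 + h2 - hcon + (1 - (a : F) * b) * h3)
    obtain ⟨i, hi⟩ := hint ((w 0 * v 0 - w 1 * (3 * v 0 - v 1)) / d)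
    obtain ⟨j, hj⟩ := hint ((w 1 * v 0 - w 0 * v 1) / d)
    rw [div_eq_iff hd0] at hi hj
    convert S.add_mem (S.nsmul_mem hv i) (S.nsmul_mem hc j) using 1
    ext l
    simp only [Pi.add_apply, Pi.smul_apply, nsmul_eq_mul]
    apply mul_right_cancel₀ hd0
    rw [hd]
    rw [hd] at hi hj
    fin_cases l
    · simp only [Pi.mul_apply, Pi.natCast_apply, Matrix.cons_val_zero, Matrix.cons_val_one, Fin.zero_eta, Fin.isValue]
      linear_combination (v 0) * hi + (3 * v 0 - v 1) * hj
    · simp only [Pi.mul_apply, Pi.natCast_apply, Matrix.cons_val_zero, Matrix.cons_val_one, Fin.mk_one, Fin.isValue]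
      linear_combination (v 1) * hi + (v 0) * hj

theorem sl2_moves : ∃ g ∈ commutator SL, ∃ v : Fin 2 → F, (g : Matrix (Fin 2) (Fin 2) F).mulVec v ≠ v :=
  ⟨cElt, mem_commutator _ _, ![1, 0], fun h => by
    rw [cElt_apply] at h
    have := congrFun h 1
    simp at this⟩

theorem threeCycle_mem {α : Type*} [Fintype α] [DecidableEq α] {a b c : α} (hab : a ≠ b) (hac : a ≠ c) (hbc : b ≠ c) :
    Equiv.swap a b * Equiv.swap a c ∈ alternatingGroup α :=
  (Equiv.Perm.isThreeCycle_swap_mul_swap_same hab hac hbc).mem_alternatingGroup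

theorem threeCycle_inv_apply {α : Type*} [DecidableEq α] {a b c : α} (hab : a ≠ b) (hac : a ≠ c) (hbc : b ≠ c) (l : α) :
    (Equiv.swap a b * Equiv.swap a c)⁻¹ l = if l = a then b else if l = b then c else if l = c then a else l := by
  apply (Equiv.swap a b * Equiv.swap a c).injective
  rw [← Equiv.Perm.mul_apply, mul_inv_cancel, Equiv.Perm.one_apply]
  simp only [Equiv.Perm.coe_mul, Function.comp_apply, Equiv.swap_apply_def]
  split_ifs <;> grind

theorem alt_irred {n : ℕ} (hn : 3 ≤ n) (hodd : Odd n) (S : AddSubgroup (Fin n → ZMod 2))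
    (hS : ∀ σ ∈ alternatingGroup (Fin n), ∀ v ∈ S, (fun i => v (σ⁻¹ i)) ∈ S)
    {v : Fin n → ZMod 2} (hv : v ∈ S) (hv0 : v ≠ 0) (hsum : ∑ i, v i = 0) (w : Fin n → ZMod 2)
    (hw : ∑ i, w i = 0) : w ∈ S := by
  classical
  have h01 : ∀ x : ZMod 2, x ≠ 0 → x = 1 := by decide
  obtain ⟨i, hi⟩ := Function.ne_iff.mp hv0
  obtain ⟨j, hj⟩ : ∃ j, v j = 0 := by
    by_contra hc
    push Not at hc
    rw [Finset.sum_congr rfl (fun k _ => h01 _ (hc k))] at hsum
    obtain ⟨k, hk⟩ := hodd
    simp [hk] at hsum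
    have h2 : ((2 : ℕ) : ZMod 2) = 0 := ZMod.natCast_self 2
    simp at h2
    exact absurd hsum (by rw [show (2 : ZMod 2) = 0 from rfl]; simp)
  let e : Fin n → (Fin n → ZMod 2) := fun a => Pi.single a 1
  have hij : i ≠ j := fun h => hi (by rw [h, hj]; rfl)
  obtain ⟨k, hki, hkj⟩ : ∃ k : Fin n, k ≠ i ∧ k ≠ j := by
    by_contra hc
    push Not at hc
    have : (Finset.univ : Finset (Fin n)) ⊆ {i, j} := fun k _ => by
      by_cases h : k = i
      · simp [h]
      · simp [hc k h]
    have := (Finset.card_le_card this).trans Finset.card_le_two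
    simp at this
    omega
  have hpair : ∀ a b : Fin n, a ≠ b → e a + e b ∈ S → ∀ c, c ≠ a → c ≠ b → e a + e c ∈ S ∧ e b + e c ∈ S := by
    intro a b hab h c hca hcb
    have key : ∀ a b c : Fin n, a ≠ b → a ≠ c → b ≠ c → e a + e b ∈ S → e c + e a ∈ S := by
      intro a b c hab hac hbc h
      convert hS _ (threeCycle_mem hab hac hbc) _ h using 1
      ext l
      simp only [e, Pi.add_apply, Pi.single_apply, threeCycle_inv_apply hab hac hbc]
      by_cases hla : l = a
      · subst hla; simp [hab, hab.symm, hac, hac.symm]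
      by_cases hlb : l = b
      · subst hlb; simp [hab, hab.symm, hbc, hbc.symm, hac, hac.symm]
      by_cases hlc : l = c
      · subst hlc; simp [hab, hab.symm, hbc, hbc.symm, hac, hac.symm]
      simp [hla, hlb, hlc]
    refine ⟨by rw [add_comm]; exact key a b c hab hca.symm hcb.symm h, ?_⟩
    rw [add_comm]; exact key b a c hab.symm hcb.symm hca.symm (by rw [add_comm]; exact h)
  have hex : ∃ a b, a ≠ b ∧ e a + e b ∈ S := by
    have h := S.add_mem hv (hS _ (threeCycle_mem hij hki.symm hkj.symm) v hv)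
    have hvi := h01 _ hi
    rcases eq_or_ne (v k) 0 with hk | hk
    · refine ⟨i, k, hki.symm, ?_⟩
      convert h using 1
      ext l
      simp only [e, Pi.add_apply, Pi.single_apply, threeCycle_inv_apply hij hki.symm hkj.symm]
      have h2 := CharTwo.add_self_eq_zero (v l)
      by_cases hli : l = i
      · subst hli; simp [hij, hki, hki.symm, hvi, hj, hk]
      by_cases hlj : l = j
      · subst hlj; simp [hij.symm, hki, hki.symm, hkj, hkj.symm, hvi, hj, hk]
      by_cases hlk : l = k
      · subst hlk; simp [hki, hkj, hvi, hj, hk]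
      simp [hli, hlj, hlk, h2]
    · have hvk := h01 _ hk
      refine ⟨i, j, hij, ?_⟩
      convert h using 1
      ext l
      simp only [e, Pi.add_apply, Pi.single_apply, threeCycle_inv_apply hij hki.symm hkj.symm]
      have h2 := CharTwo.add_self_eq_zero (v l)
      have h3 : (1 : ZMod 2) + 1 = 0 := by decide
      by_cases hli : l = i
      · subst hli; simp [hij, hki, hki.symm, hvi, hj, hvk, h3]
      by_cases hlj : l = j
      · subst hlj; simp [hij.symm, hki, hki.symm, hkj, hkj.symm, hvi, hj, hvk, h3]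
      by_cases hlk : l = k
      · subst hlk; simp [hki, hkj, hvi, hj, hvk, h3]
      simp [hli, hlj, hlk, h2]
  obtain ⟨a, b, hab, habS⟩ := hex
  have hall : ∀ c, e a + e c ∈ S := by
    intro c
    by_cases hca : c = a
    · rw [hca, ← Pi.single_add]
      simp [CharTwo.add_self_eq_zero, S.zero_mem]
    · by_cases hcb : c = b
      · rwa [hcb]
      · exact (hpair a b hab habS c hca hcb).1
  have hwrite : w = ∑ c ∈ Finset.univ.filter (fun c => w c = 1), (e a + e c) := by
    have hsum01 : ((Finset.univ.filter (fun c => w c = 1)).card : ZMod 2) = 0 := by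
      rw [← hw, Finset.natCast_card_filter]
      refine Finset.sum_congr rfl fun c _ => ?_
      rcases eq_or_ne (w c) 0 with h | h
      · simp [h]
      · simp [h01 _ h]
    ext l
    simp only [Finset.sum_apply, Pi.add_apply, Finset.sum_add_distrib, Finset.sum_const, nsmul_eq_mul, hsum01,
      zero_mul, zero_add, e, Pi.single_apply, Finset.sum_ite_eq, Finset.mem_filter, Finset.mem_univ, true_and]
    rcases eq_or_ne (w l) 0 with h | h
    · simp [h]
    · simp [h01 _ h]
  rw [hwrite]
  exact S.sum_mem fun c _ => hall c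

theorem alt_moves {n : ℕ} (hn : 3 ≤ n) :
    ∃ σ ∈ alternatingGroup (Fin n), ∃ v : Fin n → ZMod 2, ∑ i, v i = 0 ∧ (fun i => v (σ⁻¹ i)) ≠ v := by
  classical
  let a : Fin n := ⟨0, by omega⟩
  let b : Fin n := ⟨1, by omega⟩
  let c : Fin n := ⟨2, by omega⟩
  have hab : a ≠ b := by simp [a, b]
  have hac : a ≠ c := by simp [a, c]
  have hbc : b ≠ c := by simp [b, c]
  refine ⟨_, threeCycle_mem hab hac hbc, Pi.single a 1 + Pi.single b 1, by simp [Finset.sum_add_distrib]; decide, fun h => ?_⟩
  have := congrFun h c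
  simp [Pi.single_apply, hac.symm, hbc.symm, hab, hab.symm, hac, hbc, Equiv.swap_apply_of_ne_of_ne] at this

variable {G : Type*} [Group G]

/-- A subgroup of `U` gives an additive subgroup of the module. -/
def imageOf {A : Type*} [AddCommGroup A] {U : Subgroup G} (ψ : ↥U →* Multiplicative A) (X : Subgroup G) :
    AddSubgroup A :=
  Subgroup.toAddSubgroup' ((X.subgroupOf U).map ψ)

/-- The module `W/Z` of a block: irreducible and nontrivial. -/
theorem block_irred [Finite G] {p : ℕ} [hp : Fact p.Prime] {T E : Subgroup G} (hE : Cfsg.IsBaumannBlock p T E) :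
    let W := Cfsg.omegaOneCenter p (Cfsg.pCoreOf p E)
    let Z := W ⊓ Subgroup.centralizer (E : Set G)
    E ≤ Subgroup.normalizer (W : Set G) ∧ ¬ W ≤ Subgroup.centralizer (E : Set G) ∧
      ∀ X : Subgroup G, X ≤ W → E ≤ Subgroup.normalizer (X : Set G) → X ≤ Z ∨ W ≤ X ⊔ Z := by
  intro W Z
  obtain ⟨hEO, -, -, hEZ, hcase⟩ := hE
  have finish : ∀ {A : Type} [AddCommGroup A] (ψ : ↥W →* Multiplicative A), (∀ u : ↥W, ψ u = 1 ↔ (u : G) ∈ Z) →
      ∀ X : Subgroup G, X ≤ W →
      ((∃ u ∈ imageOf ψ X, u ≠ 0) → ∀ u : ↥W, Multiplicative.toAdd (ψ u) ∈ imageOf ψ X) → X ≤ Z ∨ W ≤ X ⊔ Z := by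
    intro A _ ψ hker X hXW hall
    by_cases hne : ∃ u ∈ imageOf ψ X, u ≠ 0
    · refine Or.inr fun g hg => ?_
      obtain ⟨y, hy, hyg⟩ := hall hne ⟨g, hg⟩
      have h1 : ψ (y⁻¹ * ⟨g, hg⟩) = 1 := by
        rw [map_mul, map_inv, hyg]
        exact inv_mul_cancel _
      have := Subgroup.mul_mem_sup (show (y : G) ∈ X from hy) ((hker _).mp h1)
      simpa using this
    · push Not at hne
      refine Or.inl fun g hg => (hker ⟨g, hXW hg⟩).mp ?_
      exact toAdd_eq_zero.mp (hne _ ⟨⟨g, hXW hg⟩, Subgroup.mem_subgroupOf.mpr hg, rfl⟩)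
  rcases hcase with ⟨K, _, _, n, -, -, ⟨hnW, -, ρ, ψ, hR, hsurj, hker, hact⟩, -⟩ |
      ⟨hp2, m, hiso, ⟨hnW, -, ρ, ψ, hR, heven, hsurj, hker, hact⟩, -⟩
  · refine ⟨hnW, fun hc => ?_, fun X hXW hEX => finish ψ hker X hXW fun ⟨v, hv, hv0⟩ u => ?_⟩
    · obtain ⟨g, hg, v, hgv⟩ := sl2_moves (F := K)
      rw [← hR] at hg
      obtain ⟨e, rfl⟩ := hg
      obtain ⟨u, hu⟩ := hsurj (Multiplicative.ofAdd v)
      obtain ⟨w, hw, hwv⟩ := hact e u
      have : w = u := Subtype.ext (by rw [hw, hc u.2 e e.2, mul_inv_cancel_right])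
      rw [this, hu] at hwv
      exact hgv hwv.symm
    · refine sl2_irred (imageOf ψ X) (fun g hg y hy => ?_) hv hv0 _
      rw [← hR] at hg
      obtain ⟨e, rfl⟩ := hg
      obtain ⟨x, hx, hxy⟩ := hy
      obtain ⟨w, hw, hwv⟩ := hact e x
      refine ⟨w, Subgroup.mem_subgroupOf.mpr ?_, ?_⟩
      · rw [hw]
        exact (Subgroup.mem_normalizer_iff.mp (hEX e.2) x).mp hx
      · rw [← ofAdd_toAdd (ψ w), hwv, hxy]; rfl
  · have hm : 1 ≤ m := by
      rcases Nat.eq_zero_or_pos m with rfl | h
      · exfalso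
        apply hEZ
        obtain ⟨iso⟩ := hiso
        haveI : Subsingleton ↥(alternatingGroup (Fin (2 * 0 + 1))) :=
          ⟨fun a b => Subtype.ext (Equiv.ext fun x => Subsingleton.elim (α := Fin 1) _ _)⟩
        haveI hsub : Subsingleton (↥E ⧸ Cfsg.pCore p ↥E) := iso.toEquiv.subsingleton
        have hpE : IsPGroup p ↥E := by
          intro x
          obtain ⟨k, hk⟩ := CfsgLib.Core.isPGroup_pCore (G := ↥E) p
            ⟨x, (QuotientGroup.eq_one_iff x).mp (Subsingleton.elim _ _)⟩
          exact ⟨k, by simpa using congrArg Subtype.val hk⟩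
        have hbot : Cfsg.pResidual p ↥E = ⊥ := by
          rw [Cfsg.pResidual, Subgroup.closure_eq_bot_iff]
          intro x hx
          obtain ⟨k, hk⟩ := IsPGroup.iff_orderOf.mp hpE x
          rw [Set.mem_singleton_iff, ← orderOf_eq_one_iff]
          exact Nat.eq_one_of_dvd_coprimes (Nat.Coprime.pow_right k hx) dvd_rfl hk.dvd
        have : E = ⊥ := by rw [← hEO, Cfsg.pResidualOf, hbot, Subgroup.map_bot]
        rw [this, Subgroup.commutator_bot_left]
      · exact h
    refine ⟨hnW, fun hc => ?_, fun X hXW hEX => finish ψ hker X hXW fun ⟨v, hv, hv0⟩ u => ?_⟩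
    · obtain ⟨g, hg, v, hsum, hgv⟩ := alt_moves (n := 2 * m + 1) (by omega)
      rw [← hR] at hg
      obtain ⟨e, rfl⟩ := hg
      obtain ⟨u, hu⟩ := hsurj v hsum
      obtain ⟨w, hw, hwv⟩ := hact e u
      have : w = u := Subtype.ext (by rw [hw, hc u.2 e e.2, mul_inv_cancel_right])
      rw [this, hu] at hwv
      exact hgv (funext fun i => (hwv i).symm)
    · have hsum : ∑ i, v i = 0 := by
        obtain ⟨x, -, hx⟩ := hv
        have := heven x
        rw [hx] at this
        exact this
      refine alt_irred (n := 2 * m + 1) (by omega) ⟨m, rfl⟩ (imageOf ψ X) (fun g hg y hy => ?_) hv hv0 hsum _ (heven u)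
      rw [← hR] at hg
      obtain ⟨e, rfl⟩ := hg
      obtain ⟨x, hx, hxy⟩ := hy
      obtain ⟨w, hw, hwv⟩ := hact e x
      refine ⟨w, Subgroup.mem_subgroupOf.mpr ?_, ?_⟩
      · rw [hw]
        exact (Subgroup.mem_normalizer_iff.mp (hEX e.2) x).mp hx
      · refine Multiplicative.toAdd.injective (funext fun i => ?_)
        show Multiplicative.toAdd (ψ w) i = y ((ρ e)⁻¹ i)
        rw [hwv i, hxy]
        rfl

end CfsgLib.BlockModule
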