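import Mathlib
import Cfsg.Agent.S1224
import Cfsg.Agent.S1225
import Cfsg.Agent.S1226
import Cfsg.Agent.Lib.StronglyEmbedded2

/-! Groups all of whose involution centralisers are elementary abelian two-groups. -/

set_option autoImplicit false

namespace CfsgLib.CTTwo

universe u

/-- A non-cyclic, non-normal Sylow two-subgroup with elementary abelian involution centralisers. -/
structure Setting {G : Type u} [Group G] [Finite G] (T : Sylow 2 G) : Prop where
  hnc : ¬ IsCyclic (T : Subgroup G)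
  hnn : ¬ (T : Subgroup G).Normal
  hC : ∀ t : G, orderOf t = 2 → IsMulCommutative (Subgroup.centralizer ({t} : Set G)) ∧
    ∀ c ∈ Subgroup.centralizer ({t} : Set G), c ^ 2 = 1

namespace Setting

variable {G : Type u} [Group G] [Finite G] {T : Sylow 2 G}

/-- The normaliser of the Sylow subgroup. -/
def nrm (T : Sylow 2 G) : Subgroup G := Subgroup.normalizer ((T : Subgroup G) : Set G)

/-- The stabiliser of the base point and its image under `u`. -/
def two (T : Sylow 2 G) (u : G) : Subgroup G := nrm T ⊓ (nrm T).map (MulAut.conj u).toMonoidHom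

/-- The base point. -/
def base (T : Sylow 2 G) : G ⧸ nrm T := QuotientGroup.mk 1

theorem smul_base {g : G} : g • base T = base T ↔ g ∈ nrm T := by
  rw [base, CfsgLib.StronglyEmbedded.smul_mk_eq_iff]
  simp

theorem mem_two_iff {u x : G} :
    x ∈ two T u ↔ x ∈ nrm T ∧ x • (QuotientGroup.mk u : G ⧸ nrm T) = QuotientGroup.mk u := by
  rw [two, Subgroup.mem_inf, CfsgLib.StronglyEmbedded.smul_mk_eq_iff, Subgroup.mem_map]
  constructor
  · rintro ⟨h, y, hy, rfl⟩
    exact ⟨h, by simpa [mul_assoc] using hy⟩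
  · rintro ⟨h, h'⟩
    exact ⟨h, _, h', by simp [mul_assoc]⟩

theorem mul_smul_base {u : G} : u • base T = (QuotientGroup.mk u : G ⧸ nrm T) := by
  rw [base, MulAction.Quotient.smul_coe, smul_eq_mul, mul_one]

variable (S : Setting T)
include S

theorem se : Cfsg.IsStronglyEmbedded (nrm T) := Cfsg.Agent.S1226.result T S.hnc S.hnn S.hC

theorem fixed_unique {t : G} (ht : orderOf t = 2) {x y : G ⧸ nrm T} (hx : t • x = x) (hy : t • y = y) : x = y :=
  CfsgLib.StronglyEmbedded.fixed_unique S.se ht hx hy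

theorem sq_eq_one {t : G} (ht : t ∈ (T : Subgroup G)) : t * t = 1 := by
  haveI : Fact (Nat.Prime 2) := ⟨Nat.prime_two⟩
  haveI : Nontrivial (T : Subgroup G) := (Subgroup.nontrivial_iff_ne_bot _).2 fun h =>
    S.hnc (by rw [h]; exact isCyclic_of_subsingleton)
  haveI : Nontrivial (Subgroup.center (T : Subgroup G)) := IsPGroup.center_nontrivial T.2
  obtain ⟨z, hz⟩ : ∃ z : Subgroup.center (T : Subgroup G), orderOf z = 2 := by
    refine exists_prime_orderOf_dvd_card' 2 ?_
    obtain ⟨k, hk⟩ := IsPGroup.iff_card.1 (T.2.to_subgroup (Subgroup.center (T : Subgroup G)))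
    rw [hk]
    exact dvd_pow_self 2 fun h => by rw [h, pow_zero] at hk; exact Finite.one_lt_card.ne' hk
  have hzo : orderOf (((z : (T : Subgroup G)) : G)) = 2 := by rw [Subgroup.orderOf_coe, Subgroup.orderOf_coe, hz]
  have h := (S.hC _ hzo).2 t (Subgroup.mem_centralizer_singleton_iff.2
    (congrArg Subtype.val (Subgroup.mem_center_iff.1 z.2 ⟨t, ht⟩)))
  rwa [sq] at h

theorem orderOf_mem {t : G} (ht : t ∈ (T : Subgroup G)) (h1 : t ≠ 1) : orderOf t = 2 :=
  haveI : Fact (Nat.Prime 2) := ⟨Nat.prime_two⟩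
  orderOf_eq_prime (by rw [sq]; exact S.sq_eq_one ht) h1

theorem comm {a b : G} (ha : a ∈ (T : Subgroup G)) (hb : b ∈ (T : Subgroup G)) : a * b = b * a := by
  have h := S.sq_eq_one ((T : Subgroup G).mul_mem ha hb)
  have h1 := eq_inv_of_mul_eq_one_left h
  rw [mul_inv_rev, inv_eq_of_mul_eq_one_right (S.sq_eq_one ha), inv_eq_of_mul_eq_one_right (S.sq_eq_one hb)] at h1
  exact h1

theorem mem_of_commute {t g : G} (ht : t ∈ (T : Subgroup G)) (h1 : t ≠ 1) (hg : g * t = t * g) :
    g ∈ (T : Subgroup G) := by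
  have hto := S.orderOf_mem ht h1
  have hle : (T : Subgroup G) ≤ Subgroup.centralizer ({t} : Set G) := fun a ha =>
    Subgroup.mem_centralizer_singleton_iff.2 (S.comm ha ht)
  have hp : IsPGroup 2 (Subgroup.centralizer ({t} : Set G)) := fun c =>
    ⟨1, Subtype.ext (by simpa using (S.hC t hto).2 c c.2)⟩
  exact (T.3 hp hle).le (Subgroup.mem_centralizer_singleton_iff.2 hg)

theorem involution_mem {i : G} (hi : orderOf i = 2) (hiH : i ∈ nrm T) : i ∈ (T : Subgroup G) := by
  haveI : Fact (Nat.Prime 2) := ⟨Nat.prime_two⟩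
  have hp : IsPGroup 2 (Subgroup.zpowers i) := IsPGroup.of_card (n := 1) (by rw [Nat.card_zpowers, hi, pow_one])
  have h : i ∈ Subgroup.zpowers i ⊓ nrm T := ⟨Subgroup.mem_zpowers i, hiH⟩
  exact ((hp.inf_normalizer_sylow T).le h).2

theorem not_involution_two {i u : G} (huH : u ∉ nrm T) (hi : orderOf i = 2) : i ∉ two T u := by
  intro h
  rw [mem_two_iff] at h
  have := S.fixed_unique hi (smul_base.2 h.1) h.2
  exact huH (by simpa [base] using QuotientGroup.eq.1 this)

theorem odd_two {u : G} (huH : u ∉ nrm T) : Odd (Nat.card (two T u)) := by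
  haveI : Fact (Nat.Prime 2) := ⟨Nat.prime_two⟩
  rw [Nat.odd_iff, ← Nat.two_dvd_ne_zero]
  intro h
  obtain ⟨⟨x, hx⟩, hx2⟩ := exists_prime_orderOf_dvd_card' 2 h
  rw [Subgroup.orderOf_mk] at hx2
  exact S.not_involution_two huH hx2 hx

theorem eq_one_of_sq_two {u x : G} (huH : u ∉ nrm T) (hx : x ∈ two T u) (h2 : x * x = 1) : x = 1 := by
  by_contra h
  haveI : Fact (Nat.Prime 2) := ⟨Nat.prime_two⟩
  exact S.not_involution_two huH (orderOf_eq_prime (by rw [sq]; exact h2) h) hx

theorem free {u d t : G} (huH : u ∉ nrm T) (hd : d ∈ two T u) (ht : t ∈ (T : Subgroup G)) (h1 : t ≠ 1)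
    (h : d * t = t * d) : d = 1 :=
  S.eq_one_of_sq_two huH hd (S.sq_eq_one (S.mem_of_commute ht h1 h))

theorem conj_mem {h t : G} (hh : h ∈ nrm T) (ht : t ∈ (T : Subgroup G)) : h * t * h⁻¹ ∈ (T : Subgroup G) :=
  (Subgroup.mem_normalizer_iff.1 hh t).1 ht

theorem decomp {u h : G} (hu : orderOf u = 2) (huH : u ∉ nrm T) (hh : h ∈ nrm T) :
    ∃ t ∈ (T : Subgroup G), ∃ d ∈ two T u, h = t * d := by
  haveI : Nontrivial (T : Subgroup G) := (Subgroup.nontrivial_iff_ne_bot _).2 fun h' =>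
    S.hnc (by rw [h']; exact isCyclic_of_subsingleton)
  obtain ⟨⟨t₀, ht₀⟩, ht₀1⟩ := exists_ne (1 : (T : Subgroup G))
  have h01 : t₀ ≠ 1 := fun e => ht₀1 (Subtype.ext e)
  have h1 : h * t₀ * h⁻¹ ∈ (T : Subgroup G) := S.conj_mem hh ht₀
  have h2 : h * t₀ * h⁻¹ ≠ 1 := fun e => h01 (by simpa [mul_assoc] using congrArg (fun x => h⁻¹ * x * h) e)
  obtain ⟨d, hd, hde⟩ := (Cfsg.Agent.S1225.result (nrm T) S.se u hu huH t₀ (h * t₀ * h⁻¹)
    (S.orderOf_mem ht₀ h01) (Subgroup.le_normalizer ht₀) (S.orderOf_mem h1 h2) (Subgroup.le_normalizer h1)).1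
  have h3 : d⁻¹ * h ∈ (T : Subgroup G) := S.mem_of_commute ht₀ h01 (by
    calc d⁻¹ * h * t₀ = d⁻¹ * (h * t₀ * h⁻¹) * h := by group
      _ = d⁻¹ * (d * t₀ * d⁻¹) * h := by rw [hde]
      _ = t₀ * (d⁻¹ * h) := by group)
  exact ⟨d * (d⁻¹ * h) * d⁻¹, S.conj_mem (mem_two_iff.1 hd).1 h3, d, hd, by group⟩

/-- The two-point stabiliser is regular on the involutions of the Sylow subgroup. -/
theorem card_two {u : G} (hu : orderOf u = 2) (huH : u ∉ nrm T) :
    Nat.card (two T u) = Nat.card T - 1 := by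
  haveI : Nontrivial (T : Subgroup G) := (Subgroup.nontrivial_iff_ne_bot _).2 fun h' =>
    S.hnc (by rw [h']; exact isCyclic_of_subsingleton)
  obtain ⟨⟨t₀, ht₀⟩, ht₀1⟩ := exists_ne (1 : (T : Subgroup G))
  have h01 : t₀ ≠ 1 := fun e => ht₀1 (Subtype.ext e)
  let f : two T u → {t : (T : Subgroup G) // t ≠ 1} := fun d =>
    ⟨⟨(d : G) * t₀ * (d : G)⁻¹, S.conj_mem (mem_two_iff.1 d.2).1 ht₀⟩, fun e => h01 (by
      simpa [mul_assoc] using congrArg (fun x => (d : G)⁻¹ * x * d) (congrArg Subtype.val e))⟩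
  have hf : Function.Bijective f := by
    refine ⟨fun a b e => ?_, fun ⟨t, ht⟩ => ?_⟩
    · have e' : (a : G) * t₀ * (a : G)⁻¹ = (b : G) * t₀ * (b : G)⁻¹ := congrArg (fun x : {t : (T : Subgroup G) // t ≠ 1} => ((x : (T : Subgroup G)) : G)) e
      have h := S.free huH ((two T u).mul_mem ((two T u).inv_mem b.2) a.2) ht₀ h01 (by
        calc (b : G)⁻¹ * a * t₀ = (b : G)⁻¹ * ((a : G) * t₀ * (a : G)⁻¹) * a := by group
          _ = t₀ * ((b : G)⁻¹ * a) := by rw [e']; group)
      exact Subtype.ext (inv_mul_eq_one.1 h).symm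
    · obtain ⟨d, hd, hde⟩ := (Cfsg.Agent.S1225.result (nrm T) S.se u hu huH t₀ t
        (S.orderOf_mem ht₀ h01) (Subgroup.le_normalizer ht₀) (S.orderOf_mem t.2 fun e => ht (Subtype.ext e))
        (Subgroup.le_normalizer t.2)).1
      exact ⟨⟨d, hd⟩, Subtype.ext (Subtype.ext hde)⟩
  rw [Nat.card_eq_of_bijective f hf]
  haveI : Fintype (T : Subgroup G) := Fintype.ofFinite _
  classical
  rw [Nat.card_eq_fintype_card, Fintype.card_subtype_compl, Fintype.card_subtype_eq, ← Nat.card_eq_fintype_card]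

theorem isComplement {u : G} (hu : orderOf u = 2) (huH : u ∉ nrm T) :
    Subgroup.IsComplement' ((two T u).subgroupOf (nrm T)) ((T : Subgroup G).subgroupOf (nrm T)) := by
  refine ⟨fun a b e => ?_, fun h => ?_⟩
  · obtain ⟨⟨d, hd⟩, ⟨t, ht⟩⟩ := a
    obtain ⟨⟨d', hd'⟩, ⟨t', ht'⟩⟩ := b
    have e' : (d : G) * t = d' * t' := congrArg Subtype.val e
    have h1 : (d' : G)⁻¹ * d = (t' : G) * (t : G)⁻¹ := by
      calc (d' : G)⁻¹ * d = (d' : G)⁻¹ * ((d : G) * t) * (t : G)⁻¹ := by group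
        _ = (t' : G) * (t : G)⁻¹ := by rw [e']; group
    have h2 : (t' : G) * (t : G)⁻¹ ∈ (T : Subgroup G) := mul_mem ht' (inv_mem ht)
    have hd1 : (d' : G)⁻¹ * d = 1 := S.eq_one_of_sq_two huH ((two T u).mul_mem ((two T u).inv_mem hd') hd)
      (by rw [h1]; exact S.sq_eq_one h2)
    have hdd : d = d' := Subtype.ext (inv_mul_eq_one.1 hd1).symm
    subst hdd
    have htt : t = t' := Subtype.ext (mul_left_cancel e')
    subst htt
    rfl
  · obtain ⟨t, ht, d, hd, he⟩ := S.decomp hu huH h.2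
    have hdH : d ∈ nrm T := (mem_two_iff.1 hd).1
    refine ⟨⟨⟨⟨d, hdH⟩, hd⟩, ⟨⟨d⁻¹ * t * d, ?_⟩, ?_⟩⟩, Subtype.ext ?_⟩
    · exact (nrm T).mul_mem ((nrm T).mul_mem ((nrm T).inv_mem hdH) (Subgroup.le_normalizer ht)) hdH
    · show d⁻¹ * t * d ∈ (T : Subgroup G)
      have := S.conj_mem ((nrm T).inv_mem hdH) ht
      simpa using this
    · show d * (d⁻¹ * t * d) = (h : G)
      rw [he]
      group

theorem card_nrm {u : G} (hu : orderOf u = 2) (huH : u ∉ nrm T) :
    Nat.card (nrm T) = Nat.card T * (Nat.card T - 1) := by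
  rw [← (S.isComplement hu huH).card_mul, Nat.card_congr (Subgroup.subgroupOfEquivOfLe
      (show two T u ≤ nrm T from inf_le_left)).toEquiv,
    Nat.card_congr (Subgroup.subgroupOfEquivOfLe (show (T : Subgroup G) ≤ nrm T from Subgroup.le_normalizer)).toEquiv,
    S.card_two hu huH]
  ring

/-- An involution swapping the two points normalises their stabiliser and inverts it. -/
theorem invert {u : G} (hu : orderOf u = 2) (huH : u ∉ nrm T) : ∀ d ∈ two T u, u * d * u⁻¹ = d⁻¹ := by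
  have hu2 : u * u = 1 := CfsgLib.Involution.mul_self hu
  have hsw : u • base T = (QuotientGroup.mk u : G ⧸ nrm T) := mul_smul_base
  have hsw' : u • (QuotientGroup.mk u : G ⧸ nrm T) = base T := by rw [← hsw, smul_smul, hu2, one_smul]
  have hmem : ∀ d ∈ two T u, u * d * u⁻¹ ∈ two T u := by
    intro d hd
    rw [mem_two_iff] at hd ⊢
    rw [← smul_base] at hd ⊢
    rw [CfsgLib.Involution.inv_eq hu]
    refine ⟨?_, ?_⟩
    · rw [mul_smul, mul_smul, hsw, hd.2, hsw']
    · rw [mul_smul, mul_smul, hsw', hd.1, hsw]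
  let f : two T u → two T u := fun d => ⟨(d : G)⁻¹ * (u * d * u⁻¹), mul_mem (inv_mem d.2) (hmem d d.2)⟩
  have hf : Function.Injective f := by
    intro a b e
    have e' : (a : G)⁻¹ * (u * a * u⁻¹) = (b : G)⁻¹ * (u * b * u⁻¹) := congrArg Subtype.val e
    have h1 : (b : G) * (a : G)⁻¹ * u = u * ((b : G) * (a : G)⁻¹) := by
      calc (b : G) * (a : G)⁻¹ * u = (b : G) * ((a : G)⁻¹ * (u * a * u⁻¹)) * u * (a : G)⁻¹ := by group
        _ = u * ((b : G) * (a : G)⁻¹) := by rw [e']; group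
    have h2 := (S.hC u hu).2 _ (Subgroup.mem_centralizer_singleton_iff.2 h1)
    have h3 := S.eq_one_of_sq_two huH (mul_mem b.2 (inv_mem a.2)) (by rwa [sq] at h2)
    exact Subtype.ext (mul_inv_eq_one.1 h3).symm
  intro d hd
  obtain ⟨a, ha⟩ := (Finite.injective_iff_surjective.1 hf) ⟨d, hd⟩
  have ha' : (a : G)⁻¹ * (u * a * u⁻¹) = d := congrArg Subtype.val ha
  rw [← ha', CfsgLib.Involution.inv_eq hu]
  calc u * ((a : G)⁻¹ * (u * a * u)) * u = u * (a : G)⁻¹ * u * a * (u * u) := by group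
    _ = u⁻¹ * (a : G)⁻¹ * u⁻¹ * a := by rw [hu2, mul_one, CfsgLib.Involution.inv_eq hu]
    _ = ((a : G)⁻¹ * (u * a * u))⁻¹ := by group

theorem exists_involution_to {x : G ⧸ nrm T} (hx : x ≠ base T) :
    ∃ i : G, orderOf i = 2 ∧ i ∉ nrm T ∧ (QuotientGroup.mk i : G ⧸ nrm T) = x := by
  have h := Cfsg.Agent.S1224.result (nrm T) S.se (base T) x hx.symm
  have hpos : 0 < Nat.card {t : G // orderOf t = 2 ∧ t ∈ nrm T} := by
    haveI : Fact (Nat.Prime 2) := ⟨Nat.prime_two⟩
    obtain ⟨⟨t, htH⟩, ht⟩ := exists_prime_orderOf_dvd_card' 2 (even_iff_two_dvd.1 S.se.2.1)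
    rw [Subgroup.orderOf_mk] at ht
    haveI : Nonempty {t : G // orderOf t = 2 ∧ t ∈ nrm T} := ⟨⟨t, ht, htH⟩⟩
    exact Nat.card_pos
  rw [← h] at hpos
  obtain ⟨⟨i, hi, hix⟩⟩ := (Nat.card_pos_iff.1 hpos).1
  rw [mul_smul_base] at hix
  refine ⟨i, hi, fun hiH => hx ?_, hix⟩
  rw [← hix, ← smul_base.2 hiH, mul_smul_base]

theorem card_involutions :
    Nat.card {t : G // orderOf t = 2 ∧ t ∈ nrm T} = Nat.card T - 1 := by
  haveI : Fintype (T : Subgroup G) := Fintype.ofFinite _
  classical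
  let e : {t : G // orderOf t = 2 ∧ t ∈ nrm T} ≃ {t : (T : Subgroup G) // t ≠ 1} :=
    { toFun := fun t => ⟨⟨t.1, S.involution_mem t.2.1 t.2.2⟩, fun h => by
        have := t.2.1
        rw [show t.1 = 1 from congrArg Subtype.val h, orderOf_one] at this
        norm_num at this⟩
      invFun := fun t => ⟨t.1, S.orderOf_mem t.1.2 fun h => t.2 (Subtype.ext h), Subgroup.le_normalizer t.1.2⟩
      left_inv := fun _ => rfl
      right_inv := fun _ => rfl }
  rw [Nat.card_congr e, Nat.card_eq_fintype_card, Fintype.card_subtype_compl, Fintype.card_subtype_eq,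
    ← Nat.card_eq_fintype_card]

theorem four_le : 4 ≤ Nat.card T := by
  haveI : Fact (Nat.Prime 2) := ⟨Nat.prime_two⟩
  obtain ⟨k, hk⟩ := IsPGroup.iff_card.1 T.2
  rw [hk]
  rcases k with _ | _ | k
  · exact absurd (by haveI := (Nat.card_eq_one_iff_unique.1 hk).1; exact isCyclic_of_subsingleton) S.hnc
  · exact absurd (isCyclic_of_prime_card hk) S.hnc
  · exact le_trans (by norm_num) (Nat.pow_le_pow_right (by norm_num) (by omega : 2 ≤ k + 1 + 1))

theorem exists_ne_one_two {u : G} (hu : orderOf u = 2) (huH : u ∉ nrm T) : ∃ d ∈ two T u, d ≠ 1 := by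
  have h : 1 < Nat.card (two T u) := by
    rw [S.card_two hu huH]
    have := S.four_le
    omega
  haveI := Finite.one_lt_card_iff_nontrivial.1 h
  obtain ⟨⟨d, hd⟩, hne⟩ := exists_ne (1 : two T u)
  exact ⟨d, hd, fun e => hne (Subtype.ext e)⟩

/-- Every pair of distinct points has a stabiliser of order one less than that of the Sylow subgroup. -/
theorem card_stab {x y : G ⧸ nrm T} (hxy : x ≠ y) :
    Nat.card ↥(MulAction.stabilizer G x ⊓ MulAction.stabilizer G y) = Nat.card T - 1 := by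
  obtain ⟨g, rfl⟩ : ∃ g : G, g • base T = x := by
    obtain ⟨g, rfl⟩ := QuotientGroup.mk_surjective x
    exact ⟨g, mul_smul_base⟩
  obtain ⟨z, rfl⟩ : ∃ z, g • z = y := ⟨g⁻¹ • y, smul_inv_smul g y⟩
  obtain ⟨i, hi, hiH, rfl⟩ := S.exists_involution_to (x := z) (fun e => hxy (by rw [e]))
  rw [← S.card_two hi hiH]
  have hmem : ∀ a : G, a ∈ MulAction.stabilizer G (g • base T) ⊓ MulAction.stabilizer G (g • (QuotientGroup.mk i : G ⧸ nrm T)) ↔
      g⁻¹ * a * g ∈ two T i := by
    intro a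
    rw [Subgroup.mem_inf, MulAction.mem_stabilizer_iff, MulAction.mem_stabilizer_iff, mem_two_iff, ← smul_base,
      mul_smul, mul_smul, mul_smul, mul_smul, inv_smul_eq_iff, inv_smul_eq_iff]
  exact Nat.card_congr
    { toFun := fun a => ⟨g⁻¹ * a * g, (hmem a).1 a.2⟩
      invFun := fun d => ⟨g * d * g⁻¹, (hmem _).2 (by simp [mul_assoc, d.2])⟩
      left_inv := fun a => Subtype.ext (by group)
      right_inv := fun d => Subtype.ext (by group) }

/-- The fixed points of the two-point stabiliser. -/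
def fixedSet (T : Sylow 2 G) (u : G) : Set (G ⧸ nrm T) := {x | ∀ d ∈ two T u, d • x = x}

theorem stab_eq {u : G} (hu : orderOf u = 2) (huH : u ∉ nrm T) {x y : G ⧸ nrm T} (hx : x ∈ fixedSet T u)
    (hy : y ∈ fixedSet T u) (hxy : x ≠ y) :
    MulAction.stabilizer G x ⊓ MulAction.stabilizer G y = two T u :=
  (Subgroup.eq_of_le_of_card_ge (fun d hd => Subgroup.mem_inf.2 ⟨hx d hd, hy d hd⟩)
    (by rw [S.card_stab hxy, S.card_two hu huH])).symm

set_option maxHeartbeats 1600000 in
/-- The two-point stabiliser fixes exactly two points. -/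
theorem fixedSet_eq {u : G} (hu : orderOf u = 2) (huH : u ∉ nrm T) (x : G ⧸ nrm T) :
    x ∈ fixedSet T u ↔ x = base T ∨ x = QuotientGroup.mk u := by
  classical
  set D := two T u with hD
  set F := fixedSet T u with hF
  set C := Subgroup.centralizer (D : Set G) with hC
  have hinv := S.invert hu huH
  obtain ⟨d₀, hd₀, hd₀1⟩ := S.exists_ne_one_two hu huH
  have hu2 : u * u = 1 := CfsgLib.Involution.mul_self hu
  have hbF : base T ∈ F := fun d hd => smul_base.2 (mem_two_iff.1 hd).1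
  have huF : (QuotientGroup.mk u : G ⧸ nrm T) ∈ F := fun d hd => (mem_two_iff.1 hd).2
  have hne : base T ≠ (QuotientGroup.mk u : G ⧸ nrm T) := fun e => huH (by simpa [base] using QuotientGroup.eq.1 e)
  constructor
  swap
  · rintro (rfl | rfl)
    · exact hbF
    · exact huF
  intro hx
  have habel : ∀ a ∈ D, ∀ b ∈ D, a * b = b * a := by
    intro a ha b hb
    have h1 := hinv (a * b) (mul_mem ha hb)
    have h2 : u * (a * b) * u⁻¹ = (u * a * u⁻¹) * (u * b * u⁻¹) := by group
    rw [h2, hinv a ha, hinv b hb] at h1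
    have h3 := congrArg (fun w => w⁻¹) h1
    simp only [mul_inv_rev, inv_inv] at h3
    exact h3.symm
  have hDC : D ≤ C := fun a ha => Subgroup.mem_centralizer_iff.2 fun b hb => habel b hb a ha
  -- only the identity of the centraliser squares to one
  have hCsq : ∀ c ∈ C, c * c = 1 → c = 1 := by
    intro c hc h2
    by_contra hc1
    haveI : Fact (Nat.Prime 2) := ⟨Nat.prime_two⟩
    have hco : orderOf c = 2 := orderOf_eq_prime (by rw [sq]; exact h2) hc1
    have h3 := (S.hC c hco).2 d₀ (Subgroup.mem_centralizer_singleton_iff.2 (Subgroup.mem_centralizer_iff.1 hc d₀ hd₀))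
    exact hd₀1 (S.eq_one_of_sq_two huH hd₀ (by rwa [sq] at h3))
  have hCu : ∀ c ∈ C, u * c * u⁻¹ ∈ C := fun c hc => Subgroup.mem_centralizer_iff.2 fun d hd => by
    have h1 := Subgroup.mem_centralizer_iff.1 hc _ (D.inv_mem hd)
    calc d * (u * c * u⁻¹) = (u * d⁻¹ * u⁻¹) * (u * c * u⁻¹) := by rw [hinv _ (D.inv_mem hd), inv_inv]
      _ = u * (d⁻¹ * c) * u⁻¹ := by group
      _ = u * (c * d⁻¹) * u⁻¹ := by rw [h1]
      _ = (u * c * u⁻¹) * (u * d⁻¹ * u⁻¹) := by group
      _ = (u * c * u⁻¹) * d := by rw [hinv _ (D.inv_mem hd), inv_inv]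
  have hCinv : ∀ c ∈ C, u * c * u⁻¹ = c⁻¹ := by
    let f : C → C := fun c => ⟨(c : G)⁻¹ * (u * c * u⁻¹), mul_mem (inv_mem c.2) (hCu c c.2)⟩
    have hf : Function.Injective f := by
      intro a b e
      have e' : (a : G)⁻¹ * (u * a * u⁻¹) = (b : G)⁻¹ * (u * b * u⁻¹) := congrArg Subtype.val e
      have h1 : (b : G) * (a : G)⁻¹ * u = u * ((b : G) * (a : G)⁻¹) := by
        calc (b : G) * (a : G)⁻¹ * u = (b : G) * ((a : G)⁻¹ * (u * a * u⁻¹)) * u * (a : G)⁻¹ := by group
          _ = u * ((b : G) * (a : G)⁻¹) := by rw [e']; group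
      have h2 := (S.hC u hu).2 _ (Subgroup.mem_centralizer_singleton_iff.2 h1)
      have h3 := hCsq _ (mul_mem b.2 (inv_mem a.2)) (by rwa [sq] at h2)
      exact Subtype.ext (mul_inv_eq_one.1 h3).symm
    intro d hd
    obtain ⟨a, ha⟩ := (Finite.injective_iff_surjective.1 hf) ⟨d, hd⟩
    have ha' : (a : G)⁻¹ * (u * a * u⁻¹) = d := congrArg Subtype.val ha
    rw [← ha', CfsgLib.Involution.inv_eq hu]
    calc u * ((a : G)⁻¹ * (u * a * u)) * u = u * (a : G)⁻¹ * u * a * (u * u) := by group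
      _ = u⁻¹ * (a : G)⁻¹ * u⁻¹ * a := by rw [hu2, mul_one, CfsgLib.Involution.inv_eq hu]
      _ = ((a : G)⁻¹ * (u * a * u))⁻¹ := by group
  have hCact : ∀ c ∈ C, ∀ z ∈ F, c • z ∈ F := fun c hc z hz d hd => by
    rw [smul_smul, Subgroup.mem_centralizer_iff.1 hc d hd, mul_smul, hz d hd]
  have huact : ∀ z ∈ F, u • z ∈ F := fun z hz d hd => by
    have h1 : d * u = u * d⁻¹ := by
      have h := hinv _ (D.inv_mem hd)
      rw [inv_inv] at h
      exact (mul_inv_eq_iff_eq_mul.1 h).symm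
    rw [smul_smul, h1, mul_smul, hz _ (D.inv_mem hd)]
  -- an involution of the coset moves every fixed point
  have huc : ∀ c ∈ C, orderOf (u * c) = 2 := fun c hc => by
    haveI : Fact (Nat.Prime 2) := ⟨Nat.prime_two⟩
    refine orderOf_eq_prime ?_ fun e => ?_
    · rw [sq]
      calc u * c * (u * c) = (u * c * u⁻¹) * (u * u) * c := by group
        _ = 1 := by rw [hCinv c hc, hu2]; group
    · have huC : u ∈ C := by rw [eq_inv_of_mul_eq_one_left e]; exact inv_mem hc
      have := hCsq u huC hu2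
      rw [this, orderOf_one] at hu
      norm_num at hu
  have hucd : ∀ c ∈ C, ∀ d ∈ D, (u * c) * d * (u * c)⁻¹ = d⁻¹ := fun c hc d hd => by
    calc (u * c) * d * (u * c)⁻¹ = u * (c * d * c⁻¹) * u⁻¹ := by group
      _ = d⁻¹ := by rw [← Subgroup.mem_centralizer_iff.1 hc d hd, mul_inv_cancel_right, hinv d hd]
  have hmove : ∀ c ∈ C, ∀ z ∈ F, (u * c) • z ≠ z := by
    intro c hc z hz e
    obtain ⟨g, rfl⟩ : ∃ g : G, g • base T = z := by
      obtain ⟨g, rfl⟩ := QuotientGroup.mk_surjective z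
      exact ⟨g, mul_smul_base⟩
    have hmem : ∀ a : G, a • g • base T = g • base T → g⁻¹ * a * g ∈ nrm T := fun a ha => by
      rw [← smul_base, mul_smul, mul_smul, ha, inv_smul_smul]
    have h1 : orderOf (g⁻¹ * (u * c) * g) = 2 := by
      have := MulEquiv.orderOf_eq (MulAut.conj g⁻¹) (u * c)
      rw [MulAut.conj_apply, inv_inv] at this
      rw [this, huc c hc]
    have h2 := S.involution_mem h1 (hmem _ e)
    have h3 : g⁻¹ * d₀ * g ∈ nrm T := hmem _ (hz d₀ hd₀)
    have h4 : g⁻¹ * (d₀ * d₀)⁻¹ * g ∈ (T : Subgroup G) := by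
      have := mul_mem h2 (S.conj_mem h3 (inv_mem h2))
      have e2 : g⁻¹ * (u * c) * g * ((g⁻¹ * d₀ * g) * (g⁻¹ * (u * c) * g)⁻¹ * (g⁻¹ * d₀ * g)⁻¹) =
          g⁻¹ * ((u * c) * d₀ * (u * c)⁻¹ * d₀⁻¹) * g := by group
      rw [e2, hucd c hc d₀ hd₀] at this
      simpa using this
    have h5 := S.sq_eq_one h4
    have h6 : (d₀ * d₀)⁻¹ * (d₀ * d₀)⁻¹ = 1 := by
      have := congrArg (fun w => g * w * g⁻¹) h5
      simpa [mul_assoc] using this
    have h7 := S.eq_one_of_sq_two huH (inv_mem (mul_mem hd₀ hd₀)) h6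
    exact hd₀1 (S.eq_one_of_sq_two huH hd₀ (inv_eq_one.1 h7))
  -- count the pairs
  haveI : Fintype F := Fintype.ofFinite F
  let Pr := {p : F × F // p.1 ≠ p.2}
  have hswap : ∀ (a b : G ⧸ nrm T), a ∈ F → b ∈ F → a ≠ b → ∀ i : G, orderOf i = 2 → i • a = b → u * i ∈ C := by
    intro a b ha hb hab i hi hia
    have hib : i • b = a := by rw [← hia, smul_smul, CfsgLib.Involution.mul_self hi, one_smul]
    have hst := S.stab_eq hu huH ha hb hab
    have hiD : ∀ d ∈ D, i * d * i⁻¹ ∈ D := fun d hd => by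
      rw [hD, ← hst, CfsgLib.Involution.inv_eq hi]
      refine ⟨?_, ?_⟩ <;> show (i * d * i) • _ = _
      · rw [mul_smul, mul_smul, hia, hb d hd, hib]
      · rw [mul_smul, mul_smul, hib, ha d hd, hia]
    have hinvi : ∀ d ∈ D, i * d * i⁻¹ = d⁻¹ := by
      let f : D → D := fun d => ⟨(d : G)⁻¹ * (i * d * i⁻¹), mul_mem (inv_mem d.2) (hiD d d.2)⟩
      have hf : Function.Injective f := by
        intro p q e
        have e' : (p : G)⁻¹ * (i * p * i⁻¹) = (q : G)⁻¹ * (i * q * i⁻¹) := congrArg Subtype.val e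
        have h1 : (q : G) * (p : G)⁻¹ * i = i * ((q : G) * (p : G)⁻¹) := by
          calc (q : G) * (p : G)⁻¹ * i = (q : G) * ((p : G)⁻¹ * (i * p * i⁻¹)) * i * (p : G)⁻¹ := by group
            _ = i * ((q : G) * (p : G)⁻¹) := by rw [e']; group
        have h2 := (S.hC i hi).2 _ (Subgroup.mem_centralizer_singleton_iff.2 h1)
        exact Subtype.ext (mul_inv_eq_one.1 (S.eq_one_of_sq_two huH (mul_mem q.2 (inv_mem p.2)) (by rwa [sq] at h2))).symm
      intro d hd
      obtain ⟨a, ha⟩ := (Finite.injective_iff_surjective.1 hf) ⟨d, hd⟩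
      have ha' : (a : G)⁻¹ * (i * a * i⁻¹) = d := congrArg Subtype.val ha
      have hi2 := CfsgLib.Involution.mul_self hi
      rw [← ha', CfsgLib.Involution.inv_eq hi]
      calc i * ((a : G)⁻¹ * (i * a * i)) * i = i * (a : G)⁻¹ * i * a * (i * i) := by group
        _ = i⁻¹ * (a : G)⁻¹ * i⁻¹ * a := by rw [hi2, mul_one, CfsgLib.Involution.inv_eq hi]
        _ = ((a : G)⁻¹ * (i * a * i))⁻¹ := by group
    refine Subgroup.mem_centralizer_iff.2 fun d hd => ?_
    calc d * (u * i) = (u * d⁻¹ * u⁻¹) * u * i := by rw [hinv _ (D.inv_mem hd), inv_inv]; group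
      _ = u * d⁻¹ * i := by group
      _ = u * (i * d * i⁻¹) * i := by rw [hinvi d hd]
      _ = u * i * d := by group
  let e : C × F ≃ Σ p : Pr, {i : G // orderOf i = 2 ∧ i • (p.1.1 : G ⧸ nrm T) = p.1.2} :=
    Equiv.ofBijective
      (fun q => ⟨⟨(q.2, ⟨(u * q.1) • (q.2 : G ⧸ nrm T), mul_smul u (q.1 : G) (q.2 : G ⧸ nrm T) ▸ huact _ (hCact _ q.1.2 _ q.2.2)⟩),
          fun h => hmove _ q.1.2 _ q.2.2 (congrArg Subtype.val h).symm⟩, ⟨u * q.1, huc _ q.1.2, rfl⟩⟩)
      ⟨fun p q h => by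
        have h1 := congrArg (fun w : Σ p : Pr, {i : G // orderOf i = 2 ∧ i • (p.1.1 : G ⧸ nrm T) = p.1.2} => (w.1.1.1, (w.2 : G))) h
        simp only [Prod.mk.injEq] at h1
        exact Prod.ext (Subtype.ext (mul_left_cancel h1.2)) h1.1,
      fun w => by
        obtain ⟨⟨⟨⟨a, ha⟩, ⟨b, hb⟩⟩, hab⟩, ⟨i, hi, hia⟩⟩ := w
        have hab' : a ≠ b := fun e => hab (Subtype.ext e)
        have hui := hswap a b ha hb hab' i hi hia
        have huui : u * (u * i) = i := by rw [← mul_assoc, hu2, one_mul]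
        refine ⟨(⟨u * i, hui⟩, ⟨a, ha⟩), ?_⟩
        have hb' : (u * (u * i)) • a = b := by rw [huui]; exact hia
        subst hb'
        exact Sigma.subtype_ext rfl huui⟩
  have hcount : Nat.card C * Nat.card F = Nat.card Pr * (Nat.card T - 1) := by
    rw [← Nat.card_prod, Nat.card_congr e, Nat.card_sigma]
    rw [Finset.sum_congr rfl fun p _ => by
      rw [Cfsg.Agent.S1224.result (nrm T) S.se _ _ (fun h => p.2 (Subtype.ext h)), S.card_involutions]]
    rw [Finset.sum_const, smul_eq_mul, Finset.card_univ, ← Nat.card_eq_fintype_card]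
  have hPr : Nat.card Pr = Nat.card F * (Nat.card F - 1) := by
    have e2 : Pr ≃ Σ a : F, {b : F // b ≠ a} :=
      { toFun := fun p => ⟨p.1.1, p.1.2, p.2.symm⟩
        invFun := fun w => ⟨(w.1, w.2.1), w.2.2.symm⟩
        left_inv := fun _ => rfl
        right_inv := fun _ => rfl }
    rw [Nat.card_congr e2, Nat.card_sigma, Finset.sum_congr rfl (fun a _ => by
      rw [Nat.card_eq_fintype_card, Fintype.card_subtype_compl, Fintype.card_subtype_eq]),
      Finset.sum_const, smul_eq_mul, Finset.card_univ, ← Nat.card_eq_fintype_card]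
  set m := Nat.card F with hm
  have hm0 : 0 < m := by
    haveI : Nonempty F := ⟨⟨_, hbF⟩⟩
    exact Nat.card_pos
  have hCcard : Nat.card C = (m - 1) * (Nat.card T - 1) := by
    rw [hPr, mul_assoc, mul_comm] at hcount
    exact Nat.eq_of_mul_eq_mul_left hm0 hcount
  -- orbits of the centraliser
  letI act : MulAction C F :=
    { smul := fun c z => ⟨(c : G) • (z : G ⧸ nrm T), hCact c c.2 z z.2⟩
      one_smul := fun z => Subtype.ext (one_smul G (z : G ⧸ nrm T))
      mul_smul := fun a b z => Subtype.ext (mul_smul (a : G) (b : G) (z : G ⧸ nrm T)) }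
  have horb : ∀ z : F, (MulAction.orbit C z).ncard = m - 1 := by
    intro z
    have hstab : MulAction.stabilizer C z = D.subgroupOf C := by
      ext c
      constructor
      · intro hc
        have hc' : (c : G) • (z : G ⧸ nrm T) = z := congrArg Subtype.val hc
        obtain ⟨g, hg⟩ : ∃ g : G, g • base T = (z : G ⧸ nrm T) := by
          obtain ⟨g, hg'⟩ := QuotientGroup.mk_surjective (z : G ⧸ nrm T)
          exact ⟨g, by rw [mul_smul_base, hg']⟩
        obtain ⟨b, hb, hbz⟩ : ∃ b ∈ F, b ≠ (z : G ⧸ nrm T) := by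
          by_cases hzb : (z : G ⧸ nrm T) = base T
          · exact ⟨_, huF, by rw [hzb]; exact hne.symm⟩
          · exact ⟨_, hbF, Ne.symm hzb⟩
        obtain ⟨w, hw⟩ : ∃ w, g • w = b := ⟨g⁻¹ • b, smul_inv_smul g b⟩
        obtain ⟨i, hi, hiH, hiw⟩ := S.exists_involution_to (x := w) fun e => hbz (by rw [← hw, e, hg])
        have hmem : ∀ a : G, a • g • base T = g • base T → g⁻¹ * a * g ∈ nrm T := fun a ha => by
          rw [← smul_base, mul_smul, mul_smul, ha, inv_smul_smul]
        have hconj : ∀ a ∈ D, g⁻¹ * a * g ∈ two T i := fun a ha => by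
          refine mem_two_iff.2 ⟨hmem a (by rw [hg]; exact z.2 a ha), ?_⟩
          rw [hiw, mul_smul, mul_smul, hw, hb a ha, ← hw, inv_smul_smul]
        obtain ⟨t, ht, d', hd', he⟩ := S.decomp hi hiH (hmem (c : G) (by rw [hg]; exact hc'))
        have hd₀' := hconj d₀ hd₀
        have ht1 : t = 1 := by
          by_contra ht1
          have habel' : g⁻¹ * d₀ * g * d' = d' * (g⁻¹ * d₀ * g) := by
            have h1 := S.invert hi hiH (g⁻¹ * d₀ * g * d') (mul_mem hd₀' hd')
            have h2 : i * (g⁻¹ * d₀ * g * d') * i⁻¹ = (i * (g⁻¹ * d₀ * g) * i⁻¹) * (i * d' * i⁻¹) := by group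
            rw [h2, S.invert hi hiH _ hd₀', S.invert hi hiH _ hd'] at h1
            have h3 := congrArg (fun w => w⁻¹) h1
            simp only [mul_inv_rev, inv_inv] at h3
            exact h3.symm
          have hcomm : g⁻¹ * d₀ * g * t = t * (g⁻¹ * d₀ * g) := by
            have h1 : (c : G) * d₀ = d₀ * c := (Subgroup.mem_centralizer_iff.1 c.2 d₀ hd₀).symm
            have h2 : (t * d') * (g⁻¹ * d₀ * g) = g⁻¹ * d₀ * g * (t * d') := by
              rw [← he]
              calc g⁻¹ * (c : G) * g * (g⁻¹ * d₀ * g) = g⁻¹ * ((c : G) * d₀) * g := by group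
                _ = g⁻¹ * d₀ * g * (g⁻¹ * (c : G) * g) := by rw [h1]; group
            calc g⁻¹ * d₀ * g * t = g⁻¹ * d₀ * g * (t * d') * d'⁻¹ := by group
              _ = t * (d' * (g⁻¹ * d₀ * g)) * d'⁻¹ := by rw [← h2]; group
              _ = t * (g⁻¹ * d₀ * g) := by rw [← habel']; group
          have h4 := S.free hiH hd₀' ht ht1 hcomm
          apply hd₀1
          simpa [mul_assoc] using congrArg (fun w => g * w * g⁻¹) h4
        rw [ht1, one_mul] at he
        have hDeq : ∀ v, v ∈ two T i → g * v * g⁻¹ ∈ D := fun v hv => by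
          rw [hD, ← S.stab_eq hu huH z.2 hb (Ne.symm hbz)]
          rw [mem_two_iff, ← smul_base] at hv
          refine ⟨?_, ?_⟩ <;> show (g * v * g⁻¹) • _ = _
          · rw [← hg, mul_smul, mul_smul, inv_smul_smul, hv.1]
          · rw [← hw, mul_smul, mul_smul, inv_smul_smul, ← hiw, hv.2]
        have := hDeq d' hd'
        rw [← he] at this
        show (c : G) ∈ D
        simpa [mul_assoc] using this
      · intro hc
        exact Subtype.ext (z.2 (c : G) hc)
    have h1 := MulAction.index_stabilizer C z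
    rw [hstab] at h1
    have h2 := (D.subgroupOf C).card_mul_index
    rw [Nat.card_congr (Subgroup.subgroupOfEquivOfLe hDC).toEquiv, S.card_two hu huH, hCcard, h1, mul_comm (m - 1)] at h2
    refine Nat.eq_of_mul_eq_mul_left ?_ h2
    have := S.four_le
    omega
  -- there are only two orbit points
  by_contra hcon
  push Not at hcon
  have hm3 : 3 ≤ m := by
    have h3 : ({base T, QuotientGroup.mk u, x} : Set (G ⧸ nrm T)).ncard = 3 :=
      Set.ncard_eq_three.2 ⟨_, _, _, hne, hcon.1.symm, hcon.2.symm, rfl⟩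
    have hsub : ({base T, QuotientGroup.mk u, x} : Set (G ⧸ nrm T)) ⊆ F := by
      rintro w (rfl | rfl | rfl)
      · exact hbF
      · exact huF
      · exact hx
    have h4 := Set.ncard_le_ncard hsub (Set.toFinite _)
    rw [h3, ← Nat.card_coe_set_eq] at h4
    exact h4
  set z₀ : F := ⟨_, hbF⟩
  have hO := horb z₀
  obtain ⟨y, hy⟩ : ∃ y : F, y ∉ MulAction.orbit C z₀ := by
    by_contra hall
    push Not at hall
    have : MulAction.orbit C z₀ = Set.univ := Set.eq_univ_of_forall hall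
    rw [this, Set.ncard_univ, ← hm] at hO
    omega
  have hdis : Disjoint (MulAction.orbit C z₀) (MulAction.orbit C y) := by
    rw [Set.disjoint_left]
    intro a ha hb
    exact hy ((MulAction.orbit_eq_iff.2 ha).symm.trans (MulAction.orbit_eq_iff.2 hb) ▸ MulAction.mem_orbit_self y)
  have h := Set.ncard_le_ncard (Set.subset_univ (MulAction.orbit C z₀ ∪ MulAction.orbit C y)) (Set.toFinite _)
  rw [Set.ncard_union_eq hdis, hO, horb y, Set.ncard_univ, ← hm] at h
  omega

/-- The Sylow subgroup is regular off the base point. -/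
theorem regular {x y : G ⧸ nrm T} (hx : x ≠ base T) (hy : y ≠ base T) :
    ∃! t : G, t ∈ (T : Subgroup G) ∧ t • x = y := by
  classical
  obtain ⟨u, hu, huH, rfl⟩ := S.exists_involution_to hx
  set xu : G ⧸ nrm T := QuotientGroup.mk u with hxu
  have hreg : ∀ z : G ⧸ nrm T, z ≠ base T → ∀ t ∈ (T : Subgroup G), t • z = z → t = 1 := fun z hz t ht h => by
    by_contra h1
    exact hz (S.fixed_unique (S.orderOf_mem ht h1) h (smul_base.2 (Subgroup.le_normalizer ht)))
  suffices h : ∀ z : G ⧸ nrm T, z ≠ base T → ∃ t ∈ (T : Subgroup G), t • z = xu by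
    obtain ⟨t, ht, hty⟩ := h y hy
    refine ⟨t⁻¹, ⟨inv_mem ht, by rw [← hty, inv_smul_smul]⟩, fun s hs => ?_⟩
    have h1 := hreg _ hx (t * s) (mul_mem ht hs.1) (by rw [mul_smul, hs.2, hty])
    exact (eq_inv_of_mul_eq_one_right h1)
  intro z hz
  let O : Set (G ⧸ nrm T) := {w | ∃ t ∈ (T : Subgroup G), t • z = w}
  obtain ⟨i, hi, hiH, rfl⟩ := S.exists_involution_to hz
  obtain ⟨d₀, hd₀, hd₀1⟩ := S.exists_ne_one_two hu huH
  obtain ⟨p, hp, hpd⟩ := Nat.exists_prime_and_dvd (n := Nat.card (two T u)) (by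
    rw [S.card_two hu huH]
    have := S.four_le
    omega)
  haveI := Fact.mk hp
  obtain ⟨d, hdo⟩ := exists_prime_orderOf_dvd_card' (G := two T u) p hpd
  have hd1 : (d : G) ≠ 1 := fun h => by
    have h' : d = 1 := Subtype.ext h
    rw [h', orderOf_one] at hdo
    exact hp.one_lt.ne hdo
  have hclosed : ∀ a ∈ two T u, ∀ w ∈ O, a • w ∈ O := by
    intro a ha w hw
    obtain ⟨t, ht, rfl⟩ := hw
    obtain ⟨t', ht', d', hd', he⟩ := S.decomp hi hiH (mul_mem (mem_two_iff.1 ha).1 (Subgroup.le_normalizer ht))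
    exact ⟨t', ht', by rw [smul_smul, he, mul_smul, (mem_two_iff.1 hd').2]⟩
  let K := Subgroup.zpowers (d : G)
  have hK : K ≤ two T u := Subgroup.zpowers_le.2 d.2
  letI actK : MulAction K O :=
    { smul := fun a w => ⟨(a : G) • (w : G ⧸ nrm T), hclosed a (hK a.2) w w.2⟩
      one_smul := fun w => Subtype.ext (one_smul G (w : G ⧸ nrm T))
      mul_smul := fun a b w => Subtype.ext (mul_smul (a : G) (b : G) (w : G ⧸ nrm T)) }
  have hKp : IsPGroup p K := IsPGroup.of_card (n := 1) (by rw [Nat.card_zpowers, Subgroup.orderOf_coe, hdo, pow_one])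
  have hOcard : Nat.card O = Nat.card T := by
    refine (Nat.card_eq_of_bijective (fun t : (T : Subgroup G) =>
      (⟨(t : G) • (QuotientGroup.mk i : G ⧸ nrm T), t, t.2, rfl⟩ : O)) ⟨fun a b h => ?_, fun w => ?_⟩).symm
    · have h' : (a : G) • (QuotientGroup.mk i : G ⧸ nrm T) = (b : G) • QuotientGroup.mk i := congrArg Subtype.val h
      have h1 := hreg _ hz ((b : G)⁻¹ * a) (mul_mem (inv_mem b.2) a.2) (by rw [mul_smul, h', inv_smul_smul])
      exact Subtype.ext (inv_mul_eq_one.1 h1).symm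
    · obtain ⟨w, t, ht, rfl⟩ := w
      exact ⟨⟨t, ht⟩, rfl⟩
  have hndvd : ¬ p ∣ Nat.card O := by
    intro h
    rw [S.card_two hu huH] at hpd
    rw [hOcard] at h
    have h2 := Nat.dvd_sub h hpd
    rw [Nat.sub_sub_self (by have := S.four_le; omega)] at h2
    exact hp.not_dvd_one h2
  obtain ⟨⟨w, hwO⟩, hw⟩ := hKp.nonempty_fixed_point_of_prime_not_dvd_card O hndvd
  have hdw : (d : G) • w = w := congrArg Subtype.val (hw ⟨_, Subgroup.mem_zpowers _⟩)
  have hwF : w ∈ fixedSet T u := by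
    intro a ha
    obtain ⟨t, ht, hte⟩ := hclosed a ha w hwO
    obtain ⟨t₁, ht₁, hte₁⟩ := hwO
    have hte' : (t * t₁⁻¹) • w = a • w := by rw [← hte₁, mul_smul, inv_smul_smul, hte, hte₁]
    set s := t * t₁⁻¹ with hs
    have hsT : s ∈ (T : Subgroup G) := mul_mem ht (inv_mem ht₁)
    have hwb : w ≠ base T := by
      rw [← hte₁]
      intro e
      apply hz
      rw [← inv_smul_smul t₁ (QuotientGroup.mk i : G ⧸ nrm T), e]
      exact smul_base.2 (inv_mem (Subgroup.le_normalizer ht₁))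
    have hcomm : (d : G) * a = a * d := by
      have h1 := S.invert hu huH ((d : G) * a) (mul_mem d.2 ha)
      have h2 : u * ((d : G) * a) * u⁻¹ = (u * d * u⁻¹) * (u * a * u⁻¹) := by group
      rw [h2, S.invert hu huH _ d.2, S.invert hu huH _ ha] at h1
      have h3 := congrArg (fun v => v⁻¹) h1
      simp only [mul_inv_rev, inv_inv] at h3
      exact h3.symm
    have h4 : (s⁻¹ * ((d : G) * s * (d : G)⁻¹)) • w = w := by
      have e1 : (d : G) • (s • w) = s • w := by rw [hte', smul_smul, hcomm, mul_smul, hdw]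
      have e2 : ((d : G) * s * (d : G)⁻¹) • w = s • w := by
        rw [mul_smul, mul_smul]
        conv_lhs => rw [← hdw, inv_smul_smul]
        exact e1
      rw [mul_smul, e2, inv_smul_smul]
    have h5 := hreg w hwb _ (mul_mem (inv_mem hsT) (S.conj_mem (mem_two_iff.1 d.2).1 hsT)) h4
    have h6 : s = 1 := by
      by_contra hs1
      exact hd1 (S.free huH d.2 hsT hs1 (mul_inv_eq_iff_eq_mul.1 (inv_mul_eq_one.1 h5).symm))
    rw [h6, one_smul] at hte'
    exact hte'.symm
  obtain ⟨t, ht, hte⟩ := hwO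
  rcases (S.fixedSet_eq hu huH w).1 hwF with h | h
  · exfalso
    apply hz
    rw [← inv_smul_smul t (QuotientGroup.mk i : G ⧸ nrm T), hte, h]
    exact smul_base.2 (inv_mem (Subgroup.le_normalizer ht))
  · exact ⟨t, ht, hte.trans h⟩

/-- Two fixed points and an involution. -/
theorem normalizer_two {u : G} (hu : orderOf u = 2) (huH : u ∉ nrm T) :
    Subgroup.normalizer (two T u : Set G) = two T u ⊔ Subgroup.zpowers u := by
  have hxu : u • base T = (QuotientGroup.mk u : G ⧸ nrm T) := mul_smul_base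
  refine le_antisymm ?_ (sup_le Subgroup.le_normalizer (Subgroup.zpowers_le.2 ?_))
  · intro g hg
    have hF : ∀ x ∈ fixedSet T u, g • x ∈ fixedSet T u := fun x hx d hd => by
      have h1 : g⁻¹ * d * g ∈ two T u := by
        have h := (Subgroup.mem_normalizer_iff.1 ((Subgroup.normalizer _).inv_mem hg) d).1 hd
        simpa using h
      rw [smul_smul, show d * g = g * (g⁻¹ * d * g) by group, mul_smul, hx _ h1]
    have h1 := (S.fixedSet_eq hu huH _).1 (hF _ ((S.fixedSet_eq hu huH _).2 (Or.inl rfl)))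
    have h2 := (S.fixedSet_eq hu huH _).1 (hF _ ((S.fixedSet_eq hu huH _).2 (Or.inr rfl)))
    have key : ∀ k : G, k • base T = base T → k • (QuotientGroup.mk u : G ⧸ nrm T) ≠ base T →
        k • (QuotientGroup.mk u : G ⧸ nrm T) = QuotientGroup.mk u ∨ k • (QuotientGroup.mk u : G ⧸ nrm T) = base T →
        k ∈ two T u := fun k hk1 hk2 hk3 =>
      mem_two_iff.2 ⟨smul_base.1 hk1, hk3.resolve_right hk2⟩
    have hne : base T ≠ (QuotientGroup.mk u : G ⧸ nrm T) := fun e => huH (by simpa [base] using QuotientGroup.eq.1 e)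
    rcases h1 with h | h
    · refine Subgroup.mem_sup_left (key g h (fun e => hne ?_) h2.symm)
      exact (MulAction.injective g) (h.trans e.symm)
    · have hk1 : (u * g) • base T = base T := by
        rw [mul_smul, h, ← hxu, smul_smul, CfsgLib.Involution.mul_self hu, one_smul]
      have hk2 : (u * g) • (QuotientGroup.mk u : G ⧸ nrm T) ≠ base T := fun e => hne ((MulAction.injective (u * g)) (hk1.trans e.symm))
      have hk3 : (u * g) • (QuotientGroup.mk u : G ⧸ nrm T) = QuotientGroup.mk u ∨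
          (u * g) • (QuotientGroup.mk u : G ⧸ nrm T) = base T := by
        rcases h2 with h' | h'
        · left; rw [mul_smul, h', hxu]
        · exact absurd ((MulAction.injective g) (h.trans h'.symm)) hne
      have hk := key _ hk1 hk2 hk3
      have e : g = u * (u * g) := by rw [← mul_assoc, CfsgLib.Involution.mul_self hu, one_mul]
      rw [e]
      exact Subgroup.mul_mem _ (Subgroup.mem_sup_right (Subgroup.mem_zpowers u)) (Subgroup.mem_sup_left hk)
  · refine Subgroup.mem_normalizer_iff.2 fun d => ?_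
    constructor
    · intro hd
      rw [S.invert hu huH d hd]
      exact inv_mem hd
    · intro hd
      have h := S.invert hu huH _ hd
      have e : u * (u * d * u⁻¹) * u⁻¹ = d := by
        rw [CfsgLib.Involution.inv_eq hu]
        calc u * (u * d * u) * u = (u * u) * d * (u * u) := by group
          _ = d := by rw [CfsgLib.Involution.mul_self hu, one_mul, mul_one]
      rw [e] at h
      rw [h]
      exact inv_mem hd

end Setting

end CfsgLib.CTTwo
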