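import Mathlib
import Cfsg.Agent.Lib.CTTwo
import Cfsg.Agent.S1229

/-! The field carried by the Sylow subgroup of a group with elementary abelian involution centralisers. -/

set_option autoImplicit false

namespace CfsgLib.CTTwo.Setting

universe u

variable {G : Type u} [Group G] [Finite G] {T : Sylow 2 G}

theorem comm_two (S : Setting T) {u : G} (hu : orderOf u = 2) (huH : u ∉ nrm T) {a b : G} (ha : a ∈ two T u)
    (hb : b ∈ two T u) : a * b = b * a := by
  have h1 := S.invert hu huH (a * b) (mul_mem ha hb)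
  have h2 : u * (a * b) * u⁻¹ = (u * a * u⁻¹) * (u * b * u⁻¹) := by group
  rw [h2, S.invert hu huH _ ha, S.invert hu huH _ hb] at h1
  have h3 := congrArg (fun w => w⁻¹) h1
  simp only [mul_inv_rev, inv_inv] at h3
  exact h3.symm

/-- The Sylow subgroup is the additive group of a field in which the two-point stabiliser is multiplication. -/
theorem exists_field (S : Setting T) {u : G} (hu : orderOf u = 2) (huH : u ∉ nrm T) :
    ∃ (K : Type u) (_ : Field K) (_ : Fintype K) (ι : K → G), Fintype.card K = Nat.card T ∧ ringChar K = 2 ∧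
      (∀ x y, ι (x + y) = ι x * ι y) ∧ Function.Injective ι ∧ (∀ t, t ∈ (T : Subgroup G) ↔ ∃ x, ι x = t) ∧
      ∀ d ∈ two T u, ∃ s : K, s ≠ 0 ∧ ∀ x, d * ι x * d⁻¹ = ι (s * x) := by
  classical
  haveI : Nontrivial (T : Subgroup G) := (Subgroup.nontrivial_iff_ne_bot _).2 fun h' =>
    S.hnc (by rw [h']; exact isCyclic_of_subsingleton)
  obtain ⟨⟨e, he⟩, he1⟩ := exists_ne (1 : (T : Subgroup G))
  have he0 : e ≠ 1 := fun h => he1 (Subtype.ext h)
  have hex : ∀ t : (T : Subgroup G), t ≠ 1 → ∃ d ∈ two T u, d * e * d⁻¹ = t := fun t ht =>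
    (Cfsg.Agent.S1225.result (nrm T) S.se u hu huH e t (S.orderOf_mem he he0) (Subgroup.le_normalizer he)
      (S.orderOf_mem t.2 fun h => ht (Subtype.ext h)) (Subgroup.le_normalizer t.2)).1
  let δ : ↥(T : Subgroup G) → G := fun t => if h : t ≠ 1 then (hex t h).choose else 1
  have hδ : ∀ t, t ≠ 1 → δ t ∈ two T u ∧ δ t * e * (δ t)⁻¹ = t := fun t ht => by
    simp only [δ, dif_pos ht]
    exact (hex t ht).choose_spec
  have huniq : ∀ a b, a ∈ two T u → b ∈ two T u → a * e * a⁻¹ = b * e * b⁻¹ → a = b := fun a b ha hb h => by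
    have h1 := S.free huH (mul_mem (inv_mem hb) ha) he he0 (by
      calc b⁻¹ * a * e = b⁻¹ * (a * e * a⁻¹) * a := by group
        _ = e * (b⁻¹ * a) := by rw [h]; group)
    exact (inv_mul_eq_one.1 h1).symm
  have hδmem : ∀ t, δ t ∈ two T u := fun t => by
    by_cases ht : t ≠ 1
    · exact (hδ t ht).1
    · simp only [δ, dif_neg ht]; exact one_mem _
  have hTn : ∀ {d}, d ∈ two T u → ∀ t : (T : Subgroup G), d * t * d⁻¹ ∈ (T : Subgroup G) :=
    fun hd t => S.conj_mem (mem_two_iff.1 hd).1 t.2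
  let μ : ↥(T : Subgroup G) → ↥(T : Subgroup G) → ↥(T : Subgroup G) := fun x y =>
    if x = 1 then 1 else ⟨δ x * y * (δ x)⁻¹, hTn (hδmem x) y⟩
  let one' : (T : Subgroup G) := ⟨e, he⟩
  have hμ1 : ∀ y, μ 1 y = 1 := fun y => if_pos rfl
  have hμr : ∀ x, μ x 1 = 1 := fun x => by
    by_cases hx : x = 1
    · simp only [μ, if_pos hx]
    · simp only [μ, if_neg hx]
      apply Subtype.ext
      show δ x * 1 * (δ x)⁻¹ = 1
      group
  have hμv : ∀ x y, x ≠ 1 → ((μ x y : (T : Subgroup G)) : G) = δ x * y * (δ x)⁻¹ := fun x y hx => by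
    simp only [μ, if_neg hx]
  have hμne : ∀ x y, x ≠ 1 → y ≠ 1 → μ x y ≠ 1 := fun x y hx hy h => hy (Subtype.ext (by
    have h1 := congrArg Subtype.val h
    rw [hμv x y hx] at h1
    simpa [mul_assoc] using congrArg (fun w => (δ x)⁻¹ * w * δ x) h1))
  have hδμ : ∀ x y, x ≠ 1 → y ≠ 1 → δ (μ x y) = δ x * δ y := fun x y hx hy =>
    huniq _ _ (hδmem _) (mul_mem (hδmem x) (hδmem y)) (by
      rw [(hδ _ (hμne x y hx hy)).2, hμv x y hx]
      calc δ x * y * (δ x)⁻¹ = δ x * (δ y * e * (δ y)⁻¹) * (δ x)⁻¹ := by rw [(hδ y hy).2]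
        _ = δ x * δ y * e * (δ x * δ y)⁻¹ := by group)
  have hμcomm : ∀ x y, μ x y = μ y x := fun x y => by
    by_cases hx : x = 1
    · subst hx; rw [hμ1, hμr]
    by_cases hy : y = 1
    · subst hy; rw [hμ1, hμr]
    apply Subtype.ext
    rw [hμv x y hx, hμv y x hy]
    calc δ x * y * (δ x)⁻¹ = δ x * (δ y * e * (δ y)⁻¹) * (δ x)⁻¹ := by rw [(hδ y hy).2]
      _ = δ x * δ y * e * (δ x * δ y)⁻¹ := by group
      _ = δ y * δ x * e * (δ y * δ x)⁻¹ := by rw [S.comm_two hu huH (hδmem x) (hδmem y)]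
      _ = δ y * (δ x * e * (δ x)⁻¹) * (δ y)⁻¹ := by group
      _ = δ y * x * (δ y)⁻¹ := by rw [(hδ x hx).2]
  have hμassoc : ∀ x y z, μ (μ x y) z = μ x (μ y z) := fun x y z => by
    by_cases hx : x = 1
    · subst hx; rw [hμ1, hμ1, hμ1]
    by_cases hy : y = 1
    · subst hy; rw [hμr, hμ1, hμr]
    apply Subtype.ext
    rw [hμv _ z (hμne x y hx hy), hμv x _ hx, hμv y z hy, hδμ x y hx hy]
    group
  have hone : ∀ y, μ one' y = y := fun y => by
    have h1 : one' ≠ 1 := fun h => he0 (congrArg Subtype.val h)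
    apply Subtype.ext
    rw [hμv _ _ h1]
    have h2 : δ one' = 1 := huniq _ _ (hδmem _) (one_mem _) (by rw [(hδ _ h1).2]; simp [one'])
    rw [h2]
    group
  have hdist : ∀ x y z, μ x (y * z) = μ x y * μ x z := fun x y z => by
    by_cases hx : x = 1
    · subst hx; rw [hμ1, hμ1, hμ1, mul_one]
    apply Subtype.ext
    show ((μ x (y * z) : (T : Subgroup G)) : G) = ((μ x y : (T : Subgroup G)) : G) * ((μ x z : (T : Subgroup G)) : G)
    rw [hμv x _ hx, hμv x _ hx, hμv x _ hx]
    show δ x * ((y : G) * z) * (δ x)⁻¹ = _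
    group
  let K := Additive (T : Subgroup G)
  letI acg : AddCommGroup K := { (inferInstance : AddGroup K) with
    add_comm := fun a b => congrArg Additive.ofMul
      (Subtype.ext (S.comm (Additive.toMul a).2 (Additive.toMul b).2)) }
  letI cr : CommRing K := { acg with
    mul := fun a b => Additive.ofMul (μ (Additive.toMul a) (Additive.toMul b))
    one := Additive.ofMul one'
    mul_assoc := fun a b c => congrArg Additive.ofMul (hμassoc _ _ _)
    mul_comm := fun a b => congrArg Additive.ofMul (hμcomm _ _)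
    one_mul := fun a => congrArg Additive.ofMul (hone _)
    mul_one := fun a => congrArg Additive.ofMul ((hμcomm _ _).trans (hone _))
    left_distrib := fun a b c => congrArg Additive.ofMul (hdist _ _ _)
    right_distrib := fun a b c => congrArg Additive.ofMul
      ((hμcomm _ _).trans ((hdist _ _ _).trans (congrArg₂ (· * ·) (hμcomm _ _) (hμcomm _ _))))
    zero_mul := fun a => congrArg Additive.ofMul (hμ1 _)
    mul_zero := fun a => congrArg Additive.ofMul (hμr _) }
  have hfield : IsField K := by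
    refine ⟨⟨0, 1, fun h => he0 ?_⟩, mul_comm, fun {a} ha => ?_⟩
    · exact (congrArg (fun w : K => ((Additive.toMul w : (T : Subgroup G)) : G)) h).symm
    · have ha' : Additive.toMul a ≠ 1 := fun h => ha (Additive.toMul.injective h)
      refine ⟨Additive.ofMul ⟨(δ (Additive.toMul a))⁻¹ * one' * ((δ (Additive.toMul a))⁻¹)⁻¹,
        hTn (inv_mem (hδmem _)) one'⟩, congrArg Additive.ofMul ?_⟩
      apply Subtype.ext
      rw [hμv _ _ ha']
      show δ (Additive.toMul a) * ((δ (Additive.toMul a))⁻¹ * one' * ((δ (Additive.toMul a))⁻¹)⁻¹) *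
        (δ (Additive.toMul a))⁻¹ = (one' : G)
      group
  letI : Field K := hfield.toField
  letI : Fintype K := Fintype.ofFinite K
  refine ⟨K, inferInstance, inferInstance, fun x => ((Additive.toMul x : (T : Subgroup G)) : G), ?_, ?_,
    fun x y => rfl, fun x y h => Additive.toMul.injective (Subtype.ext h), fun t => ⟨fun ht =>
      ⟨Additive.ofMul ⟨t, ht⟩, rfl⟩, fun ⟨x, hx⟩ => hx ▸ (Additive.toMul x).2⟩, fun d hd => ?_⟩
  · rw [← Nat.card_eq_fintype_card]
    exact Nat.card_congr Additive.toMul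
  · have h2 : (2 : K) = 0 := by
      rw [← one_add_one_eq_two]
      exact Additive.toMul.injective (Subtype.ext (S.sq_eq_one he))
    exact ringChar.eq_iff.2 ((CharP.charP_iff_prime_eq_zero Nat.prime_two).2 (by exact_mod_cast h2))
  · let s : (T : Subgroup G) := ⟨d * e * d⁻¹, hTn hd one'⟩
    have hs : s ≠ 1 := fun h => he0 (by
      simpa [mul_assoc, s] using congrArg (fun w : (T : Subgroup G) => d⁻¹ * (w : G) * d) h)
    have hδs : δ s = d := huniq _ _ (hδmem _) hd (hδ s hs).2
    refine ⟨Additive.ofMul s, fun h => hs (Additive.ofMul.injective h), fun x => ?_⟩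
    show d * (Additive.toMul x : (T : Subgroup G)) * d⁻¹ = ((μ s (Additive.toMul x) : (T : Subgroup G)) : G)
    rw [hμv _ _ hs, hδs]

/-- Fixing the three standard points of the projective line in characteristic two. -/
theorem fix_three {K : Type u} [Field K] [CharP K 2] (A : Matrix.SpecialLinearGroup (Fin 2) K)
    (h0 : A • Projectivization.mk K ![(1 : K), 0] (by simp) = Projectivization.mk K ![(1 : K), 0] (by simp))
    (h1 : A • Projectivization.mk K ![(0 : K), 1] (by simp) = Projectivization.mk K ![(0 : K), 1] (by simp))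
    (h2 : A • Projectivization.mk K ![(1 : K), 1] (by simp) = Projectivization.mk K ![(1 : K), 1] (by simp)) :
    A = 1 := by
  simp only [Projectivization.smul_mk, Projectivization.mk_eq_mk_iff'] at h0 h1 h2
  obtain ⟨a, ha⟩ := h0
  obtain ⟨b, hb⟩ := h1
  obtain ⟨c, hc⟩ := h2
  have a0 := congrFun ha 0; have a1 := congrFun ha 1
  have b0 := congrFun hb 0; have b1 := congrFun hb 1
  have c0 := congrFun hc 0; have c1 := congrFun hc 1
  have hd := A.2
  rw [Matrix.det_fin_two] at hd
  simp [Matrix.SpecialLinearGroup.smul_def, Matrix.smul_eq_mulVec, Matrix.mulVec, dotProduct,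
    Fin.sum_univ_two] at a0 a1 b0 b1 c0 c1
  have h01 : A.1 0 1 = 0 := b0.symm
  have h10 : A.1 1 0 = 0 := a1.symm
  rw [h01, h10] at hd
  have hdd : A.1 0 0 = A.1 1 1 := by
    rw [h01, add_zero] at c0
    rw [h10, zero_add] at c1
    rw [← c0, ← c1]
  have hsq : (A.1 0 0 + 1) * (A.1 0 0 + 1) = 0 := by
    linear_combination hd + (A.1 0 0 + 1) * (CharTwo.two_eq_zero : (2 : K) = 0) + (A.1 0 0) * hdd
  have h00 : A.1 0 0 = 1 := CharTwo.add_eq_zero.1 (mul_self_eq_zero.1 hsq)
  ext i j
  fin_cases i <;> fin_cases j <;> simp [h01, h10, h00, ← hdd]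

/-- A matrix of determinant one. -/
def sl2 {K : Type u} [Field K] (M : Matrix (Fin 2) (Fin 2) K) (h : M.det = 1) :
    Matrix.SpecialLinearGroup (Fin 2) K := ⟨M, h⟩

open Classical in
/-- The points of the coset space as points of the projective line. -/
noncomputable def pointMap {K : Type u} [Field K] (ι : K → G) (b xu : G ⧸ nrm T) :
    Projectivization K (Fin 2 → K) → G ⧸ nrm T :=
  Projectivization.lift (fun v => if v.1 1 = 0 then b else ι (v.1 0 / v.1 1) • xu) (by
    rintro ⟨v, hv⟩ ⟨w, hw⟩ t h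
    simp only at h
    subst h
    by_cases ht : t = 0
    · exact absurd (by rw [ht, zero_smul]) hv
    simp only [Pi.smul_apply, smul_eq_mul, mul_eq_zero, ht, false_or]
    by_cases hw1 : w 1 = 0
    · rw [if_pos hw1, if_pos hw1]
    · rw [if_neg hw1, if_neg hw1, mul_div_mul_left _ _ ht])

open Classical in
theorem pointMap_mk {K : Type u} [Field K] (ι : K → G) (b xu : G ⧸ nrm T) (v : Fin 2 → K) (hv : v ≠ 0) :
    pointMap ι b xu (Projectivization.mk K v hv) = if v 1 = 0 then b else ι (v 0 / v 1) • xu :=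
  Projectivization.lift_mk _ _ _ _

/-- Such a group is the special linear group of the plane over a field of the order of the Sylow subgroup. -/
theorem exists_equiv (S : Setting T) :
    ∃ (K : Type u) (_ : Field K) (_ : Fintype K), Fintype.card K = Nat.card T ∧ CharP K 2 ∧
      Nonempty (G ≃* Matrix.SpecialLinearGroup (Fin 2) K) := by
  classical
  obtain ⟨w₀, hw₀⟩ := CfsgLib.StronglyEmbedded.exists_ne_coset S.se (base T)
  obtain ⟨u, hu, huH, -⟩ := S.exists_involution_to hw₀
  obtain ⟨K, instF, instK, ι, hcard, hchar, hadd, hinj, hmem, hmul⟩ := S.exists_field hu huH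
  haveI : CharP K 2 := ringChar.of_eq hchar
  refine ⟨K, instF, instK, hcard, inferInstance, ?_⟩
  set xu : G ⧸ nrm T := QuotientGroup.mk u with hxu
  have hne : base T ≠ xu := fun e => huH (by simpa [base, hxu] using QuotientGroup.eq.1 e)
  have hub : u • base T = xu := mul_smul_base
  have huu : u • xu = base T := by rw [← hub, smul_smul, CfsgLib.Involution.mul_self hu, one_smul]
  have hι0 : ι 0 = 1 := by
    have h := hadd 0 0
    rw [add_zero] at h
    exact mul_eq_left.1 h.symm
  have hιT : ∀ x, ι x ∈ (T : Subgroup G) := fun x => (hmem _).2 ⟨x, rfl⟩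
  have hιb : ∀ x, ι x • base T = base T := fun x => smul_base.2 (Subgroup.le_normalizer (hιT x))
  set Φ := pointMap ι (base T) xu with hΦ
  have hoff : ∀ x, ι x • xu ≠ base T := fun x h => hne (MulAction.injective (ι x) ((hιb x).trans h.symm))
  have hΦinj : Function.Injective Φ := by
    intro p q h
    induction p using Projectivization.ind with | _ v hv =>
    induction q using Projectivization.ind with | _ w hw =>
    rw [hΦ, pointMap_mk, pointMap_mk] at h
    rw [Projectivization.mk_eq_mk_iff']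
    by_cases hv1 : v 1 = 0 <;> by_cases hw1 : w 1 = 0 <;> simp only [hv1, hw1, if_pos, if_false] at h
    · have hw0 : w 0 ≠ 0 := fun h0 => hw (by ext i; fin_cases i <;> assumption)
      exact ⟨v 0 / w 0, by ext i; fin_cases i <;> simp [hv1, hw1, hw0]⟩
    · exact absurd h.symm (hoff _)
    · exact absurd h (hoff _)
    · have huq := (S.regular (hne.symm) (hoff (w 0 / w 1))).unique ⟨hιT _, h⟩ ⟨hιT _, rfl⟩
      have hz := hinj huq
      refine ⟨v 1 / w 1, ?_⟩
      ext i; fin_cases i
      · simp only [Fin.zero_eta, Pi.smul_apply, smul_eq_mul]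
        rw [div_eq_div_iff hv1 hw1] at hz
        field_simp
        linear_combination -hz
      · simp [hw1]
  have hΦsurj : Function.Surjective Φ := by
    intro z
    by_cases hz : z = base T
    · exact ⟨Projectivization.mk K ![1, 0] (by simp), by rw [hΦ, pointMap_mk, hz]; simp⟩
    · obtain ⟨t, ⟨ht, hte⟩, -⟩ := S.regular hne.symm hz
      obtain ⟨x, rfl⟩ := (hmem t).1 ht
      exact ⟨Projectivization.mk K ![x, 1] (by simp), by rw [hΦ, pointMap_mk]; simpa using hte⟩
  -- every element acts as a matrix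
  let good : Subgroup G :=
    { carrier := {g | ∃ A : Matrix.SpecialLinearGroup (Fin 2) K, ∀ p, g • Φ p = Φ (A • p)}
      one_mem' := ⟨1, fun p => by rw [one_smul, one_smul]⟩
      mul_mem' := by
        rintro a b ⟨A, hA⟩ ⟨B, hB⟩
        exact ⟨A * B, fun p => by rw [mul_smul, hB, hA, mul_smul]⟩
      inv_mem' := by
        rintro a ⟨A, hA⟩
        exact ⟨A⁻¹, fun p => by rw [inv_smul_eq_iff, hA, smul_inv_smul]⟩ }
  have hexp : ∀ (A : Matrix.SpecialLinearGroup (Fin 2) K) (v : Fin 2 → K),
      (A • v) = ![A.1 0 0 * v 0 + A.1 0 1 * v 1, A.1 1 0 * v 0 + A.1 1 1 * v 1] := fun A v => by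
    ext i
    fin_cases i <;> simp [Matrix.SpecialLinearGroup.smul_def, Matrix.smul_eq_mulVec, Matrix.mulVec, dotProduct,
      Fin.sum_univ_two]
  have hT : ∀ a, ι a ∈ good := by
    intro a
    refine ⟨sl2 !![1, a; 0, 1] (by simp [Matrix.det_fin_two_of]), fun p => ?_⟩
    induction p using Projectivization.ind with | _ v hv =>
    rw [hΦ, Projectivization.smul_mk, pointMap_mk, pointMap_mk]
    simp only [hexp]
    simp only [sl2]
    simp
    by_cases hv1 : v 1 = 0
    · simp [hv1, hιb]
    · simp only [hv1, if_false]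
      rw [smul_smul, ← hadd]
      congr 2
      field_simp
      ring
  have hsqrt : ∀ s : K, ∃ r, r * r = s := fun s => by
    obtain ⟨r, hr⟩ := FiniteField.isSquare_of_char_two hchar s
    exact ⟨r, hr.symm⟩
  have hD : ∀ d ∈ two T u, d ∈ good := by
    intro d hd
    obtain ⟨s, hs, hconj⟩ := hmul d hd
    obtain ⟨r, hr⟩ := hsqrt s
    have hr0 : r ≠ 0 := fun h => hs (by rw [← hr, h, mul_zero])
    refine ⟨sl2 !![r, 0; 0, r⁻¹] (by rw [Matrix.det_fin_two_of]; field_simp; ring), fun p => ?_⟩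
    induction p using Projectivization.ind with | _ v hv =>
    rw [hΦ, Projectivization.smul_mk, pointMap_mk, pointMap_mk]
    simp only [hexp]
    simp only [sl2]
    simp
    by_cases hv1 : v 1 = 0
    · simp [hv1, smul_base.2 (mem_two_iff.1 hd).1]
    · simp only [hv1, if_false, hr0, or_false]
      have e : (r * v 0 / (r⁻¹ * v 1)) = s * (v 0 / v 1) := by rw [← hr]; field_simp
      rw [e, ← hconj]
      conv_rhs => rw [mul_smul, mul_smul, show d⁻¹ • xu = xu from (mem_two_iff.1 (inv_mem hd)).2]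
  -- the involution
  obtain ⟨c, hc⟩ : ∃ c, u • ι 1 • xu = ι c • xu := by
    have h1 : u • ι 1 • xu ≠ base T := by
      intro h
      have h2 : ι 1 • xu = u • base T := by rw [← h, smul_smul u u, CfsgLib.Involution.mul_self hu, one_smul]
      rw [hub] at h2
      have h3 := hinj ((S.regular hne.symm hne.symm).unique ⟨hιT 1, h2⟩ ⟨hιT 0, by rw [hι0, one_smul]⟩)
      exact one_ne_zero h3
    obtain ⟨t, ⟨ht, hte⟩, -⟩ := S.regular hne.symm h1
    obtain ⟨x, rfl⟩ := (hmem t).1 ht
    exact ⟨x, hte.symm⟩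
  have hc0 : c ≠ 0 := by
    intro h
    rw [h, hι0, one_smul] at hc
    exact hoff 1 (MulAction.injective u (hc.trans hub.symm))
  have hact : ∀ x : K, x ≠ 0 → u • ι x • xu = ι (c / x) • xu := by
    intro x hx
    obtain ⟨d, hd, hde⟩ := (Cfsg.Agent.S1225.result (nrm T) S.se u hu huH (ι 1) (ι x)
      (S.orderOf_mem (hιT 1) (fun h => one_ne_zero (hinj (h.trans hι0.symm)))) (Subgroup.le_normalizer (hιT 1))
      (S.orderOf_mem (hιT x) (fun h => hx (hinj (h.trans hι0.symm)))) (Subgroup.le_normalizer (hιT x))).1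
    have hd' : d ∈ two T u := hd
    obtain ⟨s, hs, hconj⟩ := hmul d hd'
    obtain ⟨s', hs', hconj'⟩ := hmul d⁻¹ (inv_mem hd')
    have hsx : s = x := by
      have := hinj ((hconj 1).symm.trans hde)
      rwa [mul_one] at this
    have hss : s' * s = 1 := by
      have h1 : d⁻¹ * (d * ι 1 * d⁻¹) * d⁻¹⁻¹ = ι 1 := by group
      rw [hconj 1, hconj'] at h1
      have := hinj h1
      rwa [mul_one] at this
    have hdfix : ∀ k ∈ two T u, k • xu = xu := fun k hk => (mem_two_iff.1 hk).2
    have e1 : ι x • xu = d • ι 1 • xu := by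
      rw [← hde, mul_smul, mul_smul, hdfix _ (inv_mem hd')]
    have e2 : u * d = d⁻¹ * u := mul_inv_eq_iff_eq_mul.1 (S.invert hu huH d hd')
    have e3 : ι (c / x) = d⁻¹ * ι c * d := by
      have h1 := hconj' c
      rw [inv_inv] at h1
      rw [h1]
      congr 1
      rw [← hsx, div_eq_mul_inv, mul_comm, inv_eq_of_mul_eq_one_left hss]
    rw [e1, smul_smul u d, e2, mul_smul, hc, e3, mul_smul, mul_smul, hdfix _ hd']
  have hU : u ∈ good := by
    obtain ⟨r, hr⟩ := hsqrt c
    have hr0 : r ≠ 0 := fun h => hc0 (by rw [← hr, h, mul_zero])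
    refine ⟨sl2 !![0, r; r⁻¹, 0] (by
      rw [Matrix.det_fin_two_of, mul_inv_cancel₀ hr0, zero_mul, zero_sub, CharTwo.neg_eq]), fun p => ?_⟩
    induction p using Projectivization.ind with | _ v hv =>
    rw [hΦ, Projectivization.smul_mk, pointMap_mk, pointMap_mk]
    simp only [hexp]
    simp only [sl2]
    simp
    by_cases hv1 : v 1 = 0
    · have hv0 : v 0 ≠ 0 := fun h0 => hv (by ext i; fin_cases i <;> assumption)
      simp [hv1, hv0, hr0, hub, hι0]
    · by_cases hv0 : v 0 = 0
      · simp [hv1, hv0, hι0, huu]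
      · simp only [hv1, hv0, hr0, if_false, or_false, or_self]
        rw [hact _ (div_ne_zero hv0 hv1)]
        congr 2
        rw [← hr]
        field_simp
  have hall : ∀ g : G, g ∈ good := by
    have hH : ∀ h ∈ nrm T, h ∈ good := fun h hh => by
      obtain ⟨t, ht, d, hd, rfl⟩ := S.decomp hu huH hh
      obtain ⟨x, rfl⟩ := (hmem t).1 ht
      exact mul_mem (hT x) (hD d hd)
    intro g
    by_cases hg : g • base T = base T
    · exact hH g (smul_base.1 hg)
    · obtain ⟨t, ⟨ht, hte⟩, -⟩ := S.regular hne.symm hg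
      obtain ⟨x, rfl⟩ := (hmem t).1 ht
      have h1 : (u * (ι x)⁻¹ * g) • base T = base T := by
        rw [mul_smul, mul_smul, ← hte, inv_smul_smul, huu]
      have h2 := mul_mem (mul_mem (hT x) (inv_mem hU)) (hH _ (smul_base.1 h1))
      have e : g = ι x * u⁻¹ * (u * (ι x)⁻¹ * g) := by group
      rw [e]
      exact h2
  choose ψ hψ using hall
  have huniq : ∀ A B : Matrix.SpecialLinearGroup (Fin 2) K,
      A • Projectivization.mk K ![(1 : K), 0] (by simp) = B • Projectivization.mk K ![(1 : K), 0] (by simp) →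
      A • Projectivization.mk K ![(0 : K), 1] (by simp) = B • Projectivization.mk K ![(0 : K), 1] (by simp) →
      A • Projectivization.mk K ![(1 : K), 1] (by simp) = B • Projectivization.mk K ![(1 : K), 1] (by simp) →
      A = B := by
    intro A B h0 h1 h2
    have := fix_three (B⁻¹ * A) (by rw [mul_smul, h0, inv_smul_smul]) (by rw [mul_smul, h1, inv_smul_smul])
      (by rw [mul_smul, h2, inv_smul_smul])
    exact (inv_mul_eq_one.1 this).symm
  let f : G →* Matrix.SpecialLinearGroup (Fin 2) K := MonoidHom.mk' ψ fun a b =>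
    huniq _ _ (hΦinj (by rw [← hψ, mul_smul, mul_smul, hψ b, hψ a]))
      (hΦinj (by rw [← hψ, mul_smul, mul_smul, hψ b, hψ a]))
      (hΦinj (by rw [← hψ, mul_smul, mul_smul, hψ b, hψ a]))
  obtain ⟨htrans, hfree, -⟩ := Cfsg.Agent.S1229.result T S.hnc S.hnn S.hC
  have n01 : Projectivization.mk K ![(1 : K), 0] (by simp) ≠ Projectivization.mk K ![(0 : K), 1] (by simp) := by
    simp [Projectivization.mk_eq_mk_iff', funext_iff, Fin.forall_fin_two]
  have n02 : Projectivization.mk K ![(1 : K), 0] (by simp) ≠ Projectivization.mk K ![(1 : K), 1] (by simp) := by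
    simp [Projectivization.mk_eq_mk_iff', funext_iff, Fin.forall_fin_two]
  have n12 : Projectivization.mk K ![(0 : K), 1] (by simp) ≠ Projectivization.mk K ![(1 : K), 1] (by simp) := by
    simp [Projectivization.mk_eq_mk_iff', funext_iff, Fin.forall_fin_two]
  refine ⟨MulEquiv.ofBijective f ⟨(injective_iff_map_eq_one f).2 fun g hg => ?_, fun A => ?_⟩⟩
  · have key : ∀ p, g • Φ p = Φ p := fun p => by
      rw [hψ g p, show ψ g = 1 from hg, one_smul]
    exact hfree g _ _ _ (hΦinj.ne n01) (hΦinj.ne n02) (hΦinj.ne n12) (key _) (key _) (key _)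
  · obtain ⟨g, g0, g1, g2⟩ := htrans _ _ _ _ _ _ (hΦinj.ne n01) (hΦinj.ne n02) (hΦinj.ne n12)
      (hΦinj.ne ((MulAction.injective A).ne n01)) (hΦinj.ne ((MulAction.injective A).ne n02))
      (hΦinj.ne ((MulAction.injective A).ne n12))
    exact ⟨g, huniq _ _ (hΦinj ((hψ g _).symm.trans g0)) (hΦinj ((hψ g _).symm.trans g1))
      (hΦinj ((hψ g _).symm.trans g2))⟩

end CfsgLib.CTTwo.Setting
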