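import Mathlib

/-! Groups in which every `p`-element is central in some Sylow `p`-subgroup. -/

set_option autoImplicit false

namespace CfsgLib.CentralPElements

open Subgroup

variable {G : Type*} [Group G] [Finite G] {p : ℕ} [Fact p.Prime]

theorem card_mul_relIndex' {H K : Subgroup G} (h : H ≤ K) :
    Nat.card H * H.relIndex K = Nat.card K := by
  rw [← Subgroup.relIndex_bot_left H, ← Subgroup.relIndex_bot_left K,
    Subgroup.relIndex_mul_relIndex _ _ _ bot_le h]

theorem relIndex_sup_of_normal (T N : Subgroup G) [N.Normal] :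
    T.relIndex (T ⊔ N) = T.relIndex N := by
  have h1 : N.relIndex (T ⊔ N) * Nat.card N = T.relIndex (T ⊔ N) * Nat.card T := by
    rw [mul_comm, mul_comm (T.relIndex _), card_mul_relIndex' (le_sup_right),
      card_mul_relIndex' (le_sup_left)]
  have h2 : Nat.card (T ⊓ N : Subgroup G) * T.relIndex N = Nat.card N := by
    rw [← Subgroup.inf_relIndex_right, card_mul_relIndex' inf_le_right]
  have h3 : Nat.card (T ⊓ N : Subgroup G) * N.relIndex T = Nat.card T := by
    rw [← Subgroup.inf_relIndex_left, card_mul_relIndex' inf_le_left]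
  rw [Subgroup.relIndex_sup_right] at h1
  have hpos : 0 < Nat.card T := Nat.card_pos
  apply Nat.eq_of_mul_eq_mul_right hpos
  rw [← h1, ← h2, ← h3]
  ring

theorem comm_of_comm_pPart {T M H : Subgroup G} (hle : T ≤ M) (hTp : IsPGroup p T)
    (hTM : ¬ p ∣ T.relIndex M) (hT : ∀ a ∈ T, ∀ b ∈ T, a * b = b * a) (hHM : H ≤ M)
    (hH : IsPGroup p H) : ∀ a ∈ H, ∀ b ∈ H, a * b = b * a := by
  have h1 : IsPGroup p (T.subgroupOf M) := hTp.of_equiv (Subgroup.subgroupOfEquivOfLe hle).symm
  have h2 : IsPGroup p (H.subgroupOf M) := hH.of_equiv (Subgroup.subgroupOfEquivOfLe hHM).symm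
  obtain ⟨S, hS⟩ := h2.exists_le_sylow
  obtain ⟨g, hg⟩ := MulAction.exists_smul_eq M (h1.toSylow hTM) S
  intro x hx q hq
  have hxS : (⟨x, hHM hx⟩ : M) ∈ (S : Subgroup M) := hS hx
  have hqS : (⟨q, hHM hq⟩ : M) ∈ (S : Subgroup M) := hS hq
  rw [← hg] at hxS hqS
  obtain ⟨a, ha, ea⟩ := hxS
  obtain ⟨b, hb, eb⟩ := hqS
  have e : a * b = b * a := Subtype.ext (hT _ ha _ hb)
  have := congrArg (MulAut.conj g) e
  rw [map_mul, map_mul] at this
  have ea' : MulAut.conj g a = ⟨x, hHM hx⟩ := ea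
  have eb' : MulAut.conj g b = ⟨q, hHM hq⟩ := eb
  rw [ea', eb'] at this
  exact congrArg Subtype.val this

/-- The centraliser condition. -/
def HasCentralPElements (p : ℕ) (G : Type*) [Group G] : Prop :=
  ∀ x : G, (∃ k : ℕ, orderOf x = p ^ k) → ¬ p ∣ (Subgroup.centralizer ({x} : Set G)).index

theorem exists_sylow_centralizing (h : HasCentralPElements p G) (x : G)
    (hx : ∃ k : ℕ, orderOf x = p ^ k) :
    ∃ R : Sylow p G, x ∈ (R : Subgroup G) ∧ (R : Subgroup G) ≤ centralizer ({x} : Set G) := by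
  obtain ⟨k, hk⟩ := hx
  set C := centralizer ({x} : Set G) with hC
  have hxC : x ∈ C := by rw [hC, mem_centralizer_singleton_iff]
  have hz : IsPGroup p (zpowers (⟨x, hxC⟩ : C)) := IsPGroup.of_card (n := k) (by
    rw [Nat.card_zpowers, ← Subgroup.orderOf_coe, hk])
  obtain ⟨S, hS⟩ := hz.exists_le_sylow
  have hcard : Nat.card ((S : Subgroup C).map C.subtype) = p ^ (Nat.card G).factorization p := by
    rw [Subgroup.card_map_of_injective C.subtype_injective, S.card_eq_multiplicity]
    congr 1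
    have := C.card_mul_index
    rw [← this, Nat.factorization_mul Nat.card_pos.ne' C.index_ne_zero_of_finite,
      Finsupp.add_apply, Nat.factorization_eq_zero_of_not_dvd (h x ⟨k, hk⟩), add_zero]
  refine ⟨Sylow.ofCard ((S : Subgroup C).map C.subtype) hcard, ?_, ?_⟩
  · exact ⟨⟨x, hxC⟩, hS (mem_zpowers _), rfl⟩
  · exact Subgroup.map_subtype_le _

theorem inherit_normal (h : HasCentralPElements p G) (N : Subgroup G) [N.Normal] :
    HasCentralPElements p N := by
  intro x hx
  rw [← orderOf_coe] at hx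
  have e : (centralizer ({x} : Set N)) = (centralizer ({(x : G)} : Set G)).subgroupOf N := by
    ext y
    simp only [mem_centralizer_singleton_iff, mem_subgroupOf]
    exact ⟨fun e => congrArg Subtype.val e, fun e => Subtype.ext e⟩
  intro hd
  apply h x hx
  rw [e] at hd
  change p ∣ (centralizer ({(x : G)} : Set G)).relIndex N at hd
  rw [← relIndex_sup_of_normal] at hd
  exact hd.trans (Dvd.intro _ (relIndex_mul_index
    (le_sup_left : centralizer ({(x : G)} : Set G) ≤ centralizer ({(x : G)} : Set G) ⊔ N)))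

theorem exists_lift (N : Subgroup G) [N.Normal] (x : G ⧸ N) (hx : ∃ k : ℕ, orderOf x = p ^ k) :
    ∃ y : G, (∃ k : ℕ, orderOf y = p ^ k) ∧ QuotientGroup.mk' N y = x := by
  obtain ⟨k, hk⟩ := hx
  have hz : IsPGroup p (zpowers x) := IsPGroup.of_card (n := k) (by rw [Nat.card_zpowers, hk])
  obtain ⟨S, hS⟩ := hz.exists_le_sylow
  obtain ⟨P, rfl⟩ := Sylow.mapSurjective_surjective (QuotientGroup.mk'_surjective N) p S
  obtain ⟨y, hy, rfl⟩ := hS (mem_zpowers x)
  refine ⟨y, ?_, rfl⟩
  obtain ⟨j, hj⟩ := (IsPGroup.iff_orderOf.mp P.2) ⟨y, hy⟩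
  exact ⟨j, by rw [← Subgroup.orderOf_mk y hy, hj]⟩

theorem inherit_quotient (h : HasCentralPElements p G) (N : Subgroup G) [N.Normal] :
    HasCentralPElements p (G ⧸ N) := by
  intro x hx hd
  obtain ⟨y, hy, rfl⟩ := exists_lift N x hx
  apply h y hy
  refine (hd.trans ?_).trans
    ((centralizer ({y} : Set G)).index_map_dvd (QuotientGroup.mk'_surjective N))
  apply Subgroup.index_dvd_of_le
  rintro _ ⟨z, hz, rfl⟩
  rw [SetLike.mem_coe, mem_centralizer_singleton_iff] at hz
  rw [mem_centralizer_singleton_iff]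
  rw [← map_mul, hz, map_mul]

/-- If every `p`-element is central in a Sylow subgroup, and a normal subgroup and its quotient
have abelian Sylow `p`-subgroups, then so has the group. -/
theorem sylow_comm (h : HasCentralPElements p G) (N : Subgroup G) [N.Normal]
    (hN : ∀ Q : Sylow p N, IsMulCommutative Q)
    (hQ : ∀ Q : Sylow p (G ⧸ N), IsMulCommutative Q) (P : Sylow p G) :
    IsMulCommutative (P : Subgroup G) := by
  have hxp : ∀ x ∈ (P : Subgroup G), ∃ k : ℕ, orderOf x = p ^ k := by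
    intro x hx
    obtain ⟨j, hj⟩ := (IsPGroup.iff_orderOf.mp P.2) ⟨x, hx⟩
    exact ⟨j, by rw [← Subgroup.orderOf_mk x hx, hj]⟩
  have hNab : ∀ A : Subgroup G, A ≤ N → IsPGroup p A →
      ∀ a ∈ A, ∀ b ∈ A, a * b = b * a := by
    intro A hAN hA a ha b hb
    have hA' : IsPGroup p (A.subgroupOf N) := hA.of_equiv (Subgroup.subgroupOfEquivOfLe hAN).symm
    obtain ⟨Q, hle⟩ := hA'.exists_le_sylow
    haveI := hN Q
    have e : (⟨⟨a, hAN ha⟩, hle ha⟩ : (Q : Subgroup N)) * ⟨⟨b, hAN hb⟩, hle hb⟩ =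
        ⟨⟨b, hAN hb⟩, hle hb⟩ * ⟨⟨a, hAN ha⟩, hle ha⟩ := mul_comm' _ _
    exact congrArg (fun z : (Q : Subgroup N) => ((z : N) : G)) e
  -- elements of `P` centralise `P ∩ N`
  have hcen : ∀ x ∈ (P : Subgroup G), ∀ q ∈ (P : Subgroup G) ⊓ N, x * q = q * x := by
    intro x hx q hq
    obtain ⟨R, hxR, hRC⟩ := exists_sylow_centralizing h x (hxp x hx)
    set T : Subgroup G := zpowers x ⊔ ((R : Subgroup G) ⊓ N) with hT
    have hTR : T ≤ (R : Subgroup G) := sup_le (zpowers_le.mpr hxR) inf_le_left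
    have hTcomm : ∀ a ∈ T, ∀ b ∈ T, a * b = b * a := by
      have : T ≤ centralizer (T : Set G) := by
        have key : ∀ a ∈ T, x * a = a * x := fun a ha =>
          (mem_centralizer_singleton_iff.mp (hRC (hTR ha))).symm
        refine sup_le (zpowers_le.mpr ?_) ?_
        · exact fun a ha => (key a ha).symm
        · intro r hr
          have : T ≤ centralizer ({r} : Set G) := by
            refine sup_le (zpowers_le.mpr ?_) ?_
            · rw [mem_centralizer_singleton_iff]
              exact (mem_centralizer_singleton_iff.mp (hRC hr.1)).symm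
            · intro s hs
              rw [mem_centralizer_singleton_iff]
              exact hNab _ inf_le_right (R.2.to_le inf_le_left) s hs r hr
          intro a ha
          exact (mem_centralizer_singleton_iff.mp (this ha))
      intro a ha b hb
      exact (this hb a ha)
    set M : Subgroup G := T ⊔ N with hM
    have hTp : IsPGroup p T := R.2.to_le hTR
    have hTM : ¬ p ∣ T.relIndex M := by
      rw [hM, relIndex_sup_of_normal]
      intro hd
      refine R.not_dvd_index (hd.trans ?_)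
      have h1 : T.relIndex N ∣ ((R : Subgroup G) ⊓ N).relIndex N :=
        Subgroup.relIndex_dvd_of_le_left N le_sup_right
      rw [Subgroup.inf_relIndex_right, ← relIndex_sup_of_normal (R : Subgroup G) N] at h1
      exact h1.trans (Dvd.intro _ (relIndex_mul_index
        (le_sup_left : (R : Subgroup G) ≤ (R : Subgroup G) ⊔ N)))
    set H : Subgroup G := zpowers x ⊔ ((P : Subgroup G) ⊓ N) with hH
    have hHP : H ≤ (P : Subgroup G) := sup_le (zpowers_le.mpr hx) inf_le_left
    have hxT : x ∈ T := le_sup_left (b := (R : Subgroup G) ⊓ N) (mem_zpowers x)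
    have hxM : x ∈ M := le_sup_left (b := N) hxT
    have hHM : H ≤ M := sup_le (zpowers_le.mpr hxM) (inf_le_right.trans le_sup_right)
    exact comm_of_comm_pPart (M := M) (T := T) le_sup_left hTp hTM hTcomm hHM (P.2.to_le hHP)
      x (le_sup_left (b := (P : Subgroup G) ⊓ N) (mem_zpowers x))
      q (le_sup_right (a := zpowers x) hq)
  refine ⟨⟨?_⟩⟩
  rintro ⟨x, hx⟩ ⟨u, hu⟩
  apply Subtype.ext
  show x * u = u * x
  obtain ⟨R, hxR, hRC⟩ := exists_sylow_centralizing h x (hxp x hx)
  set f := QuotientGroup.mk' N with hf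
  set D : Subgroup G := (centralizer ({f x} : Set (G ⧸ N))).comap f with hD
  have hle : ∀ S : Sylow p G, x ∈ (S : Subgroup G) → (S : Subgroup G) ≤ D := by
    intro S hxS s hs
    haveI := hQ (S.mapSurjective (QuotientGroup.mk'_surjective N))
    rw [hD, mem_comap, mem_centralizer_singleton_iff]
    have e : (⟨f s, ⟨s, hs, rfl⟩⟩ : (S.mapSurjective (QuotientGroup.mk'_surjective N) : Subgroup (G ⧸ N)))
        * ⟨f x, ⟨x, hxS, rfl⟩⟩ = ⟨f x, ⟨x, hxS, rfl⟩⟩ * ⟨f s, ⟨s, hs, rfl⟩⟩ := mul_comm' _ _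
    exact congrArg Subtype.val e
  obtain ⟨g, hg⟩ := MulAction.exists_smul_eq D (R.subtype (hle R hxR)) (P.subtype (hle P hx))
  have hgP : ∀ r ∈ (R : Subgroup G), (g : G) * r * (g : G)⁻¹ ∈ (P : Subgroup G) := by
    intro r hr
    have : MulAut.conj g (⟨r, hle R hxR hr⟩ : D) ∈
        ((g • R.subtype (hle R hxR) : Sylow p D) : Subgroup D) := ⟨⟨r, hle R hxR hr⟩, hr, rfl⟩
    rw [hg] at this
    exact this
  have hgP' : ∀ u ∈ (P : Subgroup G), ∃ r ∈ (R : Subgroup G), u = (g : G) * r * (g : G)⁻¹ := by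
    intro u hu
    have : (⟨u, hle P hx hu⟩ : D) ∈ ((g • R.subtype (hle R hxR) : Sylow p D) : Subgroup D) := by
      rw [hg]; exact hu
    obtain ⟨r, hr, e⟩ := this
    exact ⟨r, hr, (congrArg Subtype.val e).symm⟩
  set y : G := (g : G) * x * (g : G)⁻¹ with hy
  have hyP : y ∈ (P : Subgroup G) := hgP x hxR
  have hycen : ∀ u ∈ (P : Subgroup G), y * u = u * y := by
    intro u hu
    obtain ⟨r, hr, rfl⟩ := hgP' u hu
    have := (mem_centralizer_singleton_iff.mp (hRC hr))
    calc y * ((g:G) * r * (g:G)⁻¹) = (g:G) * (x * r) * (g:G)⁻¹ := by rw [hy]; group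
      _ = (g:G) * (r * x) * (g:G)⁻¹ := by rw [this]
      _ = (g:G) * r * (g:G)⁻¹ * y := by rw [hy]; group
  have hm : x⁻¹ * y ∈ (P : Subgroup G) ⊓ N := by
    refine ⟨mul_mem ((P : Subgroup G).inv_mem hx) hyP, ?_⟩
    show x⁻¹ * y ∈ N
    rw [← QuotientGroup.eq_one_iff]
    have hgD : f g * f x = f x * f g := mem_centralizer_singleton_iff.mp g.2
    show f (x⁻¹ * y) = 1
    rw [hy, map_mul, map_mul, map_mul, map_inv, map_inv, hgD]
    group
  have e1 := hycen u hu
  have e2 := hcen u hu _ hm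
  calc x * u = x * u * (x⁻¹ * y) * (x⁻¹ * y)⁻¹ := by group
    _ = x * ((x⁻¹ * y) * u) * (x⁻¹ * y)⁻¹ := by rw [mul_assoc x u, e2]
    _ = y * u * (x⁻¹ * y)⁻¹ := by group
    _ = u * y * (x⁻¹ * y)⁻¹ := by rw [e1]
    _ = u * x := by group

end CfsgLib.CentralPElements
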