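import Mathlib
import Cfsg.Agent.Lib.CoherenceFeit

/-! Building coherent sets: from images, and by adding characters one at a time. -/

set_option autoImplicit false

namespace CfsgLib.CoherenceGlue

open Cfsg CfsgLib.Chars CfsgLib.Virtual CfsgLib.Coherence

universe u v

variable {L : Type u} [Group L] [Fintype L] {G : Type v} [Group G] [Fintype G]

/-- Orthonormal images compatible with `τ` on the differences against one character. -/
theorem coherent_of_images (T : Finset (L → ℂ)) (hirr : ∀ x ∈ T, IsIrrCharacter L x) (η : L → ℂ) (hη : η ∈ T)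
    (k : (L → ℂ) → ℤ) (hk : ∀ x ∈ T, x 1 = (k x : ℂ) * η 1) (hne : ∃ x ∈ T, x ≠ η)
    {τ : (L → ℂ) → (G → ℂ)} (hτ : IsLinearIsometryOn (zspanOn (↑T : Set (L → ℂ)) {1}ᶜ) τ)
    (F : (L → ℂ) → (G → ℂ)) (hFv : ∀ x ∈ T, IsGeneralizedCharacter G (F x))
    (hFo : ∀ x ∈ T, ∀ y ∈ T, classInner (F x) (F y) = classInner x y)
    (hFτ : ∀ x ∈ T, x ≠ η → τ (x - k x • η) = F x - k x • F η) :
    IsCoherent (↑T : Set (L → ℂ)) {1}ᶜ τ := by
  classical
  obtain ⟨τ₁, hτ₁, hτ₁e⟩ := exists_extension T (fun x hx y hy h => inner_irr_ne (hirr x hx) (hirr y hy) h)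
    (fun x hx => by rw [inner_irr_self (hirr x hx)]; exact one_ne_zero) F hFv hFo
  have hη1 : η 1 ≠ 0 := irr_one_ne_zero (⟨η, hirr η hη⟩ : IrrCharacter L)
  have hzero : (0 : L → ℂ) ∈ zspanOn (↑T : Set (L → ℂ)) {1}ᶜ := mem_zspanOn_one.2 ⟨zspan_zero _, rfl⟩
  have hb : ∀ x ∈ T, x - k x • η ∈ zspanOn (↑T : Set (L → ℂ)) {1}ᶜ := fun x hx => mem_zspanOn_one.2
    ⟨zspan_sub (mem_zspan hx) (zspan_zsmul _ (mem_zspan hη)), by
      rw [Pi.sub_apply, Pi.smul_apply, hk x hx, zsmul_eq_mul]; ring⟩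
  have hkη : k η = 1 := by
    have h := hk η hη
    have : ((k η : ℂ) - 1) * η 1 = 0 := by linear_combination -h
    exact_mod_cast sub_eq_zero.1 ((mul_eq_zero.1 this).resolve_right hη1)
  have hbase : ∀ x ∈ T, τ₁ (x - k x • η) = τ (x - k x • η) := fun x hx => by
    by_cases h : x = η
    · subst h
      rw [hkη, one_smul, sub_self, iso_zero hτ₁ (zspan_zero _), iso_zero hτ hzero]
    · rw [hFτ x hx h, iso_sub hτ₁ (mem_zspan hx) (zspan_neg (zspan_zsmul _ (mem_zspan hη)))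
        (zspan_zsmul _ (mem_zspan hη)), hτ₁.2.1 _ (mem_zspan hη), hτ₁e x hx, hτ₁e η hη]
  refine ⟨?_, τ₁, hτ₁, fun α hα => ?_⟩
  · obtain ⟨x, hx, hxη⟩ := hne
    refine ⟨_, hb x hx, fun h => ?_⟩
    have h2 := congrArg (fun f => classInner f x) h
    simp only [ci_sub_left, ci_zsmul_left, ci_zero_left, inner_irr_self (hirr x hx),
      inner_irr_ne (hirr η hη) (hirr x hx) (Ne.symm hxη), mul_zero, sub_zero] at h2
    exact one_ne_zero h2
  obtain ⟨n, hn, hn'⟩ : ∃ n : ℤ, (α - n • η) ∈ zspanOn (↑T : Set (L → ℂ)) {1}ᶜ ∧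
      τ₁ (α - n • η) = τ (α - n • η) := by
    refine zspan_induction (p := fun a => ∃ n : ℤ, (a - n • η) ∈ zspanOn (↑T : Set (L → ℂ)) {1}ᶜ ∧
      τ₁ (a - n • η) = τ (a - n • η)) ?_ ?_ ?_ ?_ hα.1
    · intro x hx
      exact ⟨k x, hb x hx, hbase x hx⟩
    · exact ⟨0, by rw [zero_smul, sub_zero]; exact ⟨hzero, by rw [iso_zero hτ₁ (zspan_zero _), iso_zero hτ hzero]⟩⟩
    · rintro a b - - ⟨n, hn, hn'⟩ ⟨m, hm, hm'⟩
      refine ⟨n + m, ?_⟩
      rw [show a + b - (n + m) • η = (a - n • η) + (b - m • η) by rw [add_smul]; abel]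
      exact ⟨mem_zspanOn_one.2 ⟨zspan_add hn.1 hm.1, by
        rw [Pi.add_apply, (mem_zspanOn_one.1 hn).2, (mem_zspanOn_one.1 hm).2, add_zero]⟩,
        by rw [hτ₁.1 _ hn.1 _ hm.1, hτ.1 _ hn _ hm, hn', hm']⟩
    · rintro c a - ⟨n, hn, hn'⟩
      refine ⟨c * n, ?_⟩
      rw [show c • a - (c * n) • η = c • (a - n • η) by rw [smul_sub, mul_smul]]
      exact ⟨mem_zspanOn_one.2 ⟨zspan_zsmul _ hn.1, by rw [Pi.smul_apply, (mem_zspanOn_one.1 hn).2, smul_zero]⟩,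
        by rw [hτ₁.2.1 _ hn.1, hτ.2.1 _ hn, hn']⟩
  have h1 := (mem_zspanOn_one.1 hn).2
  rw [Pi.sub_apply, Pi.smul_apply, (mem_zspanOn_one.1 hα).2, zero_sub, neg_eq_zero, smul_eq_zero] at h1
  rw [h1.resolve_right hη1, zero_smul, sub_zero] at hn'
  exact hn'

/-- Adding characters in the order of their degrees. -/
theorem coherent_grow (S B : Finset (L → ℂ)) (hBS : B ⊆ S) (hirr : ∀ x ∈ S, IsIrrCharacter L x)
    (d : (L → ℂ) → ℕ) (hd : ∀ x ∈ S, x 1 = (d x : ℂ))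
    {τ : (L → ℂ) → (G → ℂ)} (hτ : IsLinearIsometryOn (zspanOn (↑S : Set (L → ℂ)) {1}ᶜ) τ)
    (hτ1 : ∀ α ∈ zspanOn (↑S : Set (L → ℂ)) {1}ᶜ, τ α 1 = 0)
    (hcoh : IsCoherent (↑B : Set (L → ℂ)) {1}ᶜ τ) (ψ : L → ℂ) (hψ : ψ ∈ B)
    (hdvd : ∀ χ ∈ S, d ψ ∣ d χ)
    (hlt : ∀ χ ∈ S, χ ∉ B → 2 * d ψ * d χ < ∑ ξ ∈ S.filter (fun ξ => ξ ∈ B ∨ d ξ < d χ), d ξ ^ 2) :
    IsCoherent (↑S : Set (L → ℂ)) {1}ᶜ τ := by
  classical
  suffices h : ∀ n : ℕ, ∀ T : Finset (L → ℂ), T.card = n → T ⊆ S → B ⊆ T →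
      (∀ χ ∈ T, χ ∉ B → ∀ ξ ∈ S, d ξ < d χ → ξ ∈ T) → IsCoherent (↑T : Set (L → ℂ)) {1}ᶜ τ from
    h S.card S rfl subset_rfl hBS fun _ _ _ ξ hξ _ => hξ
  intro n
  induction n with
  | zero =>
    intro T hT _ hBT _
    rw [Finset.card_eq_zero] at hT
    subst hT
    exact absurd (hBT hψ) (Finset.notMem_empty ψ)
  | succ n ih =>
    intro T hT hTS hBT hdown
    by_cases heq : T = B
    · subst heq; exact hcoh
    obtain ⟨χ, hχ, hmax⟩ := Finset.exists_max_image (T \ B) d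
      (Finset.sdiff_nonempty.2 fun h => heq (Finset.Subset.antisymm h hBT))
    obtain ⟨hχT, hχB⟩ := Finset.mem_sdiff.1 hχ
    have hins : insert χ (T.erase χ) = T := Finset.insert_erase hχT
    have hB' : B ⊆ T.erase χ := fun x hx => Finset.mem_erase.2 ⟨fun e => hχB (e ▸ hx), hBT hx⟩
    have hc := ih (T.erase χ) (by rw [Finset.card_erase_of_mem hχT, hT]; rfl)
      ((Finset.erase_subset _ _).trans hTS) hB' fun x hx hxB ξ hξ hlt' => by
        refine Finset.mem_erase.2 ⟨fun e1 => ?_, hdown x (Finset.mem_of_mem_erase hx) hxB ξ hξ hlt'⟩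
        have := hmax x (Finset.mem_sdiff.2 ⟨Finset.mem_of_mem_erase hx, hxB⟩)
        rw [e1] at hlt'
        omega
    have hsub : zspanOn (↑T : Set (L → ℂ)) {1}ᶜ ⊆ zspanOn (↑S : Set (L → ℂ)) {1}ᶜ := fun α hα =>
      ⟨zspan_mono (Finset.coe_subset.2 hTS) hα.1, hα.2⟩
    rw [← hins] at hsub ⊢
    refine CfsgLib.CoherenceFeit.coherent_step (T.erase χ) χ (fun x hx => hirr x (hTS (Finset.mem_of_mem_erase hx)))
      (hirr χ (hTS hχT)) (Finset.notMem_erase χ T) d (fun x hx => hd x (hTS (hins ▸ hx))) τ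
      ⟨fun a ha b hb => hτ.1 a (hsub ha) b (hsub hb), fun a ha => hτ.2.1 a (hsub ha),
        fun a ha b hb => hτ.2.2.1 a (hsub ha) b (hsub hb), fun a ha => hτ.2.2.2 a (hsub ha)⟩
      (fun a ha => hτ1 a (hsub ha)) hc ψ (hB' hψ) (hdvd χ (hTS hχT)) (lt_of_lt_of_le (hlt χ (hTS hχT) hχB) ?_)
    refine Finset.sum_le_sum_of_subset fun ξ hξ => ?_
    obtain ⟨hξS, h⟩ := Finset.mem_filter.1 hξ
    rcases h with h | h
    · exact hB' h
    · exact Finset.mem_erase.2 ⟨fun e1 => by rw [e1] at h; omega, hdown χ hχT hχB ξ hξS h⟩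

end CfsgLib.CoherenceGlue
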