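import Cfsg.Prelude.Def_DStar
import Cfsg.Prelude.Def_PLocal
import Cfsg.Agent.Lib.LocalBasic

/-! The Glauberman-Solomon subgroup D*(S) (owner helper5). -/

set_option autoImplicit false
set_option linter.unusedSectionVars false

namespace CfsgLib.DStar

open Cfsg CfsgLib.LocalBasic
open scoped commutatorElement

variable {S : Type*} [Group S] [Finite S]

theorem map_mem_family {A : Subgroup S} (hA : A ∈ dStarFamily S) (e : S ≃* S) :
    A.map e.toMonoidHom ∈ dStarFamily S := by
  obtain ⟨hc, hx⟩ := hA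
  refine ⟨haveI := hc; Subgroup.map_isMulCommutative A e.toMonoidHom, fun x h => ?_⟩
  rintro _ ⟨a, ha, rfl⟩
  have h2 := hx (e.symm x) ?_ a ha
  · have := congrArg e h2
    simpa using this
  · have h3 := congrArg (Subgroup.map e.symm.toMonoidHom) h
    rw [Subgroup.map_commutator, Subgroup.map_commutator, Subgroup.map_bot] at h3
    simp only [Subgroup.map_sup, Subgroup.map_map, MonoidHom.map_zpowers] at h3
    rw [show (e.symm.toMonoidHom).comp e.toMonoidHom = MonoidHom.id S from by ext z; simp, Subgroup.map_id] at h3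
    exact h3

theorem sup_zpowers_class_two {A W : Subgroup S} {x : S} (hAc : IsMulCommutative ↥A) [hW : W.Normal]
    (h1 : ∀ a ∈ A, ⁅a, x⁆ ∈ W) (h2 : ∀ w ∈ W, ∀ a ∈ A, w * a = a * w) (h3 : ∀ w ∈ W, w * x = x * w) :
    ⁅⁅A ⊔ Subgroup.zpowers x, A ⊔ Subgroup.zpowers x⁆, A ⊔ Subgroup.zpowers x⁆ = ⊥ := by
  have hn : ∀ U : Subgroup S, U ≤ Subgroup.normalizer (W : Set S) := fun U => by
    rw [Subgroup.normalizer_eq_top W]; exact le_top
  have hAA : ⁅A, A⁆ ≤ W := by rw [Subgroup.commutator_self_eq_bot_iff.mpr hAc]; exact bot_le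
  have hXX : ⁅Subgroup.zpowers x, Subgroup.zpowers x⁆ ≤ W := by
    rw [Subgroup.commutator_self_eq_bot_iff.mpr inferInstance]; exact bot_le
  have hxA : ⁅Subgroup.zpowers x, A⁆ ≤ W := by
    rw [Subgroup.commutator_le]
    intro u hu a ha
    let C : Subgroup S :=
      { carrier := {g | ⁅g, a⁆ ∈ W}
        one_mem' := by show ⁅(1 : S), a⁆ ∈ W; rw [commutatorElement_one_left]; exact W.one_mem
        mul_mem' := fun {g g'} hg hg' => by
          show ⁅g * g', a⁆ ∈ W
          rw [show ⁅g * g', a⁆ = g * ⁅g', a⁆ * g⁻¹ * ⁅g, a⁆ by simp only [commutatorElement_def]; group]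
          exact W.mul_mem (hW.conj_mem _ hg' g) hg
        inv_mem' := fun {g} hg => by
          show ⁅g⁻¹, a⁆ ∈ W
          rw [show ⁅g⁻¹, a⁆ = g⁻¹ * ⁅g, a⁆⁻¹ * g⁻¹⁻¹ by simp only [commutatorElement_def]; group]
          exact hW.conj_mem _ (W.inv_mem hg) g⁻¹ }
    have hxC : x ∈ C := by
      show ⁅x, a⁆ ∈ W
      rw [← commutatorElement_inv]
      exact W.inv_mem (h1 a ha)
    exact Subgroup.zpowers_le.mpr hxC hu
  have hU : ⁅A ⊔ Subgroup.zpowers x, A ⊔ Subgroup.zpowers x⁆ ≤ W := by
    refine commutator_sup_le (hn _) (hn _) ?_ ?_ <;> rw [Subgroup.commutator_comm] <;>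
      refine commutator_sup_le (hn _) (hn _) ?_ ?_
    · exact hAA
    · exact hxA
    · rw [Subgroup.commutator_comm]; exact hxA
    · exact hXX
  rw [Subgroup.commutator_eq_bot_iff_le_centralizer]
  refine hU.trans ?_
  rw [Subgroup.le_centralizer_iff]
  refine sup_le (fun a ha w hw => h2 w hw a ha) ?_
  rw [Subgroup.zpowers_le]
  exact fun w hw => h3 w hw

/-- A member of the family centralises every abelian normal subgroup. -/
theorem commute_of_normal_abelian (hn : Group.IsNilpotent S) {A : Subgroup S} (hA : A ∈ dStarFamily S)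
    (N : Subgroup S) [hNn : N.Normal] (hN : IsMulCommutative ↥N) : ∀ x ∈ N, ∀ a ∈ A, a * x = x * a := by
  obtain ⟨m, hm⟩ := hn.nilpotent'
  suffices h : ∀ k, ∀ x ∈ N, x ∈ Subgroup.upperCentralSeries S k → ∀ a ∈ A, a * x = x * a from
    fun x hx => h m x hx (by rw [hm]; exact Subgroup.mem_top x)
  intro k
  induction k with
  | zero =>
    intro x _ hx a _
    rw [Subgroup.upperCentralSeries_zero, Subgroup.mem_bot] at hx
    rw [hx, mul_one, one_mul]
  | succ k ih =>
    intro x hxN hxk
    refine hA.2 x (sup_zpowers_class_two (W := N ⊓ Subgroup.upperCentralSeries S k) hA.1 (fun a _ => ⟨?_, ?_⟩)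
      (fun w hw a ha => (ih w hw.1 hw.2 a ha).symm)
      (fun w hw => congrArg Subtype.val (hN.is_comm.comm ⟨w, hw.1⟩ ⟨x, hxN⟩)))
    · have e : ⁅a, x⁆ = (a * x * a⁻¹) * x⁻¹ := commutatorElement_def a x
      rw [e]
      exact N.mul_mem (hNn.conj_mem x hxN a) (N.inv_mem hxN)
    · have h1 := Subgroup.inv_mem _ (Subgroup.mem_upperCentralSeries_succ_iff.mp hxk a)
      have e : ⁅a, x⁆ = (x * a * x⁻¹ * a⁻¹)⁻¹ := by rw [commutatorElement_def]; group
      rw [e]; exact h1

theorem centralizer_le_of_maximal (hn : Group.IsNilpotent S) (N : Subgroup S) [hNn : N.Normal]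
    (hN : IsMulCommutative ↥N) (hmax : ∀ B : Subgroup S, B.Normal → IsMulCommutative ↥B → N ≤ B → B = N) :
    Subgroup.centralizer (N : Set S) ≤ N := by
  by_contra hne
  obtain ⟨D, hDC, hDN, hD, -⟩ := exists_commutator_le hn (C := Subgroup.centralizer (N : Set S)) (K := ⊤) (Z := N)
    (by rw [Subgroup.normalizer_eq_top (Subgroup.centralizer (N : Set S))]) hne
  obtain ⟨x, hxD, hxN⟩ := SetLike.not_le_iff_exists.mp hDN
  have hxc : ∀ y ∈ N, y * x = x * y := fun y hy => hDC hxD y hy
  have hab : IsMulCommutative ↥(N ⊔ Subgroup.zpowers x) := by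
    rw [← Subgroup.le_centralizer_iff_isMulCommutative]
    refine sup_le ?_ ?_ <;> rw [Subgroup.le_centralizer_iff] <;> refine sup_le ?_ ?_
    · exact Subgroup.le_centralizer_iff_isMulCommutative.mpr hN
    · rw [Subgroup.zpowers_le]; exact hxc
    · rw [Subgroup.le_centralizer_iff, Subgroup.zpowers_le]; exact hxc
    · exact Subgroup.le_centralizer_iff_isMulCommutative.mpr inferInstance
  have hnorm : (N ⊔ Subgroup.zpowers x).Normal := by
    rw [← Subgroup.normalizer_eq_top_iff, eq_top_iff]
    intro g _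
    refine mem_normalizer_of_conj_map_eq (Subgroup.eq_of_le_of_card_ge ?_
      (Subgroup.card_map_of_injective (MulEquiv.injective _)).ge)
    rw [Subgroup.map_sup, MonoidHom.map_zpowers]
    refine sup_le ?_ (Subgroup.zpowers_le.mpr ?_)
    · rintro _ ⟨y, hy, rfl⟩
      exact Subgroup.mem_sup_left (hNn.conj_mem y hy g)
    · have h1 : ⁅x, g⁆ ∈ N := hD (Subgroup.commutator_mem_commutator hxD (Subgroup.mem_top g))
      have e : (MulAut.conj g).toMonoidHom x = ⁅x, g⁆⁻¹ * x := by simp [commutatorElement_def, mul_assoc]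
      rw [e]
      exact Subgroup.mul_mem_sup (N.inv_mem h1) (Subgroup.mem_zpowers x)
  exact hxN (hmax _ hnorm hab le_sup_left ▸ Subgroup.mem_sup_right (Subgroup.mem_zpowers x))

theorem dStar_le_maximal (hn : Group.IsNilpotent S) (N : Subgroup S) [N.Normal] (hN : IsMulCommutative ↥N)
    (hmax : ∀ B : Subgroup S, B.Normal → IsMulCommutative ↥B → N ≤ B → B = N) : dStar S ≤ N :=
  sSup_le fun A hA => le_trans (show A ≤ Subgroup.centralizer (N : Set S) from fun a ha x hx =>
    (commute_of_normal_abelian hn hA N hN x hx a ha).symm) (centralizer_le_of_maximal hn N hN hmax)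

theorem dStar_mem (hn : Group.IsNilpotent S) : dStar S ∈ dStarFamily S := by
  obtain ⟨N, ⟨hNn, hNc⟩, hmax⟩ := (Set.toFinite {N : Subgroup S | N.Normal ∧ IsMulCommutative ↥N}).exists_maximal
    ⟨⊥, inferInstance, ⟨⟨fun a b => Subsingleton.elim _ _⟩⟩⟩
  haveI := hNn
  have hle := dStar_le_maximal hn N hNc fun B hB hBc hNB => le_antisymm (hmax (y := B) ⟨hB, hBc⟩ hNB) hNB
  refine ⟨⟨⟨fun a b => Subtype.ext (congrArg (Subtype.val : ↥N → S)
    (hNc.is_comm.comm ⟨_, hle a.2⟩ ⟨_, hle b.2⟩))⟩⟩, fun x hx a ha => ?_⟩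
  have hDC : dStar S ≤ Subgroup.centralizer ({x} : Set S) := sSup_le fun A hA b hb => by
    refine Subgroup.mem_centralizer_singleton_iff.mpr (hA.2 x (le_bot_iff.mp (le_trans ?_ hx.le)) b hb)
    have h : A ⊔ Subgroup.zpowers x ≤ dStar S ⊔ Subgroup.zpowers x := sup_le_sup_right (le_sSup hA) _
    exact Subgroup.commutator_mono (Subgroup.commutator_mono h h) h
  exact Subgroup.mem_centralizer_singleton_iff.mp (hDC ha)

theorem dStar_normal : (dStar S).Normal := by
  refine ⟨fun x hx g => ?_⟩
  have hle : dStar S ≤ (dStar S).comap (MulAut.conj g).toMonoidHom := sSup_le fun A hA => by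
    rw [← Subgroup.map_le_iff_le_comap]
    exact le_sSup (map_mem_family hA (MulAut.conj g))
  exact hle hx

theorem center_le_dStar : Subgroup.center S ≤ dStar S :=
  le_sSup ⟨inferInstance, fun x _ _ ha => (Subgroup.mem_center_iff.mp ha x).symm⟩

/-- Thompson replacement: every abelian subgroup of largest order centralises an abelian normal member. -/
theorem commute_of_maxAbelian (hn : Group.IsNilpotent S) {D : Subgroup S} [hDn : D.Normal]
    (hD : D ∈ dStarFamily S) :
    ∀ B ∈ maxAbelianSubgroups S, ∀ d ∈ D, ∀ b ∈ B, d * b = b * d := by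
  suffices h : ∀ n, ∀ B ∈ maxAbelianSubgroups S, Nat.card ↥D - Nat.card ↥(B ⊓ D : Subgroup S) ≤ n →
      ∀ d ∈ D, ∀ b ∈ B, d * b = b * d from fun B hB => h _ B hB le_rfl
  intro n
  induction n using Nat.strong_induction_on with
  | _ n ih =>
    intro B hB hBn
    obtain ⟨hBc, hBmax⟩ := hB
    have hBcomm : ∀ a ∈ B, ∀ b ∈ B, a * b = b * a := fun a ha b hb =>
      congrArg Subtype.val (hBc.is_comm.comm ⟨a, ha⟩ ⟨b, hb⟩)
    have hDcomm : ∀ a ∈ D, ∀ b ∈ D, a * b = b * a := fun a ha b hb =>
      congrArg Subtype.val (hD.1.is_comm.comm ⟨a, ha⟩ ⟨b, hb⟩)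
    by_cases hnorm : ∀ d ∈ D, ∀ b ∈ B, ⁅d, b⁆ ∈ B
    · -- `D` normalises `B`
      intro d hd b hb
      set W := ⁅D, Subgroup.zpowers b⁆ with hW
      have hWB : W ≤ B ⊓ D := by
        refine le_inf ?_ (Subgroup.commutator_le_left D _)
        rw [hW, Subgroup.commutator_le]
        exact fun u hu v hv => hnorm u hu v (Subgroup.zpowers_le.mpr hb hv)
      have hbW : ∀ w ∈ W, w * b = b * w := fun w hw => hBcomm w (hWB hw).1 b hb
      have hWn : ∀ U : Subgroup S, U ≤ Subgroup.centralizer (W : Set S) → U ≤ Subgroup.normalizer (W : Set S) :=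
        fun U hU u hu => mem_normalizer_of_conj_map_eq (Subgroup.eq_of_le_of_card_ge (by
          rintro _ ⟨w, hw, rfl⟩
          show u * w * u⁻¹ ∈ W
          rwa [← hU hu w hw, mul_inv_cancel_right]) (Subgroup.card_map_of_injective (MulEquiv.injective _)).ge)
      have hDc : D ≤ Subgroup.centralizer (W : Set S) := fun u hu w hw => hDcomm w (hWB hw).2 u hu
      have hbc : Subgroup.zpowers b ≤ Subgroup.centralizer (W : Set S) := Subgroup.zpowers_le.mpr fun w hw => hbW w hw
      have hU : ⁅D ⊔ Subgroup.zpowers b, D ⊔ Subgroup.zpowers b⁆ ≤ W := by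
        refine commutator_sup_le (hWn _ hDc) (hWn _ hbc) ?_ ?_ <;> rw [Subgroup.commutator_comm] <;>
          refine commutator_sup_le (hWn _ hDc) (hWn _ hbc) ?_ ?_
        · rw [Subgroup.commutator_self_eq_bot_iff.mpr hD.1]; exact bot_le
        · rw [Subgroup.commutator_comm]
        · exact le_rfl
        · rw [Subgroup.commutator_self_eq_bot_iff.mpr inferInstance]; exact bot_le
      refine hD.2 b (Subgroup.commutator_eq_bot_iff_le_centralizer.mpr (hU.trans ?_)) d hd
      rw [Subgroup.le_centralizer_iff]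
      exact sup_le hDc hbc
    · -- otherwise replace `B`
      exfalso
      push Not at hnorm
      obtain ⟨x, hx, b₀, hb₀, hxb⟩ := hnorm
      set M := Subgroup.closure {y : S | ∃ b ∈ B, ⁅x, b⁆ = y} ⊔ (B ⊓ D) with hMdef
      have hMD : M ≤ D := sup_le ((Subgroup.closure_le _).mpr fun y ⟨b, _, hy⟩ => hy ▸ by
        rw [SetLike.mem_coe, commutatorElement_def, mul_assoc, mul_assoc]
        refine D.mul_mem hx ?_
        rw [← mul_assoc]
        exact hDn.conj_mem _ (D.inv_mem hx) b) inf_le_right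
      set C := B ⊓ Subgroup.centralizer (M : Set S) with hC
      set B' := M ⊔ C with hB'
      have hB'c : IsMulCommutative ↥B' := by
        rw [hB', ← Subgroup.le_centralizer_iff_isMulCommutative]
        refine sup_le ?_ ?_ <;> rw [Subgroup.le_centralizer_iff] <;> refine sup_le ?_ ?_
        · exact fun u hu w hw => hDcomm w (hMD hw) u (hMD hu)
        · exact inf_le_right
        · rw [Subgroup.le_centralizer_iff]; exact inf_le_right
        · exact fun u hu w hw => hBcomm w hw.1 u hu.1
      have hcard : Nat.card ↥B ≤ Nat.card ↥B' := by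
        have hxin : ∀ b ∈ B, ⁅x, b⁆ ∈ B' := fun b hb =>
          Subgroup.mem_sup_left (Subgroup.mem_sup_left (Subgroup.subset_closure ⟨b, hb, rfl⟩))
        let f : ↥B ⧸ C.subgroupOf B → ↥B' ⧸ C.subgroupOf B' := fun q =>
          QuotientGroup.mk ⟨⁅x, (q.out : S)⁆, hxin _ q.out.2⟩
        have hf : Function.Injective f := by
          intro q₁ q₂ h
          have hu0 : ⁅x, (q₁.out : S)⁆⁻¹ * ⁅x, (q₂.out : S)⁆ ∈ C := by
            have := QuotientGroup.eq.mp h
            simpa [Subgroup.mem_subgroupOf] using this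
          obtain ⟨b₁, hb₁, e1⟩ : ∃ b₁ ∈ B, b₁ = (q₁.out : S) := ⟨_, q₁.out.2, rfl⟩
          obtain ⟨b₂, hb₂, e2⟩ : ∃ b₂ ∈ B, b₂ = (q₂.out : S) := ⟨_, q₂.out.2, rfl⟩
          rw [← e1, ← e2] at hu0
          set u := ⁅x, b₁⁆⁻¹ * ⁅x, b₂⁆ with hu
          have huD : u ∈ D := D.mul_mem (D.inv_mem (hMD (Subgroup.mem_sup_left (Subgroup.subset_closure ⟨b₁, hb₁, rfl⟩))))
            (hMD (Subgroup.mem_sup_left (Subgroup.subset_closure ⟨b₂, hb₂, rfl⟩)))
          set d := b₁⁻¹ * b₂ with hd
          have hdB : d ∈ B := B.mul_mem (B.inv_mem hb₁) hb₂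
          -- d x d⁻¹ = u⁻¹ x
          have hdx : d * x * d⁻¹ = u⁻¹ * x := by
            have hub : b₁ * u = u * b₁ := hBcomm b₁ hb₁ u hu0.1
            have hux : u * x = x * u := hDcomm u huD x hx
            have e3 : b₂ * x⁻¹ * b₂⁻¹ = b₁ * x⁻¹ * b₁⁻¹ * u := by
              rw [hu, commutatorElement_def, commutatorElement_def]; group
            have e4 : d * x⁻¹ * d⁻¹ = x⁻¹ * u := by
              calc d * x⁻¹ * d⁻¹ = b₁⁻¹ * (b₂ * x⁻¹ * b₂⁻¹) * b₁ := by rw [hd]; group
                _ = b₁⁻¹ * (b₁ * x⁻¹ * b₁⁻¹ * u) * b₁ := by rw [e3]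
                _ = x⁻¹ * b₁⁻¹ * (u * b₁) := by group
                _ = x⁻¹ * u := by rw [← hub]; group
            calc d * x * d⁻¹ = (d * x⁻¹ * d⁻¹)⁻¹ := by group
              _ = u⁻¹ * x := by rw [e4, mul_inv_rev, inv_inv]
          have hdC : d ∈ C := by
            refine ⟨hdB, ?_⟩
            intro m hm
            suffices hle : M ≤ Subgroup.centralizer ({d} : Set S) from Subgroup.mem_centralizer_singleton_iff.mp (hle hm)
            refine sup_le ((Subgroup.closure_le _).mpr ?_) fun y hy =>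
              Subgroup.mem_centralizer_singleton_iff.mpr (hBcomm y hy.1 d hdB)
            rintro _ ⟨c, hc, rfl⟩
            rw [SetLike.mem_coe, Subgroup.mem_centralizer_singleton_iff]
            have hcd : d * c * d⁻¹ = c := by rw [hBcomm d hdB c hc, mul_inv_cancel_right]
            have huc : u * c = c * u := hBcomm u hu0.1 c hc
            have hux : u * x = x * u := hDcomm u huD x hx
            have h2 : d * ⁅x, c⁆ * d⁻¹ = ⁅x, c⁆ := by
              calc d * ⁅x, c⁆ * d⁻¹ = (d * x * d⁻¹) * (d * c * d⁻¹) * (d * x * d⁻¹)⁻¹ * (d * c * d⁻¹)⁻¹ := by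
                    rw [commutatorElement_def]; group
                _ = u⁻¹ * x * c * (x⁻¹ * u) * c⁻¹ := by rw [hdx, hcd]; group
                _ = u⁻¹ * x * c * (u * x⁻¹) * c⁻¹ := by rw [(show Commute u x from hux).inv_right.eq]
                _ = u⁻¹ * x * (c * u) * x⁻¹ * c⁻¹ := by group
                _ = u⁻¹ * (x * u) * c * x⁻¹ * c⁻¹ := by rw [← huc]; group
                _ = ⁅x, c⁆ := by rw [← hux, commutatorElement_def]; group
            rw [mul_inv_eq_iff_eq_mul] at h2
            exact h2.symm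
          rw [← Quotient.out_eq q₁, ← Quotient.out_eq q₂]
          apply Quotient.sound
          refine QuotientGroup.leftRel_apply.mpr (Subgroup.mem_subgroupOf.mpr ?_)
          show ((q₁.out : ↥B) : S)⁻¹ * (q₂.out : S) ∈ C
          rw [← e1, ← e2]
          exact hdC
        have h1 := Nat.card_le_card_of_injective f hf
        rw [Subgroup.card_eq_card_quotient_mul_card_subgroup (C.subgroupOf B),
          Subgroup.card_eq_card_quotient_mul_card_subgroup (C.subgroupOf B'),
          Nat.card_congr (Subgroup.subgroupOfEquivOfLe (inf_le_left : C ≤ B)).toEquiv,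
          Nat.card_congr (Subgroup.subgroupOfEquivOfLe (le_sup_right : C ≤ B')).toEquiv]
        exact Nat.mul_le_mul_right _ h1
      have hB'max : B' ∈ maxAbelianSubgroups S := ⟨hB'c, fun A hA => (hBmax A hA).trans hcard⟩
      have hlt : Nat.card ↥(B ⊓ D : Subgroup S) < Nat.card ↥(B' ⊓ D : Subgroup S) := by
        have hle : B ⊓ D ≤ B' ⊓ D := le_inf (le_sup_of_le_left le_sup_right) inf_le_right
        refine lt_of_le_of_ne (Subgroup.card_le_of_le hle) fun heq => hxb ?_
        have hmem : ⁅x, b₀⁆ ∈ M := Subgroup.mem_sup_left (Subgroup.subset_closure ⟨b₀, hb₀, rfl⟩)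
        exact ((Subgroup.eq_of_le_of_card_ge hle heq.ge).ge ⟨Subgroup.mem_sup_left hmem, hMD hmem⟩).1
      have hcomm' := ih (Nat.card ↥D - Nat.card ↥(B' ⊓ D : Subgroup S))
        (by have := Subgroup.card_le_of_le (inf_le_right : B' ⊓ D ≤ D); omega) B' hB'max le_rfl
      have hDB' : D ≤ B' := by
        have hab : IsMulCommutative ↥(B' ⊔ D) := by
          rw [← Subgroup.le_centralizer_iff_isMulCommutative]
          refine sup_le ?_ ?_ <;> rw [Subgroup.le_centralizer_iff] <;> refine sup_le ?_ ?_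
          · exact Subgroup.le_centralizer_iff_isMulCommutative.mpr hB'c
          · exact fun u hu w hw => (hcomm' u hu w hw).symm
          · exact fun u hu w hw => hcomm' w hw u hu
          · exact Subgroup.le_centralizer_iff_isMulCommutative.mpr hD.1
        have := Subgroup.eq_of_le_of_card_ge (le_sup_left : B' ≤ B' ⊔ D) (hB'max.2 _ hab)
        rw [this]; exact le_sup_right
      set F := ⁅D, B⁆ ⊔ (B ⊓ D) with hF
      have hDF : D ≤ F := by
        intro d hd
        have hd' := hDB' hd
        have hMn : C ≤ Subgroup.normalizer (M : Set S) := fun c hc => mem_normalizer_of_conj_map_eq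
          (Subgroup.eq_of_le_of_card_ge (by
            rintro _ ⟨w, hw, rfl⟩
            show c * w * c⁻¹ ∈ M
            rwa [← hc.2 w hw, mul_inv_cancel_right]) (Subgroup.card_map_of_injective (MulEquiv.injective _)).ge)
        rw [hB', ← SetLike.mem_coe, Subgroup.coe_mul_of_right_le_normalizer_left _ _ hMn, Set.mem_mul] at hd'
        obtain ⟨m, hm, c, hc, rfl⟩ := hd'
        refine F.mul_mem ?_ (Subgroup.mem_sup_right ⟨hc.1, ?_⟩)
        · refine sup_le ((Subgroup.closure_le _).mpr ?_) le_sup_right hm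
          rintro _ ⟨b, hb, rfl⟩
          exact Subgroup.mem_sup_left (Subgroup.commutator_mem_commutator hx hb)
        · have := D.mul_mem (D.inv_mem (hMD hm)) hd
          simpa using this
      have hstab : ∀ k, ⁅D, B⁆ ≤ (⊤ : Subgroup S).lowerCentralSeries k := by
        intro k
        induction k with
        | zero => exact le_top
        | succ k ih =>
          rw [Subgroup.lowerCentralSeries_succ]
          refine (Subgroup.commutator_mono hDF le_rfl).trans ?_
          refine commutator_sup_le ?_ ?_ (Subgroup.commutator_mono ih le_top) ?_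
          · exact le_trans le_top (le_of_eq (Subgroup.normalizer_eq_top _).symm)
          · exact le_trans le_top (le_of_eq (Subgroup.normalizer_eq_top _).symm)
          · rw [Subgroup.commutator_eq_bot_iff_le_centralizer.mpr
              (fun u hu w hw => hBcomm w hw u hu.1 : B ⊓ D ≤ Subgroup.centralizer (B : Set S))]
            exact bot_le
      obtain ⟨m, hm⟩ := Subgroup.nilpotent_iff_lowerCentralSeries.mp hn
      have h1 := hstab m (Subgroup.commutator_mem_commutator hx hb₀)
      rw [hm, Subgroup.mem_bot] at h1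
      exact hxb (h1 ▸ B.one_mem)

theorem dStar_le_thompson (hn : Group.IsNilpotent S) :
    dStar S ≤ thompsonSubgroupA S ⊓ Subgroup.centralizer (thompsonSubgroupA S : Set S) := by
  haveI := dStar_normal (S := S)
  have hD := dStar_mem hn
  obtain ⟨B, hBc, hBmax⟩ := (Set.toFinite {A : Subgroup S | IsMulCommutative ↥A}).exists_maximalFor
    (fun A : Subgroup S => Nat.card ↥A) _ ⟨⊥, ⟨⟨fun a b => Subsingleton.elim _ _⟩⟩⟩
  have hB : B ∈ maxAbelianSubgroups S :=
    ⟨hBc, fun A hA => (le_total (Nat.card ↥A) (Nat.card ↥B)).elim id fun h => hBmax (j := A) hA h⟩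
  refine le_inf (le_trans ?_ (le_sSup hB)) ?_
  · have hab : IsMulCommutative ↥(B ⊔ dStar S) := by
      rw [← Subgroup.le_centralizer_iff_isMulCommutative]
      refine sup_le ?_ ?_ <;> rw [Subgroup.le_centralizer_iff] <;> refine sup_le ?_ ?_
      · exact Subgroup.le_centralizer_iff_isMulCommutative.mpr hBc
      · exact fun u hu w hw => (commute_of_maxAbelian hn hD B hB u hu w hw).symm
      · exact fun u hu w hw => commute_of_maxAbelian hn hD B hB w hw u hu
      · exact Subgroup.le_centralizer_iff_isMulCommutative.mpr hD.1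
    rw [Subgroup.eq_of_le_of_card_ge (le_sup_left : B ≤ B ⊔ dStar S) (hB.2 _ hab)]
    exact le_sup_right
  · rw [Subgroup.le_centralizer_iff]
    refine sSup_le fun A hA => ?_
    exact fun a ha w hw => commute_of_maxAbelian hn hD A hA w hw a ha

end CfsgLib.DStar
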