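import Mathlib

/-! Burnside counting on the subgroup generated by derangements. (helper7) -/

set_option autoImplicit false
set_option linter.style.haveILetI false

namespace CfsgLib.DerangementCount

theorem burnside (G X : Type*) [Group G] [Fintype G] [MulAction G X] [Finite X] :
    ∑ g : G, Nat.card (MulAction.fixedBy X g)
      = Nat.card (MulAction.orbitRel.Quotient G X) * Nat.card G := by
  classical
  haveI := Fintype.ofFinite X
  haveI := Fintype.ofFinite (MulAction.orbitRel.Quotient G X)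
  simp only [Nat.card_eq_fintype_card]
  exact MulAction.sum_card_fixedBy_eq_card_orbits_mul_card_group G X

theorem sum_split (G X : Type*) [Group G] [Fintype G] [MulAction G X] [Finite X] (D : Subgroup G)
    [DecidablePred (· ∈ D)] :
    Nat.card (MulAction.orbitRel.Quotient ↥D X) * Nat.card ↥D
      + ∑ g ∈ Finset.univ.filter (· ∉ D), Nat.card (MulAction.fixedBy X g)
      = Nat.card (MulAction.orbitRel.Quotient G X) * Nat.card G := by
  rw [← burnside G X, ← burnside ↥D X,
    ← Finset.sum_filter_add_sum_filter_not Finset.univ (fun g : G => g ∈ D)]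
  congr 1
  exact (Finset.sum_subtype (p := fun g => g ∈ D) (Finset.univ.filter (· ∈ D)) (by simp)
    (fun g => Nat.card (MulAction.fixedBy X g))).symm

theorem card_out (G : Type*) [Group G] [Fintype G] (D : Subgroup G) [DecidablePred (· ∈ D)] :
    Nat.card ↥D + (Finset.univ.filter (· ∉ D)).card = Nat.card G := by
  rw [Nat.card_eq_fintype_card, Nat.card_eq_fintype_card, Fintype.card_subtype,
    Finset.card_filter_add_card_filter_not, Finset.card_univ]

theorem main {G Ω : Type*} [Group G] [Finite G] [MulAction G Ω] [Finite Ω] [Nonempty Ω]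
    (htrans : MulAction.IsPretransitive G Ω) :
    MulAction.IsPretransitive ↥(Subgroup.closure {g : G | ∀ ω : Ω, g • ω ≠ ω}) Ω ∧
      ∀ g : G, g ∉ Subgroup.closure {g : G | ∀ ω : Ω, g • ω ≠ ω} →
        Nat.card (MulAction.fixedBy Ω g) = 1 := by
  classical
  haveI := Fintype.ofFinite G
  set D := Subgroup.closure {g : G | ∀ ω : Ω, g • ω ≠ ω}
  have hfix : ∀ g ∈ Finset.univ.filter (· ∉ D), 1 ≤ Nat.card (MulAction.fixedBy Ω g) := by
    intro g hg
    simp only [Finset.mem_filter, Finset.mem_univ, true_and] at hg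
    by_contra h
    refine hg (Subgroup.subset_closure fun ω hω => h ?_)
    haveI : Nonempty (MulAction.fixedBy Ω g) := ⟨⟨ω, hω⟩⟩
    exact Nat.card_pos
  have hG : Nat.card (MulAction.orbitRel.Quotient G Ω) = 1 := by
    haveI := (MulAction.pretransitive_iff_subsingleton_quotient G Ω).mp htrans
    haveI : Nonempty (MulAction.orbitRel.Quotient G Ω) := ⟨Quotient.mk'' (Classical.arbitrary Ω)⟩
    exact Nat.card_unique
  have h1 := sum_split G Ω D
  rw [hG, one_mul] at h1
  have h2 := card_out G D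
  have h3 : (Finset.univ.filter (· ∉ D)).card
      ≤ ∑ g ∈ Finset.univ.filter (· ∉ D), Nat.card (MulAction.fixedBy Ω g) := by
    simpa using Finset.card_nsmul_le_sum _ _ 1 hfix
  haveI : Nonempty (MulAction.orbitRel.Quotient ↥D Ω) := ⟨Quotient.mk'' (Classical.arbitrary Ω)⟩
  have hD : 0 < Nat.card ↥D := Nat.card_pos
  have hr : Nat.card (MulAction.orbitRel.Quotient ↥D Ω) = 1 := by
    have hpos : 0 < Nat.card (MulAction.orbitRel.Quotient ↥D Ω) := Nat.card_pos
    refine le_antisymm (Nat.le_of_mul_le_mul_right ?_ hD) hpos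
    omega
  refine ⟨(MulAction.pretransitive_iff_subsingleton_quotient ↥D Ω).mpr
    (Nat.card_eq_one_iff_unique.mp hr).1, fun g hg => ?_⟩
  have heq : ∑ g ∈ Finset.univ.filter (· ∉ D), (1 : ℕ)
      = ∑ g ∈ Finset.univ.filter (· ∉ D), Nat.card (MulAction.fixedBy Ω g) := by
    rw [hr, one_mul] at h1
    simp only [Finset.sum_const, smul_eq_mul, mul_one]
    omega
  exact ((Finset.sum_eq_sum_iff_of_le hfix).mp heq g (by simpa using hg)).symm

theorem rank {G Ω : Type*} [Group G] [Finite G] [MulAction G Ω] [Finite Ω] [Nonempty Ω]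
    (htrans : MulAction.IsPretransitive G Ω) :
    Nat.card (MulAction.orbitRel.Quotient ↥(Subgroup.closure {g : G | ∀ ω : Ω, g • ω ≠ ω}) (Ω × Ω)) - 1 =
      (Nat.card (MulAction.orbitRel.Quotient G (Ω × Ω)) - 1) *
        (Subgroup.closure {g : G | ∀ ω : Ω, g • ω ≠ ω}).index := by
  classical
  haveI := Fintype.ofFinite G
  set D := Subgroup.closure {g : G | ∀ ω : Ω, g • ω ≠ ω}
  have h1 := sum_split G (Ω × Ω) D
  have hone : ∀ g ∈ Finset.univ.filter (· ∉ D), Nat.card (MulAction.fixedBy (Ω × Ω) g) = 1 := by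
    intro g hg
    simp only [Finset.mem_filter, Finset.mem_univ, true_and] at hg
    have he : MulAction.fixedBy (Ω × Ω) g = MulAction.fixedBy Ω g ×ˢ MulAction.fixedBy Ω g := by
      ext x; simp [MulAction.mem_fixedBy, Prod.ext_iff]
    rw [he, Nat.card_congr (Equiv.Set.prod _ _), Nat.card_prod, (main htrans).2 g hg]
  rw [Finset.sum_congr rfl hone, Finset.sum_const, smul_eq_mul, mul_one] at h1
  have h2 := card_out G D
  have h3 := D.card_mul_index
  haveI : Nonempty (MulAction.orbitRel.Quotient ↥D (Ω × Ω)) := ⟨Quotient.mk'' (Classical.arbitrary _)⟩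
  haveI : Nonempty (MulAction.orbitRel.Quotient G (Ω × Ω)) := ⟨Quotient.mk'' (Classical.arbitrary _)⟩
  have p1 : 0 < Nat.card (MulAction.orbitRel.Quotient ↥D (Ω × Ω)) := Nat.card_pos
  have p2 : 0 < Nat.card (MulAction.orbitRel.Quotient G (Ω × Ω)) := Nat.card_pos
  have hD : 0 < Nat.card ↥D := Nat.card_pos
  generalize Nat.card (MulAction.orbitRel.Quotient ↥D (Ω × Ω)) = a at *
  generalize Nat.card (MulAction.orbitRel.Quotient G (Ω × Ω)) = b at *
  obtain ⟨a, rfl⟩ : ∃ c, a = c + 1 := ⟨a - 1, by omega⟩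
  obtain ⟨b, rfl⟩ : ∃ c, b = c + 1 := ⟨b - 1, by omega⟩
  simp only [Nat.add_sub_cancel]
  refine Nat.eq_of_mul_eq_mul_left hD ?_
  rw [Nat.mul_left_comm, h3]
  rw [add_mul, one_mul, add_mul, one_mul] at h1
  linarith

end CfsgLib.DerangementCount
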