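import Mathlib
import Cfsg.Agent.Lib.Chars.Induced

/-! Induction from the normalizer of a TI set. -/

set_option autoImplicit false

namespace CfsgLib.TIInduce

universe u

variable {G : Type u} [Group G] [Fintype G]

theorem indFun_eq (N : Subgroup G) (T : Set G)
    (hTI : ∀ g : G, g ∉ N → ∀ t ∈ T, g * t * g⁻¹ ∈ T → t = 1)
    (θ : N → ℂ) (hθ : Cfsg.IsClassFunction N θ) (hθT : ∀ x : N, (x : G) ∉ T → θ x = 0)
    (x : N) (hxT : (x : G) ∈ T) (hx1 : (x : G) ≠ 1) : Cfsg.indFun N θ x = θ x := by
  classical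
  have hterm : ∀ y : G, Cfsg.extendByZero N θ (y⁻¹ * x * y) = if y ∈ N then θ x else 0 := by
    intro y
    split_ifs with hy
    · have hm : y⁻¹ * x * y ∈ N := N.mul_mem (N.mul_mem (N.inv_mem hy) x.2) hy
      rw [CfsgLib.Chars.extendByZero_apply, dif_pos hm]
      have := hθ x ⟨y⁻¹, N.inv_mem hy⟩
      rw [← this]
      congr 1
      ext
      simp
    · rw [CfsgLib.Chars.extendByZero_apply]
      split_ifs with hm
      · refine hθT _ fun hT => hy ?_
        by_contra hy'
        refine hx1 (hTI y⁻¹ (fun h => hy' (by simpa using N.inv_mem h)) x hxT ?_)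
        rw [inv_inv]; exact hT
      · rfl
  simp only [Cfsg.indFun, hterm]
  rw [← Finset.sum_filter, Finset.sum_const, nsmul_eq_mul, ← mul_assoc,
    show (Finset.univ.filter fun y => y ∈ N).card = Nat.card N by
      rw [← Fintype.card_subtype, ← Nat.card_eq_fintype_card],
    inv_mul_cancel₀ (Nat.cast_ne_zero.2 Nat.card_pos.ne'), one_mul]

end CfsgLib.TIInduce
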