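import Mathlib
import Cfsg.Agent.Lib.Chars.Clifford
import Cfsg.Agent.Lib.Chars.Linear

/-! Irreducible characters of a normal subgroup fixed by an element versus fixed classes. -/

set_option autoImplicit false

namespace CfsgLib.FixedIrr

open CfsgLib.Chars

universe u

variable {G : Type u} [Group G] [Finite G] (H : Subgroup G) [H.Normal]

theorem card_fixed (x : G) :
    Nat.card {θ : Cfsg.IrrCharacter H // conjIrr H θ x = θ} =
      Nat.card {C : ConjClasses H // ∀ h, ConjClasses.mk h = C → ConjClasses.mk (conjN H x h) = C} := by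
  haveI := Fintype.ofFinite G
  let e : Cfsg.IrrCharacter H ≃ Cfsg.IrrCharacter H :=
    { toFun := fun θ => conjIrr H θ x⁻¹
      invFun := fun θ => conjIrr H θ x
      left_inv := fun θ => by
        show conjIrr H (conjIrr H θ x⁻¹) x = θ
        rw [← conjIrr_mul, inv_mul_cancel, conjIrr_one]
      right_inv := fun θ => by
        show conjIrr H (conjIrr H θ x) x⁻¹ = θ
        rw [← conjIrr_mul, mul_inv_cancel, conjIrr_one] }
  have h := brauer_permutation e (conjN H x).toEquiv
    (fun a b hab => by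
      obtain ⟨c, rfl⟩ := isConj_iff.1 hab
      exact isConj_iff.2 ⟨conjN H x c, by simp⟩)
    (fun θ h => by
      show (conjIrr H θ x⁻¹ : H → ℂ) (conjN H x h) = (θ : H → ℂ) h
      rw [conjIrr_apply, conjN_mul, inv_mul_cancel, conjN_one])
  refine Eq.trans (Nat.card_congr (Equiv.subtypeEquivRight fun θ => ?_)) h
  show conjIrr H θ x = θ ↔ conjIrr H θ x⁻¹ = θ
  constructor <;> intro h1
  · nth_rewrite 1 [← h1]
    rw [← conjIrr_mul, mul_inv_cancel, conjIrr_one]
  · nth_rewrite 1 [← h1]
    rw [← conjIrr_mul, inv_mul_cancel, conjIrr_one]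

theorem eq_one_of_fixed {x : G} (hx : ∀ h k : H, h ≠ 1 → x * h * x⁻¹ ≠ (k : G) * h * (k : G)⁻¹)
    {θ : Cfsg.IrrCharacter H} (hθ : conjIrr H θ x = θ) : (θ : H → ℂ) = fun _ => 1 := by
  have hsub : Subsingleton {C : ConjClasses H // ∀ h, ConjClasses.mk h = C → ConjClasses.mk (conjN H x h) = C} := by
    refine ⟨fun ⟨C, hC⟩ ⟨D, hD⟩ => Subtype.ext ?_⟩
    suffices key : ∀ E : ConjClasses H, (∀ h, ConjClasses.mk h = E → ConjClasses.mk (conjN H x h) = E) →
        E = ConjClasses.mk 1 from (key C hC).trans (key D hD).symm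
    intro E hE
    obtain ⟨h, rfl⟩ := ConjClasses.mk_surjective E
    by_contra hne
    obtain ⟨k, hk⟩ := isConj_iff.1 (ConjClasses.mk_eq_mk_iff_isConj.1 (hE h rfl).symm)
    refine hx h k (fun e => hne (by rw [e])) ?_
    rw [← conjN_coe]
    exact (congrArg Subtype.val hk).symm
  let one : Cfsg.IrrCharacter H := ⟨fun _ => 1, isIrrCharacter_one H⟩
  have hone : conjIrr H one x = one := Subtype.ext rfl
  haveI : Subsingleton {θ : Cfsg.IrrCharacter H // conjIrr H θ x = θ} := by
    refine Finite.card_le_one_iff_subsingleton.1 ?_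
    haveI := finite_irr H
    rw [card_fixed H x]
    exact Finite.card_le_one_iff_subsingleton.2 hsub
  exact congrArg Subtype.val (congrArg Subtype.val (Subsingleton.elim (⟨θ, hθ⟩ : {θ // conjIrr H θ x = θ}) ⟨one, hone⟩))

end CfsgLib.FixedIrr
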