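import Mathlib
import Cfsg.Agent.Lib.Coherence
import Cfsg.Agent.Lib.TIInduce
import Cfsg.Agent.S0181
import Cfsg.Agent.Lib.Chars.Central

/-! Characters of a Frobenius normalizer of a TI subgroup, and coherent extensions. -/

set_option autoImplicit false

namespace CfsgLib.FrobeniusCoherent

open Cfsg CfsgLib.Chars CfsgLib.Virtual CfsgLib.Coherence
open scoped ComplexConjugate

universe u

variable {N : Type u} [Group N] [Fintype N]

theorem char_map (χ : IrrCharacter N) (g : N) {n : ℕ} (ρ : Representation ℂ N (Fin n → ℂ)) (h : ρ.character = (χ : N → ℂ))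
    (he : ρ g = LinearMap.id) : (χ : N → ℂ) g = (χ : N → ℂ) 1 := by
  rw [← h]; simp only [Representation.character, he, map_one]; rfl

/-- An irreducible character nontrivial on a Frobenius kernel vanishes off it. -/
theorem vanish (H : Subgroup N) [H.Normal] (hC : ∀ h ∈ H, h ≠ 1 → Subgroup.centralizer ({h} : Set N) ≤ H)
    (χ : IrrCharacter N) (hχ : ∃ h ∈ H, (χ : N → ℂ) h ≠ (χ : N → ℂ) 1) {g : N} (hg : g ∉ H) : (χ : N → ℂ) g = 0 := by
  obtain ⟨n, ρ, hρ, he⟩ := χ.2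
  haveI := hρ
  rw [← he]
  refine Cfsg.Agent.S0181.result ρ H ?_ g fun h hh hc => ?_
  · obtain ⟨h, hh, hne⟩ := hχ
    exact ⟨h, hh, fun e => hne (char_map χ h ρ he e)⟩
  · by_contra h1
    exact hg (hC h hh h1 (Subgroup.mem_centralizer_singleton_iff.2 hc.symm))

open Classical in
/-- The irreducible characters nontrivial on `H`. -/
noncomputable def onH (H : Subgroup N) : Finset (IrrCharacter N) :=
  Finset.univ.filter fun χ => ∃ h ∈ H, (χ : N → ℂ) h ≠ (χ : N → ℂ) 1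

theorem mem_onH {H : Subgroup N} {χ : IrrCharacter N} : χ ∈ onH H ↔ ∃ h ∈ H, (χ : N → ℂ) h ≠ (χ : N → ℂ) 1 := by
  classical
  simp [onH]

open Classical in
theorem const_off {H : Subgroup N} {χ : IrrCharacter N} (hχ : χ ∈ (onH H)ᶜ) {k : N} (hk : k ∈ H) :
    (χ : N → ℂ) k = (charDegree (χ : N → ℂ) : ℂ) := by
  rw [Finset.mem_compl, mem_onH] at hχ
  push Not at hχ
  rw [hχ k hk, irr_apply_one]

open Classical in
theorem sum_compl (H : Subgroup N) [H.Normal] (hC : ∀ h ∈ H, h ≠ 1 → Subgroup.centralizer ({h} : Set N) ≤ H) :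
    ((∑ χ ∈ (onH H)ᶜ, charDegree (χ : N → ℂ) ^ 2 : ℕ) : ℂ) = (H.index : ℂ) := by
  have h0 : ∑ k ∈ Finset.univ.filter (fun k => k ∈ H), ∑ χ : IrrCharacter N, (χ : N → ℂ) 1 * (χ : N → ℂ) k =
      (Nat.card N : ℂ) := by
    simp only [sum_deg_mul]
    rw [Finset.sum_ite_eq' _ (1 : N), if_pos (by simp [H.one_mem])]
  rw [Finset.sum_comm, ← Finset.sum_add_sum_compl (onH H)] at h0
  have hS : ∀ χ ∈ onH H, ∑ k ∈ Finset.univ.filter (fun k => k ∈ H), (χ : N → ℂ) 1 * (χ : N → ℂ) k = 0 := by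
    intro χ hχ
    have hne : (χ : N → ℂ) ≠ fun _ => 1 := fun e => by
      obtain ⟨h, -, hh⟩ := mem_onH.1 hχ
      exact hh (by rw [e])
    have h1 := inner_irr_ne χ.2 (isIrrCharacter_one N) hne
    rw [classInner, mul_eq_zero] at h1
    have h2 := h1.resolve_left (inv_ne_zero (natCast_card_ne_zero N))
    simp only [map_one, mul_one] at h2
    rw [← Finset.mul_sum]
    refine mul_eq_zero_of_right _ ?_
    rw [← h2, Finset.sum_filter]
    refine Finset.sum_congr rfl fun k _ => ?_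
    split_ifs with hk
    · rfl
    · exact (vanish H hC χ (mem_onH.1 hχ) hk).symm
  rw [Finset.sum_eq_zero hS, zero_add] at h0
  have hcard : (Finset.univ.filter fun k => k ∈ H).card = Nat.card H := by
    rw [← Fintype.card_subtype, ← Nat.card_eq_fintype_card]
  rw [Finset.sum_congr rfl (fun χ hχ => Finset.sum_congr rfl (fun k hk => by
    rw [irr_apply_one, const_off hχ (Finset.mem_filter.1 hk).2]))] at h0
  simp only [Finset.sum_const, nsmul_eq_mul, hcard, ← pow_two] at h0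
  rw [← Finset.mul_sum, ← H.index_mul_card, Nat.cast_mul, mul_comm (H.index : ℂ)] at h0
  push_cast
  exact mul_left_cancel₀ (Nat.cast_ne_zero.2 Nat.card_pos.ne') h0

open Classical in
/-- A class function with coordinates proportional to the degrees on `S` is constant on `H#`. -/
theorem value_eq {H : Subgroup N} {φ : N → ℂ} (hφ : IsClassFunction N φ) {η : IrrCharacter N}
    (hprop : ∀ ξ ∈ onH H, (charDegree (η : N → ℂ) : ℂ) * classInner φ (ξ : N → ℂ) =
      (charDegree (ξ : N → ℂ) : ℂ) * classInner φ (η : N → ℂ))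
    {k : N} (hk : k ∈ H) (hk1 : k ≠ 1) :
    (charDegree (η : N → ℂ) : ℂ) * φ k =
      (charDegree (η : N → ℂ) : ℂ) * (∑ ξ ∈ (onH H)ᶜ, classInner φ (ξ : N → ℂ) * (charDegree (ξ : N → ℂ) : ℂ)) -
      classInner φ (η : N → ℂ) * ((∑ ξ ∈ (onH H)ᶜ, charDegree (ξ : N → ℂ) ^ 2 : ℕ) : ℂ) := by
  have hreg := sum_deg_mul k
  rw [if_neg hk1, ← Finset.sum_add_sum_compl (onH H)] at hreg
  rw [Finset.sum_congr rfl (g := fun ξ : IrrCharacter N => ((charDegree (ξ : N → ℂ) ^ 2 : ℕ) : ℂ))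
    (fun ξ (hξ : ξ ∈ (onH H)ᶜ) => by rw [irr_apply_one, const_off hξ hk]; push_cast; ring), ← Nat.cast_sum] at hreg
  rw [classFunction_expand hφ k, ← Finset.sum_add_sum_compl (onH H), mul_add]
  rw [Finset.sum_congr rfl (g := fun ξ : IrrCharacter N => classInner φ (ξ : N → ℂ) * (charDegree (ξ : N → ℂ) : ℂ))
    (fun ξ (hξ : ξ ∈ (onH H)ᶜ) => by rw [const_off hξ hk]), Finset.mul_sum (a := (charDegree (η : N → ℂ) : ℂ)) (s := onH H)]
  rw [Finset.sum_congr rfl (g := fun ξ : IrrCharacter N => classInner φ (η : N → ℂ) * ((ξ : N → ℂ) 1 * (ξ : N → ℂ) k))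
    (fun ξ (hξ : ξ ∈ onH H) => by rw [← mul_assoc, hprop ξ hξ, irr_apply_one]; ring), ← Finset.mul_sum]
  linear_combination (classInner φ (η : N → ℂ)) * hreg

/-- If every degree in `S` lies in `nℤ` then so does the index. -/
theorem dvd_index (H : Subgroup N) [H.Normal] (hC : ∀ h ∈ H, h ≠ 1 → Subgroup.centralizer ({h} : Set N) ≤ H)
    (n : ℕ) (hn : ∀ χ ∈ onH H, n ∣ charDegree (χ : N → ℂ)) (hne : (onH H).Nonempty) : n ∣ H.index := by
  classical
  have hM : ∑ χ ∈ (onH H)ᶜ, charDegree (χ : N → ℂ) ^ 2 = H.index := by exact_mod_cast sum_compl H hC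
  have hS : (∑ χ ∈ onH H, charDegree (χ : N → ℂ) ^ 2) + H.index = H.index * Nat.card H := by
    rw [← hM, Finset.sum_add_sum_compl, sum_deg_sq, hM, H.index_mul_card]
  obtain ⟨χ, hχ⟩ := hne
  have h1 : n ∣ H.index * Nat.card H := by rw [H.index_mul_card]; exact (hn χ hχ).trans (charDegree_dvd χ)
  have h2 : n ^ 2 ∣ H.index * (Nat.card H - 1) := by
    have : H.index * (Nat.card H - 1) = ∑ χ ∈ onH H, charDegree (χ : N → ℂ) ^ 2 := by
      rw [Nat.mul_sub, mul_one]; omega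
    rw [this]
    exact Finset.dvd_sum fun ξ hξ => pow_dvd_pow_of_dvd (hn ξ hξ) 2
  set e := H.index
  set m := Nat.card H
  have h3 : n ^ 2 ∣ e * (e * m ^ 2) := by
    have := pow_dvd_pow_of_dvd h1 2
    rwa [show (e * m) ^ 2 = e * (e * m ^ 2) by ring] at this
  have h4 : n ^ 2 ∣ e * Nat.gcd (e * m ^ 2) (m - 1) := by rw [← Nat.gcd_mul_left]; exact Nat.dvd_gcd h3 h2
  have hm : 0 < m := Nat.card_pos
  have hco : Nat.Coprime (m ^ 2) (m - 1) := by
    refine Nat.Coprime.pow_left 2 ?_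
    rw [Nat.coprime_comm, Nat.coprime_self_sub_left hm]
    exact Nat.coprime_one_left m
  rw [Nat.Coprime.gcd_mul_right_cancel e hco] at h4
  exact (Nat.pow_dvd_pow_iff two_ne_zero).1 (h4.trans (by rw [pow_two]; exact Nat.mul_dvd_mul_left e (Nat.gcd_dvd_left _ _)))

end CfsgLib.FrobeniusCoherent
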