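import Mathlib
import Cfsg.Agent.S1535
import Cfsg.Agent.Lib.CoherenceGlue
import Cfsg.Agent.Lib.TIInduce
import Cfsg.Agent.Lib.CharExtra
import Cfsg.Agent.Lib.Chars.Misc

/-! Sibley's coherence theorem for a TI `p`-subgroup whose normalizer is a Frobenius group of odd order. -/

set_option autoImplicit false

namespace CfsgLib.Sibley

open Cfsg CfsgLib.Chars CfsgLib.Virtual CfsgLib.Coherence
open scoped ComplexConjugate

universe u

section
variable {L : Type u} [Group L] [Fintype L]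

open Classical in
/-- The irreducible characters nontrivial on `A`. -/
noncomputable def irrOn (A : Subgroup L) : Finset (L → ℂ) :=
  ((Finset.univ : Finset (IrrCharacter L)).image Subtype.val).filter fun χ => ∃ a ∈ A, χ a ≠ χ 1

theorem mem_irrOn {A : Subgroup L} {χ : L → ℂ} : χ ∈ irrOn A ↔ IsIrrCharacter L χ ∧ ∃ a ∈ A, χ a ≠ χ 1 := by
  classical
  simp only [irrOn, Finset.mem_filter, Finset.mem_image, Finset.mem_univ, true_and]
  constructor
  · rintro ⟨⟨x, rfl⟩, h⟩; exact ⟨x.2, h⟩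
  · rintro ⟨h, h'⟩; exact ⟨⟨⟨χ, h⟩, rfl⟩, h'⟩

theorem coe_irrOn (A : Subgroup L) :
    (↑(irrOn A) : Set (L → ℂ)) = {χ : L → ℂ | IsIrrCharacter L χ ∧ ∃ a ∈ A, χ a ≠ χ 1} := by
  ext χ; exact mem_irrOn

theorem irrOn_mono {A B : Subgroup L} (h : A ≤ B) : irrOn A ⊆ irrOn B := fun χ hχ => by
  obtain ⟨h1, a, ha, hne⟩ := mem_irrOn.1 hχ
  exact mem_irrOn.2 ⟨h1, a, h ha, hne⟩

open Classical in
theorem sum_subgroup_eq_zero (Z : Subgroup L) [hZ : Z.Normal] {χ : L → ℂ} (hχ : χ ∈ irrOn Z) :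
    ∑ y ∈ Finset.univ.filter (fun y => y ∈ Z), χ y = 0 := by
  obtain ⟨hirr, a, ha, hne⟩ := mem_irrOn.1 hχ
  let f : L → ℂ := fun y => if y ∈ Z then 1 else 0
  have hf : IsClassFunction L f := fun g h => by
    have : h * g * h⁻¹ ∈ Z ↔ g ∈ Z := ⟨fun hm => by
      simpa [mul_assoc] using hZ.conj_mem _ hm h⁻¹, fun hm => hZ.conj_mem _ hm h⟩
    simp only [f, this]
  have h := sum_classFunction_mul ⟨χ, hirr⟩ hf a
  have h1 := sum_classFunction_mul ⟨χ, hirr⟩ hf 1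
  simp only [f, mul_one, ite_mul, one_mul, zero_mul, ← Finset.sum_filter] at h h1
  have hsh : ∑ y ∈ Finset.univ.filter (fun y => y ∈ Z), χ (y * a) = ∑ y ∈ Finset.univ.filter (fun y => y ∈ Z), χ y :=
    Finset.sum_nbij' (fun y => y * a) (fun y => y * a⁻¹)
      (fun y hy => Finset.mem_filter.2 ⟨Finset.mem_univ _, Z.mul_mem (Finset.mem_filter.1 hy).2 ha⟩)
      (fun y hy => Finset.mem_filter.2 ⟨Finset.mem_univ _, Z.mul_mem (Finset.mem_filter.1 hy).2 (Z.inv_mem ha)⟩)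
      (fun y _ => by simp) (fun y _ => by simp) (fun _ _ => rfl)
  rw [hsh, h1] at h
  rw [h1]
  have h0 : omega χ (fun y => if y ∈ Z then (1:ℂ) else 0) * (χ a - χ 1) = 0 := by linear_combination -h
  rw [(mul_eq_zero.1 h0).resolve_right (sub_ne_zero.2 hne), zero_mul]

variable (H : Subgroup L) [H.Normal] (hC : ∀ h ∈ H, h ≠ 1 → Subgroup.centralizer ({h} : Set L) ≤ H)

/-- The degree divided by the index of the kernel. -/
noncomputable def degH (χ : L → ℂ) : ℕ := charDegree χ / H.index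

include hC in
theorem degH_spec [Fintype H] {χ : L → ℂ} (hχ : χ ∈ irrOn H) :
    ∃ φ : IrrCharacter H, (φ : H → ℂ) ≠ (fun _ => 1) ∧ indFun H (φ : H → ℂ) = χ ∧
      degH H χ = charDegree (φ : H → ℂ) ∧ charDegree χ = H.index * degH H χ := by
  obtain ⟨hirr, a, ha, hne⟩ := mem_irrOn.1 hχ
  obtain ⟨φ, hφ, rfl⟩ := Cfsg.Agent.S1528.result H hC χ hirr ⟨a, ha, hne⟩
  have hd : charDegree (indFun H φ) = H.index * charDegree φ :=
    CfsgLib.Feit1535.charDegree_eq (⟨_, hirr⟩ : IrrCharacter L) (by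
      show indFun H φ 1 = _
      rw [indFun_one, Nat.cast_mul, show φ 1 = (charDegree φ : ℂ) from irr_apply_one (⟨φ, hφ⟩ : IrrCharacter H)])
  have h2 : degH H (indFun H φ) = charDegree φ := by
    rw [degH, hd, Nat.mul_div_cancel_left _ (Nat.pos_of_ne_zero H.index_ne_zero_of_finite)]
  refine ⟨⟨φ, hφ⟩, fun e => hne ?_, rfl, h2, by rw [hd, h2]⟩
  have e' : φ = fun _ => 1 := e
  refine (Cfsg.Agent.S1487.result H H le_rfl φ hφ).1 (fun b _ => ?_) a ha
  rw [e']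

include hC in
theorem apply_one [Fintype H] {χ : L → ℂ} (hχ : χ ∈ irrOn H) :
    χ 1 = (H.index : ℂ) * (degH H χ : ℂ) := by
  obtain ⟨φ, -, -, -, hd⟩ := degH_spec H hC hχ
  rw [show χ 1 = (charDegree χ : ℂ) from irr_apply_one (⟨χ, (mem_irrOn.1 hχ).1⟩ : IrrCharacter L), hd, Nat.cast_mul]

include hC in
theorem degH_pos [Fintype H] {χ : L → ℂ} (hχ : χ ∈ irrOn H) : 0 < degH H χ := by
  obtain ⟨φ, -, -, hd, -⟩ := degH_spec H hC hχ
  rw [hd]; exact charDegree_pos φ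

include hC in
theorem degH_pow [Fintype H] {p : ℕ} (hp : p.Prime) (hP : IsPGroup p H) {χ : L → ℂ} (hχ : χ ∈ irrOn H) :
    ∃ i, degH H χ = p ^ i := by
  haveI := Fact.mk hp
  obtain ⟨φ, -, -, hd, -⟩ := degH_spec H hC hχ
  obtain ⟨m, hm⟩ := IsPGroup.iff_card.1 hP
  obtain ⟨i, -, hi⟩ := (Nat.dvd_prime_pow hp).1 (hm ▸ charDegree_dvd φ)
  exact ⟨i, hd.trans hi⟩

include hC in
theorem degH_sq_le [Fintype H] (Z : Subgroup L) (hZH : Z ≤ H) (hZc : ∀ z ∈ Z, ∀ h ∈ H, z * h = h * z)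
    {χ : L → ℂ} (hχ : χ ∈ irrOn H) : degH H χ ^ 2 * Nat.card Z ≤ Nat.card H := by
  classical
  obtain ⟨φ, -, -, hd, -⟩ := degH_spec H hC hχ
  rw [hd]
  have hval : ∀ h ∈ Finset.univ.filter (fun h : H => (h : L) ∈ Z),
      Complex.normSq ((φ : H → ℂ) h) = (charDegree (φ : H → ℂ) : ℝ) ^ 2 := by
    intro h hh
    have hc : h ∈ Subgroup.center H := Subgroup.mem_center_iff.2 fun g =>
      Subtype.ext (hZc h (Finset.mem_filter.1 hh).2 g g.2).symm
    have e := mul_central φ hc h⁻¹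
    rw [mul_inv_cancel, irr_apply_one, IsCharacter.map_inv (isCharacter_irr φ), Complex.mul_conj] at e
    have e2 : ((Complex.normSq ((φ : H → ℂ) h) : ℝ) : ℂ) = (((charDegree (φ : H → ℂ) : ℝ) ^ 2 : ℝ) : ℂ) := by
      rw [← e]; push_cast; ring
    exact_mod_cast e2
  have hsum : ∑ h : H, Complex.normSq ((φ : H → ℂ) h) = (Nat.card H : ℝ) := by
    have h := sum_mul_conj_irr φ φ
    rw [if_pos rfl] at h
    simp only [Complex.mul_conj] at h
    exact_mod_cast h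
  have hle : ∑ h ∈ Finset.univ.filter (fun h : H => (h : L) ∈ Z), Complex.normSq ((φ : H → ℂ) h) ≤
      ∑ h : H, Complex.normSq ((φ : H → ℂ) h) :=
    Finset.sum_le_sum_of_subset_of_nonneg (Finset.filter_subset _ _) fun h _ _ => Complex.normSq_nonneg _
  rw [hsum, Finset.sum_congr rfl hval, Finset.sum_const, nsmul_eq_mul] at hle
  have hcard : (Finset.univ.filter fun h : H => (h : L) ∈ Z).card = Nat.card Z := by
    rw [← Fintype.card_subtype, ← Nat.card_eq_fintype_card]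
    exact Nat.card_congr ⟨fun x => ⟨(x.1 : L), x.2⟩, fun x => ⟨⟨x.1, hZH x.2⟩, x.2⟩, fun _ => rfl, fun _ => rfl⟩
  rw [hcard] at hle
  have : ((charDegree (φ : H → ℂ) ^ 2 * Nat.card Z : ℕ) : ℝ) ≤ (Nat.card H : ℝ) := by push_cast; linarith
  exact_mod_cast this

include hC in
theorem conj_mem (hodd : Odd (Nat.card L)) {A : Subgroup L} (hA : A ≤ H) {χ : L → ℂ} (hχ : χ ∈ irrOn A) :
    (fun g => conj (χ g)) ∈ irrOn A ∧ (fun g => conj (χ g)) ≠ χ ∧
      charDegree (fun g => conj (χ g)) = charDegree χ := by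
  obtain ⟨hirr, a, ha, hne⟩ := mem_irrOn.1 hχ
  have h1 : χ 1 = (charDegree χ : ℂ) := irr_apply_one (⟨χ, hirr⟩ : IrrCharacter L)
  refine ⟨mem_irrOn.2 ⟨isIrrCharacter_conj ⟨χ, hirr⟩, a, ha, fun e => hne ((starRingEnd ℂ).injective e)⟩, fun e => ?_,
    CfsgLib.Feit1535.charDegree_eq (⟨_, isIrrCharacter_conj ⟨χ, hirr⟩⟩ : IrrCharacter L) (by
      show conj (χ 1) = _
      rw [h1, map_natCast])⟩
  have := CfsgLib.CharExtra.eq_one_of_real hodd ⟨χ, hirr⟩ (fun g => Complex.conj_eq_iff_im.1 (congrFun e g))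
  simp only at this
  exact hne (by rw [this])

include hC in
/-- The degrees of the characters nontrivial on a central subgroup. -/
theorem sum_degH_sq [Fintype H] {p : ℕ} (hp : p.Prime) (hP : IsPGroup p H) (hcop : ¬ p ∣ H.index)
    (hodd : Odd (Nat.card L)) (Z : Subgroup L) [Z.Normal] (hZH : Z ≤ H) (hZ1 : Z ≠ ⊥) :
    ∃ q m : ℕ, q * Nat.card Z = Nat.card H ∧ (∃ j, q = p ^ j) ∧ 2 ∣ m ∧ 2 ≤ m ∧
      ∑ ξ ∈ irrOn Z, degH H ξ ^ 2 = q * m := by
  classical
  haveI := Fact.mk hp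
  set e := H.index
  set M := ∑ ξ ∈ irrOn Z, degH H ξ ^ 2 with hM
  obtain ⟨q, hq⟩ : Nat.card Z ∣ Nat.card H := Subgroup.card_dvd_of_le hZH
  have hZpos : 0 < Nat.card Z := Nat.card_pos
  have hqpow : ∃ j, q = p ^ j := by
    obtain ⟨m, hm⟩ := IsPGroup.iff_card.1 hP
    obtain ⟨i, -, hi⟩ := (Nat.dvd_prime_pow hp).1 (show q ∣ p ^ m by rw [← hm, hq]; exact Dvd.intro_left _ rfl)
    exact ⟨i, hi⟩
  have hcard : (Finset.univ.filter fun y : L => y ∈ Z).card = Nat.card Z := by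
    rw [← Fintype.card_subtype, ← Nat.card_eq_fintype_card]
  have h0 : ∑ y ∈ Finset.univ.filter (fun y : L => y ∈ Z), ∑ χ : IrrCharacter L, (χ : L → ℂ) 1 * (χ : L → ℂ) y =
      (Nat.card L : ℂ) := by
    simp only [sum_deg_mul]
    rw [Finset.sum_ite_eq' _ (1 : L), if_pos (by simp [Z.one_mem])]
  rw [Finset.sum_comm, ← Finset.sum_filter_add_sum_filter_not _ (fun χ : IrrCharacter L => (χ : L → ℂ) ∈ irrOn Z)] at h0
  rw [Finset.sum_eq_zero (fun χ hχ => by
    rw [← Finset.mul_sum, sum_subgroup_eq_zero Z (Finset.mem_filter.1 hχ).2, mul_zero]), zero_add,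
    Finset.sum_congr rfl (g := fun χ : IrrCharacter L => ((Nat.card Z * charDegree (χ : L → ℂ) ^ 2 : ℕ) : ℂ))
      (fun χ hχ => by
        have hh : ∀ y ∈ Finset.univ.filter (fun y : L => y ∈ Z), (χ : L → ℂ) 1 * (χ : L → ℂ) y =
            (charDegree (χ : L → ℂ) : ℂ) * (charDegree (χ : L → ℂ) : ℂ) := fun y hy => by
          have hno := (Finset.mem_filter.1 hχ).2
          rw [mem_irrOn] at hno
          push Not at hno
          rw [hno χ.2 y (Finset.mem_filter.1 hy).2, irr_apply_one]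
        rw [Finset.sum_congr rfl hh, Finset.sum_const, hcard, nsmul_eq_mul]
        push_cast; ring), ← Nat.cast_sum, Nat.cast_inj, ← Finset.mul_sum] at h0
  have hall := sum_deg_sq (G := L)
  rw [← Finset.sum_filter_add_sum_filter_not _ (fun χ : IrrCharacter L => (χ : L → ℂ) ∈ irrOn Z)] at hall
  have hX : ∑ χ ∈ Finset.univ.filter (fun χ : IrrCharacter L => (χ : L → ℂ) ∈ irrOn Z),
      charDegree (χ : L → ℂ) ^ 2 = e ^ 2 * M := by
    rw [hM, Finset.mul_sum]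
    refine Finset.sum_bij (fun χ _ => (χ : L → ℂ)) (fun χ hχ => (Finset.mem_filter.1 hχ).2)
      (fun _ _ _ _ h => Subtype.ext h)
      (fun x hx => ⟨⟨x, (mem_irrOn.1 hx).1⟩, Finset.mem_filter.2 ⟨Finset.mem_univ _, hx⟩, rfl⟩) fun χ hχ => ?_
    obtain ⟨φ, -, -, -, hd⟩ := degH_spec H hC (irrOn_mono hZH (Finset.mem_filter.1 hχ).2)
    rw [hd, mul_pow]
  rw [hX] at hall
  have hL : Nat.card L = e * (Nat.card Z * q) := by rw [← hq, mul_comm]; exact (H.card_mul_index).symm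
  set W := ∑ χ ∈ Finset.univ.filter (fun χ : IrrCharacter L => ¬ (χ : L → ℂ) ∈ irrOn Z), charDegree (χ : L → ℂ) ^ 2
  have hW : W = e * q := Nat.eq_of_mul_eq_mul_left hZpos (by rw [h0, hL]; ring)
  rw [hW, hL] at hall
  have he0 : 0 < e := Nat.pos_of_ne_zero H.index_ne_zero_of_finite
  have hkey : e * M + q = Nat.card Z * q := Nat.eq_of_mul_eq_mul_left he0 (by linarith)
  obtain ⟨j, hj⟩ := hqpow
  have hqM : q ∣ M := by
    refine (Nat.Coprime.pow_left j ((hp.coprime_iff_not_dvd).2 hcop) |> fun h => (hj ▸ h : Nat.Coprime q e)).dvd_of_dvd_mul_left ?_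
    exact (Nat.dvd_add_left (dvd_refl q)).1 (hkey ▸ Dvd.intro_left _ rfl)
  obtain ⟨m, hm⟩ := hqM
  have hq0 : 0 < q := hj ▸ pow_pos hp.pos j
  have hm' : e * m + 1 = Nat.card Z := Nat.eq_of_mul_eq_mul_left hq0 (by rw [mul_comm q (Nat.card Z), ← hkey, hm]; ring)
  have hZodd : Odd (Nat.card Z) := hodd.of_dvd_nat (Subgroup.card_subgroup_dvd_card Z)
  have heodd : Odd e := hodd.of_dvd_nat H.index_dvd_card
  have hm2 : 2 ∣ m := by
    rw [← hm', Nat.odd_add_one, Nat.not_odd_iff_even, Nat.even_mul] at hZodd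
    rcases hZodd with h | h
    · exact absurd h (Nat.not_even_iff_odd.2 heodd)
    · exact even_iff_two_dvd.1 h
  refine ⟨q, m, by rw [hq, mul_comm], ⟨j, hj⟩, hm2, ?_, hm⟩
  have : 1 < Nat.card Z := (Subgroup.one_lt_card_iff_ne_bot Z).2 hZ1
  rcases Nat.eq_zero_or_pos m with h | h
  · rw [h, mul_zero] at hm'; omega
  · exact Nat.le_of_dvd h hm2

end

section TI
variable {G : Type u} [Group G] [Fintype G] (L : Subgroup G) [Fintype L] (H : Subgroup L) [H.Normal]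

/-- Induction is an isometry on the span of characters nontrivial on a TI kernel. -/
theorem isometry (hC : ∀ h ∈ H, h ≠ 1 → Subgroup.centralizer ({h} : Set L) ≤ H)
    (hTI : ∀ g : G, ∀ h ∈ H, h ≠ 1 → ∀ h' ∈ H, g * (h : G) * g⁻¹ = (h' : G) → g ∈ L) :
    IsLinearIsometryOn (zspanOn (↑(irrOn H) : Set (L → ℂ)) {1}ᶜ) (fun α : L → ℂ => indFun L α) ∧
      ∀ α ∈ zspanOn (↑(irrOn H) : Set (L → ℂ)) {1}ᶜ, indFun L α 1 = 0 := by
  classical
  have hprop : ∀ α ∈ zspan (↑(irrOn H) : Set (L → ℂ)),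
      IsGeneralizedCharacter L α ∧ ∀ x, x ∉ H → α x = 0 := by
    intro α hα
    refine zspan_induction (p := fun a => IsGeneralizedCharacter L a ∧ ∀ x, x ∉ H → a x = 0) ?_ ?_ ?_ ?_ hα
    · intro x hx
      obtain ⟨hirr, hne⟩ := mem_irrOn.1 hx
      exact ⟨genChar_of_char (irr_char hirr), fun y hy => CfsgLib.FrobeniusCoherent.vanish H hC ⟨x, hirr⟩ hne hy⟩
    · exact ⟨genChar_zero, fun _ _ => rfl⟩
    · rintro a b - - ⟨ha, ha'⟩ ⟨hb, hb'⟩
      exact ⟨genChar_add ha hb, fun x hx => by rw [Pi.add_apply, ha' x hx, hb' x hx, add_zero]⟩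
    · rintro n a - ⟨ha, ha'⟩
      exact ⟨genChar_zsmul ha n, fun x hx => by rw [Pi.smul_apply, ha' x hx, smul_zero]⟩
  have hadd : ∀ a b : L → ℂ, indFun L (a + b) = indFun L a + indFun L b := fun a b => by
    funext g
    simp only [Cfsg.indFun, Pi.add_apply, extendByZero_apply, ← mul_add, ← Finset.sum_add_distrib]
    exact congrArg _ (Finset.sum_congr rfl fun x _ => by split_ifs <;> simp)
  have hsm : ∀ (n : ℤ) (a : L → ℂ), indFun L (n • a) = n • indFun L a := fun n a => by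
    funext g
    simp only [Cfsg.indFun, Pi.smul_apply, zsmul_eq_mul, extendByZero_apply, Finset.mul_sum]
    exact Finset.sum_congr rfl fun x _ => by
      split_ifs <;> simp [mul_assoc, mul_left_comm]
  refine ⟨⟨fun a _ b _ => hadd a b, fun a _ n => hsm n a, fun a ha b hb => ?_, fun a ha => ?_⟩, fun a ha => ?_⟩
  · obtain ⟨-, haH⟩ := hprop a ha.1
    obtain ⟨hbg, hbH⟩ := hprop b hb.1
    rw [CfsgLib.Chars.frobenius L a (indFun_isClassFunction L b)]
    simp only [classInner]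
    congr 1
    refine Finset.sum_congr rfl fun x _ => ?_
    by_cases hx : x ∈ H ∧ x ≠ 1
    · rw [CfsgLib.TIInduce.indFun_eq L ((↑) '' (↑H : Set L)) (fun g hg t ht hgt => ?_) b (genChar_classFun hbg)
        (fun y hy => hbH y fun h => hy ⟨y, h, rfl⟩) x ⟨x, hx.1, rfl⟩ (fun e => hx.2 (Subtype.ext e))]
      obtain ⟨h, hh, rfl⟩ := ht
      obtain ⟨h', hh', he⟩ := hgt
      by_contra h1
      exact hg (hTI g h hh (fun e => h1 (by rw [e]; rfl)) h' hh' he.symm)
    · have : a x = 0 := by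
        by_cases h1 : x = 1
        · rw [h1]; exact (mem_zspanOn_one.1 ha).2
        · exact haH x fun h => hx ⟨h, h1⟩
      rw [this, zero_mul, zero_mul]
  · obtain ⟨c, d, hc, hd, rfl⟩ := (hprop a ha.1).1
    refine ⟨indFun L c, indFun L d, IsCharacter.indFun L hc, IsCharacter.indFun L hd, ?_⟩
    have := hadd (c - d) d
    rw [sub_add_cancel] at this
    exact eq_sub_of_add_eq this.symm
  · rw [indFun_one, (mem_zspanOn_one.1 ha).2, mul_zero]

open Classical in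
/-- A sum over a set with free action of a group is a multiple of the order of the group. -/
theorem free_sum {K : Type u} [Group K] [Fintype K] {Ω : Type u} [Fintype Ω] [MulAction K Ω] (F : Ω → ℂ)
    (hF : ∀ (k : K) (w : Ω), F (k • w) = F w) (hfree : ∀ (k : K) (w : Ω), k • w = w → k = 1)
    (hint : ∀ w, IsIntegral ℤ (F w)) : ∃ r : ℂ, IsIntegral ℤ r ∧ ∑ w, F w = (Nat.card K : ℂ) * r := by
  let Q := MulAction.orbitRel.Quotient K Ω
  haveI : Fintype Q := Fintype.ofFinite Q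
  refine ⟨∑ q : Q, F q.out, IsIntegral.sum _ fun q _ => hint _, ?_⟩
  rw [← Finset.sum_fiberwise Finset.univ (fun w => (Quotient.mk'' w : Q)) F, Finset.mul_sum]
  refine Finset.sum_congr rfl fun q _ => ?_
  have himg : (Finset.univ.filter fun w => (Quotient.mk'' w : Q) = q) =
      (Finset.univ : Finset K).image (fun k => k • q.out) := by
    ext w
    simp only [Finset.mem_filter, Finset.mem_univ, true_and, Finset.mem_image]
    constructor
    · intro h
      have h' : (Quotient.mk'' w : Q) = Quotient.mk'' q.out := by rw [h, Quotient.out_eq']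
      obtain ⟨k, hk⟩ := (Quotient.eq''.1 h' : MulAction.orbitRel K Ω w q.out)
      exact ⟨k, hk⟩
    · rintro ⟨k, rfl⟩
      conv_rhs => rw [← Quotient.out_eq' q]
      exact Quotient.eq''.2 ⟨k, rfl⟩
  rw [himg, Finset.sum_image (fun k _ k' _ h => by
      have h2 : (k'⁻¹ * k) • q.out = q.out := by
        have h3 : k • q.out = k' • q.out := h
        rw [mul_smul, h3, inv_smul_smul]
      exact (inv_mul_eq_one.1 (hfree _ _ h2)).symm),
    Finset.sum_congr rfl (fun k _ => hF k _), Finset.sum_const, nsmul_eq_mul, Finset.card_univ,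
    ← Nat.card_eq_fintype_card]

/-- Congruence for a character that is constant on the nonidentity elements of a central subgroup. -/
theorem congruence (hC : ∀ g : G, ∀ h ∈ H, h ≠ 1 → g * (h : G) = h * g → ∃ g' ∈ H, (g' : G) = g)
    (hTI : ∀ g : G, ∀ h ∈ H, h ≠ 1 → ∀ h' ∈ H, g * (h : G) * g⁻¹ = (h' : G) → g ∈ L) (hodd : Odd (Nat.card L))
    (Z : Subgroup L) [hZn : Z.Normal] (hZH : Z ≤ H) (hZc : ∀ z ∈ Z, ∀ h ∈ H, z * h = h * z)
    (θ : IrrCharacter G) (t : ℂ) (ht : ∀ y ∈ Z, y ≠ 1 → (θ : G → ℂ) (y : G) = t) (hZ1 : Z ≠ ⊥) :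
    IsIntegral ℤ ((H.index : ℂ) * ((θ : G → ℂ) 1 - t) / (Nat.card H : ℂ)) := by
  classical
  haveI : Fintype H := Fintype.ofFinite H
  obtain ⟨⟨z, hz⟩, hz1'⟩ := Subgroup.ne_bot_iff_exists_ne_one.1 hZ1
  have hz1 : z ≠ 1 := fun h => hz1' (Subtype.ext h)
  have hzH : z ∈ H := hZH hz
  have hclassθ := IsCharacter.isClassFunction (isCharacter_irr θ)
  -- the conjugates of `z` and of its inverse inside the kernel lie in `Z`
  have hin : ∀ w ∈ Z, w ≠ 1 → ∀ h ∈ H, IsConj (w : G) (h : G) → ∃ l : L, h = l * w * l⁻¹ ∧ h ∈ Z ∧ h ≠ 1 := by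
    intro w hw hw1 h hh hconj
    obtain ⟨c, hc⟩ := isConj_iff.1 hconj
    refine ⟨⟨c, hTI c w (hZH hw) hw1 h hh hc⟩, Subtype.ext hc.symm, ?_⟩
    have he : h = (⟨c, hTI c w (hZH hw) hw1 h hh hc⟩ : L) * w * (⟨c, hTI c w (hZH hw) hw1 h hh hc⟩ : L)⁻¹ :=
      Subtype.ext hc.symm
    rw [he]
    exact ⟨hZn.conj_mem _ hw _, fun e => hw1 (conj_eq_one_iff.1 e)⟩
  have hnotinv : ∀ l : L, l * z * l⁻¹ ≠ z⁻¹ := by
    intro l hl
    have h2 : (l * l) * z = z * (l * l) := by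
      have : (l * l) * z * (l * l)⁻¹ = z := by
        calc (l * l) * z * (l * l)⁻¹ = l * (l * z * l⁻¹) * l⁻¹ := by group
          _ = l * z⁻¹ * l⁻¹ := by rw [hl]
          _ = (l * z * l⁻¹)⁻¹ := by group
          _ = z := by rw [hl, inv_inv]
      calc (l * l) * z = (l * l) * z * (l * l)⁻¹ * (l * l) := by group
        _ = z * (l * l) := by rw [this]
    obtain ⟨g', hg', he⟩ := hC ((l * l : L) : G) z hzH hz1 (congrArg Subtype.val h2)
    rw [Subtype.ext_iff.2 he] at hg'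
    obtain ⟨k, hk⟩ := hodd
    have hlH : l ∈ H := by
      have hpow : (l * l) ^ (k + 1) = l := by
        rw [← pow_two, ← pow_mul, show 2 * (k + 1) = Nat.card L + 1 by omega, pow_succ, pow_card_eq_one', one_mul]
      rw [← hpow]
      exact H.pow_mem hg' _
    have h3 : l * z * l⁻¹ = z := by rw [← hZc z hz l hlH, mul_inv_cancel_right]
    rw [h3] at hl
    refine hz1 ?_
    have : z ^ (2 * k + 1) = z := by
      rw [pow_succ, pow_mul, pow_two]
      nth_rewrite 2 [hl]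
      rw [mul_inv_cancel, one_pow, one_mul]
    rw [← this, show 2 * k + 1 = Nat.card L by omega, pow_card_eq_one']
  let K : Finset G := Finset.univ.filter fun x => IsConj (z : G) x
  let K' : Finset G := Finset.univ.filter fun x => IsConj ((z⁻¹ : L) : G) x
  let P : Finset G := Finset.univ.filter fun x => ∃ h ∈ H, (h : G) = x
  -- pairs meeting the complement of the kernel contribute multiples of the order
  have hrest : ∀ w ∈ Z, w ≠ 1 → ∃ r : ℂ, IsIntegral ℤ r ∧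
      (∑ x ∈ K ×ˢ (Finset.univ.filter fun x => IsConj (w : G) x), (θ : G → ℂ) (x.1 * x.2)) =
      (∑ x ∈ (K ∩ P) ×ˢ ((Finset.univ.filter fun x => IsConj (w : G) x) ∩ P), (θ : G → ℂ) (x.1 * x.2)) +
        (Nat.card H : ℂ) * r := by
    intro w hw hw1
    set Kw := Finset.univ.filter fun x => IsConj (w : G) x with hKw
    let U : Finset (G × G) := (K ×ˢ Kw).filter fun x => ¬ (x.1 ∈ P ∧ x.2 ∈ P)
    have hstab : ∀ (k : H) (x : G) , (k : G) * x * (k : G)⁻¹ ∈ P ↔ x ∈ P := by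
      intro k x
      simp only [P, Finset.mem_filter, Finset.mem_univ, true_and]
      constructor
      · rintro ⟨h, hh, he⟩
        refine ⟨(k : L)⁻¹ * h * k, H.mul_mem (H.mul_mem (H.inv_mem k.2) hh) k.2, ?_⟩
        simp [he, mul_assoc]
      · rintro ⟨h, hh, rfl⟩
        exact ⟨(k : L) * h * (k : L)⁻¹, H.mul_mem (H.mul_mem k.2 hh) (H.inv_mem k.2), by simp⟩
    have hconjK : ∀ (a : G) (c x : G), IsConj a x → IsConj a (c * x * c⁻¹) := fun a c x h =>
      h.trans (isConj_iff.2 ⟨c, rfl⟩)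
    letI : MulAction H {x : G × G // x ∈ U} :=
      { smul := fun k x => ⟨((k : G) * x.1.1 * (k : G)⁻¹, (k : G) * x.1.2 * (k : G)⁻¹), by
          have := x.2
          simp only [U, K, hKw, Finset.mem_filter, Finset.mem_product, Finset.mem_univ, true_and] at this ⊢
          rw [hstab k, hstab k]
          exact ⟨⟨hconjK _ _ _ this.1.1, hconjK _ _ _ this.1.2⟩, this.2⟩⟩
        one_smul := fun x => Subtype.ext (by simp [HSMul.hSMul, SMul.smul])
        mul_smul := fun a b x => Subtype.ext (by simp [HSMul.hSMul, SMul.smul, mul_assoc]) }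
    obtain ⟨r, hr, hsum⟩ := free_sum (K := H) (Ω := {x : G × G // x ∈ U}) (fun x => (θ : G → ℂ) (x.1.1 * x.1.2))
      (fun k x => by
        show (θ : G → ℂ) ((k : G) * x.1.1 * (k : G)⁻¹ * ((k : G) * x.1.2 * (k : G)⁻¹)) = _
        rw [show (k : G) * x.1.1 * (k : G)⁻¹ * ((k : G) * x.1.2 * (k : G)⁻¹) =
          (k : G) * (x.1.1 * x.1.2) * (k : G)⁻¹ by group]
        exact hclassθ _ _)
      (fun k x hk => by
        have h1 : (k : G) * x.1.1 * (k : G)⁻¹ = x.1.1 := congrArg (fun y => y.1.1) hk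
        have h2 : (k : G) * x.1.2 * (k : G)⁻¹ = x.1.2 := congrArg (fun y => y.1.2) hk
        have hx := x.2
        simp only [U, K, hKw, Finset.mem_filter, Finset.mem_product, Finset.mem_univ, true_and] at hx
        by_contra hk1
        have key : ∀ y : G, (k : G) * y * (k : G)⁻¹ = y → y ∈ P := fun y hy => by
          obtain ⟨g', hg', he⟩ := hC y (k : L) k.2 (fun e => hk1 (Subtype.ext e)) (by
            calc y * (k : G) = (k : G) * y * (k : G)⁻¹ * (k : G) := by rw [hy]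
              _ = (k : G) * y := by group)
          exact Finset.mem_filter.2 ⟨Finset.mem_univ _, g', hg', he⟩
        exact hx.2 ⟨key _ h1, key _ h2⟩)
      (fun x => IsCharacter.isIntegral (isCharacter_irr θ) _)
    refine ⟨r, hr, ?_⟩
    rw [← hsum, ← Finset.sum_filter_add_sum_filter_not (K ×ˢ Kw) (fun x => x.1 ∈ P ∧ x.2 ∈ P),
      ← Finset.sum_subtype U (fun _ => Iff.rfl) (fun x : G × G => (θ : G → ℂ) (x.1 * x.2))]
    congr 1
    refine Finset.sum_congr ?_ fun _ _ => rfl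
    ext x
    simp only [Finset.mem_filter, Finset.mem_product, Finset.mem_inter]
    tauto
  have hω : ∀ w : L, (∑ x ∈ K ×ˢ (Finset.univ.filter fun x => IsConj (w : G) x), (θ : G → ℂ) (x.1 * x.2)) =
      (θ : G → ℂ) 1 * (omega (θ : G → ℂ) (classInd (z : G)) * omega (θ : G → ℂ) (classInd (w : G))) := by
    intro w
    rw [← omega_conv θ (classInd_isClassFunction _) (classInd_isClassFunction _), omega,
      mul_div_cancel₀ _ (irr_one_ne_zero θ)]
    simp only [CfsgLib.Chars.conv, Finset.sum_mul]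
    rw [Finset.sum_comm, Finset.sum_product]
    simp only [K, classInd, Finset.sum_filter]
    refine Finset.sum_congr rfl fun y _ => ?_
    by_cases hy : IsConj (z : G) y
    · rw [if_pos hy]
      refine Fintype.sum_equiv (Equiv.mulLeft y) _ _ fun x => ?_
      simp [hy, -isConj_iff]
    · simp [hy, -isConj_iff]
  have heq : omega (θ : G → ℂ) (classInd ((z⁻¹ : L) : G)) = omega (θ : G → ℂ) (classInd (z : G)) := by
    rw [omega_classInd hclassθ, omega_classInd hclassθ]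
    simp only [centralChar]
    rw [ht z hz hz1, ht z⁻¹ (Z.inv_mem hz) (inv_ne_one.2 hz1)]
    congr 4
    ext g
    simp only [Subgroup.mem_centralizer_singleton_iff, Subgroup.coe_inv]
    exact ⟨fun h => (Commute.inv_right_iff (a := g) (b := (z : G))).1 h,
      fun h => (Commute.inv_right_iff (a := g) (b := (z : G))).2 h⟩
  obtain ⟨r, hr, h1⟩ := hrest z hz hz1
  obtain ⟨r', hr', h2⟩ := hrest z⁻¹ (Z.inv_mem hz) (inv_ne_one.2 hz1)
  rw [hω] at h1 h2
  rw [heq] at h2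
  set O := K ∩ P with hO
  set O' := (Finset.univ.filter fun x => IsConj ((z⁻¹ : L) : G) x) ∩ P with hO'
  have hmemO : ∀ x ∈ O, ∃ y ∈ Z, y ≠ 1 ∧ (y : G) = x ∧ ∃ l : L, y = l * z * l⁻¹ := by
    intro x hx
    simp only [hO, K, P, Finset.mem_inter, Finset.mem_filter, Finset.mem_univ, true_and] at hx
    obtain ⟨hc, h, hh, rfl⟩ := hx
    obtain ⟨l, hl, hZ', h1'⟩ := hin z hz hz1 h hh hc
    exact ⟨h, hZ', h1', rfl, l, hl⟩
  have hinvO : ∀ x, x ∈ O' ↔ x⁻¹ ∈ O := by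
    intro x
    simp only [hO, hO', K, P, Finset.mem_inter, Finset.mem_filter, Finset.mem_univ, true_and, Subgroup.coe_inv]
    constructor
    · rintro ⟨hc, h, hh, rfl⟩
      obtain ⟨c, hc⟩ := isConj_iff.1 hc
      exact ⟨isConj_iff.2 ⟨c, by rw [← hc]; group⟩, h⁻¹, H.inv_mem hh, rfl⟩
    · rintro ⟨hc, h, hh, he⟩
      obtain ⟨c, hc⟩ := isConj_iff.1 hc
      exact ⟨isConj_iff.2 ⟨c, by rw [← inv_inv x, ← hc]; group⟩, h⁻¹, H.inv_mem hh, by simp [he]⟩
  have hval : ∀ x ∈ O, ∀ y ∈ Z, (x * (y : G)) ≠ 1 → (θ : G → ℂ) (x * (y : G)) = t := by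
    intro x hx y hy hne
    obtain ⟨a, ha, -, rfl, -⟩ := hmemO x hx
    exact ht (a * y) (Z.mul_mem ha hy) (fun e => hne (by
      have := congrArg Subtype.val e; simpa using this))
  have hsumOO : ∑ x ∈ O ×ˢ O, (θ : G → ℂ) (x.1 * x.2) = (O.card * O.card : ℕ) * t := by
    rw [Finset.sum_congr rfl (g := fun _ => t), Finset.sum_const, Finset.card_product, nsmul_eq_mul]
    rintro ⟨x, y⟩ hxy
    obtain ⟨hx, hy⟩ := Finset.mem_product.1 hxy
    obtain ⟨b, hb, -, rfl, l', hl'⟩ := hmemO y hy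
    refine hval x hx b hb fun e => ?_
    obtain ⟨a, -, -, rfl, l, hl⟩ := hmemO x hx
    have e' : a * b = 1 := Subtype.ext (by simpa using e)
    refine hnotinv (l⁻¹ * l') ?_
    have hb' : b = a⁻¹ := eq_inv_of_mul_eq_one_right e'
    calc l⁻¹ * l' * z * (l⁻¹ * l')⁻¹ = l⁻¹ * (l' * z * l'⁻¹) * l := by group
      _ = l⁻¹ * (l * z * l⁻¹)⁻¹ * l := by rw [← hl', hb', hl]
      _ = z⁻¹ := by group
  have hsumOO' : ∑ x ∈ O ×ˢ O', (θ : G → ℂ) (x.1 * x.2) =
      (O.card * O.card : ℕ) * t + (O.card : ℕ) * ((θ : G → ℂ) 1 - t) := by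
    rw [Finset.sum_product]
    have : ∀ x ∈ O, ∑ y ∈ O', (θ : G → ℂ) (x * y) = (O.card : ℕ) * t + ((θ : G → ℂ) 1 - t) := by
      intro x hx
      rw [Finset.sum_congr rfl (g := fun y => t + if y = x⁻¹ then (θ : G → ℂ) 1 - t else 0) (fun y hy => ?_),
        Finset.sum_add_distrib, Finset.sum_const, Finset.sum_ite_eq', if_pos ((hinvO _).2 (by simpa using hx)),
        nsmul_eq_mul]
      · congr 3
        refine Finset.card_nbij' (fun y => y⁻¹) (fun y => y⁻¹) (fun y hy => (hinvO y).1 hy)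
          (fun y hy => (hinvO _).2 (by simpa using hy)) (fun y _ => inv_inv y) (fun y _ => inv_inv y)
      · split_ifs with he
        · rw [he, mul_inv_cancel]; ring
        · obtain ⟨b, hb, -, hbe, -⟩ := hmemO _ ((hinvO y).1 hy)
          have hy' : y = ((b⁻¹ : L) : G) := by simp [hbe]
          rw [hy'] at he ⊢
          rw [hval x hx _ (Z.inv_mem hb) fun e => he (eq_inv_of_mul_eq_one_right e), add_zero]
    rw [Finset.sum_congr rfl this, Finset.sum_const, nsmul_eq_mul]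
    push_cast; ring
  rw [hsumOO] at h1
  rw [hsumOO'] at h2
  have hOcard : O.card = H.index := by
    have hHz : Subgroup.centralizer ({z} : Set L) = H := le_antisymm (fun g hg => by
      obtain ⟨g', hg', he⟩ := hC (g : G) z hzH hz1
        (congrArg Subtype.val (Subgroup.mem_centralizer_singleton_iff.1 hg))
      rwa [← Subtype.ext he]) fun g hg => Subgroup.mem_centralizer_singleton_iff.2 (hZc z hz g hg).symm
    have hc := card_isConj_eq_index z
    rw [hHz] at hc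
    rw [← hc, Nat.card_eq_fintype_card, Fintype.card_subtype]
    refine (Finset.card_bij (fun (y : L) _ => (y : G)) (fun y hy => ?_) (fun _ _ _ _ h => Subtype.ext h)
      fun x hx => ?_).symm
    · obtain ⟨c, hc⟩ := isConj_iff.1 (Finset.mem_filter.1 hy).2
      subst hc
      simp only [hO, K, P, Finset.mem_inter, Finset.mem_filter, Finset.mem_univ, true_and]
      exact ⟨isConj_iff.2 ⟨c, by simp⟩, c * z * c⁻¹, hZH (hZn.conj_mem z hz c), rfl⟩
    · obtain ⟨y, -, -, rfl, l, hl⟩ := hmemO x hx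
      exact ⟨y, Finset.mem_filter.2 ⟨Finset.mem_univ _, isConj_iff.2 ⟨l, hl.symm⟩⟩, rfl⟩
  rw [← hOcard]
  have : (O.card : ℂ) * ((θ : G → ℂ) 1 - t) = (Nat.card H : ℂ) * (r - r') := by linear_combination h1 - h2
  rw [this, mul_div_cancel_left₀ _ (natCast_card_ne_zero H)]
  exact IsIntegral.sub hr hr'

/-- The coefficient at `ψ` of a character orthogonal to the differences is a multiple of its degree. -/
theorem dvd_coeff (hC : ∀ g : G, ∀ h ∈ H, h ≠ 1 → g * (h : G) = h * g → ∃ g' ∈ H, (g' : G) = g)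
    (hTI : ∀ g : G, ∀ h ∈ H, h ≠ 1 → ∀ h' ∈ H, g * (h : G) * g⁻¹ = (h' : G) → g ∈ L) (hodd : Odd (Nat.card L))
    {p : ℕ} (hp : p.Prime) (hP : IsPGroup p H) (hcop : ¬ p ∣ H.index)
    (Z : Subgroup L) [Z.Normal] (hZH : Z ≤ H) (hZc : ∀ z ∈ Z, ∀ h ∈ H, z * h = h * z) (hZ1 : Z ≠ ⊥)
    (ψ : L → ℂ) (hψ : ψ ∈ irrOn Z) (θ : IrrCharacter G) (a : ℤ)
    (ha : classInner (fun x : L => (θ : G → ℂ) x) ψ = (a : ℂ))
    (hprop : ∀ ζ ∈ irrOn Z, (degH H ψ : ℂ) * classInner (fun x : L => (θ : G → ℂ) x) ζ = (degH H ζ : ℂ) * a) :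
    (degH H ψ : ℤ) ∣ a := by
  classical
  haveI := Fact.mk hp
  haveI : Fintype H := Fintype.ofFinite H
  have hCL : ∀ h ∈ H, h ≠ 1 → Subgroup.centralizer ({h} : Set L) ≤ H := fun h hh h1 g hg => by
    obtain ⟨g', hg', he⟩ := hC (g : G) h hh h1 (congrArg Subtype.val (Subgroup.mem_centralizer_singleton_iff.1 hg))
    rwa [← Subtype.ext he]
  set d := degH H ψ with hd
  have hdpos : 0 < d := degH_pos H hCL (irrOn_mono hZH hψ)
  set e := H.index
  have he0 : (e : ℂ) ≠ 0 := Nat.cast_ne_zero.2 H.index_ne_zero_of_finite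
  have hd0 : (d : ℂ) ≠ 0 := Nat.cast_ne_zero.2 hdpos.ne'
  have hcf : IsClassFunction L (fun x : L => (θ : G → ℂ) x) := fun x y => by
    simp only [Subgroup.coe_mul, Subgroup.coe_inv]
    exact IsCharacter.isClassFunction (isCharacter_irr θ) _ _
  have hval : ∀ y ∈ Z, y ≠ 1 → (θ : G → ℂ) 1 - (θ : G → ℂ) (y : G) = (a : ℂ) * (Nat.card H : ℂ) / d := by
    intro y hy hy1
    have h1 := classFunction_expand hcf 1
    have h2 := classFunction_expand hcf y
    simp only [Subgroup.coe_one] at h1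
    rw [h1, h2, ← Finset.sum_sub_distrib]
    have hterm : ∀ χ : IrrCharacter L,
        classInner (fun x : L => (θ : G → ℂ) x) (χ : L → ℂ) * (χ : L → ℂ) 1 -
          classInner (fun x : L => (θ : G → ℂ) x) (χ : L → ℂ) * (χ : L → ℂ) y =
        (a : ℂ) / ((d : ℂ) * e) * ((χ : L → ℂ) 1 * (χ : L → ℂ) 1 - (χ : L → ℂ) 1 * (χ : L → ℂ) y) := by
      intro χ
      by_cases hχ : (χ : L → ℂ) ∈ irrOn Z
      · have hp1 := hprop _ hχ
        rw [apply_one H hCL (irrOn_mono hZH hχ)]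
        field_simp
        linear_combination ((e : ℂ) * ((e : ℂ) * degH H (χ : L → ℂ) - (χ : L → ℂ) y)) * hp1
      · rw [mem_irrOn] at hχ
        push Not at hχ
        rw [hχ χ.2 y hy]; ring
    rw [Finset.sum_congr rfl fun χ _ => hterm χ, ← Finset.mul_sum, Finset.sum_sub_distrib, sum_deg_mul, sum_deg_mul,
      if_pos rfl, if_neg hy1, sub_zero, ← H.card_mul_index, Nat.cast_mul]
    field_simp
    rfl
  obtain ⟨⟨z, hz⟩, hz1'⟩ := Subgroup.ne_bot_iff_exists_ne_one.1 hZ1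
  have hz1 : z ≠ 1 := fun h => hz1' (Subtype.ext h)
  have hint := congruence L H hC hTI hodd Z hZH hZc θ ((θ : G → ℂ) (z : G)) (fun y hy hy1 => by
    linear_combination (hval z hz hz1) - (hval y hy hy1)) hZ1
  rw [hval z hz hz1] at hint
  have h3 : (e : ℂ) * ((a : ℂ) * (Nat.card H : ℂ) / d) / (Nat.card H : ℂ) = ((e * a : ℤ) : ℂ) / ((d : ℕ) : ℂ) := by
    push_cast
    field_simp [natCast_card_ne_zero H]
  rw [h3] at hint
  have habs : IsIntegral ℤ (((((e : ℤ) * a).natAbs : ℕ) : ℂ) / ((d : ℕ) : ℂ)) → d ∣ ((e : ℤ) * a).natAbs :=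
    exists_int_of_isIntegral_div hdpos.ne'
  have hint' : IsIntegral ℤ (((((e : ℤ) * a).natAbs : ℕ) : ℂ) / ((d : ℕ) : ℂ)) := by
    rcases Int.natAbs_eq ((e : ℤ) * a) with h | h
    · rw [h] at hint; simpa using hint
    · rw [h] at hint
      have := hint.neg
      simpa [neg_div] using this
  have hdiv : (d : ℤ) ∣ (e : ℤ) * a := Int.natCast_dvd.2 (habs hint')
  obtain ⟨i, hi⟩ := degH_pow H hCL hp hP (irrOn_mono hZH hψ)
  refine Int.dvd_of_dvd_mul_right_of_gcd_one hdiv ?_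
  rw [Int.gcd_natCast_natCast]
  rw [hd, hi]
  exact Nat.Coprime.pow_left i (hp.coprime_iff_not_dvd.2 hcop)

/-- The characters nontrivial on a central subgroup form a coherent set. -/
theorem coherent_central (hC : ∀ g : G, ∀ h ∈ H, h ≠ 1 → g * (h : G) = h * g → ∃ g' ∈ H, (g' : G) = g)
    (hTI : ∀ g : G, ∀ h ∈ H, h ≠ 1 → ∀ h' ∈ H, g * (h : G) * g⁻¹ = (h' : G) → g ∈ L) (hodd : Odd (Nat.card L))
    {p : ℕ} (hp : p.Prime) (hp2 : p ≠ 2) (hP : IsPGroup p H) (hcop : ¬ p ∣ H.index)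
    (Z : Subgroup L) [Z.Normal] (hZH : Z ≤ H) (hZc : ∀ z ∈ Z, ∀ h ∈ H, z * h = h * z) (hZ1 : Z ≠ ⊥) :
    IsCoherent (↑(irrOn Z) : Set (L → ℂ)) {1}ᶜ (fun α : L → ℂ => indFun L α) := by
  classical
  haveI := Fact.mk hp
  haveI : Fintype H := Fintype.ofFinite H
  have hCL : ∀ h ∈ H, h ≠ 1 → Subgroup.centralizer ({h} : Set L) ≤ H := fun h hh h1 g hg => by
    obtain ⟨g', hg', he⟩ := hC (g : G) h hh h1 (congrArg Subtype.val (Subgroup.mem_centralizer_singleton_iff.1 hg))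
    rwa [← Subtype.ext he]
  obtain ⟨hτ, hτ1⟩ := isometry L H hCL hTI
  have hmono : ∀ T : Finset (L → ℂ), T ⊆ irrOn H →
      IsLinearIsometryOn (zspanOn (↑T : Set (L → ℂ)) {1}ᶜ) (fun α : L → ℂ => indFun L α) ∧
      ∀ α ∈ zspanOn (↑T : Set (L → ℂ)) {1}ᶜ, indFun L α 1 = 0 := by
    intro T hT
    have hsub : zspanOn (↑T : Set (L → ℂ)) {1}ᶜ ⊆ zspanOn (↑(irrOn H) : Set (L → ℂ)) {1}ᶜ := fun α hα =>
      ⟨zspan_mono (Finset.coe_subset.2 hT) hα.1, hα.2⟩
    exact ⟨⟨fun a ha b hb => hτ.1 a (hsub ha) b (hsub hb), fun a ha => hτ.2.1 a (hsub ha),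
      fun a ha b hb => hτ.2.2.1 a (hsub ha) b (hsub hb), fun a ha => hτ.2.2.2 a (hsub ha)⟩,
      fun a ha => hτ1 a (hsub ha)⟩
  set X := irrOn Z with hX
  have hXH : X ⊆ irrOn H := irrOn_mono hZH
  obtain ⟨q, m, hq, ⟨j, hj⟩, hm2, hm, hsum⟩ := sum_degH_sq H hCL hp hP hcop hodd Z hZH hZ1
  have hne : X.Nonempty := by
    rcases X.eq_empty_or_nonempty with h | h
    · rw [← hX, h, Finset.sum_empty] at hsum
      have : 0 < q := hj ▸ pow_pos hp.pos j
      nlinarith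
    · exact h
  obtain ⟨ψ, hψ, hmin⟩ := Finset.exists_min_image X (degH H) hne
  set B := X.filter fun ξ => degH H ξ = degH H ψ with hB
  have hψB : ψ ∈ B := Finset.mem_filter.2 ⟨hψ, rfl⟩
  obtain ⟨hψc, hψne, hψd⟩ := conj_mem H hCL hodd hZH hψ
  have hψcB : (fun g => conj (ψ g)) ∈ B := Finset.mem_filter.2 ⟨hψc, by rw [degH, hψd]; rfl⟩
  have hcohB := CfsgLib.CoherenceFeit.coherent_equal_degree B
    (fun x hx => (mem_irrOn.1 (Finset.filter_subset _ _ hx)).1)
    (fun x hx y hy => by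
      rw [apply_one H hCL (hXH (Finset.filter_subset _ _ hx)), apply_one H hCL (hXH (Finset.filter_subset _ _ hy)),
        (Finset.mem_filter.1 hx).2, (Finset.mem_filter.1 hy).2])
    (Finset.one_lt_card.2 ⟨_, hψcB, _, hψB, hψne⟩)
    (hmono B ((Finset.filter_subset _ _).trans hXH)).1 (hmono B ((Finset.filter_subset _ _).trans hXH)).2
  have hd : ∀ x ∈ X, charDegree x = H.index * degH H x := fun x hx => (degH_spec H hCL (hXH hx)).choose_spec.2.2.2
  refine CfsgLib.CoherenceGlue.coherent_grow X B (Finset.filter_subset _ _) (fun x hx => (mem_irrOn.1 hx).1)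
    charDegree (fun x hx => irr_apply_one (⟨x, (mem_irrOn.1 hx).1⟩ : IrrCharacter L))
    (hmono X hXH).1 (hmono X hXH).2 hcohB ψ hψB (fun χ hχ => ?_) (fun χ hχ hχB => ?_)
  · obtain ⟨i, hi⟩ := degH_pow H hCL hp hP (hXH hψ)
    obtain ⟨k, hk⟩ := degH_pow H hCL hp hP (hXH hχ)
    rw [hd ψ hψ, hd χ hχ, hi, hk]
    exact Nat.mul_dvd_mul_left _ (pow_dvd_pow p ((Nat.pow_le_pow_iff_right hp.one_lt).1 (hi ▸ hk ▸ hmin χ hχ)))
  · obtain ⟨i, hi⟩ := degH_pow H hCL hp hP (hXH hψ)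
    obtain ⟨k, hk⟩ := degH_pow H hCL hp hP (hXH hχ)
    have hlt : degH H ψ < degH H χ := lt_of_le_of_ne (hmin χ hχ) fun e => hχB (Finset.mem_filter.2 ⟨hχ, e.symm⟩)
    have h3 : 3 * degH H ψ ≤ degH H χ := by
      rw [hi, hk] at hlt ⊢
      have hik := (Nat.pow_lt_pow_iff_right hp.one_lt).1 hlt
      calc 3 * p ^ i ≤ p * p ^ i := Nat.mul_le_mul_right _ (by have := hp.two_le; omega)
        _ = p ^ (i + 1) := (pow_succ' p i).symm
        _ ≤ p ^ k := Nat.pow_le_pow_right hp.pos hik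
    have hdq : degH H χ ^ 2 ∣ q := by
      have hle : degH H χ ^ 2 ≤ q := Nat.le_of_mul_le_mul_right
        (le_of_le_of_eq (degH_sq_le H hCL Z hZH hZc (hXH hχ)) hq.symm) Nat.card_pos
      rw [hk, hj, ← pow_mul] at hle ⊢
      exact pow_dvd_pow p ((Nat.pow_le_pow_iff_right hp.one_lt).1 hle)
    have hdiv : degH H χ ^ 2 ∣ ∑ ξ ∈ X.filter (fun ξ => degH H ξ < degH H χ), degH H ξ ^ 2 := by
      have h2 : degH H χ ^ 2 ∣ ∑ ξ ∈ X.filter (fun ξ => ¬ degH H ξ < degH H χ), degH H ξ ^ 2 :=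
        Finset.dvd_sum fun ξ hξ => by
          obtain ⟨l, hl⟩ := degH_pow H hCL hp hP (hXH (Finset.filter_subset _ _ hξ))
          have := not_lt.1 (Finset.mem_filter.1 hξ).2
          rw [hk, hl] at this ⊢
          exact pow_dvd_pow_of_dvd (pow_dvd_pow p ((Nat.pow_le_pow_iff_right hp.one_lt).1 this)) 2
      refine (Nat.dvd_add_left h2).1 ?_
      rw [Finset.sum_filter_add_sum_filter_not, hsum]
      exact dvd_mul_of_dvd_left hdq m
    have hle := Nat.le_of_dvd (lt_of_lt_of_le (pow_pos (degH_pos H hCL (hXH hψ)) 2)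
      (Finset.single_le_sum (f := fun ξ => degH H ξ ^ 2) (fun _ _ => Nat.zero_le _)
        (Finset.mem_filter.2 ⟨hψ, hlt⟩))) hdiv
    rw [hd ψ hψ, hd χ hχ]
    have he0 : 0 < H.index := Nat.pos_of_ne_zero H.index_ne_zero_of_finite
    calc 2 * (H.index * degH H ψ) * (H.index * degH H χ) = H.index ^ 2 * (2 * degH H ψ * degH H χ) := by ring
      _ < H.index ^ 2 * degH H χ ^ 2 := Nat.mul_lt_mul_of_pos_left (by
          rw [pow_two (degH H χ)]
          exact Nat.mul_lt_mul_of_pos_right (by have := degH_pos H hCL (hXH hψ); omega) (degH_pos H hCL (hXH hχ)))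
          (pow_pos he0 2)
      _ ≤ H.index ^ 2 * ∑ ξ ∈ X.filter (fun ξ => degH H ξ < degH H χ), degH H ξ ^ 2 := Nat.mul_le_mul_left _ hle
      _ = ∑ ξ ∈ X.filter (fun ξ => degH H ξ < degH H χ), charDegree ξ ^ 2 := by
          rw [Finset.mul_sum]
          exact Finset.sum_congr rfl fun ξ hξ => by rw [hd ξ (Finset.filter_subset _ _ hξ), mul_pow]
      _ ≤ _ := by
          refine Finset.sum_le_sum_of_subset fun ξ hξ => ?_
          obtain ⟨hξX, hξd⟩ := Finset.mem_filter.1 hξ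
          refine Finset.mem_filter.2 ⟨hξX, Or.inr ?_⟩
          rw [hd ξ hξX]
          exact Nat.mul_lt_mul_of_pos_left hξd he0

set_option maxHeartbeats 1000000 in
/-- Sibley's theorem: a nonabelian TI `p`-kernel in an odd order Frobenius normalizer gives coherence. -/
theorem coherent_nonabelian (hC : ∀ g : G, ∀ h ∈ H, h ≠ 1 → g * (h : G) = h * g → ∃ g' ∈ H, (g' : G) = g)
    (hTI : ∀ g : G, ∀ h ∈ H, h ≠ 1 → ∀ h' ∈ H, g * (h : G) * g⁻¹ = (h' : G) → g ∈ L) (hodd : Odd (Nat.card L))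
    {p : ℕ} (hp : p.Prime) (hp2 : p ≠ 2) (hP : IsPGroup p H) (hcop : ¬ p ∣ H.index)
    (hna : ¬ IsMulCommutative H) :
    IsCoherent (↑(irrOn H) : Set (L → ℂ)) {1}ᶜ (fun α : L → ℂ => indFun L α) := by
  classical
  haveI := Fact.mk hp
  haveI : Fintype H := Fintype.ofFinite H
  have hCL : ∀ h ∈ H, h ≠ 1 → Subgroup.centralizer ({h} : Set L) ≤ H := fun h hh h1 g hg => by
    obtain ⟨g', hg', he⟩ := hC (g : G) h hh h1 (congrArg Subtype.val (Subgroup.mem_centralizer_singleton_iff.1 hg))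
    rwa [← Subtype.ext he]
  haveI : Group.IsNilpotent H := hP.isNilpotent
  have hHne : Nontrivial H := by
    rw [← not_subsingleton_iff_nontrivial]
    intro hs
    exact hna ⟨⟨fun a b => Subsingleton.elim _ _⟩⟩
  have hcomm : (commutator H) ≠ ⊥ := by
    intro h
    refine hna ⟨⟨fun a b => ?_⟩⟩
    rw [commutator_def, Subgroup.commutator_eq_bot_iff_le_centralizer] at h
    exact (Subgroup.mem_centralizer_iff.1 (h (Subgroup.mem_top a)) b trivial).symm
  let Z : Subgroup L := (commutator H ⊓ Subgroup.center H).map H.subtype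
  haveI hZn : Z.Normal := by
    have e : Z = (commutator H).map H.subtype ⊓ (Subgroup.center H).map H.subtype :=
      Subgroup.map_inf _ _ _ H.subtype_injective
    rw [e]
    infer_instance
  have hZH : Z ≤ H := Subgroup.map_subtype_le _
  have hZc : ∀ z ∈ Z, ∀ h ∈ H, z * h = h * z := by
    rintro _ ⟨z, hz, rfl⟩ h hh
    exact (congrArg Subtype.val (Subgroup.mem_center_iff.1 hz.2 ⟨h, hh⟩)).symm
  have hZ1 : Z ≠ ⊥ := fun h => CfsgLib.Solvable.Basics.inf_center_ne_bot _ hcomm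
    ((Subgroup.map_eq_bot_iff_of_injective _ H.subtype_injective).1 h)
  obtain ⟨hτ, hτ1⟩ := isometry L H hCL hTI
  have hadd' : ∀ a ∈ zspanOn (↑(irrOn H) : Set (L → ℂ)) {1}ᶜ, ∀ b ∈ zspanOn (↑(irrOn H) : Set (L → ℂ)) {1}ᶜ,
      indFun L (a + b) = indFun L a + indFun L b := hτ.1
  have hsmu : ∀ a ∈ zspanOn (↑(irrOn H) : Set (L → ℂ)) {1}ᶜ, ∀ n : ℤ, indFun L (n • a) = n • indFun L a := hτ.2.1
  have hiso : ∀ a ∈ zspanOn (↑(irrOn H) : Set (L → ℂ)) {1}ᶜ, ∀ b ∈ zspanOn (↑(irrOn H) : Set (L → ℂ)) {1}ᶜ,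
      classInner (indFun L a) (indFun L b) = classInner a b := hτ.2.2.1
  obtain ⟨-, τ₁, hτ₁, hτ₁e⟩ := coherent_central L H hC hTI hodd hp hp2 hP hcop Z hZH hZc hZ1
  set X := irrOn Z with hX
  set S := irrOn H with hS
  have hXS : X ⊆ S := irrOn_mono hZH
  have hirr : ∀ x ∈ S, IsIrrCharacter L x := fun x hx => (mem_irrOn.1 hx).1
  obtain ⟨q, m, hq, ⟨j, hj⟩, hm2, hm, hsum⟩ := sum_degH_sq H hCL hp hP hcop hodd Z hZH hZ1
  have hne : X.Nonempty := by
    rcases X.eq_empty_or_nonempty with h | h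
    · rw [← hX, h, Finset.sum_empty] at hsum
      have : 0 < q := hj ▸ pow_pos hp.pos j
      nlinarith
    · exact h
  obtain ⟨ψ, hψ, hmin⟩ := Finset.exists_min_image X (degH H) hne
  set D := degH H with hD
  set d := D ψ with hd
  have hdpos : 0 < d := degH_pos H hCL (hXS hψ)
  obtain ⟨i, hi⟩ := degH_pow H hCL hp hP (hXS hψ)
  -- linear characters are trivial on `Z`
  have hlin : ∀ ξ ∈ S, D ξ = 1 → ξ ∉ X := by
    intro ξ hξ h1 hX'
    obtain ⟨φ, hφ, rfl, hφd, -⟩ := degH_spec H hCL hξ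
    obtain ⟨f, rfl⟩ := exists_homIrr φ (hφd.symm.trans h1)
    obtain ⟨-, a, ha, hne⟩ := mem_irrOn.1 hX'
    refine hne ((Cfsg.Agent.S1487.result Z H hZH _ (homIrr f).2).1 (fun b hb => ?_) a ha)
    obtain ⟨c, hc, hcb⟩ := hb
    rw [← H.subtype_injective hcb]
    show (f c : ℂ) = (f 1 : ℂ)
    rw [map_one, MonoidHom.mem_ker.1 (Abelianization.commutator_subset_ker f hc.1)]
  have hd3 : 3 ≤ d := by
    have hi0 : i ≠ 0 := fun h => hlin ψ (hXS hψ) (by rw [← hD] at hi; rw [hi, h, pow_zero]) hψ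
    have : p ≤ p ^ i := Nat.le_self_pow hi0 p
    have := hp.two_le
    rw [hd]; rw [← hD] at hi; omega
  have hdodd : Odd d := by
    rw [hd]; rw [← hD] at hi; rw [hi]
    exact (hp.odd_of_ne_two hp2).pow
  obtain ⟨φ₀, hφ₀, hφ₀1⟩ := CfsgLib.Feit1535.exists_lin (P := H)
  set η : L → ℂ := indFun H (φ₀ : H → ℂ) with hη
  have hηS : η ∈ S := mem_irrOn.2 ⟨CfsgLib.Feit1535.ind_irr H hCL φ₀ hφ₀, CfsgLib.Feit1535.ind_mem H hCL φ₀ hφ₀⟩
  have he0 : 0 < H.index := Nat.pos_of_ne_zero H.index_ne_zero_of_finite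
  have hηD : D η = 1 := by
    rw [hD, degH, show charDegree η = H.index from CfsgLib.Feit1535.charDegree_eq
      (⟨η, hirr η hηS⟩ : IrrCharacter L) (by
        show indFun H _ 1 = _
        rw [indFun_one, irr_apply_one, hφ₀1, Nat.cast_one, mul_one]), Nat.div_self he0]
  have hηX : η ∉ X := hlin η hηS hηD
  have hψη : ψ ≠ η := fun h => hηX (h ▸ hψ)
  have h1 : ∀ x ∈ S, x 1 = (H.index : ℂ) * (D x : ℂ) := fun x hx => apply_one H hCL hx
  -- the quotient of the degrees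
  set k : (L → ℂ) → ℕ := fun ζ => D ζ / d with hk
  have hkd : ∀ ζ ∈ X, D ζ = k ζ * d := fun ζ hζ => by
    obtain ⟨l, hl⟩ := degH_pow H hCL hp hP (hXS hζ)
    refine (Nat.div_mul_cancel ?_).symm
    rw [hd]
    rw [← hD] at hl hi
    rw [hl, hi]
    exact pow_dvd_pow p ((Nat.pow_le_pow_iff_right hp.one_lt).1 (hi ▸ hl ▸ hmin ζ hζ))
  have hkψ : k ψ = 1 := Nat.div_self hdpos
  have hmem : ∀ ζ ∈ X, ζ - (k ζ : ℤ) • ψ ∈ zspanOn (↑S : Set (L → ℂ)) {1}ᶜ ∧
      ζ - (k ζ : ℤ) • ψ ∈ zspanOn (↑X : Set (L → ℂ)) {1}ᶜ := fun ζ hζ => by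
    have e : (ζ - (k ζ : ℤ) • ψ) 1 = 0 := by
      rw [Pi.sub_apply, Pi.smul_apply, h1 ζ (hXS hζ), h1 ψ (hXS hψ), hkd ζ hζ, zsmul_eq_mul]
      push_cast; ring
    exact ⟨mem_zspanOn_one.2 ⟨zspan_sub (mem_zspan (hXS hζ)) (zspan_zsmul _ (mem_zspan (hXS hψ))), e⟩,
      mem_zspanOn_one.2 ⟨zspan_sub (mem_zspan hζ) (zspan_zsmul _ (mem_zspan hψ)), e⟩⟩
  have hτ₁k : ∀ ζ ∈ X, indFun L (ζ - (k ζ : ℤ) • ψ) = τ₁ ζ - (k ζ : ℤ) • τ₁ ψ := fun ζ hζ => by
    rw [show indFun L (ζ - (k ζ : ℤ) • ψ) = τ₁ (ζ - (k ζ : ℤ) • ψ) from (hτ₁e _ (hmem ζ hζ).2).symm,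
      iso_sub hτ₁ (mem_zspan hζ) (zspan_neg (zspan_zsmul _ (mem_zspan hψ))) (zspan_zsmul _ (mem_zspan hψ)),
      hτ₁.2.1 _ (mem_zspan hψ)]
  have hev : ∀ ζ ∈ X, IsGeneralizedCharacter G (τ₁ ζ) := fun ζ h => hτ₁.2.2.2 _ (mem_zspan h)
  have hoS : ∀ a ∈ S, ∀ b ∈ S, classInner a b = if a = b then 1 else 0 := fun a ha b hb => by
    by_cases h : a = b
    · rw [if_pos h, ← h, inner_irr_self (hirr a ha)]
    · rw [if_neg h, inner_irr_ne (hirr a ha) (hirr b hb) h]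
  have heo : ∀ ζ ∈ X, ∀ ξ ∈ X, classInner (τ₁ ζ) (τ₁ ξ) = if ζ = ξ then 1 else 0 := fun a ha b hb => by
    rw [hτ₁.2.2.1 _ (mem_zspan ha) _ (mem_zspan hb), hoS a (hXS ha) b (hXS hb)]
  set α : L → ℂ := ψ - (d : ℤ) • η with hα
  have hαmem : α ∈ zspanOn (↑S : Set (L → ℂ)) {1}ᶜ := mem_zspanOn_one.2
    ⟨zspan_sub (mem_zspan (hXS hψ)) (zspan_zsmul _ (mem_zspan hηS)), by
      rw [hα, Pi.sub_apply, Pi.smul_apply, h1 ψ (hXS hψ), h1 η hηS, hηD, zsmul_eq_mul]; push_cast; ring⟩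
  set T := indFun L α with hT
  have hTv : IsGeneralizedCharacter G T := hτ.2.2.2 _ hαmem
  have hTn : classInner T T = 1 + (d : ℂ) * d := by
    rw [hT, hiso _ hαmem _ hαmem, hα, ci_sub_left, ci_sub_right, ci_sub_right, ci_zsmul_left, ci_zsmul_left,
      ci_zsmul_right, ci_zsmul_right, hoS ψ (hXS hψ) ψ (hXS hψ), hoS η hηS η hηS, hoS ψ (hXS hψ) η hηS,
      hoS η hηS ψ (hXS hψ), if_pos rfl, if_pos rfl, if_neg hψη, if_neg hψη.symm]
    push_cast; ring
  have hint : ∀ ζ ∈ X, ∃ n : ℤ, classInner T (τ₁ ζ) = (n : ℂ) := fun ζ h => int_inner hTv (hev ζ h)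
  choose! c hc using hint
  set y : ℤ := c ψ - 1 with hy
  have hcy : ∀ ζ ∈ X, c ζ = (k ζ : ℤ) * y + if ζ = ψ then 1 else 0 := fun ζ hζ => by
    by_cases h : ζ = ψ
    · subst h; rw [if_pos rfl, hkψ, hy]; push_cast; ring
    · have e := hiso _ hαmem _ (hmem ζ hζ).1
      rw [hτ₁k ζ hζ, ci_sub_right, ci_zsmul_right, ← hT, hc ζ hζ, hc ψ hψ, hα] at e
      simp only [ci_sub_left, ci_sub_right, ci_zsmul_left, ci_zsmul_right, hoS _ (hXS hψ) _ (hXS hζ),
        hoS _ (hXS hψ) _ (hXS hψ), hoS _ hηS _ (hXS hζ), hoS _ hηS _ (hXS hψ), if_neg (Ne.symm h), if_pos,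
        if_neg hψη.symm, if_neg (fun e : η = ζ => hηX (e ▸ hζ))] at e
      rw [if_neg h, add_zero]
      have : ((c ζ : ℤ) : ℂ) = (((k ζ : ℤ) * y : ℤ) : ℂ) := by
        rw [hy]; push_cast at e ⊢; linear_combination e
      exact_mod_cast this
  set R₀ : G → ℂ := T - ∑ ζ ∈ X, c ζ • τ₁ ζ with hR₀
  have hR₀v : IsGeneralizedCharacter G R₀ :=
    genChar_sub hTv (genChar_sum _ _ fun ζ h => genChar_zsmul (hev ζ h) _)
  have hR₀o : ∀ ζ ∈ X, classInner R₀ (τ₁ ζ) = 0 := fun ζ h => by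
    rw [hR₀, ci_sub_left, ci_sum_left, Finset.sum_eq_single ζ (fun b hb hne => by
      rw [ci_zsmul_left, heo b hb ζ h, if_neg hne, mul_zero]) (fun h' => absurd h h'), ci_zsmul_left,
      heo ζ h ζ h, if_pos rfl, hc ζ h, mul_one, sub_self]
  have hdiv : ∀ θ : IrrCharacter G, ∃ w : ℤ, classInner R₀ (θ : G → ℂ) = (((d : ℤ) * w : ℤ) : ℂ) := by
    intro θ
    by_cases hθ : ∀ ζ ∈ X, classInner (τ₁ ζ) (θ : G → ℂ) = 0
    · have hres : ∀ ζ : L → ℂ, IsIrrCharacter L ζ → ∃ n : ℕ,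
          classInner (fun x : L => (θ : G → ℂ) x) ζ = (n : ℂ) ∧
          classInner ζ (fun x : L => (θ : G → ℂ) x) = (n : ℂ) := fun ζ hζ => by
        obtain ⟨n, hn⟩ := exists_mult (IsCharacter.restrict (isCharacter_irr θ) L) (⟨ζ, hζ⟩ : IrrCharacter L)
        exact ⟨n, hn, by rw [classInner_symm, show classInner (fun x : L => (θ : G → ℂ) x) ζ = (n : ℂ) from hn,
          map_natCast]⟩
      obtain ⟨a, ha, ha'⟩ := hres ψ (hirr ψ (hXS hψ))
      obtain ⟨b, -, hb'⟩ := hres η (hirr η hηS)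
      have hcθ := IsCharacter.isClassFunction (isCharacter_irr θ)
      have hprop : ∀ ζ ∈ X, (D ψ : ℂ) * classInner (fun x : L => (θ : G → ℂ) x) ζ = (D ζ : ℂ) * ((a : ℤ) : ℂ) := by
        intro ζ hζ
        obtain ⟨n, hn, hn'⟩ := hres ζ (hirr ζ (hXS hζ))
        have e := CfsgLib.Chars.frobenius L (ζ - (k ζ : ℤ) • ψ) hcθ
        rw [hτ₁k ζ hζ, ci_sub_left, ci_zsmul_left, hθ ζ hζ, hθ ψ hψ, ci_sub_left, ci_zsmul_left, hn', ha'] at e
        rw [hn, ← hd, hkd ζ hζ]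
        push_cast at e ⊢
        linear_combination -(d : ℂ) * e
      obtain ⟨w, hw⟩ : (d : ℤ) ∣ (a : ℤ) := dvd_coeff L H hC hTI hodd hp hP hcop Z hZH hZc hZ1 ψ hψ θ a
        (by rw [ha]; push_cast; rfl) hprop
      refine ⟨w - b, ?_⟩
      rw [hR₀, ci_sub_left, ci_sum_left, Finset.sum_eq_zero (fun ζ hζ => by rw [ci_zsmul_left, hθ ζ hζ, mul_zero]),
        sub_zero, hT, CfsgLib.Chars.frobenius L α hcθ, hα, ci_sub_left, ci_zsmul_left, ha', hb']
      have : ((a : ℤ) : ℂ) = (((d : ℤ) * w : ℤ) : ℂ) := by rw [hw]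
      push_cast at this ⊢
      linear_combination this
    · push Not at hθ
      obtain ⟨ζ, hζ, hne⟩ := hθ
      obtain ⟨ε, μ, hε, he⟩ := exists_single (hev ζ hζ) (by rw [heo ζ hζ ζ hζ, if_pos rfl])
      have hμ : μ = θ := by
        by_contra h
        rw [he, ci_smul_left, classInner_irr, if_neg h, mul_zero] at hne
        exact hne rfl
      refine ⟨0, ?_⟩
      have h0 := hR₀o ζ hζ
      rw [he, ci_smul_right, hμ, mul_eq_zero] at h0
      rw [mul_zero, Int.cast_zero]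
      refine h0.resolve_left fun h => ?_
      rcases hε with rfl | rfl <;> simp at h
  choose w hw using hdiv
  set R : G → ℂ := ∑ θ : IrrCharacter G, w θ • (θ : G → ℂ) with hR
  have hRv : IsGeneralizedCharacter G R :=
    genChar_sum _ _ fun θ _ => genChar_zsmul (genChar_of_char (isCharacter_irr θ)) _
  have hR₀R : R₀ = (d : ℤ) • R := funext fun x => by
    rw [classFunction_expand (genChar_classFun hR₀v) x]
    simp only [hR, Pi.smul_apply, Finset.sum_apply, hw, zsmul_eq_mul, Finset.mul_sum, Pi.mul_apply, Pi.intCast_apply]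
    exact Finset.sum_congr rfl fun θ _ => by push_cast; ring
  have hdC : (d : ℂ) ≠ 0 := Nat.cast_ne_zero.2 hdpos.ne'
  have hRo : ∀ ζ ∈ X, classInner R (τ₁ ζ) = 0 := fun ζ hζ => by
    have h := hR₀o ζ hζ
    rw [hR₀R, ci_zsmul_left, mul_eq_zero] at h
    exact h.resolve_left (by exact_mod_cast hdpos.ne')
  have hTdec : T = (∑ ζ ∈ X, c ζ • τ₁ ζ) + (d : ℤ) • R := by rw [← hR₀R, hR₀]; abel
  obtain ⟨r, hr, hr0⟩ := int_norm hRv
  have hnorm : ∑ ζ ∈ X, c ζ * c ζ + (d : ℤ) * d * r = 1 + (d : ℤ) * d := by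
    have e : classInner T T = ((∑ ζ ∈ X, c ζ * c ζ + (d : ℤ) * d * r : ℤ) : ℂ) := by
      have hTR : classInner T R = (d : ℂ) * r := by
        rw [hTdec, ci_add_left, ci_sum_left, Finset.sum_eq_zero (fun ζ hζ => by
          rw [ci_zsmul_left, classInner_symm, hRo ζ hζ, map_zero, mul_zero]), ci_zsmul_left, hr, zero_add]
        push_cast; ring
      nth_rewrite 2 [hTdec]
      rw [ci_add_right, ci_sum_right, ci_zsmul_right, hTR, Finset.sum_congr rfl (fun ζ hζ => by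
        rw [ci_zsmul_right, hc ζ hζ])]
      push_cast; ring
    rw [hTn] at e
    have e' : ((∑ ζ ∈ X, c ζ * c ζ + (d : ℤ) * d * r : ℤ) : ℂ) = ((1 + (d : ℤ) * d : ℤ) : ℂ) := by
      rw [← e]; push_cast; rfl
    exact_mod_cast e'
  set M := ∑ ζ ∈ X, k ζ * k ζ with hM
  have hcsum : ∑ ζ ∈ X, c ζ * c ζ = y * y * (M : ℤ) + 2 * y + 1 := by
    rw [hM]; push_cast
    rw [Finset.mul_sum, Finset.sum_congr rfl (g := fun ζ => y * y * ((k ζ : ℤ) * k ζ) +
      (if ζ = ψ then 2 * y + 1 else 0)) (fun ζ hζ => ?_), Finset.sum_add_distrib, Finset.sum_ite_eq', if_pos hψ]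
    · ring
    · rw [hcy ζ hζ]
      by_cases h : ζ = ψ
      · rw [if_pos h, if_pos h, h, hkψ]; push_cast; ring
      · rw [if_neg h, if_neg h]; ring
  have hMev : 2 ∣ M ∧ 2 ≤ M := by
    have hdq : d ^ 2 ∣ q := by
      have hle : d ^ 2 ≤ q := Nat.le_of_mul_le_mul_right
        (le_of_le_of_eq (degH_sq_le H hCL Z hZH hZc (hXS hψ)) hq.symm) Nat.card_pos
      rw [hd] at hle ⊢
      rw [← hD] at hi
      rw [hi, hj, ← pow_mul] at hle ⊢
      exact pow_dvd_pow p ((Nat.pow_le_pow_iff_right hp.one_lt).1 hle)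
    obtain ⟨c', hc'⟩ := hdq
    have e : M = c' * m := Nat.eq_of_mul_eq_mul_left (pow_pos hdpos 2) (by
      rw [← mul_assoc, ← hc', ← hsum, hM, Finset.mul_sum, hX]
      exact Finset.sum_congr rfl fun ζ hζ => by rw [hkd ζ hζ]; ring)
    have hc'0 : 0 < c' := by
      rcases Nat.eq_zero_or_pos c' with h | h
      · rw [h, mul_zero] at hc'
        have : 0 < q := hj ▸ pow_pos hp.pos j
        omega
      · exact h
    exact ⟨e ▸ hm2.mul_left c', e ▸ le_trans hm (Nat.le_mul_of_pos_left m hc'0)⟩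
  rw [hcsum] at hnorm
  have hnn : 0 ≤ y * y * (M : ℤ) + 2 * y := by
    have : (2 : ℤ) ≤ M := by exact_mod_cast hMev.2
    rcases le_or_gt 0 y with h | h
    · nlinarith
    · nlinarith [mul_nonneg_of_nonpos_of_nonpos (le_of_lt h) (show y * (M : ℤ) + 2 ≤ 0 by nlinarith)]
  have hr1 : r = 1 := by
    rcases Nat.lt_or_ge r 1 with h | h
    · exfalso
      obtain rfl : r = 0 := by omega
      obtain ⟨a, ha⟩ := hMev.1
      obtain ⟨b, hb⟩ := hdodd
      have ha' : (M : ℤ) = 2 * a := by exact_mod_cast ha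
      have hb' : (d : ℤ) = 2 * b + 1 := by exact_mod_cast hb
      rw [ha', hb'] at hnorm
      push_cast at hnorm
      have : 2 * (y * y * a + y - (2 * (b : ℤ) * b + 2 * b)) = 1 := by linear_combination hnorm
      omega
    · have hdd : (0 : ℤ) < (d : ℤ) * d := by positivity
      have : (r : ℤ) ≤ 1 := by nlinarith
      omega
  subst hr1
  have hy0 : y * (y * (M : ℤ) + 2) = 0 := by push_cast at hnorm; linear_combination hnorm
  obtain ⟨f, hfv, hfo, hfk, hfT, hfR⟩ : ∃ f : (L → ℂ) → (G → ℂ),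
      (∀ ζ ∈ X, IsGeneralizedCharacter G (f ζ)) ∧
      (∀ ζ ∈ X, ∀ ξ ∈ X, classInner (f ζ) (f ξ) = if ζ = ξ then 1 else 0) ∧
      (∀ ζ ∈ X, indFun L (ζ - (k ζ : ℤ) • ψ) = f ζ - (k ζ : ℤ) • f ψ) ∧
      T = f ψ + (d : ℤ) • R ∧ (∀ ζ ∈ X, classInner R (f ζ) = 0) := by
    rcases mul_eq_zero.1 hy0 with h | h
    · refine ⟨τ₁, hev, heo, hτ₁k, ?_, hRo⟩
      rw [hTdec, Finset.sum_eq_single ψ (fun ζ hζ hne => by rw [hcy ζ hζ, h, if_neg hne, mul_zero, add_zero, zero_smul])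
        (fun h' => absurd hψ h'), hcy ψ hψ, h, if_pos rfl, mul_zero, zero_add, one_smul]
    · have hy1 : y = -1 ∧ M = 2 := by
        have : (2 : ℤ) ≤ M := by exact_mod_cast hMev.2
        have hy' : y < 0 := by nlinarith
        have hy'' : -1 ≤ y := by nlinarith
        have hy3 : y = -1 := by omega
        rw [hy3] at h
        exact ⟨hy3, by exact_mod_cast (show (M : ℤ) = 2 by linarith)⟩
      obtain ⟨hψc, hψne, hψd⟩ := conj_mem H hCL hodd hZH hψ
      set ψ' : L → ℂ := fun g => conj (ψ g) with hψ'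
      have hkψ' : k ψ' = 1 := by
        show degH H ψ' / d = 1
        rw [degH, hψd]; exact hkψ
      have honly : ∀ ζ ∈ X, ζ = ψ ∨ ζ = ψ' := by
        intro ζ hζ
        by_contra hno
        push Not at hno
        have h2 := hy1.2
        rw [hM, ← Finset.add_sum_erase _ _ hψ, ← Finset.add_sum_erase _ _ (Finset.mem_erase.2 ⟨hψne, hψc⟩),
          hkψ, hkψ'] at h2
        have hz0 : ∑ x ∈ (X.erase ψ).erase ψ', k x * k x = 0 := by rw [← hX] at h2; omega
        have hz : k ζ * k ζ = 0 := (Finset.sum_eq_zero_iff.1 hz0) ζ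
          (Finset.mem_erase.2 ⟨hno.2, Finset.mem_erase.2 ⟨hno.1, hζ⟩⟩)
        have hk0 := hkd ζ hζ
        rw [mul_self_eq_zero.1 hz, zero_mul] at hk0
        exact (degH_pos H hCL (hXS hζ)).ne' hk0
      let f : (L → ℂ) → (G → ℂ) := fun ζ => if ζ = ψ then -τ₁ ψ' else -τ₁ ψ
      have hf1 : f ψ = -τ₁ ψ' := if_pos rfl
      have hf2 : f ψ' = -τ₁ ψ := if_neg hψne
      refine ⟨f, fun ζ hζ => ?_, fun ζ hζ ξ hξ => ?_, fun ζ hζ => ?_, ?_, fun ζ hζ => ?_⟩
      · rcases honly ζ hζ with rfl | rfl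
        · rw [hf1]; exact genChar_neg (hev _ hψc)
        · rw [hf2]; exact genChar_neg (hev _ hψ)
      · rcases honly ζ hζ with rfl | rfl <;> rcases honly ξ hξ with rfl | rfl
        · rw [hf1, ci_neg_left, ci_neg_right, neg_neg, heo _ hψc _ hψc, if_pos rfl, if_pos rfl]
        · rw [hf1, hf2, ci_neg_left, ci_neg_right, neg_neg, heo _ hψc _ hψ, if_neg hψne, if_neg (Ne.symm hψne)]
        · rw [hf1, hf2, ci_neg_left, ci_neg_right, neg_neg, heo _ hψ _ hψc, if_neg hψne, if_neg (Ne.symm hψne)]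
        · rw [hf2, ci_neg_left, ci_neg_right, neg_neg, heo _ hψ _ hψ, if_pos rfl, if_pos rfl]
      · rcases honly ζ hζ with rfl | rfl
        · rw [hτ₁k _ hψ, hkψ]; simp
        · rw [hτ₁k _ hψc, hkψ', hf1, hf2]; simp [sub_eq_add_neg, add_comm]
      · have hcψ : c ψ = 0 := by rw [hcy ψ hψ, if_pos rfl, hkψ, hy1.1]; rfl
        have hcψ' : c ψ' = -1 := by rw [hcy ψ' hψc, if_neg hψne, hkψ', hy1.1]; rfl
        rw [hTdec, hf1, Finset.sum_eq_single ψ' (fun ζ hζ hne => by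
          rcases honly ζ hζ with rfl | rfl
          · rw [hcψ, zero_smul]
          · exact absurd rfl hne) (fun h' => absurd hψc h'), hcψ', neg_smul, one_smul]
      · rcases honly ζ hζ with rfl | rfl
        · rw [hf1, ci_neg_right, hRo _ hψc, neg_zero]
        · rw [hf2, ci_neg_right, hRo _ hψ, neg_zero]
  have hRn : classInner R R = 1 := by rw [hr]; norm_num
  set Y := S.filter fun ξ => D ξ = 1 with hY
  have hηY : η ∈ Y := Finset.mem_filter.2 ⟨hηS, hηD⟩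
  have hYX : ∀ ξ ∈ Y, ξ ∉ X := fun ξ hξ => hlin ξ (Finset.mem_filter.1 hξ).1 (Finset.mem_filter.1 hξ).2
  have hUmem : ∀ ξ ∈ Y, ξ - η ∈ zspanOn (↑S : Set (L → ℂ)) {1}ᶜ := fun ξ hξ => mem_zspanOn_one.2
    ⟨zspan_sub (mem_zspan (Finset.filter_subset _ _ hξ)) (mem_zspan hηS), by
      rw [Pi.sub_apply, h1 ξ (Finset.filter_subset _ _ hξ), h1 η hηS, hηD, (Finset.mem_filter.1 hξ).2, sub_self]⟩
  have hU : ∀ ξ ∈ Y, ξ ≠ η → (∀ ζ ∈ X, classInner (indFun L (ξ - η)) (f ζ) = 0) ∧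
      classInner (indFun L (ξ - η)) R = 1 := by
    intro ξ hξ hne
    have hξS : ξ ∈ S := Finset.filter_subset _ _ hξ
    set U := indFun L (ξ - η) with hUdef
    have hUv : IsGeneralizedCharacter G U := hτ.2.2.2 _ (hUmem ξ hξ)
    have hUn : classInner U U = 2 := by
      rw [hUdef, hiso _ (hUmem ξ hξ) _ (hUmem ξ hξ), ci_sub_left, ci_sub_right, ci_sub_right,
        hoS ξ hξS ξ hξS, hoS η hηS η hηS, hoS ξ hξS η hηS, hoS η hηS ξ hξS, if_pos rfl, if_pos rfl, if_neg hne,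
        if_neg (Ne.symm hne)]
      norm_num
    have hUT : classInner U T = (d : ℂ) := by
      rw [hUdef, hT, hiso _ (hUmem ξ hξ) _ hαmem, hα]
      simp only [ci_sub_left, ci_sub_right, ci_zsmul_right, hoS _ hξS _ (hXS hψ), hoS _ hξS _ hηS,
        hoS _ hηS _ (hXS hψ), hoS _ hηS _ hηS, if_neg hne, if_neg hψη.symm, if_pos,
        if_neg (fun e : ξ = ψ => hYX ξ hξ (e ▸ hψ))]
      push_cast; ring
    obtain ⟨r', hr'⟩ := int_inner hUv hRv
    obtain ⟨s, hs, hsb⟩ : ∃ s : ℤ, classInner U (f ψ) = (s : ℂ) ∧ -1 ≤ s ∧ s ≤ 1 := by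
      obtain ⟨a, b, hab, hUab⟩ := exists_pair hUv hUn (hτ1 _ (hUmem ξ hξ))
      obtain ⟨ε, μ, hε, he⟩ := exists_single (hfv ψ hψ) (by rw [hfo ψ hψ ψ hψ, if_pos rfl])
      refine ⟨(if ε = 1 then (1 : ℤ) else -1) * ((if a = μ then 1 else 0) - (if b = μ then 1 else 0)), ?_, ?_⟩
      · rw [hUab, he, ci_smul_right, ci_sub_left, classInner_irr, classInner_irr]
        rcases hε with rfl | rfl <;> split_ifs <;> norm_num at *
      · split_ifs <;> norm_num
    rw [hfT, ci_add_right, ci_zsmul_right, hs, hr'] at hUT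
    have hint : s + (d : ℤ) * r' = (d : ℤ) := by exact_mod_cast hUT
    have hdd : (3 : ℤ) ≤ d := by exact_mod_cast hd3
    have hs0 : s = 0 ∧ r' = 1 := by
      rcases lt_trichotomy r' 1 with h | h | h
      · exfalso; nlinarith [hsb.2]
      · exact ⟨by rw [h, mul_one] at hint; omega, h⟩
      · exfalso; nlinarith [hsb.1]
    refine ⟨fun ζ hζ => ?_, by rw [hr', hs0.2]; norm_num⟩
    have e := hiso _ (hUmem ξ hξ) _ (hmem ζ hζ).1
    rw [hfk ζ hζ, ci_sub_right, ci_zsmul_right, ← hUdef, hs, hs0.1] at e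
    simp only [ci_sub_left, ci_sub_right, ci_zsmul_right, hoS _ hξS _ (hXS hζ), hoS _ hξS _ (hXS hψ),
      hoS _ hηS _ (hXS hζ), hoS _ hηS _ (hXS hψ), if_neg (fun e : ξ = ψ => hYX ξ hξ (e ▸ hψ)),
      if_neg (fun e : ξ = ζ => hYX ξ hξ (e ▸ hζ)), if_neg hψη.symm, if_neg (fun e : η = ζ => hηX (e ▸ hζ)),
      Int.cast_zero, mul_zero, sub_zero] at e
    exact e
  -- the images
  let F : (L → ℂ) → (G → ℂ) := fun ξ => if ξ ∈ X then f ξ else if ξ = η then -R else indFun L (ξ - η) - R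
  have hFX : ∀ ζ ∈ X, F ζ = f ζ := fun ζ hζ => if_pos hζ
  have hFη : F η = -R := by simp only [F, if_neg hηX, if_pos]
  have hFY : ∀ ξ ∈ Y, ξ ≠ η → F ξ = indFun L (ξ - η) - R := fun ξ hξ hne => by
    simp only [F, if_neg (hYX ξ hξ), if_neg hne]
  have hRf : ∀ ζ ∈ X, classInner (f ζ) R = 0 := fun ζ hζ => by rw [classInner_symm, hfR ζ hζ, map_zero]
  have hRU : ∀ ξ ∈ Y, ξ ≠ η → classInner R (indFun L (ξ - η)) = 1 := fun ξ hξ hne => by
    rw [classInner_symm, (hU ξ hξ hne).2, map_one]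
  have hfU : ∀ ζ ∈ X, ∀ ξ ∈ Y, ξ ≠ η → classInner (f ζ) (indFun L (ξ - η)) = 0 := fun ζ hζ ξ hξ hne => by
    rw [classInner_symm, (hU ξ hξ hne).1 ζ hζ, map_zero]
  set B := X ∪ Y with hB
  have hBS : B ⊆ S := Finset.union_subset hXS (Finset.filter_subset _ _)
  have hzB : zspanOn (↑B : Set (L → ℂ)) {1}ᶜ ⊆ zspanOn (↑S : Set (L → ℂ)) {1}ᶜ := fun a ha =>
    ⟨zspan_mono (Finset.coe_subset.2 hBS) ha.1, ha.2⟩
  have hcoh : IsCoherent (↑B : Set (L → ℂ)) {1}ᶜ (fun a : L → ℂ => indFun L a) := by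
    refine CfsgLib.CoherenceGlue.coherent_of_images B (fun x hx => hirr x (hBS hx)) η
      (Finset.mem_union_right _ hηY) (fun x => (D x : ℤ))
      (fun x hx => by rw [h1 x (hBS hx), h1 η hηS, hηD]; push_cast; ring)
      ⟨ψ, Finset.mem_union_left _ hψ, hψη⟩
      ⟨fun a ha b hb => hτ.1 a (hzB ha) b (hzB hb), fun a ha => hτ.2.1 a (hzB ha),
        fun a ha b hb => hτ.2.2.1 a (hzB ha) b (hzB hb), fun a ha => hτ.2.2.2 a (hzB ha)⟩ F ?_ ?_ ?_
    · intro x hx
      rcases Finset.mem_union.1 hx with h | h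
      · rw [hFX x h]; exact hfv x h
      · by_cases hne : x = η
        · rw [hne, hFη]; exact genChar_neg hRv
        · rw [hFY x h hne]; exact genChar_sub (hτ.2.2.2 _ (hUmem x h)) hRv
    · intro x hx x' hx'
      rw [hoS x (hBS hx) x' (hBS hx')]
      rcases Finset.mem_union.1 hx with h | h <;> rcases Finset.mem_union.1 hx' with h' | h'
      · rw [hFX x h, hFX x' h', hfo x h x' h']
      · rw [hFX x h, if_neg (fun e : x = x' => hYX x' h' (e ▸ h))]
        by_cases hne : x' = η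
        · rw [hne, hFη, ci_neg_right, hRf x h, neg_zero]
        · rw [hFY x' h' hne, ci_sub_right, hfU x h x' h' hne, hRf x h, sub_zero]
      · rw [hFX x' h', if_neg (fun e : x = x' => hYX x h (e ▸ h'))]
        by_cases hne : x = η
        · rw [hne, hFη, ci_neg_left, hfR x' h', neg_zero]
        · rw [hFY x h hne, ci_sub_left, (hU x h hne).1 x' h', hfR x' h', sub_zero]
      · by_cases hne : x = η <;> by_cases hne' : x' = η
        · rw [hne, hne', hFη, ci_neg_left, ci_neg_right, neg_neg, hRn, if_pos rfl]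
        · rw [hne, hFη, hFY x' h' hne', ci_neg_left, ci_sub_right, hRn, hRU x' h' hne', sub_self, neg_zero,
            if_neg (Ne.symm hne')]
        · rw [hne', hFη, hFY x h hne, ci_neg_right, ci_sub_left, hRn, (hU x h hne).2, sub_self, neg_zero,
            if_neg hne]
        · rw [hFY x h hne, hFY x' h' hne', ci_sub_left, ci_sub_right, ci_sub_right, hRn, hRU x' h' hne',
            (hU x h hne).2, hiso _ (hUmem x h) _ (hUmem x' h')]
          simp only [ci_sub_left, ci_sub_right, hoS _ (hBS hx) _ (hBS hx'), hoS _ (hBS hx) _ hηS,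
            hoS _ hηS _ (hBS hx'), hoS _ hηS _ hηS, if_pos, if_neg hne, if_neg (Ne.symm hne')]
          ring
    · intro x hx hxne
      rcases Finset.mem_union.1 hx with h | h
      · rw [hFX x h, hFη]
        show indFun L (x - (D x : ℤ) • η) = _
        rw [show x - (D x : ℤ) • η = (x - (k x : ℤ) • ψ) + (k x : ℤ) • α by
          rw [hα, smul_sub, smul_smul, hkd x h]; push_cast; abel,
          hadd' _ (hmem x h).1 _ (mem_zspanOn_one.2 ⟨zspan_zsmul _ hαmem.1, by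
            rw [Pi.smul_apply, (mem_zspanOn_one.1 hαmem).2, smul_zero]⟩), hsmu _ hαmem]
        show indFun L (x - (k x : ℤ) • ψ) + (k x : ℤ) • indFun L α = _
        rw [hfk x h, ← hT, hfT, hkd x h]
        push_cast
        rw [smul_add, smul_smul, smul_neg, sub_neg_eq_add]
        abel
      · rw [hFY x h hxne, hFη, (Finset.mem_filter.1 h).2]
        simp
  refine CfsgLib.CoherenceGlue.coherent_grow S B hBS hirr charDegree
    (fun x hx => irr_apply_one (⟨x, hirr x hx⟩ : IrrCharacter L)) hτ hτ1 hcoh η (Finset.mem_union_right _ hηY)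
    (fun χ hχ => ?_) (fun χ hχ hχB => ?_)
  · obtain ⟨-, -, -, -, h⟩ := degH_spec H hCL hηS
    obtain ⟨-, -, -, -, h'⟩ := degH_spec H hCL hχ
    rw [← hD] at h h'
    rw [h, hηD, mul_one, h']
    exact dvd_mul_right _ _
  · obtain ⟨-, -, -, -, h⟩ := degH_spec H hCL hηS
    obtain ⟨-, -, -, -, h'⟩ := degH_spec H hCL hχ
    rw [← hD] at h h'
    rw [h, hηD, mul_one, h']
    have hD2 : 2 ≤ D χ := by
      have hne1 : D χ ≠ 1 := fun e => hχB (Finset.mem_union_right _ (Finset.mem_filter.2 ⟨hχ, e⟩))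
      have hpos : 0 < D χ := degH_pos H hCL hχ
      omega
    have hle : D χ ^ 2 ≤ q := Nat.le_of_mul_le_mul_right
      (le_of_le_of_eq (degH_sq_le H hCL Z hZH hZc hχ) hq.symm) Nat.card_pos
    calc 2 * H.index * (H.index * D χ) = H.index ^ 2 * (2 * D χ) := by ring
      _ < H.index ^ 2 * (q * m) := Nat.mul_lt_mul_of_pos_left (by nlinarith) (pow_pos he0 2)
      _ = ∑ ξ ∈ X, charDegree ξ ^ 2 := by
          rw [← hsum, Finset.mul_sum, ← hX]
          refine Finset.sum_congr rfl fun ξ hξ => ?_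
          obtain ⟨-, -, -, -, hh⟩ := degH_spec H hCL (hXS hξ)
          rw [hh, mul_pow]
      _ ≤ _ := Finset.sum_le_sum_of_subset fun ξ hξ =>
          Finset.mem_filter.2 ⟨hXS hξ, Or.inl (Finset.mem_union_left _ hξ)⟩

end TI

end CfsgLib.Sibley
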