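import Mathlib
import Cfsg.Agent.Lib.Sibley
import Cfsg.Prelude.Def_OddOrderLocal
import Cfsg.Prelude.Def_Transfer

/-! The hypotheses of the coherence theorems for TI Frobenius kernels. -/

set_option autoImplicit false

namespace CfsgLib.SibleySetup

open Cfsg CfsgLib.Chars CfsgLib.Sibley

universe u

section
variable {L : Type u} [Group L] [Fintype L] (H : Subgroup L) [H.Normal]
  (hC : ∀ h ∈ H, h ≠ 1 → Subgroup.centralizer ({h} : Set L) ≤ H)
include hC

theorem not_dvd_index {p : ℕ} (hp : p.Prime) (hP : IsPGroup p H) (hH1 : H ≠ ⊥) : ¬ p ∣ H.index := by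
  haveI := Fact.mk hp
  intro hdvd
  obtain ⟨R, hR⟩ := hP.exists_le_sylow
  haveI := R.isPGroup'.isNilpotent
  have hne : H.subgroupOf (R : Subgroup L) ≠ ⊥ := fun h => hH1 (by
    rw [Subgroup.subgroupOf_eq_bot] at h
    exact disjoint_self.1 (h.mono_right hR))
  obtain ⟨⟨z, hz⟩, hz1⟩ := Subgroup.ne_bot_iff_exists_ne_one.1 (CfsgLib.Solvable.Basics.inf_center_ne_bot _ hne)
  have hle : (R : Subgroup L) ≤ H := fun y hy => hC (z : L) hz.1 (fun e => hz1 (Subtype.ext (Subtype.ext e)))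
    (Subgroup.mem_centralizer_singleton_iff.2 (congrArg Subtype.val (Subgroup.mem_center_iff.1 hz.2 ⟨y, hy⟩)))
  exact R.not_dvd_index (hdvd.trans (Subgroup.index_dvd_of_le hle))

theorem odd_card (hH : Odd (Nat.card H)) (hna : ¬ IsMulCommutative H) : Odd (Nat.card L) := by
  rw [← H.card_mul_index]
  refine hH.mul (Nat.not_even_iff_odd.1 fun he => hna ?_)
  haveI := Fact.mk Nat.prime_two
  obtain ⟨x, hx⟩ := exists_prime_orderOf_dvd_card' (G := L) 2 ((even_iff_two_dvd.1 he).trans H.index_dvd_card)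
  have hxH : x ∉ H := fun h => by
    have := hx ▸ Subgroup.orderOf_dvd_natCard H h
    exact (Nat.not_even_iff_odd.2 hH) (even_iff_two_dvd.2 this)
  let φ : H →* H := (MulAut.conjNormal x : MulAut H).toMonoidHom
  have hfix : MonoidHom.FixedPointFree φ := fun g hg => by
    by_contra h1
    refine hxH (hC (g : L) g.2 (fun e => h1 (Subtype.ext e)) (Subgroup.mem_centralizer_singleton_iff.2 ?_))
    have h2 := congrArg Subtype.val hg
    simp only [φ, MulEquiv.coe_toMonoidHom, MulAut.conjNormal_apply] at h2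
    calc x * g = x * g * x⁻¹ * x := by group
      _ = g * x := by rw [h2]
  have hinv : Function.Involutive φ := fun g => by
    apply Subtype.ext
    simp only [φ, MulEquiv.coe_toMonoidHom, MulAut.conjNormal_apply]
    have h2 : x * x = 1 := by rw [← pow_two, ← hx, pow_orderOf_eq_one]
    rw [show x * (x * (g : L) * x⁻¹) * x⁻¹ = (x * x) * (g : L) * (x * x)⁻¹ by group, h2]
    simp
  exact ⟨⟨fun a b => hfix.commute_all_of_involutive hinv a b⟩⟩

/-- When the kernel has one more element than the index. -/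
theorem degenerate [Group.IsNilpotent H] [Fintype H] (hH1 : H ≠ ⊥) (he : Nat.card H = H.index + 1) :
    IsMulCommutative H ∧ (∃ p : ℕ, p.Prime ∧ p ∣ Nat.card H ∧ ∀ a ∈ H, a ^ p = 1) ∧ (irrOn H).card = 1 := by
  classical
  have hclass : ∀ a ∈ H, a ≠ 1 → Subgroup.centralizer ({a} : Set L) = H ∧ ∀ b ∈ H, b ≠ 1 → IsConj a b := by
    intro a ha ha1
    have hsub : (Finset.univ.filter fun g => IsConj a g) ⊆
        (Finset.univ.filter fun g => g ∈ H).erase 1 := fun g hg => by
      obtain ⟨c, hc⟩ := isConj_iff.1 (Finset.mem_filter.1 hg).2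
      refine Finset.mem_erase.2 ⟨fun e => ha1 ?_, Finset.mem_filter.2 ⟨Finset.mem_univ _, hc ▸ Subgroup.Normal.conj_mem ‹H.Normal› a ha c⟩⟩
      rw [e] at hc; exact conj_eq_one_iff.1 hc
    have hcard : ((Finset.univ.filter fun g => g ∈ H).erase 1).card = H.index := by
      rw [Finset.card_erase_of_mem (Finset.mem_filter.2 ⟨Finset.mem_univ _, H.one_mem⟩),
        show (Finset.univ.filter fun g => g ∈ H).card = Nat.card H by
          rw [← Fintype.card_subtype, ← Nat.card_eq_fintype_card], he]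
      omega
    have hcl : (Finset.univ.filter fun g => IsConj a g).card = (Subgroup.centralizer ({a} : Set L)).index := by
      rw [← card_isConj_eq_index, Nat.card_eq_fintype_card, Fintype.card_subtype]
    have hle := hC a ha ha1
    have hge : H.index ≤ (Subgroup.centralizer ({a} : Set L)).index :=
      Nat.le_of_dvd (Nat.pos_of_ne_zero Subgroup.index_ne_zero_of_finite) (Subgroup.index_dvd_of_le hle)
    have heq := Finset.eq_of_subset_of_card_le hsub (by rw [hcard, hcl]; exact hge)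
    refine ⟨Subgroup.eq_of_le_of_card_ge hle ?_, fun b hb hb1 => ?_⟩
    · have h1 : (Subgroup.centralizer ({a} : Set L)).index = H.index := by rw [← hcl, heq, hcard]
      have h2 := (Subgroup.centralizer ({a} : Set L)).card_mul_index
      rw [h1, ← H.card_mul_index] at h2
      exact (Nat.eq_of_mul_eq_mul_right (Nat.pos_of_ne_zero H.index_ne_zero_of_finite) h2).ge
    · have : b ∈ (Finset.univ.filter fun g => g ∈ H).erase 1 :=
        Finset.mem_erase.2 ⟨hb1, Finset.mem_filter.2 ⟨Finset.mem_univ _, hb⟩⟩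
      rw [← heq] at this
      exact (Finset.mem_filter.1 this).2
  have hab : IsMulCommutative H := by
    refine ⟨⟨fun a b => ?_⟩⟩
    by_cases ha : (a : L) = 1
    · have : a = 1 := Subtype.ext ha
      simp [this]
    · have hb : (b : L) ∈ Subgroup.centralizer ({(a : L)} : Set L) := (hclass a a.2 ha).1.symm ▸ b.2
      exact Subtype.ext (Subgroup.mem_centralizer_singleton_iff.1 hb).symm
  refine ⟨hab, ?_, ?_⟩
  · obtain ⟨p, hp, hpd⟩ := Nat.exists_prime_and_dvd (fun h : Nat.card H = 1 => hH1 (Subgroup.card_eq_one.1 h))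
    haveI := Fact.mk hp
    obtain ⟨a, ha⟩ := exists_prime_orderOf_dvd_card' (G := H) p hpd
    have ha1 : (a : L) ≠ 1 := fun e => by
      rw [show a = 1 from Subtype.ext e, orderOf_one] at ha
      exact hp.ne_one ha.symm
    refine ⟨p, hp, hpd, fun b hb => ?_⟩
    by_cases hb1 : b = 1
    · rw [hb1, one_pow]
    obtain ⟨c, hc⟩ := isConj_iff.1 ((hclass a a.2 ha1).2 b hb hb1)
    rw [← hc, conj_pow, ← Subgroup.coe_pow, ← ha, pow_orderOf_eq_one]
    simp
  · have hD : ∀ ξ ∈ irrOn H, degH H ξ = 1 := fun ξ hξ => by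
      have h1 := degH_sq_le H hC H le_rfl (fun z hz h hh => congrArg Subtype.val (hab.is_comm.comm ⟨z, hz⟩ ⟨h, hh⟩)) hξ
      have h2 := degH_pos H hC hξ
      have h3 : degH H ξ ^ 2 ≤ 1 := Nat.le_of_mul_le_mul_right (by rwa [one_mul]) Nat.card_pos
      nlinarith
    have hM : ∑ χ ∈ (CfsgLib.FrobeniusCoherent.onH H)ᶜ, charDegree (χ : L → ℂ) ^ 2 = H.index := by
      exact_mod_cast CfsgLib.FrobeniusCoherent.sum_compl H hC
    have hall := sum_deg_sq (G := L)
    rw [← Finset.sum_add_sum_compl (CfsgLib.FrobeniusCoherent.onH H), hM, ← H.card_mul_index, he] at hall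
    have himg : irrOn H = (CfsgLib.FrobeniusCoherent.onH H).image Subtype.val := by
      ext χ
      rw [mem_irrOn, Finset.mem_image]
      constructor
      · rintro ⟨h, h'⟩; exact ⟨⟨χ, h⟩, CfsgLib.FrobeniusCoherent.mem_onH.2 h', rfl⟩
      · rintro ⟨x, hx, rfl⟩; exact ⟨x.2, CfsgLib.FrobeniusCoherent.mem_onH.1 hx⟩
    rw [himg, Finset.card_image_of_injective _ Subtype.val_injective]
    rw [Finset.sum_congr rfl (g := fun _ => H.index ^ 2) (fun χ hχ => by
      have hm : (χ : L → ℂ) ∈ irrOn H := mem_irrOn.2 ⟨χ.2, CfsgLib.FrobeniusCoherent.mem_onH.1 hχ⟩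
      obtain ⟨-, -, -, -, hd⟩ := degH_spec H hC hm
      rw [hd, hD _ hm, mul_one]), Finset.sum_const, smul_eq_mul] at hall
    have he0 : 0 < H.index := Nat.pos_of_ne_zero H.index_ne_zero_of_finite
    exact Nat.eq_of_mul_eq_mul_right (pow_pos he0 2) (by linarith [hall, pow_two H.index])

end

/-- The hypotheses at the normalizer of a TI subgroup containing its centralizers. -/
theorem of_TI {G : Type u} [Group G] (K : Subgroup G) (hTI : IsTISubset (K : Set G))
    (hC : ∀ k ∈ K, k ≠ 1 → Subgroup.centralizer ({k} : Set G) ≤ K) :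
    (∀ h ∈ K.subgroupOf (Subgroup.normalizer (K : Set G)), h ≠ 1 →
      Subgroup.centralizer ({h} : Set ↥(Subgroup.normalizer (K : Set G))) ≤ K.subgroupOf (Subgroup.normalizer (K : Set G))) ∧
    (∀ g : G, ∀ h ∈ K.subgroupOf (Subgroup.normalizer (K : Set G)), h ≠ 1 → g * (h : G) = h * g →
      ∃ g' ∈ K.subgroupOf (Subgroup.normalizer (K : Set G)), (g' : G) = g) ∧
    (∀ g : G, ∀ h ∈ K.subgroupOf (Subgroup.normalizer (K : Set G)), h ≠ 1 →
      ∀ h' ∈ K.subgroupOf (Subgroup.normalizer (K : Set G)), g * (h : G) * g⁻¹ = (h' : G) →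
        g ∈ Subgroup.normalizer (K : Set G)) := by
  refine ⟨fun h hh h1 g hg => hC (h : G) hh (fun e => h1 (Subtype.ext e))
    (Subgroup.mem_centralizer_singleton_iff.2 (congrArg Subtype.val (Subgroup.mem_centralizer_singleton_iff.1 hg))),
    fun g h hh h1 hg => ⟨⟨g, Subgroup.le_normalizer (hC (h : G) hh (fun e => h1 (Subtype.ext e))
      (Subgroup.mem_centralizer_singleton_iff.2 hg))⟩, hC (h : G) hh (fun e => h1 (Subtype.ext e))
      (Subgroup.mem_centralizer_singleton_iff.2 hg), rfl⟩,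
    fun g h hh h1 h' hh' he => ?_⟩
  by_contra hg
  exact h1 (Subtype.ext (hTI g hg (h : G) hh (by rw [he]; exact hh')))

/-- Coherence except in the degenerate and the nonabelian `2`-group case. -/
theorem coherent_or {G : Type u} [Group G] [Fintype G] (L : Subgroup G) [Fintype L] (H : Subgroup L) [H.Normal]
    (hH1 : H ≠ ⊥) (hH2 : H ≠ ⊤) (he : Nat.card H ≠ H.index + 1)
    (hC : ∀ g : G, ∀ h ∈ H, h ≠ 1 → g * (h : G) = h * g → ∃ g' ∈ H, (g' : G) = g)
    (hTI : ∀ g : G, ∀ h ∈ H, h ≠ 1 → ∀ h' ∈ H, g * (h : G) * g⁻¹ = (h' : G) → g ∈ L) :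
    IsCoherent (↑(irrOn H) : Set (L → ℂ)) {1}ᶜ (fun α : L → ℂ => indFun L α) ∨
      ((∃ m : ℕ, Nat.card H = 2 ^ m) ∧ ¬ IsMulCommutative H ∧
        (⁅H, H⁆.subgroupOf H).index ≤ 4 * H.index ^ 2 + 1) := by
  classical
  have hCL : ∀ h ∈ H, h ≠ 1 → Subgroup.centralizer ({h} : Set L) ≤ H := fun h hh h1 g hg => by
    obtain ⟨g', hg', he'⟩ := hC (g : G) h hh h1 (congrArg Subtype.val (Subgroup.mem_centralizer_singleton_iff.1 hg))
    rwa [← Subtype.ext he']
  obtain ⟨hτ, hτ1⟩ := isometry L H hCL hTI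
  rw [coe_irrOn] at hτ hτ1
  rcases Cfsg.Agent.S1535.result H hH1 hH2 hCL he (fun α : L → ℂ => indFun L α) hτ hτ1 with h | ⟨p, hp, ⟨m, hm⟩, hna, hsmall⟩
  · left; rw [coe_irrOn]; exact h
  by_cases hp2 : p = 2
  · right; exact ⟨⟨m, hp2 ▸ hm⟩, hna, hsmall⟩
  · left
    haveI := Fact.mk hp
    have hP : IsPGroup p H := IsPGroup.of_card hm
    exact coherent_nonabelian L H hC hTI (odd_card H hCL (hm ▸ (hp.odd_of_ne_two hp2).pow) hna) hp hp2 hP
      (not_dvd_index H hCL hp hP hH1) hna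

end CfsgLib.SibleySetup
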