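import Mathlib
import Cfsg.Agent.Lib.SibleySetup
import Cfsg.Agent.Lib.ExceptionalTI
import Cfsg.Agent.S0852

/-! Exceptional characters of a TI Frobenius kernel of odd prime power order, arbitrary normalizer. -/

set_option autoImplicit false

namespace CfsgLib.ExceptionalTIGen

open Cfsg CfsgLib.Chars CfsgLib.Virtual CfsgLib.Coherence CfsgLib.Sibley CfsgLib.ExceptionalTI
open scoped ComplexConjugate

universe u

variable {G : Type u} [Group G] [Fintype G]

open Classical in
/-- The exceptional characters of `K`, and the virtual character induced from `π - η`. -/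
structure ExcData (K : Subgroup G) : Type (u + 1) where
  e : ℕ
  σ : ℕ
  card_eq : Nat.card K = e * σ + 1
  card_norm : Nat.card (Subgroup.normalizer (K : Set G)) = e * Nat.card K
  one_lt_e : 1 < e
  σ_ge : 2 ≤ σ
  X : Type u
  [fint : Fintype X]
  exc : X → G → ℂ
  exc_gen : ∀ ξ, IsGeneralizedCharacter G (exc ξ)
  exc_orth : ∀ ξ ζ, classInner (exc ξ) (exc ζ) = if ξ = ζ then 1 else 0
  D : X → ℕ
  η : X
  D_eta : D η = 1
  sum_D : ∑ ξ, D ξ ^ 2 = σ
  exc_prop : ∀ ξ g, ¬ Meets K g → exc ξ g = (D ξ : ℂ) * exc η g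
  exc_iff : ∀ θ : IrrCharacter G,
    (∃ ξ, exc ξ = (θ : G → ℂ) ∨ exc ξ = -(θ : G → ℂ)) ↔ Nonconst K (θ : G → ℂ)
  A : G → ℂ
  A_gen : IsGeneralizedCharacter G A
  A_norm : classInner A A = (e : ℂ) + 1
  A_one : classInner A (fun _ => 1) = 1
  A_supp : ∀ g, ¬ Meets K g → A g = 0
  A_exc : ∃ x : ℤ, ∀ ξ, classInner A (exc ξ) = (x : ℂ) * (D ξ : ℂ) - if ξ = η then 1 else 0
  A_const : ∀ f : G → ℂ, IsClassFunction G f → ∀ c : ℂ, (∀ y ∈ K, y ≠ 1 → f y = c) → classInner A f = conj c

attribute [instance] ExcData.fint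

open Classical in
theorem exists_data (K : Subgroup G) (hK1 : K ≠ ⊥) (hTI : IsTISubset (K : Set G))
    (hlt : K < Subgroup.normalizer (K : Set G))
    (hC : ∀ k ∈ K, k ≠ 1 → Subgroup.centralizer ({k} : Set G) ≤ K)
    (hodd : Odd (Nat.card K)) (hbig : Nat.card (Subgroup.normalizer (K : Set G)) ≠ Nat.card K * (Nat.card K - 1)) :
    Nonempty (ExcData K) := by
  obtain ⟨hCL, hCG, hT⟩ := CfsgLib.SibleySetup.of_TI K hTI hC
  haveI : (K.subgroupOf (Subgroup.normalizer (K : Set G))).Normal := Subgroup.normal_in_normalizer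
  haveI : Fintype (Subgroup.normalizer (K : Set G)) := Fintype.ofFinite _
  set H := K.subgroupOf (Subgroup.normalizer (K : Set G)) with hH
  haveI : Fintype H := Fintype.ofFinite H
  have hKN : K ≤ Subgroup.normalizer (K : Set G) := hlt.le
  have hcard : Nat.card H = Nat.card K := Nat.card_congr (Subgroup.subgroupOfEquivOfLe hKN).toEquiv
  have hH1 : H ≠ ⊥ := fun h => hK1 (disjoint_self.1 ((Subgroup.subgroupOf_eq_bot.1 h).mono_right hKN))
  have hH2 : H ≠ ⊤ := fun h => hlt.not_ge (Subgroup.subgroupOf_eq_top.1 h)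
  haveI : Group.IsNilpotent H := CfsgLib.Feit1535.nilp H hCL hH1 hH2
  haveI : Nontrivial H := (Subgroup.nontrivial_iff_ne_bot H).2 hH1
  set e := H.index with he
  have hhodd : Odd (Nat.card H) := hcard.symm ▸ hodd
  have he1 : 1 < e := Subgroup.one_lt_index_of_ne_top hH2
  have he0 : (e : ℂ) ≠ 0 := Nat.cast_ne_zero.2 H.index_ne_zero_of_finite
  have hne : Nat.card H ≠ e + 1 := fun h => hbig (by
    rw [← H.card_mul_index, ← he, ← hcard, h, Nat.add_sub_cancel])
  have hcoh : IsCoherent (↑(irrOn H) : Set (Subgroup.normalizer (K : Set G) → ℂ)) {1}ᶜ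
      (fun α : Subgroup.normalizer (K : Set G) → ℂ => indFun (Subgroup.normalizer (K : Set G)) α) := by
    rcases CfsgLib.SibleySetup.coherent_or _ H hH1 hH2 hne hCG hT with h | ⟨⟨m, hm⟩, -, -⟩
    · exact h
    · exfalso
      rcases Nat.eq_zero_or_pos m with h0 | h0
      · exact hH1 (Subgroup.card_eq_one.1 (by rw [hm, h0, pow_zero]))
      · rw [hm] at hhodd; exact (Nat.not_even_iff_odd.2 hhodd) ((Nat.even_pow).2 ⟨even_two, h0.ne'⟩)
  obtain ⟨-, star, hstar, hext⟩ := hcoh
  obtain ⟨φ₀, hφ₀, hφ₀1⟩ := CfsgLib.Feit1535.exists_lin (P := H)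
  have hηS : indFun H (φ₀ : H → ℂ) ∈ irrOn H :=
    mem_irrOn.2 ⟨CfsgLib.Feit1535.ind_irr H hCL φ₀ hφ₀, CfsgLib.Feit1535.ind_mem H hCL φ₀ hφ₀⟩
  set η₀ : Subgroup.normalizer (K : Set G) → ℂ := indFun H (φ₀ : H → ℂ) with hη₀
  have hirr : ∀ x ∈ irrOn H, IsIrrCharacter (Subgroup.normalizer (K : Set G)) x := fun x hx => (mem_irrOn.1 hx).1
  have hdeg : ∀ x ∈ irrOn H, x 1 = (e : ℂ) * (degH H x : ℂ) := fun x hx => apply_one H hCL hx
  have hηD : degH H η₀ = 1 := by
    have h := hdeg _ hηS
    rw [hη₀, indFun_one, irr_apply_one, hφ₀1, Nat.cast_one, mul_one] at h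
    have h' : (e : ℂ) * (1 : ℂ) = (e : ℂ) * (degH H η₀ : ℂ) := by rw [mul_one]; exact h
    exact_mod_cast (mul_left_cancel₀ he0 h').symm
  have hmem : ∀ x ∈ irrOn H, x - (degH H x : ℤ) • η₀ ∈
      zspanOn (↑(irrOn H) : Set (Subgroup.normalizer (K : Set G) → ℂ)) {1}ᶜ := fun x hx => mem_zspanOn_one.2
    ⟨zspan_sub (mem_zspan hx) (zspan_zsmul _ (mem_zspan hηS)), by
      rw [Pi.sub_apply, Pi.smul_apply, hdeg x hx, hdeg _ hηS, hηD, zsmul_eq_mul]; push_cast; ring⟩
  have hvan : ∀ x ∈ irrOn H, ∀ y, y ∉ H → x y = 0 := fun x hx y hy =>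
    CfsgLib.FrobeniusCoherent.vanish H hCL ⟨x, (mem_irrOn.1 hx).1⟩ (mem_irrOn.1 hx).2 hy
  -- induced functions supported in the kernel
  have hsupp : ∀ β : Subgroup.normalizer (K : Set G) → ℂ, (∀ y, y ∉ H → β y = 0) → β 1 = 0 →
      ∀ g, ¬ Meets K g → indFun (Subgroup.normalizer (K : Set G)) β g = 0 := by
    intro β hβ hβ1 g hg
    simp only [Cfsg.indFun]
    rw [Finset.sum_eq_zero fun x _ => ?_, mul_zero]
    rw [extendByZero_apply]
    split_ifs with hm
    · by_cases hK : (⟨x⁻¹ * g * x, hm⟩ : Subgroup.normalizer (K : Set G)) ∈ H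
      · by_cases h1 : g = 1
        · rw [show (⟨x⁻¹ * g * x, hm⟩ : Subgroup.normalizer (K : Set G)) = 1 from Subtype.ext (by simp [h1])]
          exact hβ1
        · exact absurd ⟨h1, x⁻¹, by simpa [hH, Subgroup.mem_subgroupOf] using hK⟩ hg
      · exact hβ _ hK
    · rfl
  -- the principal character induced from the kernel
  set π : Subgroup.normalizer (K : Set G) → ℂ := indFun H (fun _ => (1 : ℂ)) with hπ
  have hπH : ∀ y : H, π y = (e : ℂ) := fun y => by
    rw [hπ, indFun_res, Finset.sum_const, nsmul_eq_mul, mul_one, Finset.card_univ, ← Nat.card_eq_fintype_card,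
      ← H.card_mul_index, Nat.cast_mul, ← mul_assoc, inv_mul_cancel₀ (natCast_card_ne_zero H), one_mul]
  have hπoff : ∀ y, y ∉ H → π y = 0 := fun y hy => by
    rw [hπ]
    simp only [Cfsg.indFun]
    rw [Finset.sum_eq_zero fun x _ => ?_, mul_zero]
    rw [extendByZero_apply, dif_neg fun hm => hy ?_]
    simpa [mul_assoc] using Subgroup.Normal.conj_mem ‹H.Normal› _ hm x
  have hπclass : IsClassFunction (Subgroup.normalizer (K : Set G)) π := indFun_isClassFunction H _
  have hπgen : IsGeneralizedCharacter (Subgroup.normalizer (K : Set G)) π :=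
    genChar_of_char (IsCharacter.indFun H (IsIrrCharacter.isCharacter (isIrrCharacter_one H)))
  have hπS : ∀ x ∈ irrOn H, classInner π x = 0 := fun x hx => by
    rw [hπ, CfsgLib.Chars.frobenius H _ (IsCharacter.isClassFunction (irr_char (hirr x hx))), classInner_symm]
    have h := CfsgLib.Feit1535.res_inner H hCL ⟨x, hirr x hx⟩ (mem_irrOn.1 hx).2
      (⟨fun _ => 1, isIrrCharacter_one H⟩ : IrrCharacter H)
    rw [if_neg (fun h' => h'.1 rfl)] at h
    simp only at h
    rw [h, map_zero]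
  have hππ : classInner π π = (e : ℂ) := by
    nth_rewrite 1 [hπ]
    rw [CfsgLib.Chars.frobenius H _ hπclass,
      show (fun y : H => π y) = (e : ℂ) • (fun _ : H => (1 : ℂ)) from funext fun y => by
        rw [hπH, Pi.smul_apply, smul_eq_mul, mul_one],
      ci_smul_right, inner_irr_self (isIrrCharacter_one H), map_natCast, mul_one]
  have hπ1 : classInner π (fun _ => 1) = 1 := by
    rw [hπ, CfsgLib.Chars.frobenius H _ (fun _ _ => rfl)]
    exact inner_irr_self (isIrrCharacter_one H)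
  set α : Subgroup.normalizer (K : Set G) → ℂ := π - η₀ with hα
  have hαoff : ∀ y, y ∉ H → α y = 0 := fun y hy => by
    rw [hα, Pi.sub_apply, hπoff y hy, hvan _ hηS y hy, sub_zero]
  have hα1 : α 1 = 0 := by
    have := hπH 1
    rw [hα, Pi.sub_apply, show π 1 = (e : ℂ) by simpa using this, hdeg _ hηS, hηD, Nat.cast_one, mul_one, sub_self]
  have hαgen : IsGeneralizedCharacter (Subgroup.normalizer (K : Set G)) α :=
    genChar_sub hπgen (genChar_of_char (irr_char (hirr _ hηS)))
  have hη1 : classInner η₀ (fun _ => 1) = 0 :=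
    inner_irr_ne (hirr _ hηS) (isIrrCharacter_one _) fun h => by
      obtain ⟨-, a, -, hne'⟩ := mem_irrOn.1 hηS
      exact hne' (by rw [h])
  have hinner : ∀ β : Subgroup.normalizer (K : Set G) → ℂ, IsClassFunction (Subgroup.normalizer (K : Set G)) β →
      (∀ y, y ∉ H → β y = 0) → classInner (indFun (Subgroup.normalizer (K : Set G)) α)
        (indFun (Subgroup.normalizer (K : Set G)) β) = classInner α β := by
    intro β hβc hβ
    rw [CfsgLib.Chars.frobenius _ α (indFun_isClassFunction _ β)]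
    simp only [classInner]
    congr 1
    refine Finset.sum_congr rfl fun x _ => ?_
    by_cases hx : x ∈ H ∧ x ≠ 1
    · rw [CfsgLib.TIInduce.indFun_eq (Subgroup.normalizer (K : Set G)) (K : Set G) (fun g hg t ht hgt => hTI g hg t ht hgt)
        β hβc (fun y hy => hβ y hy) x hx.1 (fun h => hx.2 (Subtype.ext h))]
    · have : α x = 0 := by
        by_cases h1 : x = 1
        · rw [h1]; exact hα1
        · exact hαoff x fun h => hx ⟨h, h1⟩
      rw [this, zero_mul, zero_mul]
  set A : G → ℂ := indFun (Subgroup.normalizer (K : Set G)) α with hA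
  have hAgen : IsGeneralizedCharacter G A := by
    obtain ⟨a, b, ha, hb, hab⟩ := hαgen
    refine ⟨_, _, IsCharacter.indFun _ ha, IsCharacter.indFun _ hb, ?_⟩
    rw [hA, hab]
    funext g
    simp only [Cfsg.indFun, Pi.sub_apply, extendByZero_apply, ← mul_sub, ← Finset.sum_sub_distrib]
    exact congrArg _ (Finset.sum_congr rfl fun x _ => by split_ifs <;> simp)
  have hαone : classInner α (fun _ => 1) = 1 := by rw [hα, ci_sub_left, hπ1, hη1, sub_zero]
  -- the exceptional characters
  let X := {x // x ∈ irrOn H}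
  let exc : X → G → ℂ := fun x => star x.1
  have hdiff : ∀ x ∈ irrOn H, star x - (degH H x : ℤ) • star η₀ =
      indFun (Subgroup.normalizer (K : Set G)) (x - (degH H x : ℤ) • η₀) := fun x hx => by
    rw [show indFun (Subgroup.normalizer (K : Set G)) (x - (degH H x : ℤ) • η₀) = star (x - (degH H x : ℤ) • η₀) from
        (hext _ (hmem x hx)).symm,
      iso_sub hstar (mem_zspan hx) (zspan_neg (zspan_zsmul _ (mem_zspan hηS))) (zspan_zsmul _ (mem_zspan hηS)),
      hstar.2.1 _ (mem_zspan hηS)]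
  -- the degrees
  set σ := ∑ x ∈ irrOn H, degH H x ^ 2 with hσ
  have hσe : Nat.card K = e * σ + 1 := by
    have hM : ∑ χ ∈ (CfsgLib.FrobeniusCoherent.onH H)ᶜ, charDegree (χ : Subgroup.normalizer (K : Set G) → ℂ) ^ 2 = e := by
      exact_mod_cast CfsgLib.FrobeniusCoherent.sum_compl H hCL
    have hall := sum_deg_sq (G := Subgroup.normalizer (K : Set G))
    rw [← Finset.sum_add_sum_compl (CfsgLib.FrobeniusCoherent.onH H), hM, ← H.card_mul_index, ← he] at hall
    have himg : ∑ χ ∈ CfsgLib.FrobeniusCoherent.onH H, charDegree (χ : Subgroup.normalizer (K : Set G) → ℂ) ^ 2 =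
        e ^ 2 * σ := by
      rw [hσ, Finset.mul_sum]
      refine Finset.sum_bij (fun χ _ => (χ : Subgroup.normalizer (K : Set G) → ℂ))
        (fun χ hχ => mem_irrOn.2 ⟨χ.2, CfsgLib.FrobeniusCoherent.mem_onH.1 hχ⟩) (fun _ _ _ _ h => Subtype.ext h)
        (fun x hx => ⟨⟨x, hirr x hx⟩, CfsgLib.FrobeniusCoherent.mem_onH.2 (mem_irrOn.1 hx).2, rfl⟩) fun χ hχ => ?_
      obtain ⟨-, -, -, -, hd⟩ := degH_spec H hCL (mem_irrOn.2 ⟨χ.2, CfsgLib.FrobeniusCoherent.mem_onH.1 hχ⟩)
      rw [hd, mul_pow]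
    rw [himg, hcard] at hall
    refine Nat.eq_of_mul_eq_mul_right (by omega : 0 < e) ?_
    rw [← hall]; ring
  have hσpos : 0 < σ :=
    lt_of_lt_of_le (pow_pos (degH_pos H hCL hηS) 2)
      (Finset.single_le_sum (f := fun x => degH H x ^ 2) (fun _ _ => Nat.zero_le _) hηS)
  have hσ2 : 2 ≤ σ := by
    rcases (by omega : σ = 1 ∨ 2 ≤ σ) with h | h
    · exact absurd (by rw [hcard, hσe, h, mul_one] : Nat.card H = e + 1) hne
    · exact h
  have htwo : ∃ χ ∈ (↑(irrOn H) : Set (Subgroup.normalizer (K : Set G) → ℂ)),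
      ∃ ξ ∈ (↑(irrOn H) : Set (Subgroup.normalizer (K : Set G) → ℂ)), χ ≠ ξ := by
    by_contra h
    push Not at h
    have h1 : irrOn H = {η₀} := Finset.eq_singleton_iff_unique_mem.2 ⟨hηS, fun x hx => h x hx η₀ hηS⟩
    rw [hσ, h1, Finset.sum_singleton, hηD] at hσ2
    omega
  have h852 := Cfsg.Agent.S0852.result K hTI hlt hC (↑(irrOn H)) (coe_irrOn H) htwo star hstar (fun a ha => hext a ha)
  refine ⟨{
    e := e
    σ := σ
    card_eq := hσe
    card_norm := by rw [← H.card_mul_index, hcard, mul_comm]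
    one_lt_e := he1
    σ_ge := hσ2
    X := X
    exc := exc
    exc_gen := fun x => hstar.2.2.2 _ (mem_zspan x.2)
    exc_orth := fun x y => by
      show classInner (star x.1) (star y.1) = _
      rw [hstar.2.2.1 _ (mem_zspan x.2) _ (mem_zspan y.2)]
      by_cases h : x = y
      · rw [if_pos h, h, inner_irr_self (hirr _ y.2)]
      · rw [if_neg h, inner_irr_ne (hirr _ x.2) (hirr _ y.2) fun e' => h (Subtype.ext e')]
    D := fun x => degH H x.1
    η := ⟨η₀, hηS⟩
    D_eta := hηD
    sum_D := by rw [hσ]; exact Finset.sum_coe_sort (irrOn H) fun x => degH H x ^ 2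
    exc_prop := fun x g hg => by
      have h := congrFun (hdiff x.1 x.2) g
      rw [hsupp _ (fun y hy => by rw [Pi.sub_apply, Pi.smul_apply, hvan _ x.2 y hy, hvan _ hηS y hy, smul_zero, sub_zero])
        (mem_zspanOn_one.1 (hmem _ x.2)).2 g hg, Pi.sub_apply, Pi.smul_apply, sub_eq_zero, zsmul_eq_mul] at h
      show star x.1 g = (degH H x.1 : ℂ) * star η₀ g
      rw [h]; push_cast; rfl
    exc_iff := fun θ => by
      refine Iff.trans ?_ (h852 (θ : G → ℂ) θ.2)
      constructor
      · rintro ⟨⟨x, hx⟩, h | h⟩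
        · exact ⟨x, hx, Or.inl h.symm⟩
        · refine ⟨x, hx, Or.inr ?_⟩
          change star x = -(θ : G → ℂ) at h
          rw [h, neg_neg]
      · rintro ⟨x, hx, h | h⟩
        · exact ⟨⟨x, hx⟩, Or.inl h.symm⟩
        · refine ⟨⟨x, hx⟩, Or.inr ?_⟩
          show star x = -(θ : G → ℂ)
          rw [h, neg_neg]
    A := A
    A_gen := hAgen
    A_norm := by
      rw [hA, hinner α (genChar_classFun hαgen) hαoff, hα, ci_sub_left, ci_sub_right, ci_sub_right, hππ,
        hπS _ hηS, classInner_symm η₀ π, hπS _ hηS, map_zero, inner_irr_self (hirr _ hηS)]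
      ring
    A_one := by
      rw [hA, CfsgLib.Chars.frobenius _ α (f := fun _ => 1) (fun _ _ => rfl)]
      exact hαone
    A_supp := fun g hg => hsupp α hαoff hα1 g hg
    A_exc := by
      obtain ⟨c, hc⟩ := int_inner hAgen (hstar.2.2.2 _ (mem_zspan hηS))
      refine ⟨c + 1, fun x => ?_⟩
      have hβc : IsClassFunction (Subgroup.normalizer (K : Set G)) (x.1 - (degH H x.1 : ℤ) • η₀) :=
        genChar_classFun (genChar_sub (genChar_of_char (irr_char (hirr _ x.2)))
          (genChar_zsmul (genChar_of_char (irr_char (hirr _ hηS))) _))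
      have h := hinner _ hβc (fun y hy => by
        rw [Pi.sub_apply, Pi.smul_apply, hvan _ x.2 y hy, hvan _ hηS y hy, smul_zero, sub_zero])
      rw [← hdiff _ x.2, ci_sub_right, ci_zsmul_right, hc, hα, ci_sub_left, ci_sub_right, ci_sub_right,
        ci_zsmul_right, ci_zsmul_right, hπS _ x.2, hπS _ hηS, inner_irr_self (hirr _ hηS)] at h
      show classInner A (star x.1) = _
      by_cases hx : x = ⟨η₀, hηS⟩
      · rw [if_pos hx, show x.1 = η₀ from congrArg Subtype.val hx] at *
        rw [hηD] at h ⊢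
        rw [hc]; push_cast; ring
      · rw [if_neg hx]
        rw [inner_irr_ne (hirr _ hηS) (hirr _ x.2) fun e' => hx (Subtype.ext e'.symm)] at h
        push_cast at h ⊢
        linear_combination h
    A_const := fun f hf c hfc => by
      rw [hA, CfsgLib.Chars.frobenius _ α hf]
      have h1 : classInner α (fun y : Subgroup.normalizer (K : Set G) => f y) =
          conj c * classInner α (fun _ => 1) := by
        simp only [classInner, map_one, mul_one, Finset.mul_sum]
        refine Finset.sum_congr rfl fun y _ => ?_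
        by_cases hy : y ∈ H ∧ y ≠ 1
        · rw [hfc (y : G) hy.1 fun h => hy.2 (Subtype.ext h)]; ring
        · have : α y = 0 := by
            by_cases h1 : y = 1
            · rw [h1]; exact hα1
            · exact hαoff y fun h => hy ⟨h, h1⟩
          rw [this]; ring
      rw [h1, hαone, mul_one]
    }⟩

end CfsgLib.ExceptionalTIGen
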