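import Mathlib
import Cfsg.Agent.Lib.CharExtend
import Cfsg.Agent.Lib.Extendible
import Cfsg.Agent.Lib.Chars.GaloisTwist
import Cfsg.Agent.S0886

/-!
# Fixed characters over a fixed character, odd index
-/

set_option autoImplicit false

namespace CfsgLib.FixedOverOdd

open Cfsg CfsgLib.Chars
open scoped ComplexConjugate

universe u

variable {G : Type u} [Group G] [Fintype G]

theorem eq_one_of_conj_inv {Q : Type*} [Group Q] [Finite Q] (hQ : Odd (Nat.card Q)) (q : Q)
    (h : IsConj q q⁻¹) : q = 1 := by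
  obtain ⟨c, hc⟩ := isConj_iff.1 h
  have hcomm : Commute (c ^ 2) q := by
    have h2 : c * (c * q * c⁻¹) * c⁻¹ = q := by
      rw [hc, show c * q⁻¹ * c⁻¹ = (c * q * c⁻¹)⁻¹ from by group, hc, inv_inv]
    show c ^ 2 * q = q * c ^ 2
    calc c ^ 2 * q = c * (c * q * c⁻¹) * c⁻¹ * c ^ 2 := by rw [pow_two]; group
      _ = q * c ^ 2 := by rw [h2]
  have hc2 : Commute c q := by
    obtain ⟨m, hm⟩ := hQ
    have : (c ^ 2) ^ (m + 1) = c := by
      rw [← pow_mul, show 2 * (m + 1) = Nat.card Q + 1 by omega, pow_succ, pow_card_eq_one', one_mul]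
    rw [← this]
    exact hcomm.pow_left _
  have hq : q = q⁻¹ := by
    conv_rhs => rw [← hc]
    rw [hc2.eq, mul_inv_cancel_right]
  have h2 : q ^ 2 = 1 := by
    rw [pow_two]; nth_rw 2 [hq]; exact mul_inv_cancel q
  obtain ⟨m, hm⟩ := hQ
  have h3 : q ^ Nat.card Q = 1 := pow_card_eq_one'
  rw [hm, pow_succ, pow_mul, h2, one_pow, one_mul] at h3
  exact h3

/-- In a quotient of odd order, the power map is inversion. -/
theorem mk_pow_mul {k : ℕ} (hk₂ : ∀ g : G, Odd (orderOf g) → g ^ k = g⁻¹) (N : Subgroup G) [N.Normal]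
    (hidx : Odd N.index) (g : G) : g ^ k * g ∈ N := by
  have ho : Odd (orderOf (g ^ 2 ^ (orderOf g).factorization 2)) := by
    rw [orderOf_pow_of_dvd (by positivity) (Nat.ordProj_dvd _ 2)]
    have h0 : orderOf g ≠ 0 := (isOfFinOrder_of_finite g).orderOf_pos.ne'
    exact Nat.not_even_iff_odd.1 fun he =>
      Nat.not_dvd_ordCompl Nat.prime_two h0 (even_iff_two_dvd.1 he)
  set q : G ⧸ N := QuotientGroup.mk g
  have h1 : (q ^ k * q) ^ 2 ^ (orderOf g).factorization 2 = 1 := by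
    rw [((Commute.refl q).pow_left k).mul_pow, ← pow_mul, mul_comm k, pow_mul]
    simp only [q, ← QuotientGroup.mk_pow]
    rw [hk₂ _ ho, QuotientGroup.mk_inv, inv_mul_cancel]
  have h2 : orderOf (q ^ k * q) ∣ Nat.card (G ⧸ N) := orderOf_dvd_natCard _
  have h3 : Nat.Coprime (2 ^ (orderOf g).factorization 2) (Nat.card (G ⧸ N)) := by
    refine Nat.Coprime.pow_left _ ?_
    rw [Nat.coprime_two_left]
    rwa [← Subgroup.index_eq_card]
  have h4 : orderOf (q ^ k * q) = 1 :=
    Nat.eq_one_of_dvd_coprimes h3 (orderOf_dvd_of_pow_eq_one h1) h2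
  have h5 := orderOf_eq_one_iff.1 h4
  rw [← QuotientGroup.eq_one_iff]
  exact h5

open Classical in
/-- Exactly one character over a fixed character is fixed. -/
theorem card_fixed {k : ℕ} (hk : Nat.Coprime k (Nat.card G))
    (hk₂ : ∀ g : G, Odd (orderOf g) → g ^ k = g⁻¹) (N : Subgroup G) [N.Normal] [Fintype N]
    (hidx : Odd N.index) (θ : IrrCharacter N)
    (hθ : ∀ n : N, (θ : N → ℂ) (n ^ k) = (θ : N → ℂ) n) :
    (Finset.univ.filter fun χ : IrrCharacter G =>
      classInner (fun n : N => (χ : G → ℂ) n) (θ : N → ℂ) ≠ 0 ∧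
        ∀ g : G, (χ : G → ℂ) (g ^ k) = (χ : G → ℂ) g).card = 1 := by
  set S := Finset.univ.filter fun χ : IrrCharacter G =>
      classInner (fun n : N => (χ : G → ℂ) n) (θ : N → ℂ) ≠ 0 with hS
  set T := Finset.univ.filter fun χ : IrrCharacter G =>
      classInner (fun n : N => (χ : G → ℂ) n) (θ : N → ℂ) ≠ 0 ∧
        ∀ g : G, (χ : G → ℂ) (g ^ k) = (χ : G → ℂ) g with hT
  set Θ : G → ℂ := indFun N (θ : N → ℂ) with hΘ
  set f : G → ℂ := fun y => conj (Θ y) with hf0
  have hf : IsClassFunction G f := fun y h => congrArg conj (indFun_isClassFunction N _ y h)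
  have hsupp : ∀ y, y ∉ N → f y = 0 := by
    intro y hy
    show conj (Θ y) = 0
    have hz : ∀ x : G, extendByZero N (θ : N → ℂ) (x⁻¹ * y * x) = 0 := by
      intro x
      rw [extendByZero_apply, dif_neg]
      intro hm
      apply hy
      have := (inferInstance : N.Normal).conj_mem _ hm x
      simpa [mul_assoc] using this
    simp [hΘ, indFun, hz]
  set t := (orbit N θ).card with ht0
  set d := charDegree (θ : N → ℂ) with hd0
  have ht : 0 < t := Finset.card_pos.2 ⟨θ, (mem_orbit N).2 ⟨1, (conjIrr_one N θ).symm⟩⟩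
  have hd : 0 < d := charDegree_pos θ
  have hG := natCast_card_ne_zero G
  have hN : (Nat.card N : ℂ) ≠ 0 := natCast_card_ne_zero N
  choose m hm using exists_mult (IsCharacter.indFun N (isCharacter_irr θ))
  have hmres : ∀ χ : IrrCharacter G, classInner (fun n : N => (χ : G → ℂ) n) (θ : N → ℂ) = m χ := by
    intro χ
    rw [← hm χ, frobenius N _ (IsCharacter.isClassFunction (isCharacter_irr χ)),
      classInner_character_comm (isCharacter_irr θ) (IsCharacter.restrict (isCharacter_irr χ) N)]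
  have hmS : ∀ χ, χ ∈ S ↔ m χ ≠ 0 := fun χ => by simp [S, hmres]
  have hdeg : ∀ χ ∈ S, charDegree (χ : G → ℂ) = m χ * t * d ∧
      ∀ n : N, (χ : G → ℂ) n = (m χ : ℂ) * ∑ ψ ∈ orbit N θ, (ψ : N → ℂ) n := by
    intro χ hχ
    obtain ⟨e, -, he, hval, hdeg⟩ := clifford N χ θ (by simpa [S] using hχ)
    have : e = m χ := by
      have := he.symm.trans (hmres χ)
      exact_mod_cast this
    subst this
    exact ⟨hdeg, hval⟩
  have hom : ∀ χ : IrrCharacter G, omega (χ : G → ℂ) f =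
      if χ ∈ S then (Nat.card G : ℂ) / (t * d : ℕ) else 0 := by
    intro χ
    have h1 : ∑ y : G, f y * (χ : G → ℂ) y = (Nat.card G : ℂ) * m χ := by
      have h2 : (m χ : ℂ) = classInner (χ : G → ℂ) Θ := by
        rw [hΘ, classInner_symm, hm χ, map_natCast]
      rw [h2, classInner, ← mul_assoc, mul_inv_cancel₀ hG, one_mul]
      exact Finset.sum_congr rfl fun y _ => mul_comm _ _
    rw [omega, h1]
    split_ifs with hχ
    · rw [irr_apply_one, (hdeg χ hχ).1]
      have : (m χ : ℂ) ≠ 0 := by exact_mod_cast (hmS χ).1 hχ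
      push_cast
      field_simp
    · have : m χ = 0 := not_not.1 fun h => hχ ((hmS χ).2 h)
      rw [this]; simp
  have hker : ∀ x z : G, ¬ IsConj (QuotientGroup.mk z : G ⧸ N) (QuotientGroup.mk x) →
      ∑ χ ∈ S, (χ : G → ℂ) x * conj ((χ : G → ℂ) z) = 0 := by
    intro x z hxz
    have h0 : ∑ χ : IrrCharacter G, omega (χ : G → ℂ) f * (χ : G → ℂ) x * conj ((χ : G → ℂ) z) = 0 := by
      simp only [← sum_classFunction_mul _ hf, Finset.sum_mul]
      rw [Finset.sum_comm]
      refine Finset.sum_eq_zero fun y _ => ?_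
      simp only [mul_assoc]
      rw [← Finset.mul_sum, col_orth]
      by_cases hy : y ∈ N
      · rw [if_neg, mul_zero]
        intro hc
        apply hxz
        have hc' := MonoidHom.map_isConj (QuotientGroup.mk' N) hc
        simp only [QuotientGroup.mk'_apply, QuotientGroup.mk_mul, (QuotientGroup.eq_one_iff y).2 hy, one_mul] at hc'
        exact hc'
      · rw [hsupp y hy, zero_mul]
    simp only [hom, ite_mul, zero_mul, Finset.sum_ite_mem, Finset.univ_inter, mul_assoc] at h0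
    rw [← Finset.mul_sum] at h0
    refine (mul_eq_zero.1 h0).resolve_left ?_
    exact div_ne_zero hG (by exact_mod_cast (Nat.mul_pos ht hd).ne')
  have hodd : Odd (Nat.card (G ⧸ N)) := by rwa [← Subgroup.index_eq_card]
  have hout : ∀ g : G, g ∉ N → ¬ IsConj (QuotientGroup.mk g : G ⧸ N) (QuotientGroup.mk (g ^ k)) := by
    intro g hg hc
    apply hg
    have hinv : (QuotientGroup.mk (g ^ k) : G ⧸ N) = (QuotientGroup.mk g)⁻¹ := by
      rw [eq_inv_iff_mul_eq_one, ← QuotientGroup.mk_mul, QuotientGroup.eq_one_iff]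
      exact mk_pow_mul hk₂ N hidx g
    rw [hinv] at hc
    exact (QuotientGroup.eq_one_iff g).1 (eq_one_of_conj_inv hodd _ hc)
  have hresfix : ∀ χ ∈ S, ∀ n : N, (χ : G → ℂ) ((n : G) ^ k) = (χ : G → ℂ) n := by
    intro χ hχ n
    rw [← SubmonoidClass.coe_pow, (hdeg χ hχ).2, (hdeg χ hχ).2]
    congr 1
    refine Finset.sum_congr rfl fun ψ hψ => ?_
    obtain ⟨g, rfl⟩ := (mem_orbit N).1 hψ
    rw [conjIrr_apply, conjIrr_apply, map_pow, hθ]
  have hnorm : ∀ χ ∈ S, ∑ n : N, (χ : G → ℂ) n * conj ((χ : G → ℂ) n) =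
      (Nat.card N : ℂ) * (m χ * m χ * t : ℕ) := by
    intro χ hχ
    have h1 : ∀ ψ ∈ orbit N θ, ∑ n : N, (χ : G → ℂ) n * conj ((ψ : N → ℂ) n) = (Nat.card N : ℂ) * m χ := by
      intro ψ hψ
      obtain ⟨g, rfl⟩ := (mem_orbit N).1 hψ
      rw [← hmres χ, ← classInner_res_conjIrr N _ (IsCharacter.isClassFunction (isCharacter_irr χ)) θ g,
        classInner, ← mul_assoc, mul_inv_cancel₀ hN, one_mul]
    have h2 : ∀ n : N, (χ : G → ℂ) n * conj ((χ : G → ℂ) n) =
        (m χ : ℂ) * ∑ ψ ∈ orbit N θ, (χ : G → ℂ) n * conj ((ψ : N → ℂ) n) := by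
      intro n
      conv_lhs => arg 2; rw [(hdeg χ hχ).2 n]
      rw [map_mul, map_natCast, map_sum, Finset.mul_sum, Finset.mul_sum, Finset.mul_sum]
      exact Finset.sum_congr rfl fun ψ _ => by ring
    simp only [h2]
    rw [← Finset.mul_sum, Finset.sum_comm, Finset.sum_congr rfl h1, Finset.sum_const, nsmul_eq_mul]
    push_cast
    ring
  have hsum : ∑ χ ∈ S, m χ * m χ * t = N.index := by
    have h1 := classFunction_expand (indFun_isClassFunction N (θ : N → ℂ)) (1 : G)
    simp only [hm, indFun_one, irr_apply_one] at h1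
    have h2 : (∑ χ : IrrCharacter G, m χ * charDegree (χ : G → ℂ)) = N.index * d := by
      exact_mod_cast h1.symm
    rw [← Finset.sum_subset (Finset.subset_univ S) (fun χ _ hχ => by
      rw [not_not.1 fun h => hχ ((hmS χ).2 h), zero_mul])] at h2
    rw [Finset.sum_congr rfl (fun χ hχ => show m χ * charDegree (χ : G → ℂ) = m χ * m χ * t * d by
      rw [(hdeg χ hχ).1]; ring), ← Finset.sum_mul] at h2
    exact Nat.eq_of_mul_eq_mul_right hd h2
  have hTS : T = S.filter fun χ => powIrr hk χ = χ := by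
    ext χ
    simp only [T, S, Finset.mem_filter, Finset.mem_univ, true_and, Subtype.ext_iff, powIrr, funext_iff]
  have hcount : (T.card : ℂ) * (Nat.card G : ℂ) = (Nat.card G : ℂ) := by
    calc (T.card : ℂ) * (Nat.card G : ℂ)
        = ∑ χ ∈ S, ∑ g : G, (powIrr hk χ : G → ℂ) g * conj ((χ : G → ℂ) g) := by
          simp only [sum_mul_conj_irr, ← Finset.sum_filter, ← hTS, Finset.sum_const, nsmul_eq_mul]
      _ = ∑ g : G, ∑ χ ∈ S, (χ : G → ℂ) (g ^ k) * conj ((χ : G → ℂ) g) := Finset.sum_comm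
      _ = ∑ g ∈ Finset.univ.filter (fun g => g ∈ N), ∑ χ ∈ S, (χ : G → ℂ) (g ^ k) * conj ((χ : G → ℂ) g) := by
          refine (Finset.sum_subset (Finset.filter_subset _ _) fun g _ hg => hker _ _ (hout g ?_)).symm
          simpa using hg
      _ = ∑ n : N, ∑ χ ∈ S, (χ : G → ℂ) ((n : G) ^ k) * conj ((χ : G → ℂ) n) :=
          Finset.sum_subtype _ (fun g => by simp) _
      _ = ∑ χ ∈ S, ∑ n : N, (χ : G → ℂ) n * conj ((χ : G → ℂ) n) := by
          rw [Finset.sum_comm]
          exact Finset.sum_congr rfl fun χ hχ => Finset.sum_congr rfl fun n _ => by rw [hresfix χ hχ]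
      _ = (Nat.card N : ℂ) * ((∑ χ ∈ S, m χ * m χ * t : ℕ) : ℂ) := by
          rw [Finset.sum_congr rfl hnorm, ← Finset.mul_sum, Nat.cast_sum]
      _ = (Nat.card G : ℂ) := by
          rw [hsum, ← Nat.cast_mul, N.card_mul_index]
  have : (T.card : ℂ) = 1 := mul_right_cancel₀ hG (hcount.trans (one_mul _).symm)
  exact_mod_cast this

theorem unique_fixed {k : ℕ} (hk : Nat.Coprime k (Nat.card G))
    (hk₂ : ∀ g : G, Odd (orderOf g) → g ^ k = g⁻¹) (N : Subgroup G) [N.Normal] [Fintype N]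
    (hidx : Odd N.index) (θ : IrrCharacter N)
    (hθ : ∀ n : N, (θ : N → ℂ) (n ^ k) = (θ : N → ℂ) n) :
    ∃ χ : IrrCharacter G, (classInner (fun n : N => (χ : G → ℂ) n) (θ : N → ℂ) ≠ 0 ∧
        ∀ g : G, (χ : G → ℂ) (g ^ k) = (χ : G → ℂ) g) ∧
      ∀ χ' : IrrCharacter G, classInner (fun n : N => (χ' : G → ℂ) n) (θ : N → ℂ) ≠ 0 →
        (∀ g : G, (χ' : G → ℂ) (g ^ k) = (χ' : G → ℂ) g) → χ' = χ := by
  classical
  obtain ⟨χ, hχ⟩ := Finset.card_eq_one.1 (card_fixed hk hk₂ N hidx θ hθ)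
  have h := fun χ' => (Finset.ext_iff.1 hχ χ')
  simp only [Finset.mem_filter, Finset.mem_univ, true_and, Finset.mem_singleton] at h
  exact ⟨χ, (h χ).2 rfl, fun χ' h1 h2 => (h χ').1 ⟨h1, h2⟩⟩

/-- An extension can be chosen fixed. -/
theorem fixed_of_extension {k : ℕ} (hk : Nat.Coprime k (Nat.card G))
    (hk₂ : ∀ g : G, Odd (orderOf g) → g ^ k = g⁻¹) (N : Subgroup G) [N.Normal] [Fintype N]
    (hidx : Odd N.index) (θ : IrrCharacter N)
    (hθ : ∀ n : N, (θ : N → ℂ) (n ^ k) = (θ : N → ℂ) n) (η : IrrCharacter G)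
    (hη : ∀ n : N, (η : G → ℂ) n = (θ : N → ℂ) n) :
    ∃ χ : IrrCharacter G, (∀ g : G, (χ : G → ℂ) (g ^ k) = (χ : G → ℂ) g) ∧
      ∀ n : N, (χ : G → ℂ) n = (θ : N → ℂ) n := by
  classical
  have hres : ∀ n : N, (powIrr hk η : G → ℂ) n = (θ : N → ℂ) n := fun n => by
    show (η : G → ℂ) ((n : G) ^ k) = _
    rw [← SubmonoidClass.coe_pow, hη, hθ]
  obtain ⟨β, hker, hprod⟩ := CfsgLib.CharExtend.gallagher N η θ hη (powIrr hk η) (by
    rw [funext hres, classInner_irr, if_pos rfl]; exact one_ne_zero)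
  have hβ1 : (β : G → ℂ) 1 = 1 := by
    have h1 := hprod 1
    have h2 := hres 1
    have h3 := hη 1
    rw [OneMemClass.coe_one] at h2 h3
    rw [h2, h3] at h1
    exact (mul_eq_left₀ (irr_one_ne_zero θ)).1 h1.symm
  obtain ⟨f, hf⟩ := IsCharacter.exists_hom (isCharacter_irr β) hβ1
  have hfN : ∀ n ∈ N, f n = 1 := fun n hn => Units.ext (by
    have := hker n hn
    rw [hβ1, hf] at this
    exact this)
  obtain ⟨j, hj⟩ := hidx
  refine ⟨⟨_, isIrrCharacter_hom_mul (f ^ (j + 1)) η⟩, fun g => ?_, fun n => ?_⟩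
  · show ((f ^ (j + 1)) (g ^ k) : ℂ) * (η : G → ℂ) (g ^ k) = ((f ^ (j + 1)) g : ℂ) * (η : G → ℂ) g
    have h1 : (η : G → ℂ) (g ^ k) = (η : G → ℂ) g * (f g : ℂ) := by
      rw [← congrFun hf g]; exact hprod g
    have h2 : f (g ^ k) = (f g)⁻¹ := by
      rw [eq_inv_iff_mul_eq_one, ← map_mul]
      exact hfN _ (mk_pow_mul hk₂ N ⟨j, hj⟩ g)
    have h3 : f g ^ (2 * j + 1) = 1 := by
      rw [← hj, ← map_pow]
      exact hfN _ (N.pow_index_mem g)
    have h4 : (f ^ (j + 1)) (g ^ k) * f g = (f ^ (j + 1)) g := by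
      rw [MonoidHom.pow_apply, MonoidHom.pow_apply, h2, inv_pow, inv_mul_eq_iff_eq_mul, ← pow_add,
        show j + 1 + (j + 1) = 2 * j + 1 + 1 by omega, pow_succ (f g) (2 * j + 1), h3, one_mul]
    rw [h1, ← h4, Units.val_mul]
    ring
  · show ((f ^ (j + 1)) (n : G) : ℂ) * (η : G → ℂ) n = _
    rw [MonoidHom.pow_apply, hfN _ n.2, one_pow, Units.val_one, one_mul, hη]

omit [Fintype G] in
theorem ext_of_pgroup_index {k p : ℕ} (hp : p.Prime) : ∀ (a : ℕ) (G : Type u) [Group G] [Fintype G]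
    (N : Subgroup G) [N.Normal] [Fintype N] (θ : IrrCharacter N),
    Nat.Coprime k (Nat.card G) → (∀ g : G, Odd (orderOf g) → g ^ k = g⁻¹) →
    (∀ n : N, (θ : N → ℂ) (n ^ k) = (θ : N → ℂ) n) → (∀ g, conjIrr N θ g = θ) →
    Odd N.index → N.index = p ^ a →
    ∃ χ : IrrCharacter G, ∀ n : N, (χ : G → ℂ) n = (θ : N → ℂ) n := by
  intro a
  induction a with
  | zero =>
    intro G _ _ N _ _ θ _ _ _ _ _ ha
    have hN : N = ⊤ := Subgroup.index_eq_one.1 (by rw [ha, pow_zero])
    obtain rfl := hN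
    refine ⟨⟨fun g => (θ : (⊤ : Subgroup G) → ℂ) ((Subgroup.topEquiv (G := G)).symm g),
      IsIrrCharacter.comp θ.2 (Subgroup.topEquiv (G := G)).symm.toMonoidHom (Subgroup.topEquiv (G := G)).symm.surjective⟩, fun n => rfl⟩
  | succ a ih =>
    intro G _ _ N _ _ θ hk hk₂ hθ hinv hidx ha
    classical
    haveI : Fact p.Prime := ⟨hp⟩
    have hQ : Nat.card (G ⧸ N) = p ^ (a + 1) := by rw [← Subgroup.index_eq_card, ha]
    obtain ⟨K, hK⟩ := Sylow.exists_subgroup_card_pow_prime (G := G ⧸ N) p (n := a)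
      (by rw [hQ]; exact pow_dvd_pow p (Nat.le_succ a))
    have hKidx : K.index = p := by
      have := K.card_mul_index
      rw [hK, hQ, pow_succ] at this
      exact Nat.eq_of_mul_eq_mul_left (pow_pos hp.pos a) this
    haveI : K.Normal := Subgroup.normal_of_index_eq_minFac_card (by
      rw [hQ, hKidx, Nat.pow_minFac (Nat.succ_ne_zero a), hp.minFac_eq])
    let M : Subgroup G := K.comap (QuotientGroup.mk' N)
    have hMidx : M.index = p := by
      rw [Subgroup.index_comap_of_surjective _ (QuotientGroup.mk'_surjective N), hKidx]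
    have hNM : N ≤ M := by
      intro n hn
      show QuotientGroup.mk' N n ∈ K
      rw [QuotientGroup.mk'_apply, (QuotientGroup.eq_one_iff n).2 hn]
      exact K.one_mem
    have hrel : N.relIndex M = p ^ a := by
      have := Subgroup.relIndex_mul_index hNM
      rw [hMidx, ha, pow_succ] at this
      exact Nat.eq_of_mul_eq_mul_right hp.pos this
    haveI : Fintype M := Fintype.ofFinite M
    haveI : Fintype (N.subgroupOf M) := Fintype.ofFinite _
    let e : N.subgroupOf M ≃* N := Subgroup.subgroupOfEquivOfLe hNM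
    let θ' : IrrCharacter (N.subgroupOf M) :=
      ⟨fun x => (θ : N → ℂ) (e x), IsIrrCharacter.comp θ.2 e.toMonoidHom e.surjective⟩
    have hk' : Nat.Coprime k (Nat.card M) := Nat.Coprime.coprime_dvd_right (Subgroup.card_subgroup_dvd_card M) hk
    have hk₂' : ∀ g : M, Odd (orderOf g) → g ^ k = g⁻¹ := fun g hg => Subtype.ext (by
      rw [SubmonoidClass.coe_pow, InvMemClass.coe_inv]
      exact hk₂ g (by rwa [Subgroup.orderOf_coe]))
    have hθ' : ∀ n : N.subgroupOf M, (θ' : _ → ℂ) (n ^ k) = (θ' : _ → ℂ) n := fun n => by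
      show (θ : N → ℂ) (e (n ^ k)) = (θ : N → ℂ) (e n)
      rw [map_pow, hθ]
    have hinv' : ∀ g, conjIrr (N.subgroupOf M) θ' g = θ' := fun g => by
      refine Subtype.ext (funext fun n => ?_)
      rw [conjIrr_apply']
      refine Eq.trans ?_ (congrFun (congrArg Subtype.val (hinv (g : G))) (e n))
      rw [conjIrr_apply']
      rfl
    have hidx' : Odd (N.subgroupOf M).index := by
      show Odd (N.relIndex M)
      exact Odd.of_dvd_nat hidx (Subgroup.relIndex_dvd_index_of_normal N M)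
    obtain ⟨η₀, hη₀⟩ := ih M (N.subgroupOf M) θ' hk' hk₂' hθ' hinv' hidx' hrel
    obtain ⟨η, hηfix, hηres⟩ := fixed_of_extension hk' hk₂' _ hidx' θ' hθ' η₀ hη₀
    obtain ⟨χ₀, hχ₀, huniq⟩ := unique_fixed hk' hk₂' _ hidx' θ' hθ'
    have hconj : ∀ g : G, conjIrr M η g = η := by
      intro g
      have hres : ∀ n : N.subgroupOf M, (conjIrr M η g : M → ℂ) n = (θ' : _ → ℂ) n := by
        intro n
        have hmem : (⟨g * ((n : M) : G) * g⁻¹, (inferInstance : M.Normal).conj_mem _ (n : M).2 g⟩ : M) ∈ N.subgroupOf M :=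
          (inferInstance : N.Normal).conj_mem _ n.2 g
        rw [conjIrr_apply']
        refine (hηres ⟨_, hmem⟩).trans ?_
        refine Eq.trans ?_ (congrFun (congrArg Subtype.val (hinv g)) (e n))
        rw [conjIrr_apply']
        rfl
      have h1 := huniq η (by rw [funext hηres, classInner_irr, if_pos rfl]; exact one_ne_zero) hηfix
      have h2 := huniq (conjIrr M η g) (by rw [funext hres, classInner_irr, if_pos rfl]; exact one_ne_zero)
        (fun x => by rw [conjIrr_apply, conjIrr_apply, map_pow, hηfix])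
      rw [h2, h1]
    haveI : IsCyclic (G ⧸ M) := isCyclic_of_prime_card (p := p) (by rw [← Subgroup.index_eq_card, hMidx])
    obtain ⟨X, hX, hXres⟩ := Cfsg.Agent.S0886.result M inferInstance (η : M → ℂ) η.2 (fun g n => by
      rw [← conjIrr_apply' M η g n, hconj])
    refine ⟨⟨X, hX⟩, fun n => ?_⟩
    show X n = _
    exact (hXres ⟨(n : G), hNM n.2⟩).trans (hηres ⟨⟨(n : G), hNM n.2⟩, n.2⟩)

theorem exists_extension {k : ℕ} (hk : Nat.Coprime k (Nat.card G))
    (hk₂ : ∀ g : G, Odd (orderOf g) → g ^ k = g⁻¹) (N : Subgroup G) [N.Normal] [Fintype N]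
    (hidx : Odd N.index) (θ : IrrCharacter N)
    (hθ : ∀ n : N, (θ : N → ℂ) (n ^ k) = (θ : N → ℂ) n) (hinv : ∀ g, conjIrr N θ g = θ) :
    ∃ χ : IrrCharacter G, ∀ n : N, (χ : G → ℂ) n = (θ : N → ℂ) n := by
  classical
  refine CfsgLib.Extendible.extends_of_local N θ hinv fun p hp => Or.inl ?_
  haveI : Fact p.Prime := ⟨hp⟩
  obtain ⟨P⟩ := (inferInstance : Nonempty (Sylow p (G ⧸ N)))
  let R : Subgroup G := (P : Subgroup (G ⧸ N)).comap (QuotientGroup.mk' N)
  have hNR : N ≤ R := by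
    intro n hn
    show QuotientGroup.mk' N n ∈ (P : Subgroup (G ⧸ N))
    rw [QuotientGroup.mk'_apply, (QuotientGroup.eq_one_iff n).2 hn]
    exact Subgroup.one_mem _
  have hRidx : R.index = (P : Subgroup (G ⧸ N)).index :=
    Subgroup.index_comap_of_surjective _ (QuotientGroup.mk'_surjective N)
  obtain ⟨a, ha⟩ := IsPGroup.iff_card.1 P.2
  have hrel : N.relIndex R = p ^ a := by
    have h1 := Subgroup.relIndex_mul_index hNR
    rw [hRidx, N.index_eq_card, ← (P : Subgroup (G ⧸ N)).card_mul_index, ha] at h1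
    exact Nat.eq_of_mul_eq_mul_right (Nat.pos_of_ne_zero Subgroup.index_ne_zero_of_finite) h1
  haveI : Fintype R := Fintype.ofFinite R
  haveI : Fintype (N.subgroupOf R) := Fintype.ofFinite _
  let e : N.subgroupOf R ≃* N := Subgroup.subgroupOfEquivOfLe hNR
  let θ' : IrrCharacter (N.subgroupOf R) :=
    ⟨fun x => (θ : N → ℂ) (e x), IsIrrCharacter.comp θ.2 e.toMonoidHom e.surjective⟩
  obtain ⟨η, hη⟩ := ext_of_pgroup_index (k := k) hp a R (N.subgroupOf R) θ'
    (Nat.Coprime.coprime_dvd_right (Subgroup.card_subgroup_dvd_card R) hk)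
    (fun g hg => Subtype.ext (by
      rw [SubmonoidClass.coe_pow, InvMemClass.coe_inv]
      exact hk₂ g (by rwa [Subgroup.orderOf_coe])))
    (fun n => by show (θ : N → ℂ) (e (n ^ k)) = (θ : N → ℂ) (e n); rw [map_pow, hθ])
    (fun g => by
      refine Subtype.ext (funext fun n => ?_)
      rw [conjIrr_apply']
      refine Eq.trans ?_ (congrFun (congrArg Subtype.val (hinv (g : G))) (e n))
      rw [conjIrr_apply']
      rfl)
    (Odd.of_dvd_nat hidx (Subgroup.relIndex_dvd_index_of_normal N R)) hrel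
  refine ⟨R, hNR, (η : R → ℂ), ?_, η.2, fun n => hη ⟨⟨(n : G), hNR n.2⟩, n.2⟩⟩
  rw [hRidx]
  exact (hp.coprime_iff_not_dvd.2 P.not_dvd_index).symm

end CfsgLib.FixedOverOdd
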