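import Mathlib.GroupTheory.Transfer
import Mathlib.GroupTheory.Sylow
import Mathlib.GroupTheory.QuotientGroup.Basic
import Cfsg.Agent.Lib.LocalBasic

/-! Transfer form of the Frobenius-Wielandt theorem with abelian factor (owner helper5). -/

set_option autoImplicit false
set_option linter.unusedSectionVars false

namespace CfsgLib.FrobWielandt

open MulAction

variable {G : Type*} [Group G] [Finite G]

theorem exists_extension {M : Subgroup G} (K : Subgroup ↥M) [hK : K.Normal]
    (hc : ∀ a b : ↥M ⧸ K, a * b = b * a)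
    (h : ∀ g : G, g ∉ M → M ⊓ M.map (MulAut.conj g).toMonoidHom ≤ K.map M.subtype) :
    ∃ V : G →* (↥M ⧸ K), ∀ m : ↥M, V m = QuotientGroup.mk m := by
  classical
  let instC : CommGroup (↥M ⧸ K) := { (inferInstance : Group (↥M ⧸ K)) with mul_comm := hc }
  let ϕ : ↥M →* (↥M ⧸ K) := QuotientGroup.mk' K
  refine ⟨MonoidHom.transfer ϕ, fun m => ?_⟩
  haveI : Fintype (Quotient (orbitRel (Subgroup.zpowers (m : G)) (G ⧸ M))) := Fintype.ofFinite _
  rw [MonoidHom.transfer_eq_prod_quotient_orbitRel_zpowers_quot ϕ (m : G)]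
  have hfix : ((m : G) • (QuotientGroup.mk 1 : G ⧸ M)) = QuotientGroup.mk 1 := by
    rw [MulAction.Quotient.smul_mk, smul_eq_mul, mul_one, QuotientGroup.eq]
    simpa using M.inv_mem m.2
  set q0 : Quotient (orbitRel (Subgroup.zpowers (m : G)) (G ⧸ M)) := Quotient.mk _ (QuotientGroup.mk 1)
  have hout0 : q0.out = QuotientGroup.mk 1 := by
    have h1 : (orbitRel (Subgroup.zpowers (m : G)) (G ⧸ M)) q0.out (QuotientGroup.mk 1) :=
      Quotient.exact (Quotient.out_eq q0)
    obtain ⟨z, hz⟩ := h1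
    rw [← hz]
    obtain ⟨i, hi⟩ := Subgroup.mem_zpowers_iff.mp z.2
    show (z : G) • (QuotientGroup.mk 1 : G ⧸ M) = _
    rw [MulAction.Quotient.smul_mk, smul_eq_mul, mul_one, QuotientGroup.eq, mul_one, ← hi]
    exact M.inv_mem (M.zpow_mem m.2 i)
  rw [Finset.prod_eq_single q0]
  · have hout : q0.out.out ∈ M := by
      have : (QuotientGroup.mk q0.out.out : G ⧸ M) = QuotientGroup.mk 1 := by
        rw [QuotientGroup.out_eq', hout0]
      rw [QuotientGroup.eq, mul_one] at this
      simpa using M.inv_mem this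
    have hper : Function.minimalPeriod ((m : G) • ·) q0.out = 1 := by
      rw [Function.minimalPeriod_eq_one_iff_isFixedPt, hout0]
      exact hfix
    have : (⟨q0.out.out⁻¹ * (m : G) ^ Function.minimalPeriod ((m : G) • ·) q0.out * q0.out.out,
        QuotientGroup.out_conj_pow_minimalPeriod_mem M (m : G) q0.out⟩ : ↥M) =
        (⟨_, hout⟩ : ↥M)⁻¹ * m * ⟨_, hout⟩ := Subtype.ext (by simp [hper])
    rw [this, map_mul, map_mul, map_inv, hc (ϕ ⟨_, hout⟩)⁻¹, inv_mul_cancel_right]
    rfl
  · intro q _ hq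
    set g := q.out.out with hg
    set r := Function.minimalPeriod ((m : G) • ·) q.out with hr
    have hgM : g ∉ M := by
      intro hgM
      apply hq
      rw [← Quotient.out_eq q]
      show Quotient.mk _ q.out = Quotient.mk _ (QuotientGroup.mk 1)
      congr 1
      rw [← QuotientGroup.out_eq' q.out, QuotientGroup.eq, mul_one, ← hg]
      exact M.inv_mem hgM
    have hmem := QuotientGroup.out_conj_pow_minimalPeriod_mem M (m : G) q.out
    have h1 : g⁻¹ * (m : G) ^ r * g ∈ M ⊓ M.map (MulAut.conj g⁻¹).toMonoidHom :=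
      ⟨hmem, (m : G) ^ r, M.pow_mem m.2 r, by simp [mul_assoc]⟩
    obtain ⟨y, hy, hy'⟩ := h g⁻¹ (fun hh => hgM (by simpa using M.inv_mem hh)) h1
    apply (QuotientGroup.eq_one_iff _).mpr
    exact (Subtype.ext hy'.symm : (⟨_, hmem⟩ : ↥M) = y) ▸ hy
  · intro hn; exact absurd (Finset.mem_univ q0) hn

theorem quotient_comm_of_coatom {M : Type*} [Group M] {K : Subgroup M} [K.Normal] (hK : IsCoatom K) :
    ∀ a b : M ⧸ K, a * b = b * a := by
  intro a b
  induction a using QuotientGroup.induction_on with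
  | H x =>
    induction b using QuotientGroup.induction_on with
    | H y =>
      by_cases hx : x ∈ K
      · rw [(QuotientGroup.eq_one_iff x).mpr hx, one_mul, mul_one]
      · have htop : K ⊔ Subgroup.zpowers x = ⊤ :=
          hK.2 _ (lt_of_le_of_ne le_sup_left fun h => hx (h.symm ▸ Subgroup.mem_sup_right (Subgroup.mem_zpowers x)))
        obtain ⟨k, hk, z, hz, rfl⟩ := Subgroup.mem_sup_of_normal_left.mp (htop ▸ Subgroup.mem_top y)
        obtain ⟨i, rfl⟩ := Subgroup.mem_zpowers_iff.mp hz
        rw [QuotientGroup.mk_mul, (QuotientGroup.eq_one_iff k).mpr hk, one_mul, ← QuotientGroup.mk_mul,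
          ← QuotientGroup.mk_mul, ← zpow_one_add, ← zpow_add_one, add_comm]

end CfsgLib.FrobWielandt
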