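import Cfsg.Agent.Lib.SectionReduce
import Cfsg.Agent.Lib.Thompson.Main

/-! Normal p-complements from the normalizer of a section functor (owner helper5). -/

set_option autoImplicit false
set_option linter.style.haveILetI false

universe u

namespace CfsgLib.FunctorNPC

open Cfsg CfsgLib.ThompsonNPC CfsgLib.SectionReduce CfsgLib.CharP

variable {p : ℕ} [hp : Fact p.Prime] {W : ∀ (Q : Type u) [Group Q], Subgroup Q} (hW : IsCharPFunctor.{u} p W)

theorem pcore'_normal {G : Type u} [Group G] [Finite G] {H : Subgroup G} (h : PCOn p H) (hn : H.Normal) :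
    (pcore' h).Normal :=
  Subgroup.normalizer_eq_top_iff.mp (top_le_iff.mp
    ((Subgroup.normalizer_eq_top_iff.mpr hn).ge.trans (normalizer_le_pcore' h)))

theorem coprime_image_eq_one {G G' : Type u} [Group G] [Finite G] [Group G'] (f : G →* G') {a : G} {k : ℕ}
    (ha : a ^ p ^ k = 1) (hc : (orderOf (f a)).Coprime p) : f a = 1 :=
  orderOf_eq_one_iff.mp (Nat.eq_one_of_dvd_coprimes (hc.pow_right k) dvd_rfl
    (orderOf_dvd_of_pow_eq_one (by rw [← map_pow, ha, map_one])))

/-- In a group with closed `p'`-elements, those and a Sylow subgroup generate. -/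
theorem pcore'_sup_sylow {G : Type u} [Group G] [Finite G] (h : PCOn p (⊤ : Subgroup G)) (P : Sylow p G) :
    pcore' h ⊔ (P : Subgroup G) = ⊤ := by
  haveI := pcore'_normal h inferInstance
  set π := QuotientGroup.mk' (pcore' h)
  have hπs : Function.Surjective π := QuotientGroup.mk'_surjective _
  have hq : IsPGroup p (G ⧸ pcore' h) := by
    intro z
    obtain ⟨x, rfl⟩ := hπs z
    obtain ⟨a, b, -, -, hab, ⟨k, hk⟩, hbc⟩ := exists_mul_parts p x
    refine ⟨k, ?_⟩
    rw [← hab, map_mul, show π b = 1 from (QuotientGroup.eq_one_iff b).mpr ⟨trivial, hbc⟩, mul_one, ← map_pow, hk,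
      map_one]
  have e : (P : Subgroup G).map π = ⊤ := by
    obtain ⟨n, hn⟩ := IsPGroup.iff_card.mp hq
    have h1 : ((P : Subgroup G).map π).index ∣ p ^ n := hn ▸ Subgroup.index_dvd_card _
    have h2 : ¬ p ∣ ((P : Subgroup G).map π).index := fun hd => P.not_dvd_index (hd.trans (Subgroup.index_map_dvd _ hπs))
    exact Subgroup.index_eq_one.mp (Nat.eq_one_of_dvd_coprimes
      (((hp.out.coprime_iff_not_dvd.mpr h2).symm).pow_right n) dvd_rfl h1)
  rw [eq_top_iff]
  intro x _
  obtain ⟨s, hs, hse⟩ := (e ▸ Subgroup.mem_top (π x) : π x ∈ (P : Subgroup G).map π)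
  have : x * s⁻¹ ∈ pcore' h := (QuotientGroup.eq_one_iff _).mp (by
    show π (x * s⁻¹) = 1
    rw [map_mul, map_inv, hse, mul_inv_cancel])
  simpa using Subgroup.mul_mem_sup this hs

include hW in
/-- **The criterion**: it is enough to treat groups of characteristic `p` with a maximal Sylow subgroup. -/
theorem pcOn_of_crit {G : Type u} [Group G] [Finite G]
    (hcrit : ∀ (H : Type u) [Group H] [Finite H], Sec G H → HasCharP p H →
      ∀ [(pCore p H).Normal], PCOn p (⊤ : Subgroup (H ⧸ pCore p H)) →
      ∀ T : Sylow p H, IsCoatom (T : Subgroup H) → (inducedFunctor (G := H) W (T : Subgroup H)).Normal) :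
    ∀ (n : ℕ) (H : Type u) [Group H] [Finite H], Nat.card H = n → Sec G H → ∀ P : Sylow p H,
      PCOn p (Subgroup.normalizer ((inducedFunctor (G := H) W (P : Subgroup H) : Subgroup H) : Set H)) →
      PCOn p (⊤ : Subgroup H) := by
  intro n
  induction n using Nat.strong_induction_on with
  | _ n ih =>
  intro H _ _ hn hsec P hyp
  by_contra hbad
  have hPp : IsPGroup p (P : Subgroup H) := P.2
  have hWc := iF_conjugacy (G := H) hW
  -- proper subgroups
  have ihsub : ∀ (M S : Subgroup H), M ≠ ⊤ → S ≤ M → IsPGroup p S →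
      Nat.card S = p ^ (Nat.card M).factorization p →
      PCOn p (M ⊓ Subgroup.normalizer ((inducedFunctor W S : Subgroup H) : Set H)) → PCOn p M := by
    intro M S hM hSM hS hmax h1
    rw [← pcOn_top_subgroup]
    let Q : Sylow p ↥M := Sylow.ofCard (S.subgroupOf M) (by
      rw [Nat.card_congr (Subgroup.subgroupOfEquivOfLe hSM).toEquiv, hmax])
    have hQ : (Q : Subgroup ↥M).map M.subtype = S := Subgroup.map_subgroupOf_eq_of_le hSM
    refine ih _ (hn ▸ card_subgroup_lt hM) ↥M rfl (hsec.trans (Sec.subgroup M)) Q ?_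
    rw [← pcOn_map_iff M.subtype_injective, map_normalizer_inj _ M.subtype_injective, Subgroup.range_subtype,
      iF_map hW M.subtype Q.2 M.subtype_injective.injOn, hQ]
    exact h1
  have ihP : ∀ M : Subgroup H, M ≠ ⊤ → (P : Subgroup H) ≤ M → PCOn p M := fun M hM hPM =>
    ihsub M _ hM hPM hPp (le_antisymm (card_sylow_le_of_le hPp hPM) (ordProj_le_sylow P M)) (hyp.mono inf_le_right)
  -- a bad local subgroup
  set bad : Set (Subgroup H) :=
    {U | IsPGroup p U ∧ U ≠ ⊥ ∧ ¬ PCOn p (Subgroup.normalizer (U : Set H))} with hbaddef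
  have hne : bad.Nonempty := by
    by_contra h
    refine hbad (pcOn_top_of_normalizers fun Q hQ hQ1 => ?_)
    by_contra hc
    exact h ⟨Q, hQ, hQ1, hc⟩
  obtain ⟨U, ⟨hUp, hU1, hUbad⟩, hUmax⟩ := Set.exists_max_image bad
    (fun U => p ^ (Nat.card ↥(Subgroup.normalizer (U : Set H))).factorization p * (Nat.card H + 1) + Nat.card U)
    (Set.toFinite _) hne
  have hordmax : ∀ L : Subgroup H, L ∈ bad → p ^ (Nat.card ↥(Subgroup.normalizer (L : Set H))).factorization p ≤
      p ^ (Nat.card ↥(Subgroup.normalizer (U : Set H))).factorization p := by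
    intro L hL
    by_contra hlt
    have h1 := hUmax L hL
    have h2 : (p ^ (Nat.card ↥(Subgroup.normalizer (U : Set H))).factorization p + 1) * (Nat.card H + 1) ≤
        p ^ (Nat.card ↥(Subgroup.normalizer (L : Set H))).factorization p * (Nat.card H + 1) :=
      Nat.mul_le_mul_right _ (not_le.mp hlt)
    have h3 := Subgroup.card_le_card_group U
    nlinarith
  haveI hUn : U.Normal := by
    rw [← Subgroup.normalizer_eq_top_iff]
    by_contra hN
    obtain ⟨T⟩ := (inferInstance : Nonempty (Sylow p ↥(Subgroup.normalizer (U : Set H))))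
    set S := (T : Subgroup ↥(Subgroup.normalizer (U : Set H))).map (Subgroup.normalizer (U : Set H)).subtype
    have hSle : S ≤ Subgroup.normalizer (U : Set H) := Subgroup.map_subtype_le _
    have hSp : IsPGroup p S := T.2.map _
    have hScard : Nat.card S = p ^ (Nat.card ↥(Subgroup.normalizer (U : Set H))).factorization p := by
      rw [Subgroup.card_map_of_injective (Subgroup.subtype_injective _), ordProj_eq_card_sylow T]
    have hS1 : S ≠ ⊥ := by
      intro h
      have h' := card_sylow_le_of_le hUp (Subgroup.le_normalizer : U ≤ Subgroup.normalizer (U : Set H))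
      rw [← hScard, h, Subgroup.card_bot] at h'
      exact hU1 (Subgroup.eq_bot_of_card_le U h')
    obtain ⟨Q, hQ⟩ := hSp.exists_le_sylow
    by_cases hSQ : S = (Q : Subgroup H)
    · -- a Sylow subgroup normalises `U`
      obtain ⟨g, hg⟩ := MulAction.exists_smul_eq H Q P
      have hPS : S.map (MulAut.conj g).toMonoidHom = P := by
        rw [hSQ, ← hg, Sylow.coe_subgroup_smul]; rfl
      apply hUbad
      rw [← pcOn_map_iff (f := (MulAut.conj g).toMonoidHom) (MulAut.conj g).injective]
      refine ihP _ (fun h => hN ?_) (hPS ▸ Subgroup.map_mono hSle)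
      refine Subgroup.map_injective (f := (MulAut.conj g).toMonoidHom) (MulAut.conj g).injective ?_
      rw [h, Subgroup.map_top_of_surjective _ (MulAut.conj g).surjective]
    · have hlt : S < (Q : Subgroup H) ⊓ Subgroup.normalizer (S : Set H) :=
        lt_inf_normalizer Q.2 (lt_of_le_of_ne hQ hSQ)
      apply hUbad
      refine ihsub _ S hN hSle hSp hScard (PCOn.mono ?_ inf_le_right)
      by_contra hc
      obtain ⟨hLS, hL1, -⟩ := hWc S hSp
      have h1 := hordmax _ ⟨hSp.to_le hLS, hL1 hS1, hc⟩
      rw [← hScard] at h1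
      have h2 : Nat.card S < Nat.card ↥((Q : Subgroup H) ⊓ Subgroup.normalizer (S : Set H)) :=
        lt_of_le_of_ne (Subgroup.card_le_of_le hlt.le) fun h => hlt.ne (Subgroup.eq_of_le_of_card_ge hlt.le h.ge)
      have h3 := card_sylow_le_of_le (Q.2.to_le (inf_le_left : (Q : Subgroup H) ⊓ Subgroup.normalizer (S : Set H) ≤ Q))
        (inf_le_right.trans (normalizer_le_functor hWc hSp))
      omega
  have hUP : U ≤ (P : Subgroup H) :=
    sup_eq_left.mp (P.is_maximal' (hPp.to_sup_of_normal_right hUp) le_sup_left)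
  have hUtop : ∀ L : Subgroup H, IsPGroup p L → U ≤ L → L ≠ U → (P : Subgroup H) ≤ Subgroup.normalizer (L : Set H) →
      PCOn p (Subgroup.normalizer (L : Set H)) := by
    intro L hLp hUL hne hPL
    by_contra hc
    have hL1 : L ≠ ⊥ := fun h => hU1 (le_bot_iff.mp (h ▸ hUL))
    have h1 := hUmax L ⟨hLp, hL1, hc⟩
    have h2 := card_sylow_le_of_le hPp hPL
    have h3 := ordProj_le_sylow P (Subgroup.normalizer (U : Set H))
    have h4 : Nat.card U < Nat.card L :=
      lt_of_le_of_ne (Subgroup.card_le_of_le hUL) fun h => hne (Subgroup.eq_of_le_of_card_ge hUL h.ge).symm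
    have h5 := Nat.mul_le_mul_right (Nat.card H + 1) (h3.trans h2)
    omega
  haveI hQn : (pCore p H).Normal := by
    have := CfsgLib.Core.pCore_characteristic (G := H) p
    infer_instance
  have hUQ : pCore p H = U := by
    by_contra hne'
    have hN : Subgroup.normalizer ((pCore p H : Subgroup H) : Set H) = ⊤ := Subgroup.normalizer_eq_top_iff.mpr hQn
    have := hUtop _ (CfsgLib.Core.isPGroup_pCore p) (CfsgLib.Core.le_pCore hUn hUp) hne' (hN ▸ le_top)
    rw [hN] at this
    exact hbad this
  subst hUQ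
  -- no normal p'-subgroups
  have hcore : ∀ K : Subgroup H, K.Normal → (Nat.card K).Coprime p → K = ⊥ := by
    intro K hK hKc
    by_contra hK1
    haveI := hK
    set f := QuotientGroup.mk' K
    have hker : f.ker = K := QuotientGroup.ker_mk' K
    have hfs : Function.Surjective f := QuotientGroup.mk'_surjective K
    have hinj : Set.InjOn f (P : Subgroup H) := by
      intro x hx y hy hxy
      have hmem : x⁻¹ * y ∈ K := hker ▸ (by rw [MonoidHom.mem_ker, map_mul, map_inv, hxy, inv_mul_cancel])
      exact inv_mul_eq_one.mp (eq_one_of_coprime_of_mem hPp (mul_mem (inv_mem hx) hy)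
        (hKc.coprime_dvd_left (K.orderOf_dvd_natCard hmem)))
    have h := ih _ (hn ▸ card_quotient_lt hK1) (H ⧸ K) rfl (hsec.trans (Sec.quotient K)) (P.mapSurjective hfs) (by
      rw [Sylow.coe_mapSurjective, ← iF_map hW f hPp hinj]
      exact (hyp.map f).mono (normalizer_map_le_of_coprime hfs (hker.symm ▸ hKc) (hPp.to_le (hWc _ hPp).1)))
    exact hbad (pcOn_top_of_coprime_ker f (hker.symm ▸ hKc) h)
  -- the quotient by `O_p`
  set π := QuotientGroup.mk' (pCore p H) with hπ
  have hπs : Function.Surjective π := QuotientGroup.mk'_surjective _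
  have hπk : π.ker = pCore p H := QuotientGroup.ker_mk' _
  set Pb := P.mapSurjective hπs
  have hPbcoe : (Pb : Subgroup (H ⧸ pCore p H)) = (P : Subgroup H).map π := rfl
  have hPU : ¬ (P : Subgroup H) ≤ pCore p H := by
    intro h
    have hPn : (P : Subgroup H) = pCore p H := le_antisymm h hUP
    have := normalizer_le_functor hWc hPp
    rw [hPn, Subgroup.normalizer_eq_top_iff.mpr hQn, ← hPn] at this
    exact hbad (hyp.mono this)
  have hPb1 : (Pb : Subgroup (H ⧸ pCore p H)) ≠ ⊥ := by
    rw [hPbcoe, Ne, Subgroup.map_eq_bot_iff, hπk]; exact hPU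
  have hquot : PCOn p (⊤ : Subgroup (H ⧸ pCore p H)) := by
    refine ih _ (hn ▸ card_quotient_lt hU1) _ rfl (hsec.trans (Sec.quotient _)) Pb ?_
    obtain ⟨hLS, hL1, -⟩ := iF_conjugacy hW _ Pb.2
    set Lb := inducedFunctor (G := H ⧸ pCore p H) W (Pb : Subgroup (H ⧸ pCore p H))
    have hPL : (Pb : Subgroup (H ⧸ pCore p H)) ≤ Subgroup.normalizer (Lb : Set (H ⧸ pCore p H)) :=
      Subgroup.le_normalizer.trans (normalizer_le_functor (iF_conjugacy hW) Pb.2)
    set L := Lb.comap π
    have hUL : pCore p H ≤ L := hπk ▸ Subgroup.ker_le_comap π Lb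
    have hLne : L ≠ pCore p H := fun h => hL1 hPb1 (by
      show Lb = ⊥
      rw [← Subgroup.map_comap_eq_self_of_surjective hπs Lb, show Lb.comap π = pCore p H from h,
        Subgroup.map_eq_bot_iff, hπk])
    have hnorm : Subgroup.normalizer (L : Set H) = (Subgroup.normalizer (Lb : Set (H ⧸ pCore p H))).comap π :=
      (Subgroup.comap_normalizer_eq_of_surjective Lb hπs).symm
    have h := hUtop L ((Pb.2.to_le hLS).comap_of_ker_isPGroup π (hπk.symm ▸ hUp)) hUL hLne
      (hnorm ▸ fun x hx => hPL (hPbcoe ▸ Subgroup.mem_map_of_mem π hx))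
    rw [hnorm] at h
    have h' := h.map π
    rwa [Subgroup.map_comap_eq_self_of_surjective hπs] at h'
  -- characteristic `p`
  have hchar : HasCharP p H := by
    refine charP_of_forall fun c hc hcR => ?_
    haveI := pcore'_normal hquot inferInstance
    set C := Subgroup.centralizer ((pCore p H : Subgroup H) : Set H)
    haveI : C.Normal := Subgroup.normal_centralizer
    set M := C ⊓ (pcore' hquot).comap π
    have hMel : ∀ x ∈ M, (∃ k, x ^ p ^ k = 1) → x ∈ pCore p H := fun x hx ⟨k, hk⟩ =>
      hπk.le (coprime_image_eq_one π hk (Subgroup.mem_inf.mp hx).2.2)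
    have hM := CfsgLib.CentralSylow.pcOn_of_pElements_le (C := M) (inf_le_left : M ≤ C) hMel
    have h1 := hcore _ (pcore'_normal hM inferInstance) (card_pcore'_coprime hM)
    have h2 : c ∈ pcore' hM :=
      ⟨Subgroup.mem_inf.mpr ⟨fun y hy => (hcR y hy).symm, trivial, hc.coprime_dvd_left (orderOf_map_dvd π c)⟩, hc⟩
    rwa [h1, Subgroup.mem_bot] at h2
  -- the Sylow subgroup is maximal
  have hco : IsCoatom (P : Subgroup H) := by
    refine ⟨fun h => hbad ?_, fun M hPM => ?_⟩
    · refine hyp.mono ?_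
      refine le_trans ?_ (normalizer_le_functor hWc hPp)
      rw [h]
      exact Subgroup.le_normalizer
    by_contra hM
    have hMc := ihP M hM hPM.le
    refine hPM.not_ge (le_of_eq (P.is_maximal' (fun z => ?_) hPM.le))
    obtain ⟨a, b, -, hb, hab, ⟨k, hk⟩, hbc⟩ := exists_mul_parts p (z : H)
    refine ⟨k, Subtype.ext ?_⟩
    have hbM : b ∈ M := Subgroup.zpowers_le.mpr z.2 hb
    have hb1 : b = 1 := by
      refine eq_one_of_centralizes hchar hbc fun x hx => ?_
      exact (pcore'_le_centralizer hMc hUp (hUP.trans hPM.le) (by rw [Subgroup.normalizer_eq_top_iff.mpr hQn]; exact le_top)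
        ⟨hbM, hbc⟩ x hx).symm
    rw [hb1, mul_one] at hab
    rw [SubmonoidClass.coe_pow, ← hab]
    exact hk
  refine hbad (hyp.mono ?_)
  rw [Subgroup.normalizer_eq_top_iff.mpr (hcrit H hsec hchar hquot P hco)]

include hW in
theorem hasNPC_of_crit {G : Type u} [Group G] [Finite G]
    (hcrit : ∀ (H : Type u) [Group H] [Finite H], Sec G H → HasCharP p H →
      ∀ [(pCore p H).Normal], PCOn p (⊤ : Subgroup (H ⧸ pCore p H)) →
      ∀ T : Sylow p H, IsCoatom (T : Subgroup H) → (inducedFunctor (G := H) W (T : Subgroup H)).Normal)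
    (S : Sylow p G)
    (hN : HasNormalPComplement p ↥(Subgroup.normalizer ((inducedFunctor (G := G) W (S : Subgroup G) : Subgroup G) : Set G))) :
    HasNormalPComplement p G := by
  rw [hasNPC_iff]
  exact pcOn_of_crit hW hcrit _ G rfl Sec.refl S (hasNPC_subgroup_iff.mp hN)

include hW in
/-- The data of the criterion move along an isomorphism. -/
theorem normal_of_equiv {H Q : Type u} [Group H] [Finite H] [Group Q] [Finite Q] (e : Q ≃* H)
    (hc : HasCharP p H) [(pCore p H).Normal] (hq : PCOn p (⊤ : Subgroup (H ⧸ pCore p H))) (T : Sylow p H)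
    (hT : IsCoatom (T : Subgroup H))
    (hcrit : HasCharP p Q → ∀ [(pCore p Q).Normal], PCOn p (⊤ : Subgroup (Q ⧸ pCore p Q)) →
      ∀ T' : Sylow p Q, IsCoatom (T' : Subgroup Q) → (inducedFunctor (G := Q) W (T' : Subgroup Q)).Normal) :
    (inducedFunctor (G := H) W (T : Subgroup H)).Normal := by
  haveI : (pCore p Q).Normal := by
    have := CfsgLib.Core.pCore_characteristic (G := Q) p
    infer_instance
  let T' : Sylow p Q := T.mapSurjective (f := e.symm.toMonoidHom) e.symm.surjective
  have hmapT : (T' : Subgroup Q).map e.toMonoidHom = T := by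
    show ((T : Subgroup H).map e.symm.toMonoidHom).map e.toMonoidHom = T
    rw [Subgroup.map_map]
    convert Subgroup.map_id (T : Subgroup H) using 2
    ext x; simp
  let φ := QuotientGroup.map (pCore p H) (pCore p Q) e.symm.toMonoidHom
    (Subgroup.map_le_iff_le_comap.mp (CfsgLib.Core.pCore_map_equiv e.symm p).le)
  have hφ : Function.Surjective φ := fun z => by
    obtain ⟨x, rfl⟩ := QuotientGroup.mk'_surjective _ z
    exact ⟨QuotientGroup.mk' _ (e x), by simp [φ]⟩
  have hq' : PCOn p (⊤ : Subgroup (Q ⧸ pCore p Q)) := by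
    have := hq.map φ
    rwa [Subgroup.map_top_of_surjective φ hφ] at this
  have h := hcrit (charP_congr e.symm hc) hq' T' ((OrderIso.isCoatom_iff e.symm.mapSubgroup _).mpr hT)
  have h' := h.map e.toMonoidHom e.surjective
  rwa [iF_map hW e.toMonoidHom T'.2 e.injective.injOn, hmapT] at h'

end CfsgLib.FunctorNPC
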