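import Mathlib
import Cfsg.Agent.Lib.Coherence
import Cfsg.Agent.Lib.Chars.Induced
import Cfsg.Agent.Lib.Chars.Central
import Cfsg.Agent.Lib.Chars.Linear
import Cfsg.Agent.Lib.Chars.Kernel
import Cfsg.Agent.Lib.CharExtra
import Cfsg.Agent.Lib.Chars.Misc
import Cfsg.Agent.Lib.Virtual
import Cfsg.Agent.S1516

/-! Coherence of the sets of characters induced from a normal subgroup (Peterfalvi, Section 6). -/

set_option autoImplicit false

namespace CfsgLib.InducedCoherence

open Cfsg CfsgLib.Chars CfsgLib.Virtual CfsgLib.Coherence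
open scoped ComplexConjugate

universe u v

section Single

variable {G : Type u} [Group G] [Fintype G]

/-- If a character is maximal at `g`, so are its constituents. -/
theorem constituent_kernel {φ : G → ℂ} (hφ : IsCharacter G φ) (χ : IrrCharacter G)
    (h : classInner φ (χ : G → ℂ) ≠ 0) {g : G} (hg : φ g = φ 1) : (χ : G → ℂ) g = (χ : G → ℂ) 1 := by
  classical
  choose m hm using exists_mult hφ
  have hmχ : m χ ≠ 0 := fun h0 => h (by rw [hm, h0, Nat.cast_zero])
  have e1 := classFunction_expand (IsCharacter.isClassFunction hφ) g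
  have e2 := classFunction_expand (IsCharacter.isClassFunction hφ) 1
  simp only [hm] at e1 e2
  rw [hg, e2] at e1
  have h1 := congrArg Complex.re e1
  rw [Complex.re_sum, Complex.re_sum] at h1
  have hle : ∀ ψ ∈ Finset.univ, ((m ψ : ℂ) * (ψ : G → ℂ) g).re ≤ ((m ψ : ℂ) * (ψ : G → ℂ) 1).re := by
    intro ψ _
    rw [Complex.mul_re, Complex.mul_re, Complex.natCast_re, Complex.natCast_im, zero_mul, sub_zero, zero_mul, sub_zero]
    exact mul_le_mul_of_nonneg_left ((Complex.re_le_norm _).trans (IsCharacter.norm_le (isCharacter_irr ψ) g))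
      (Nat.cast_nonneg _)
  have h2 := (Finset.sum_eq_sum_iff_of_le hle).1 h1.symm χ (Finset.mem_univ χ)
  rw [Complex.mul_re, Complex.mul_re, Complex.natCast_re, Complex.natCast_im, zero_mul, sub_zero, zero_mul, sub_zero] at h2
  have h3 : ((χ : G → ℂ) g).re = ((χ : G → ℂ) 1).re := mul_left_cancel₀ (by exact_mod_cast hmχ) h2
  have h4 := IsCharacter.norm_le (isCharacter_irr χ) g
  rw [← h3] at h4
  have him : ((χ : G → ℂ) g).im = 0 := by
    have h5 : Complex.normSq ((χ : G → ℂ) g) ≤ ((χ : G → ℂ) g).re ^ 2 := by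
      rw [Complex.normSq_eq_norm_sq]
      exact pow_le_pow_left₀ (norm_nonneg _) h4 2
    rw [Complex.normSq_apply] at h5
    nlinarith
  refine Complex.ext h3 ?_
  rw [him, irr_apply_one, Complex.natCast_im]

/-- The square of the degree is at most the index of a central subgroup. -/
theorem deg_sq_mul_le (χ : IrrCharacter G) (Z : Subgroup G) (hZ : Z ≤ Subgroup.center G) :
    charDegree (χ : G → ℂ) ^ 2 * Nat.card Z ≤ Nat.card G := by
  classical
  have hval : ∀ g ∈ Finset.univ.filter (fun g : G => g ∈ Z),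
      Complex.normSq ((χ : G → ℂ) g) = (charDegree (χ : G → ℂ) : ℝ) ^ 2 := by
    intro g hg
    have e := mul_central χ (hZ (Finset.mem_filter.1 hg).2) g⁻¹
    rw [mul_inv_cancel, irr_apply_one, IsCharacter.map_inv (isCharacter_irr χ), Complex.mul_conj] at e
    have e2 : ((Complex.normSq ((χ : G → ℂ) g) : ℝ) : ℂ) = (((charDegree (χ : G → ℂ) : ℝ) ^ 2 : ℝ) : ℂ) := by
      rw [← e]; push_cast; ring
    exact_mod_cast e2
  have hsum : ∑ g : G, Complex.normSq ((χ : G → ℂ) g) = (Nat.card G : ℝ) := by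
    have h := sum_mul_conj_irr χ χ
    rw [if_pos rfl] at h
    simp only [Complex.mul_conj] at h
    exact_mod_cast h
  have hle : ∑ g ∈ Finset.univ.filter (fun g : G => g ∈ Z), Complex.normSq ((χ : G → ℂ) g) ≤
      ∑ g : G, Complex.normSq ((χ : G → ℂ) g) :=
    Finset.sum_le_sum_of_subset_of_nonneg (Finset.filter_subset _ _) fun g _ _ => Complex.normSq_nonneg _
  rw [hsum, Finset.sum_congr rfl hval, Finset.sum_const, nsmul_eq_mul,
    show (Finset.univ.filter fun g : G => g ∈ Z).card = Nat.card Z by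
      rw [← Fintype.card_subtype, ← Nat.card_eq_fintype_card]] at hle
  have : ((charDegree (χ : G → ℂ) ^ 2 * Nat.card Z : ℕ) : ℝ) ≤ (Nat.card G : ℝ) := by push_cast; linarith
  exact_mod_cast this

/-- A nontrivial solvable group has a nontrivial linear character. -/
theorem exists_linear_ne_one [Group.IsSolvable G] [Nontrivial G] :
    ∃ χ : IrrCharacter G, charDegree (χ : G → ℂ) = 1 ∧ (χ : G → ℂ) ≠ fun _ => 1 := by
  classical
  haveI := finite_irr G
  have h1 : 1 < (commutator G).index := by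
    have hne : commutator G ≠ ⊤ := (Group.IsSolvable.commutator_lt_top_of_nontrivial G).ne
    have := Subgroup.index_ne_zero_of_finite (H := commutator G)
    have := mt Subgroup.index_eq_one.1 hne
    omega
  rw [← card_linear, Finite.one_lt_card_iff_nontrivial] at h1
  obtain ⟨⟨a, ha⟩, hane⟩ := exists_ne (⟨homIrr 1, charDegree_hom 1⟩ : {χ : IrrCharacter G // charDegree (χ : G → ℂ) = 1})
  refine ⟨a, ha, fun he => hane (Subtype.ext (Subtype.ext ?_))⟩
  show (a : G → ℂ) = (homIrr (1 : G →* ℂˣ) : G → ℂ)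
  rw [he]
  funext g
  simp [homIrr]

/-- The sum of the squared degrees over a normal subgroup. -/
theorem sum_deg_sq_above [Fintype (IrrCharacter G)] (N : Subgroup G) [N.Normal]
    [DecidablePred fun χ : IrrCharacter G => ∀ n ∈ N, (χ : G → ℂ) n = (χ : G → ℂ) 1] :
    ∑ χ ∈ Finset.univ.filter (fun χ : IrrCharacter G => ∀ n ∈ N, (χ : G → ℂ) n = (χ : G → ℂ) 1),
      charDegree (χ : G → ℂ) ^ 2 = N.index := by
  classical
  haveI : Fintype (G ⧸ N) := Fintype.ofFinite _
  haveI := finite_irr (G ⧸ N)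
  letI : Fintype (IrrCharacter (G ⧸ N)) := Fintype.ofFinite _
  have h := sum_deg_sq (G := G ⧸ N)
  rw [← Subgroup.index_eq_card] at h
  rw [← h]
  let inf : IrrCharacter (G ⧸ N) → IrrCharacter G := fun ψ => ⟨_, isIrrCharacter_inflate N ψ⟩
  symm
  refine Finset.sum_bij (fun ψ _ => inf ψ) (fun ψ _ => ?_) (fun a _ b _ he => ?_) (fun χ hχ => ?_) fun ψ _ => ?_
  · refine Finset.mem_filter.2 ⟨Finset.mem_univ _, fun n hn => ?_⟩
    show (ψ : G ⧸ N → ℂ) (QuotientGroup.mk n) = (ψ : G ⧸ N → ℂ) (QuotientGroup.mk 1)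
    rw [(QuotientGroup.eq_one_iff n).2 hn, QuotientGroup.mk_one]
  · refine Subtype.ext (funext fun q => ?_)
    obtain ⟨g, rfl⟩ := QuotientGroup.mk_surjective q
    exact congrFun (congrArg Subtype.val he) g
  · obtain ⟨ψ, hψ⟩ := exists_deflate N χ (Finset.mem_filter.1 hχ).2
    exact ⟨ψ, Finset.mem_univ _, Subtype.ext hψ.symm⟩
  · show charDegree (ψ : G ⧸ N → ℂ) ^ 2 = charDegree ((ψ : G ⧸ N → ℂ) ∘ QuotientGroup.mk) ^ 2
    rfl

end Single

section Pair

variable {L : Type u} [Group L] [Fintype L] (K : Subgroup L)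

theorem conjFun_indFun (θ : K → ℂ) : conjFun (indFun K θ) = indFun K (conjFun θ) := by
  classical
  funext g
  simp only [conjFun, indFun, map_mul, map_inv₀, map_natCast, map_sum]
  refine congrArg _ (Finset.sum_congr rfl fun x _ => ?_)
  rw [extendByZero_apply, extendByZero_apply]
  split_ifs <;> simp [conjFun]

variable [hK : K.Normal]

theorem indFun_eq_one {A : Subgroup L} [A.Normal] {θ : K → ℂ}
    (hθ : ∀ a : K, (a : L) ∈ A → θ a = θ 1) {a : L} (haK : a ∈ K) (haA : a ∈ A) :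
    indFun K θ a = indFun K θ 1 := by
  classical
  simp only [indFun]
  refine congrArg _ (Finset.sum_congr rfl fun x _ => ?_)
  have h1 : x⁻¹ * a * x ∈ K := by simpa using hK.conj_mem a haK x⁻¹
  rw [extendByZero_apply, dif_pos h1, extendByZero_apply, dif_pos (by simp : x⁻¹ * 1 * x ∈ K)]
  rw [hθ ⟨_, h1⟩ (by simpa using (inferInstance : A.Normal).conj_mem a haA x⁻¹)]
  exact congrArg θ (Subtype.ext (by simp))

theorem sum_restrict_indFun [Fintype K] (θ : IrrCharacter K) (hθ : (θ : K → ℂ) ≠ fun _ => 1) :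
    classInner (fun k : K => indFun K (θ : K → ℂ) (k : L)) (fun _ => 1) = 0 := by
  classical
  have h0 : ∑ k : K, (θ : K → ℂ) k = 0 := by
    have h := inner_irr_ne θ.2 (isIrrCharacter_one K) hθ
    simp only [classInner, map_one, mul_one, mul_eq_zero, inv_eq_zero] at h
    exact h.resolve_left (natCast_card_ne_zero K)
  simp only [classInner, indFun, map_one, mul_one]
  rw [← Finset.mul_sum, Finset.sum_comm]
  have : ∀ x : L, ∑ k : K, extendByZero K (θ : K → ℂ) (x⁻¹ * k * x) = 0 := by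
    intro x
    rw [← h0]
    let e : K ≃ K :=
      { toFun := fun k => ⟨x⁻¹ * k * x, by simpa using hK.conj_mem k k.2 x⁻¹⟩
        invFun := fun k => ⟨x * k * x⁻¹, hK.conj_mem k k.2 x⟩
        left_inv := fun k => Subtype.ext (by simp [mul_assoc])
        right_inv := fun k => Subtype.ext (by simp [mul_assoc]) }
    exact Fintype.sum_equiv e _ _ fun k => extendByZero_coe K (θ : K → ℂ) (e k)
  simp [this]

variable {G : Type v} [Group G] [Fintype G] {τ : (L → ℂ) → (G → ℂ)} {R : (L → ℂ) → Finset (G → ℂ)}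

/-- The members of the set as a finite set. -/
theorem finite_above [Fintype K] (A : Subgroup L) : (inducedIrrAbove K A).Finite := by
  haveI := finite_irr K
  refine (Set.finite_range fun θ : IrrCharacter K => indFun K (θ : K → ℂ)).subset ?_
  rintro _ ⟨θ, hθ, -, -, rfl⟩
  exact ⟨⟨θ, hθ⟩, rfl⟩

theorem above_subset (A : Subgroup L) : inducedIrrAbove K A ⊆ inducedIrrAbove K ⊥ := by
  rintro _ ⟨θ, hθ, h1, -, rfl⟩
  exact ⟨θ, hθ, h1, fun a ha => by
    rw [Subgroup.mem_bot, OneMemClass.coe_eq_one] at ha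
    rw [ha], rfl⟩

theorem conj_mem_above [Fintype K] (A : Subgroup L) {φ : L → ℂ} (hφ : φ ∈ inducedIrrAbove K A) :
    conjFun φ ∈ inducedIrrAbove K A := by
  obtain ⟨θ, hθ, h1, hA, rfl⟩ := hφ
  refine ⟨conjFun θ, isIrrCharacter_conj ⟨θ, hθ⟩, fun he => h1 (funext fun k => ?_), fun a ha => ?_, conjFun_indFun K θ⟩
  · have := congrArg conj (congrFun he k)
    rwa [conjFun, Complex.conj_conj, map_one] at this
  · show conj (θ a) = conj (θ 1)
    rw [hA a ha]

theorem exists_nontrivial_linear [Fintype K] (hsolv : Group.IsSolvable K) (A : Subgroup L) [A.Normal]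
    (hAK : A < K) : ∃ φ ∈ inducedIrrAbove K A, φ 1 = (K.index : ℂ) := by
  classical
  haveI : (A.subgroupOf K).Normal := (inferInstance : A.Normal).subgroupOf K
  haveI : Nontrivial (K ⧸ A.subgroupOf K) :=
    QuotientGroup.nontrivial_iff.2 fun h => hAK.not_ge (Subgroup.subgroupOf_eq_top.1 h)
  haveI : Group.IsSolvable (K ⧸ A.subgroupOf K) := Group.isSolvable_of_surjective (QuotientGroup.mk'_surjective _)
  haveI : Fintype (K ⧸ A.subgroupOf K) := Fintype.ofFinite _
  obtain ⟨ψ, hψ1, hψ⟩ := exists_linear_ne_one (G := K ⧸ A.subgroupOf K)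
  refine ⟨_, ⟨_, isIrrCharacter_inflate _ ψ, fun he => hψ (funext fun q => ?_), fun a ha => ?_, rfl⟩, ?_⟩
  · obtain ⟨g, rfl⟩ := QuotientGroup.mk_surjective q
    exact congrFun he g
  · show (ψ : (↥K ⧸ A.subgroupOf K) → ℂ) (QuotientGroup.mk a) = (ψ : (↥K ⧸ A.subgroupOf K) → ℂ) (QuotientGroup.mk 1)
    rw [(QuotientGroup.eq_one_iff (N := A.subgroupOf K) a).2 ha, QuotientGroup.mk_one]
  · rw [indFun_one]
    show (K.index : ℂ) * (ψ : (↥K ⧸ A.subgroupOf K) → ℂ) (QuotientGroup.mk 1) = _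
    rw [QuotientGroup.mk_one, irr_apply_one, hψ1, Nat.cast_one, mul_one]

/-- The weighted sum of the squared degrees of the members above a normal subgroup. -/
theorem sum_sq_div (hS : IsCoherenceSystem (inducedIrrAbove K ⊥) τ R) [Fintype K] (A : Subgroup L) [A.Normal]
    (S₁ : Finset (L → ℂ)) (hS₁ : (↑S₁ : Set (L → ℂ)) = inducedIrrAbove K A) (d n : (L → ℂ) → ℕ)
    (hd : ∀ φ ∈ inducedIrrAbove K ⊥, φ 1 = (d φ : ℂ))
    (hn : ∀ φ ∈ inducedIrrAbove K ⊥, classInner φ φ = (n φ : ℂ)) :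
    ∑ φ ∈ S₁, ((d φ : ℝ) ^ 2 / (n φ : ℝ)) = (K.index : ℝ) * ((A.relIndex K : ℝ) - 1) := by
  classical
  haveI := finite_irr K
  letI : Fintype (IrrCharacter K) := Fintype.ofFinite _
  haveI : (A.subgroupOf K).Normal := (inferInstance : A.Normal).subgroupOf K
  let P : IrrCharacter K → Prop := fun θ => ∀ a ∈ A.subgroupOf K, (θ : K → ℂ) a = (θ : K → ℂ) 1
  let Θ := Finset.univ.filter fun θ : IrrCharacter K => P θ ∧ (θ : K → ℂ) ≠ fun _ => 1
  have hmem : ∀ θ ∈ Θ, indFun K (θ : K → ℂ) ∈ S₁ := fun θ hθ => by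
    rw [← Finset.mem_coe, hS₁]
    exact ⟨θ, θ.2, (Finset.mem_filter.1 hθ).2.2, fun a ha => (Finset.mem_filter.1 hθ).2.1 a ha, rfl⟩
  have hfib : ∀ φ ∈ S₁, ((d φ : ℝ) ^ 2 / (n φ : ℝ)) =
      ∑ θ ∈ Θ.filter (fun θ : IrrCharacter K => indFun K (θ : K → ℂ) = φ), (K.index : ℝ) * (charDegree (θ : K → ℂ) : ℝ) ^ 2 := by
    intro φ hφ
    rw [← Finset.mem_coe, hS₁] at hφ
    have hφ' := above_subset K A hφ
    obtain ⟨θ₀, hθ₀, hθ₁, hθA, rfl⟩ := hφ
    have hres := IsCharacter.restrict (hS.isCharacter _ hφ') K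
    have hinner : ∀ θ : IrrCharacter K, classInner (fun k : K => indFun K θ₀ (k : L)) (θ : K → ℂ) =
        if θ ∈ Θ ∧ indFun K (θ : K → ℂ) = indFun K θ₀ then (n (indFun K θ₀) : ℂ) else 0 := by
      intro θ
      by_cases h1 : (θ : K → ℂ) = fun _ => 1
      · rw [if_neg fun h => (Finset.mem_filter.1 h.1).2.2 h1, h1]
        exact sum_restrict_indFun K ⟨θ₀, hθ₀⟩ hθ₁
      have hθS : indFun K (θ : K → ℂ) ∈ inducedIrrAbove K ⊥ :=
        ⟨θ, θ.2, h1, fun a ha => by rw [Subgroup.mem_bot, OneMemClass.coe_eq_one] at ha; rw [ha], rfl⟩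
      have hf := frobenius K (θ : K → ℂ) (IsCharacter.isClassFunction (hS.isCharacter _ hφ'))
      have hfr : classInner (fun k : K => indFun K θ₀ (k : L)) (θ : K → ℂ) =
          classInner (indFun K (θ : K → ℂ)) (indFun K θ₀) := by
        rw [hf, classInner_character_comm hres (isCharacter_irr θ)]
      by_cases he : indFun K (θ : K → ℂ) = indFun K θ₀
      · have hnn : classInner (fun k : K => indFun K θ₀ (k : L)) (θ : K → ℂ) = (n (indFun K θ₀) : ℂ) := by
          rw [hfr, he, hn _ hφ']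
        have hP : P θ := fun a ha => by
          refine constituent_kernel hres θ ?_ (indFun_eq_one K hθA a.2 ha)
          rw [hnn]
          intro h0
          have := hn _ hθS
          rw [he, h0] at this
          exact (IsCharacter.apply_one (hS.isCharacter _ hφ') ▸ (show indFun K θ₀ 1 ≠ 0 by
            rw [indFun_one]
            exact mul_ne_zero (Nat.cast_ne_zero.2 Subgroup.index_ne_zero_of_finite) (irr_one_ne_zero ⟨θ₀, hθ₀⟩))
            ) (by rw [← IsCharacter.apply_one (hS.isCharacter _ hφ'), eq_zero_of_inner_self this]; rfl)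
        rw [if_pos ⟨Finset.mem_filter.2 ⟨Finset.mem_univ θ, hP, h1⟩, he⟩, hnn]
      · rw [if_neg fun h => he h.2, hfr]
        exact hS.orthogonal _ hθS _ hφ' he
    have e := classFunction_expand (IsCharacter.isClassFunction hres) 1
    simp only [hinner, ite_mul, zero_mul, irr_apply_one] at e
    rw [← Finset.sum_filter] at e
    have hset : (Finset.univ.filter fun θ => θ ∈ Θ ∧ indFun K (θ : K → ℂ) = indFun K θ₀) =
        Θ.filter (fun θ : IrrCharacter K => indFun K (θ : K → ℂ) = indFun K θ₀) := by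
      ext θ; simp
    rw [hset, OneMemClass.coe_one, hd _ hφ'] at e
    set T := Θ.filter (fun θ : IrrCharacter K => indFun K (θ : K → ℂ) = indFun K θ₀) with hT
    have hdT : ∀ θ ∈ T, (d (indFun K θ₀) : ℝ) = (K.index : ℝ) * charDegree (θ : K → ℂ) := by
      intro θ hθ
      have h := congrFun (Finset.mem_filter.1 hθ).2 1
      rw [indFun_one, hd _ hφ', irr_apply_one] at h
      have h2 : ((d (indFun K θ₀) : ℕ) : ℂ) = ((K.index * charDegree (θ : K → ℂ) : ℕ) : ℂ) := by
        rw [← h]; push_cast; rfl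
      rw [Nat.cast_inj] at h2
      rw [h2]; push_cast; rfl
    have e' : (d (indFun K θ₀) : ℝ) = ∑ θ ∈ T, (n (indFun K θ₀) : ℝ) * charDegree (θ : K → ℂ) := by
      have e2 : ((d (indFun K θ₀) : ℕ) : ℂ) = ((∑ θ ∈ T, n (indFun K θ₀) * charDegree (θ : K → ℂ) : ℕ) : ℂ) := by
        rw [e]; push_cast; rfl
      rw [Nat.cast_inj] at e2
      rw [e2]; push_cast; rfl
    by_cases hn0 : (n (indFun K θ₀) : ℝ) = 0
    · simp only [hn0, zero_mul, Finset.sum_const_zero] at e'
      refine absurd e' ?_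
      have h := hd _ hφ'
      rw [indFun_one] at h
      intro h0
      have h0' : d (indFun K θ₀) = 0 := by exact_mod_cast h0
      rw [h0', Nat.cast_zero] at h
      exact mul_ne_zero (Nat.cast_ne_zero.2 Subgroup.index_ne_zero_of_finite) (irr_one_ne_zero ⟨θ₀, hθ₀⟩) h
    · rw [div_eq_iff hn0, sq]
      nth_rewrite 1 [e']
      rw [Finset.sum_mul, Finset.sum_mul]
      refine Finset.sum_congr rfl fun θ hθ => ?_
      rw [hdT θ hθ]; ring
  rw [Finset.sum_congr rfl hfib, Finset.sum_fiberwise_of_maps_to hmem, ← Finset.mul_sum]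
  congr 1
  have hall : ∑ θ ∈ Finset.univ.filter (fun θ : IrrCharacter K => P θ), (charDegree (θ : K → ℂ) : ℝ) ^ 2 =
      (A.relIndex K : ℝ) := by
    have h := sum_deg_sq_above (G := K) (A.subgroupOf K)
    have h' : ((∑ θ ∈ Finset.univ.filter (fun θ : IrrCharacter K => P θ), charDegree (θ : K → ℂ) ^ 2 : ℕ) : ℝ) =
        (A.relIndex K : ℝ) := by rw [h]; rfl
    push_cast at h'
    exact h'
  let one : IrrCharacter K := ⟨fun _ => 1, isIrrCharacter_one K⟩
  have hΘ : Θ = (Finset.univ.filter fun θ : IrrCharacter K => P θ).erase one := by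
    ext θ
    simp only [Θ, Finset.mem_filter, Finset.mem_erase, Finset.mem_univ, true_and]
    exact ⟨fun h => ⟨fun he => h.2 (by rw [he]), h.1⟩, fun h => ⟨h.2, fun he => h.1 (Subtype.ext he)⟩⟩
  have hone : one ∈ Finset.univ.filter (fun θ : IrrCharacter K => P θ) :=
    Finset.mem_filter.2 ⟨Finset.mem_univ _, fun a _ => rfl⟩
  rw [hΘ, Finset.sum_erase_eq_sub hone, hall]
  have h1 : charDegree (one : K → ℂ) = 1 := by
    have h : (1 : ℂ) = (charDegree (one : K → ℂ) : ℂ) := irr_apply_one one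
    exact_mod_cast h.symm
  rw [h1, Nat.cast_one, one_pow]

/-- A bound for the degrees above `B` when `D / B` is central in `C / B`. -/
theorem deg_sq_le (B C D : Subgroup L) [B.Normal] (hBD : B ≤ D) (hDC : D ≤ C) (hCK : C ≤ K)
    (hcent : ∀ x ∈ D, ∀ y ∈ C, x * y * x⁻¹ * y⁻¹ ∈ B) [Fintype K] (θ : IrrCharacter K)
    (hθ : ∀ a : K, (a : L) ∈ B → (θ : K → ℂ) a = (θ : K → ℂ) 1) :
    charDegree (θ : K → ℂ) ^ 2 ≤ C.relIndex K ^ 2 * D.relIndex C := by
  classical
  let C' := C.subgroupOf K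
  haveI : Fintype C' := Fintype.ofFinite _
  haveI : Fintype C := Fintype.ofFinite _
  have hres := IsCharacter.restrict (isCharacter_irr θ) C'
  obtain ⟨φ, hφ⟩ : ∃ φ : IrrCharacter C', classInner (fun c : C' => (θ : K → ℂ) c) (φ : C' → ℂ) ≠ 0 := by
    by_contra h
    push Not at h
    have e := classFunction_expand (IsCharacter.isClassFunction hres) 1
    simp only [h, zero_mul, Finset.sum_const_zero] at e
    exact irr_one_ne_zero θ e
  have hφB : ∀ c : C', ((c : K) : L) ∈ B → (φ : C' → ℂ) c = (φ : C' → ℂ) 1 := fun c hc =>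
    constituent_kernel hres φ hφ (hθ c hc)
  have h1 : charDegree (θ : K → ℂ) ≤ C.relIndex K * charDegree (φ : C' → ℂ) := by
    have hind := IsCharacter.indFun C' (isCharacter_irr φ)
    have hne : classInner (indFun C' (φ : C' → ℂ)) (θ : K → ℂ) ≠ 0 := by
      rw [frobenius C' _ (IsCharacter.isClassFunction (isCharacter_irr θ)),
        classInner_character_comm (isCharacter_irr φ) hres]
      exact hφ
    refine (charDegree_le_of_constituent hind θ hne).trans (le_of_eq ?_)
    have h := indFun_one C' (φ : C' → ℂ)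
    rw [IsCharacter.apply_one hind, irr_apply_one] at h
    exact_mod_cast h
  let B' : Subgroup C' := (B.subgroupOf K).subgroupOf C'
  haveI : B'.Normal := ((inferInstance : B.Normal).subgroupOf K).subgroupOf C'
  haveI : Fintype (C' ⧸ B') := Fintype.ofFinite _
  obtain ⟨ψ, hψ⟩ := exists_deflate B' φ (fun c hc => hφB c hc)
  let D' : Subgroup C' := (D.subgroupOf K).subgroupOf C'
  have hZ : D'.map (QuotientGroup.mk' B') ≤ Subgroup.center _ := by
    rintro _ ⟨x, hx, rfl⟩
    rw [Subgroup.mem_center_iff]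
    intro g
    obtain ⟨y, rfl⟩ := QuotientGroup.mk'_surjective B' g
    refine (commutatorElement_eq_one_iff_mul_comm.1 ?_).symm
    rw [← map_commutatorElement]
    exact (QuotientGroup.eq_one_iff _).2 (hcent _ hx _ y.2)
  have h2 := deg_sq_mul_le ψ _ hZ
  have hdeg : charDegree (φ : C' → ℂ) = charDegree (ψ : C' ⧸ B' → ℂ) := by
    rw [hψ]; rfl
  rw [← hdeg, ← Subgroup.card_mul_index (D'.map (QuotientGroup.mk' B')), mul_comm] at h2
  have h3 := Nat.le_of_mul_le_mul_left h2 Nat.card_pos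
  have h4 : (D'.map (QuotientGroup.mk' B')).index = D.relIndex C := by
    rw [Subgroup.index_map_eq _ (QuotientGroup.mk'_surjective B') (by
      rw [QuotientGroup.ker_mk']; exact fun x hx => hBD hx)]
    show ((D.subgroupOf K).subgroupOf (C.subgroupOf K)).index = _
    rw [← Subgroup.relIndex, Subgroup.relIndex_subgroupOf hCK]
  rw [h4] at h3
  calc charDegree (θ : K → ℂ) ^ 2 ≤ (C.relIndex K * charDegree (φ : C' → ℂ)) ^ 2 := Nat.pow_le_pow_left h1 2
    _ ≤ C.relIndex K ^ 2 * D.relIndex C := by rw [mul_pow]; exact Nat.mul_le_mul_left _ h3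

/-- **Peterfalvi (6.2)**: coherence spreads. -/
theorem coherent_above (hsolv : Group.IsSolvable K) (hS : IsCoherenceSystem (inducedIrrAbove K ⊥) τ R)
    (A B C D : Subgroup L) [A.Normal] [B.Normal] (hAK : A < K) (hBK : B < K) (hBD : B ≤ D) (hDC : D ≤ C)
    (hCK : C ≤ K) (hcent : ∀ x ∈ D, ∀ y ∈ C, x * y * x⁻¹ * y⁻¹ ∈ B)
    (hA : IsCoherent (inducedIrrAbove K A) {1}ᶜ τ)
    (hlt : 4 * C.index ^ 2 * D.relIndex C < (A.relIndex K - 1) ^ 2) :
    IsCoherent (inducedIrrAbove K B) {1}ᶜ τ := by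
  classical
  haveI : Fintype K := Fintype.ofFinite _
  let d : (L → ℂ) → ℕ := fun φ => charDegree φ
  have hd : ∀ φ ∈ inducedIrrAbove K ⊥, φ 1 = (d φ : ℂ) := fun φ h => IsCharacter.apply_one (hS.isCharacter φ h)
  choose! n hn using fun φ (h : φ ∈ inducedIrrAbove K ⊥) =>
    exists_mult_character (hS.isCharacter φ h) (hS.isCharacter φ h)
  let S₀ := (finite_above K A).toFinset
  have hS₀ : (↑S₀ : Set (L → ℂ)) = inducedIrrAbove K A := (finite_above K A).coe_toFinset
  obtain ⟨χ₁, hχ₁, hχ₁d⟩ := exists_nontrivial_linear K hsolv A hAK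
  have hd1 : d χ₁ = K.index := by
    have h := hd _ (above_subset K A hχ₁)
    rw [hχ₁d] at h
    exact_mod_cast h.symm
  have hAm : (2 : ℝ) ≤ A.relIndex K := by
    have h1 : A.relIndex K ≠ 1 := fun h => hAK.not_ge (Subgroup.relIndex_eq_one.1 h)
    have h0 : A.relIndex K ≠ 0 := Subgroup.index_ne_zero_of_finite
    exact_mod_cast (show 2 ≤ A.relIndex K by omega)
  have step : ∀ T : Finset (L → ℂ), (∀ φ ∈ T, φ ∈ inducedIrrAbove K B) →
      ∃ U : Finset (L → ℂ), S₀ ⊆ U ∧ T ⊆ U ∧ (↑U : Set (L → ℂ)) ⊆ inducedIrrAbove K ⊥ ∧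
        (∀ φ ∈ U, conjFun φ ∈ U) ∧ IsCoherent (↑U : Set (L → ℂ)) {1}ᶜ τ := by
    intro T
    induction T using Finset.induction_on with
    | empty =>
      intro _
      exact ⟨S₀, le_rfl, Finset.empty_subset _, hS₀ ▸ above_subset K A,
        fun φ h => by rw [← Finset.mem_coe, hS₀] at h ⊢; exact conj_mem_above K A h, hS₀ ▸ hA⟩
    | insert χ T _ ih =>
      intro hT
      obtain ⟨U, hU0, hUT, hUS, hUc, hUcoh⟩ := ih fun φ h => hT φ (Finset.mem_insert_of_mem h)
      by_cases hχU : χ ∈ U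
      · exact ⟨U, hU0, Finset.insert_subset hχU hUT, hUS, hUc, hUcoh⟩
      have hχB := hT χ (Finset.mem_insert_self χ T)
      have hχS := above_subset K B hχB
      have hcc : conjFun (conjFun χ) = χ := funext fun g => Complex.conj_conj _
      have hχc : conjFun χ ∉ U := fun h => hχU (hcc ▸ hUc _ h)
      obtain ⟨θ, hθ, -, hθB, rfl⟩ := hχB
      have hdχ : d (indFun K θ) = K.index * charDegree θ := by
        have h := hd _ hχS
        rw [indFun_one, IsCharacter.apply_one (IsIrrCharacter.isCharacter hθ)] at h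
        exact_mod_cast h.symm
      have hineq : (2 * d (indFun K θ) * d χ₁ : ℝ) < ∑ φ ∈ U, ((d φ : ℝ) ^ 2 / (n φ : ℝ)) := by
        refine lt_of_lt_of_le ?_ (Finset.sum_le_sum_of_subset_of_nonneg hU0 fun φ _ _ => by positivity)
        rw [sum_sq_div K hS A S₀ hS₀ d n hd hn, hdχ, hd1]
        push_cast
        have hb := deg_sq_le K B C D hBD hDC hCK hcent ⟨θ, hθ⟩ hθB
        have hidx : C.relIndex K * K.index = C.index := Subgroup.relIndex_mul_index hCK
        have h2 : (2 * K.index * charDegree θ) ^ 2 < (A.relIndex K - 1) ^ 2 := by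
          refine lt_of_le_of_lt ?_ hlt
          rw [← hidx]
          calc (2 * K.index * charDegree θ) ^ 2 = 4 * K.index ^ 2 * charDegree θ ^ 2 := by ring
            _ ≤ 4 * K.index ^ 2 * (C.relIndex K ^ 2 * D.relIndex C) := Nat.mul_le_mul_left _ hb
            _ = 4 * (C.relIndex K * K.index) ^ 2 * D.relIndex C := by ring
        have h3 := lt_of_pow_lt_pow_left₀ 2 (Nat.zero_le _) h2
        have h4 : ((2 * K.index * charDegree θ : ℕ) : ℝ) < ((A.relIndex K - 1 : ℕ) : ℝ) := Nat.cast_lt.2 h3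
        rw [Nat.cast_sub (by exact_mod_cast (le_trans one_le_two hAm : (1 : ℝ) ≤ A.relIndex K))] at h4
        push_cast at h4
        have hpos : (0 : ℝ) < K.index := by exact_mod_cast Nat.pos_of_ne_zero Subgroup.index_ne_zero_of_finite
        nlinarith
      have hdvd : d χ₁ ∣ d (indFun K θ) := by rw [hd1, hdχ]; exact dvd_mul_right _ _
      have hχ₁U : χ₁ ∈ U := hU0 (by rw [← Finset.mem_coe, hS₀]; exact hχ₁)
      have h := Cfsg.Agent.S1516.result _ τ R hS d n hd hn U hUS hUc hUcoh _ hχS hχU hχc χ₁ hχ₁U hdvd hineq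
      refine ⟨insert (indFun K θ) (insert (conjFun (indFun K θ)) U),
        hU0.trans ((Finset.subset_insert _ _).trans (Finset.subset_insert _ _)),
        Finset.insert_subset (Finset.mem_insert_self _ _) (hUT.trans ((Finset.subset_insert _ _).trans (Finset.subset_insert _ _))), ?_, ?_, ?_⟩
      · intro φ hφ
        simp only [Finset.coe_insert, Set.mem_insert_iff] at hφ
        rcases hφ with rfl | rfl | hφ
        exacts [hχS, hS.conj_mem _ hχS, hUS hφ]
      · intro φ hφ
        simp only [Finset.mem_insert] at hφ ⊢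
        rcases hφ with rfl | rfl | hφ
        exacts [Or.inr (Or.inl rfl), Or.inl hcc, Or.inr (Or.inr (hUc φ hφ))]
      · convert h using 1
        ext φ
        simp only [Finset.coe_insert, Set.mem_insert_iff, Set.mem_union, Set.mem_singleton_iff]
        tauto
  obtain ⟨U, -, hU, -, -, hcoh⟩ := step (finite_above K B).toFinset fun φ h => (finite_above K B).mem_toFinset.1 h
  have hsub : inducedIrrAbove K B ⊆ ↑U := fun φ h => hU ((finite_above K B).mem_toFinset.2 h)
  obtain ⟨φ, hφ, -⟩ := exists_nontrivial_linear K hsolv B hBK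
  refine ⟨⟨φ - conjFun φ, mem_zspanOn_one.2 ⟨zspan_sub (mem_zspan hφ) (mem_zspan (conj_mem_above K B hφ)), ?_⟩, ?_⟩, ?_⟩
  · rw [Pi.sub_apply, conjFun_one_real (hS.isCharacter φ (above_subset K B hφ)), sub_self]
  · exact sub_ne_zero.2 (hS.conj_ne φ (above_subset K B hφ)).symm
  obtain ⟨-, τ₁, h1, h2⟩ := hcoh
  have hm := zspan_mono hsub
  exact ⟨τ₁, ⟨fun a ha b hb => h1.1 a (hm ha) b (hm hb), fun a ha k => h1.2.1 a (hm ha) k,
    fun a ha b hb => h1.2.2.1 a (hm ha) b (hm hb), fun a ha => h1.2.2.2 a (hm ha)⟩, fun α hα => h2 α ⟨hm hα.1, hα.2⟩⟩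

end Pair

end CfsgLib.InducedCoherence
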