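import Cfsg.Agent.Lib.PConstrained
import Cfsg.Agent.Lib.LocalBasic
import Cfsg.Agent.Lib.CharP
import Cfsg.Agent.Lib.Thompson.Main

/-! Invariant `p'`-subgroups of a constrained group lie in the `p'`-core (owner helper5). -/

set_option autoImplicit false
set_option linter.style.haveILetI false

namespace CfsgLib.InvariantCore

open scoped commutatorElement
open CfsgLib.LocalBasic

universe u

variable {G : Type u} [Group G]

/-- The symmetrised product. -/
def sym (l : List G) : G := l.foldr (fun a t => a * t * a) 1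

theorem sym_mem {D : Subgroup G} : ∀ {l : List G}, (∀ a ∈ l, a ∈ D) → sym l ∈ D := by
  intro l
  induction l with
  | nil => exact fun _ => one_mem D
  | cons a l ih =>
    intro h
    exact mul_mem (mul_mem (h a (by simp)) (ih fun b hb => h b (List.mem_cons_of_mem _ hb))) (h a (by simp))

theorem sym_perm {D : Subgroup G} (hc : ∀ a ∈ D, ∀ b ∈ D, ∀ c ∈ D, ⁅a, b⁆ * c = c * ⁅a, b⁆) {l l' : List G}
    (h : l.Perm l') : (∀ a ∈ l, a ∈ D) → sym l = sym l' := by
  induction h with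
  | nil => exact fun _ => rfl
  | @cons x l₁ l₂ _ ih =>
    intro hm
    show x * sym l₁ * x = x * sym l₂ * x
    rw [ih fun b hb => hm b (List.mem_cons_of_mem _ hb)]
  | swap x y l =>
    intro hm
    have hx : x ∈ D := hm x (by simp)
    have hy : y ∈ D := hm y (by simp)
    have hl : sym l ∈ D := sym_mem fun b hb => hm b (List.mem_cons_of_mem _ (List.mem_cons_of_mem _ hb))
    show y * (x * sym l * x) * y = x * (y * sym l * y) * x
    set S := sym l
    set z := ⁅y, x⁆ with hz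
    have hzS : z * (x * y * S) = x * y * S * z := hc y hy x hx _ (mul_mem (mul_mem hx hy) hl)
    have e1 : y * x = z * (x * y) := by rw [hz, commutatorElement_def]; group
    have e2 : x * y = z⁻¹ * (y * x) := by rw [hz, commutatorElement_def]; group
    calc y * (x * S * x) * y = y * x * S * (x * y) := by group
      _ = z * (x * y * S) * (z⁻¹ * (y * x)) := by rw [← e2, e1]; group
      _ = x * y * S * z * (z⁻¹ * (y * x)) := by rw [hzS]
      _ = x * (y * S * y) * x := by group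
  | @trans l₁ l₂ l₃ h₁ _ ih₁ ih₂ =>
    intro hm
    exact (ih₁ hm).trans (ih₂ fun b hb => hm b (h₁.mem_iff.mpr hb))

theorem sym_conj (g : G) : ∀ l : List G, g * sym l * g⁻¹ = sym (l.map fun a => g * a * g⁻¹) := by
  intro l
  induction l with
  | nil => simp [sym]
  | cons a l ih =>
    show g * (a * sym l * a) * g⁻¹ = g * a * g⁻¹ * sym (l.map _) * (g * a * g⁻¹)
    rw [← ih]; group

theorem map_sym {M : Type*} [CommGroup M] (f : G →* M) : ∀ l : List G, f (sym l) = (l.map f).prod ^ 2 := by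
  intro l
  induction l with
  | nil => simp [sym]
  | cons a l ih =>
    show f (a * sym l * a) = (f a * (l.map f).prod) ^ 2
    rw [map_mul, map_mul, ih, mul_pow, mul_comm (f a) _, mul_assoc, pow_two (f a), mul_comm]

variable [Finite G] {p : ℕ} [hp : Fact p.Prime]

/-- An invariant `p'`-group fixing the fixed points of an acting `p`-group on a `p`-group, `p` odd, fixes everything. -/
theorem centralizes_of_fixed (hp2 : p ≠ 2) {E K : Subgroup G} (hE : IsPGroup p ↥E) (hK : (Nat.card ↥K).Coprime p)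
    (hEK : E ≤ Subgroup.normalizer (K : Set G)) : ∀ (n : ℕ) (P : Subgroup G), Nat.card ↥P = n → IsPGroup p ↥P →
      E ≤ Subgroup.normalizer (P : Set G) → K ≤ Subgroup.normalizer (P : Set G) →
      (∀ x ∈ P, (∀ e ∈ E, e * x = x * e) → ∀ k ∈ K, k * x = x * k) → ∀ k ∈ K, ∀ x ∈ P, k * x = x * k := by
  intro n
  induction n using Nat.strong_induction_on with
  | _ n ih =>
  intro P hn hP hEP hKP hfix
  classical
  rcases eq_or_ne P ⊥ with rfl | hPb
  · intro k _ x hx; rw [Subgroup.mem_bot.mp hx, mul_one, one_mul]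
  haveI := Subgroup.nontrivial_iff_ne_bot P |>.mpr hPb
  haveI : Group.IsNilpotent ↥P := hP.isNilpotent
  have hlt : ⁅P, P⁆ < P := by
    refine lt_of_le_of_ne (Subgroup.commutator_le_self P) fun e => ?_
    have h1 : commutator ↥P < ⊤ := Group.IsSolvable.commutator_lt_top_of_nontrivial _
    have h2 := Subgroup.map_subtype_commutator P
    rw [e] at h2
    exact h1.ne (Subgroup.map_injective P.subtype_injective (by rw [h2, ← MonoidHom.range_eq_map, Subgroup.range_subtype]))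
  have hder : ∀ k ∈ K, ∀ z ∈ ⁅P, P⁆, k * z = z * k := by
    refine ih _ ?_ ⁅P, P⁆ rfl (hP.to_le hlt.le) (normalizer_commutator_ge hEP hEP) (normalizer_commutator_ge hKP hKP)
      (fun x hx => hfix x (hlt.le hx))
    rw [← hn]
    exact lt_of_le_of_ne (Subgroup.card_le_of_le hlt.le) fun e => hlt.ne (Subgroup.eq_of_le_of_card_ge hlt.le e.ge)
  set C := P ⊓ Subgroup.centralizer (K : Set G) with hC
  have hderC : ⁅P, P⁆ ≤ C := fun z hz => Subgroup.mem_inf.mpr ⟨hlt.le hz, fun k hk => hder k hk z hz⟩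
  haveI hCn : (C.subgroupOf P).Normal := ⟨fun c hc g => by
    rw [Subgroup.mem_subgroupOf] at hc ⊢
    have h : ⁅(g : G), (c : G)⁆ * (c : G) ∈ C := mul_mem (hderC (Subgroup.commutator_mem_commutator g.2 c.2)) hc
    rw [commutatorElement_def, inv_mul_cancel_right] at h
    exact h⟩
  by_contra hcon
  have hCP : C.subgroupOf P ≠ ⊤ := fun e => hcon fun k hk x hx =>
    (Subgroup.mem_inf.mp (Subgroup.subgroupOf_eq_top.mp e hx)).2 k hk
  set π := QuotientGroup.mk' (C.subgroupOf P) with hπ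
  have hπeq : ∀ x y : ↥P, π x = π y ↔ (x : G)⁻¹ * y ∈ C := fun x y => by
    rw [hπ, QuotientGroup.mk'_apply, QuotientGroup.mk'_apply, QuotientGroup.eq, Subgroup.mem_subgroupOf]; rfl
  letI : CommGroup (↥P ⧸ C.subgroupOf P) := { (inferInstance : Group (↥P ⧸ C.subgroupOf P)) with
    mul_comm := fun a b => by
      obtain ⟨x, rfl⟩ := QuotientGroup.mk'_surjective _ a
      obtain ⟨y, rfl⟩ := QuotientGroup.mk'_surjective _ b
      rw [← map_mul, ← map_mul, ← hπ, hπeq]
      refine hderC ?_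
      have h := Subgroup.commutator_mem_commutator (inv_mem y.2) (inv_mem x.2)
      rwa [commutatorElement_def, inv_inv, inv_inv, show (y : G)⁻¹ * (x : G)⁻¹ * y * x = ((x : G) * y)⁻¹ * (y * x) by group] at h }
  -- a fixed coset
  have hEc : ∀ e ∈ E, ∀ c ∈ C, e * c * e⁻¹ ∈ C := fun e he c hc => by
    refine Subgroup.mem_inf.mpr ⟨(Subgroup.mem_normalizer_iff.mp (hEP he) c).mp (Subgroup.mem_inf.mp hc).1, fun k hk => ?_⟩
    have h := (Subgroup.mem_inf.mp hc).2 _ ((Subgroup.mem_normalizer_iff''.mp (hEK he) k).mp hk)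
    calc k * (e * c * e⁻¹) = e * (e⁻¹ * k * e * c) * e⁻¹ := by group
      _ = e * (c * (e⁻¹ * k * e)) * e⁻¹ := by rw [h]
      _ = e * c * e⁻¹ * k := by group
  let cj : ↥E → ↥P → ↥P := fun e x => ⟨e * x * (e : G)⁻¹, (Subgroup.mem_normalizer_iff.mp (hEP e.2) x).mp x.2⟩
  have hcjwd : ∀ e : ↥E, ∀ x y : ↥P, π x = π y → π (cj e x) = π (cj e y) := fun e x y h => by
    rw [hπeq] at h ⊢
    have := hEc e e.2 _ h
    convert this using 1
    show ((e : G) * x * (e : G)⁻¹)⁻¹ * ((e : G) * y * (e : G)⁻¹) = _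
    group
  letI : MulAction ↥E (↥P ⧸ C.subgroupOf P) :=
    { smul := fun e a => π (cj e a.out)
      one_smul := fun a => by
        show π (cj 1 a.out) = a
        conv_rhs => rw [← QuotientGroup.out_eq' a]
        show π _ = π _
        congr 1
        exact Subtype.ext (show (1 : G) * _ * (1 : G)⁻¹ = _ by simp)
      mul_smul := fun e f a => by
        show π (cj (e * f) a.out) = π (cj e (π (cj f a.out)).out)
        rw [hcjwd e (π (cj f a.out)).out (cj f a.out) (QuotientGroup.out_eq' _)]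
        congr 1
        exact Subtype.ext (show (e : G) * f * _ * ((e : G) * f)⁻¹ = (e : G) * ((f : G) * _ * (f : G)⁻¹) * (e : G)⁻¹ by group) }
  obtain ⟨m, hm⟩ := IsPGroup.iff_card.mp (hP.to_quotient (C.subgroupOf P))
  have hm0 : m ≠ 0 := fun h0 => hCP (Subgroup.index_eq_one.mp (by
    show Nat.card (↥P ⧸ C.subgroupOf P) = 1
    rw [hm, h0, pow_zero]))
  have h1fix : (1 : ↥P ⧸ C.subgroupOf P) ∈ MulAction.fixedPoints ↥E (↥P ⧸ C.subgroupOf P) := fun e => by
    show π (cj e _) = 1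
    rw [hcjwd e (1 : ↥P ⧸ C.subgroupOf P).out 1 (by rw [hπ, QuotientGroup.mk'_apply, QuotientGroup.out_eq', map_one]),
      show cj e 1 = 1 from Subtype.ext (show (e : G) * (1 : G) * (e : G)⁻¹ = 1 by simp), map_one]
  obtain ⟨a, ha, ha1⟩ := hE.exists_fixed_point_of_prime_dvd_card_of_fixed_point (↥P ⧸ C.subgroupOf P) (hm ▸ dvd_pow_self p hm0) h1fix
  set x : ↥P := a.out with hx
  have hxfix : ∀ e ∈ E, ((x : G))⁻¹ * (e * x * e⁻¹) ∈ C := fun e he => by
    have h : π (cj ⟨e, he⟩ x) = π x := (ha ⟨e, he⟩).trans (QuotientGroup.out_eq' a).symm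
    exact (hπeq _ _).mp h.symm
  have hKc : ∀ k ∈ K, ∀ y ∈ P, k * y * k⁻¹ ∈ P := fun k hk y hy => (Subgroup.mem_normalizer_iff.mp (hKP hk) y).mp hy
  -- elements centralising the derived subgroup
  let D : Subgroup G := P ⊓ Subgroup.centralizer ((⁅P, P⁆ : Subgroup G) : Set G)
  have hderc : ∀ u ∈ P, ∀ z ∈ ⁅P, P⁆, u * z * u⁻¹ ∈ ⁅P, P⁆ := fun u hu z hz =>
    (Subgroup.mem_normalizer_iff.mp ((normalizer_commutator_ge Subgroup.le_normalizer Subgroup.le_normalizer) hu) z).mp hz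
  set d : ↥K → G := fun k => (x : G) * ((k : G) * x * (k : G)⁻¹)⁻¹ with hd
  have hdD : ∀ k, d k ∈ D := fun k => Subgroup.mem_inf.mpr ⟨mul_mem x.2 (inv_mem (hKc k k.2 x x.2)), fun z hz => by
    have h := hder k k.2 _ (hderc _ (inv_mem x.2) z hz)
    rw [inv_inv] at h
    have h0 := hder k k.2 z hz
    show z * d k = d k * z
    calc z * d k = (x : G) * (((x : G)⁻¹ * z * x) * k) * (x : G)⁻¹ * (k : G)⁻¹ := by rw [hd]; group
      _ = (x : G) * (k * ((x : G)⁻¹ * z * x)) * (x : G)⁻¹ * (k : G)⁻¹ := by rw [h]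
      _ = (x : G) * k * (x : G)⁻¹ * (z * (k : G)⁻¹) := by group
      _ = (x : G) * k * (x : G)⁻¹ * ((k : G)⁻¹ * z) := by
          rw [show z * (k : G)⁻¹ = (k : G)⁻¹ * z from ((show Commute (k : G) z from h0).inv_left).eq.symm]
      _ = d k * z := by rw [hd]; group⟩
  have hDc : ∀ a ∈ D, ∀ b ∈ D, ∀ c ∈ D, ⁅a, b⁆ * c = c * ⁅a, b⁆ := fun a ha b hb c hc =>
    (Subgroup.mem_inf.mp hc).2 _ (Subgroup.commutator_mem_commutator (Subgroup.mem_inf.mp ha).1 (Subgroup.mem_inf.mp hb).1)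
  letI : Fintype ↥K := Fintype.ofFinite _
  set l : List ↥K := (Finset.univ : Finset ↥K).toList with hl
  set g := sym (l.map d) with hg
  have hlD : ∀ a ∈ l.map d, a ∈ D := fun a ha => by
    obtain ⟨k, -, rfl⟩ := List.mem_map.mp ha
    exact hdD k
  have hgP : g ∈ P := (Subgroup.mem_inf.mp (sym_mem hlD)).1
  have hgfix : ∀ e ∈ E, e * g = g * e := by
    intro e he
    let σ : ↥K ≃ ↥K :=
      { toFun := fun k => ⟨e * k * e⁻¹, (Subgroup.mem_normalizer_iff.mp (hEK he) k).mp k.2⟩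
        invFun := fun k => ⟨e⁻¹ * k * e, (Subgroup.mem_normalizer_iff''.mp (hEK he) k).mp k.2⟩
        left_inv := fun k => Subtype.ext (show e⁻¹ * (e * (k : G) * e⁻¹) * e = k by group)
        right_inv := fun k => Subtype.ext (show e * (e⁻¹ * (k : G) * e) * e⁻¹ = k by group) }
    have hdσ : ∀ k, e * d k * e⁻¹ = d (σ k) := fun k => by
      set c := (x : G)⁻¹ * (e * x * e⁻¹) with hcdef
      have hck : (σ k : G) * c = c * (σ k : G) := (Subgroup.mem_inf.mp (hxfix e he)).2 _ (σ k).2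
      have ex : e * (x : G) * e⁻¹ = (x : G) * c := by rw [hcdef]; group
      calc e * d k * e⁻¹ = (e * (x : G) * e⁻¹) * ((σ k : G) * (e * (x : G) * e⁻¹) * (σ k : G)⁻¹)⁻¹ := by
            show e * ((x : G) * ((k : G) * x * (k : G)⁻¹)⁻¹) * e⁻¹ = _ * ((e * (k : G) * e⁻¹) * _ * (e * (k : G) * e⁻¹)⁻¹)⁻¹
            group
        _ = (x : G) * c * ((σ k : G) * (x : G) * (c * (σ k : G)⁻¹))⁻¹ := by rw [ex]; group
        _ = (x : G) * c * ((σ k : G) * (x : G) * ((σ k : G)⁻¹ * c))⁻¹ := by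
            rw [show c * (σ k : G)⁻¹ = (σ k : G)⁻¹ * c from ((show Commute (σ k : G) c from hck).inv_left).eq.symm]
        _ = d (σ k) := by rw [hd]; group
    have h1 : e * g * e⁻¹ = g := by
      rw [hg, sym_conj, List.map_map]
      have e2 : (l.map ((fun a => e * a * e⁻¹) ∘ d)) = (l.map σ).map d := by
        rw [List.map_map]; exact List.map_congr_left fun k _ => hdσ k
      rw [e2]
      refine sym_perm hDc (List.Perm.map d ?_) fun a ha => ?_
      · exact (List.perm_ext_iff_of_nodup ((Finset.nodup_toList _).map σ.injective) (Finset.nodup_toList _)).mpr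
          fun k => ⟨fun _ => Finset.mem_toList.mpr (Finset.mem_univ _),
            fun _ => List.mem_map.mpr ⟨σ.symm k, Finset.mem_toList.mpr (Finset.mem_univ _), σ.apply_symm_apply k⟩⟩
      · obtain ⟨k, -, rfl⟩ := List.mem_map.mp ha
        exact hdD k
    exact mul_inv_eq_iff_eq_mul.mp h1
  have hgC : g ∈ C := Subgroup.mem_inf.mpr ⟨hgP, fun k hk => hfix g hgP hgfix k hk⟩
  -- evaluate modulo `C`
  let kx : ↥K → ↥P := fun k => ⟨(k : G) * x * (k : G)⁻¹, hKc k k.2 x x.2⟩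
  let dP : ↥K → ↥P := fun k => x * (kx k)⁻¹
  have hsub : ∀ l' : List ↥K, sym (l'.map d) = ((sym (l'.map dP) : ↥P) : G) := by
    intro l'
    induction l' with
    | nil => rfl
    | cons k l' ih =>
      show d k * sym (l'.map d) * d k = ((dP k * sym (l'.map dP) * dP k : ↥P) : G)
      rw [ih]; rfl
  have hg2 : π (sym (l.map dP)) = 1 := by
    rw [hπ, QuotientGroup.mk'_apply, QuotientGroup.eq_one_iff, Subgroup.mem_subgroupOf, ← hsub]; exact hgC
  rw [map_sym, List.map_map, hl, Finset.prod_map_toList] at hg2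
  have hprod : ∏ k : ↥K, π (dP k) = π x ^ Nat.card ↥K * (∏ k : ↥K, π (kx k))⁻¹ := by
    simp only [dP, map_mul, map_inv, Finset.prod_mul_distrib, Finset.prod_inv_distrib, Finset.prod_const, Finset.card_univ,
      Nat.card_eq_fintype_card]
  have hsum : ∏ k : ↥K, π (kx k) = 1 := by
    obtain ⟨y, hy⟩ := QuotientGroup.mk'_surjective (C.subgroupOf P) (∏ k : ↥K, π (kx k))
    rw [← hy, QuotientGroup.mk'_apply, QuotientGroup.eq_one_iff, Subgroup.mem_subgroupOf]
    refine Subgroup.mem_inf.mpr ⟨y.2, fun t ht => ?_⟩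
    let θ : ↥P →* ↥P :=
      { toFun := fun z => ⟨t * z * t⁻¹, hKc t ht z z.2⟩
        map_one' := Subtype.ext (show t * (1 : G) * t⁻¹ = 1 by simp)
        map_mul' := fun u v => Subtype.ext (show t * ((u : G) * v) * t⁻¹ = t * u * t⁻¹ * (t * v * t⁻¹) by group) }
    have hker : C.subgroupOf P ≤ ((π.comp θ)).ker := fun z hz => by
      rw [MonoidHom.mem_ker, MonoidHom.comp_apply, hπ, QuotientGroup.mk'_apply, QuotientGroup.eq_one_iff, Subgroup.mem_subgroupOf]
      show t * (z : G) * t⁻¹ ∈ C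
      rw [(Subgroup.mem_inf.mp (Subgroup.mem_subgroupOf.mp hz)).2 t ht, mul_inv_cancel_right]
      exact Subgroup.mem_subgroupOf.mp hz
    let θ' := QuotientGroup.lift (C.subgroupOf P) (π.comp θ) hker
    have hθy : θ' (π y) = π y := by
      rw [hπ, hy, map_prod]
      refine Fintype.prod_equiv (Equiv.mulLeft (⟨t, ht⟩ : ↥K)) _ _ fun k => ?_
      show π (θ (kx k)) = π (kx (⟨t, ht⟩ * k))
      congr 1
      exact Subtype.ext (show t * ((k : G) * x * (k : G)⁻¹) * t⁻¹ = t * k * x * (t * k : G)⁻¹ by group)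
    have hyC : (y : G)⁻¹ * (t * y * t⁻¹) ∈ C := (hπeq y (θ y)).mp hθy.symm
    have hto : (orderOf t).Coprime p := hK.coprime_dvd_left (Subgroup.orderOf_dvd_natCard _ ht)
    have hcm : ⁅t, (y : G)⁆ ∈ C := by
      have h1 : (y : G) * ((y : G)⁻¹ * (t * y * t⁻¹)) * (y : G)⁻¹ ∈ C :=
        (hCn.conj_mem ⟨_, (Subgroup.mem_inf.mp hyC).1⟩ (Subgroup.mem_subgroupOf.mpr hyC) y)
      rw [commutatorElement_def]
      convert h1 using 1
      group
    obtain ⟨j, hj⟩ := hP ⟨_, (Subgroup.mem_inf.mp hcm).1⟩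
    exact commute_of_commutator_fixed ((Subgroup.mem_inf.mp hcm).2 t ht) (by simpa using congrArg Subtype.val hj) hto
  rw [show (∏ k : ↥K, (⇑π ∘ dP) k) = ∏ k : ↥K, π (dP k) from rfl, hprod, hsum, inv_one, mul_one, ← pow_mul] at hg2
  have hcop : (Nat.card ↥K * 2).Coprime p :=
    hK.mul_left ((Nat.coprime_primes Nat.prime_two hp.out).mpr (Ne.symm hp2))
  have hx1 : π x = 1 := by
    refine orderOf_eq_one_iff.mp (Nat.eq_one_of_dvd_coprimes (hcop.pow_right m) (orderOf_dvd_of_pow_eq_one hg2) ?_)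
    rw [← hm]; exact orderOf_dvd_natCard _
  exact ha1 (((QuotientGroup.out_eq' a).symm.trans hx1).symm)

/-- The case `p = 2` with class two. -/
theorem centralizes_of_fixed_two {E K P : Subgroup G} (hE : IsPGroup p ↥E) (hP : IsPGroup p ↥P)
    (hK : (Nat.card ↥K).Coprime p) (hEP : E ≤ Subgroup.normalizer (P : Set G)) (hKP : K ≤ Subgroup.normalizer (P : Set G))
    (hEK : E ≤ Subgroup.normalizer (K : Set G))
    (hcl : ∀ Q : Subgroup G, IsPGroup p ↥Q → ∀ a ∈ Q, ∀ b ∈ Q, ∀ c ∈ Q, ⁅a, b⁆ * c = c * ⁅a, b⁆)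
    (hfix : ∀ x ∈ P, (∀ e ∈ E, e * x = x * e) → ∀ k ∈ K, k * x = x * k)
    (hfaith : ∀ k ∈ K, (∀ x ∈ P, k * x = x * k) → k = 1) : ∀ k ∈ K, ∀ e ∈ E, e * k = k * e := by
  intro k hk e he
  have hQ : IsPGroup p ↥(P ⊔ E) := IsPGroup.to_sup_of_normal_left' hP hE hEP
  set k' := e * k * e⁻¹ with hk'
  have hk'K : k' ∈ K := (Subgroup.mem_normalizer_iff.mp (hEK he) k).mp hk
  suffices h : k⁻¹ * k' = 1 by
    have := inv_mul_eq_one.mp h
    rw [hk'] at this
    exact (mul_inv_eq_iff_eq_mul.mp this.symm)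
  have hcf : ∀ y ∈ P, ∀ f ∈ E, ∀ c ∈ K, c * ⁅f, y⁆ = ⁅f, y⁆ * c := by
    intro y hy f hf c hc
    refine hfix _ ?_ (fun g hg => ?_) c hc
    · rw [commutatorElement_def]
      exact mul_mem ((Subgroup.mem_normalizer_iff.mp (hEP hf) y).mp hy) (inv_mem hy)
    · exact (hcl _ hQ f (Subgroup.mem_sup_right hf) y (Subgroup.mem_sup_left hy) g (Subgroup.mem_sup_right hg)).symm
  refine hfaith _ (mul_mem (inv_mem hk) hk'K) fun x hx => ?_
  set y := k * (e⁻¹ * x * e) * k⁻¹ with hy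
  have hexP : e⁻¹ * x * e ∈ P := (Subgroup.mem_normalizer_iff''.mp (hEP he) x).mp hx
  have hyP : y ∈ P := (Subgroup.mem_normalizer_iff.mp (hKP hk) _).mp hexP
  set z := ⁅e⁻¹, x⁆ with hz
  set w := ⁅e, y⁆ with hw
  have hzk := hcf x hx e⁻¹ (inv_mem he) k hk
  have hwk := hcf y hyP e he k hk
  have hzP : z ∈ P := by
    rw [hz, commutatorElement_def, inv_inv]; exact mul_mem hexP (inv_mem hx)
  have hwP : w ∈ P := by
    rw [hw, commutatorElement_def]; exact mul_mem ((Subgroup.mem_normalizer_iff.mp (hEP he) y).mp hyP) (inv_mem hyP)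
  have e1 : k' * x * k'⁻¹ = w * z * (k * x * k⁻¹) := by
    have a1 : k' * x * k'⁻¹ = w * y := by rw [hw, hy, hk', commutatorElement_def]; group
    have a2 : y = z * (k * x * k⁻¹) := by
      calc y = k * z * x * k⁻¹ := by rw [hy, hz, commutatorElement_def]; group
        _ = z * k * x * k⁻¹ := by rw [hzk]
        _ = z * (k * x * k⁻¹) := by group
    rw [a1, a2]; group
  set d := k⁻¹ * k' with hd
  have e2 : ⁅d, x⁆ = w * z := by
    calc ⁅d, x⁆ = k⁻¹ * (k' * x * k'⁻¹) * k * x⁻¹ := by rw [hd, commutatorElement_def]; group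
      _ = k⁻¹ * (w * z) * k := by rw [e1]; group
      _ = k⁻¹ * (k * (w * z)) := by
        rw [show k * (w * z) = w * z * k from (Commute.mul_right (show Commute k w from hwk) hzk).eq]; group
      _ = w * z := by group
  have hdK : d ∈ K := mul_mem (inv_mem hk) hk'K
  obtain ⟨j, hj⟩ := hP ⟨_, mul_mem hwP hzP⟩
  refine commute_of_commutator_fixed ?_ (j := j) (by rw [e2]; simpa using congrArg Subtype.val hj)
    (hK.coprime_dvd_left (Subgroup.orderOf_dvd_natCard _ hdK))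
  rw [e2]
  exact (Commute.mul_right (show Commute d w from hcf y hyP e he d hdK) (hcf x hx e⁻¹ (inv_mem he) d hdK)).eq

/-- Thompson's product lemma. -/
theorem centralizes_of_commute {E K P : Subgroup G} (hE : IsPGroup p ↥E) (hP : IsPGroup p ↥P)
    (hK : (Nat.card ↥K).Coprime p) (hEP : E ≤ Subgroup.normalizer (P : Set G)) (hKP : K ≤ Subgroup.normalizer (P : Set G))
    (hcomm : ∀ k ∈ K, ∀ e ∈ E, e * k = k * e)
    (hfix : ∀ x ∈ P, (∀ e ∈ E, e * x = x * e) → ∀ k ∈ K, k * x = x * k) : ∀ k ∈ K, ∀ x ∈ P, k * x = x * k := by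
  classical
  by_contra hcon
  set C := P ⊓ Subgroup.centralizer (K : Set G) with hC
  have hCP : C.subgroupOf P ≠ ⊤ := fun e => hcon fun k hk x hx =>
    (Subgroup.mem_inf.mp (Subgroup.subgroupOf_eq_top.mp e hx)).2 k hk
  let mk : ↥P → ↥P ⧸ C.subgroupOf P := QuotientGroup.mk
  have hmk : ∀ x y : ↥P, mk x = mk y ↔ (x : G)⁻¹ * y ∈ C := fun x y => by
    show (QuotientGroup.mk x : ↥P ⧸ C.subgroupOf P) = QuotientGroup.mk y ↔ _
    rw [QuotientGroup.eq, Subgroup.mem_subgroupOf]; rfl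
  let cj : ↥E → ↥P → ↥P := fun e x => ⟨e * x * (e : G)⁻¹, (Subgroup.mem_normalizer_iff.mp (hEP e.2) x).mp x.2⟩
  have hwd : ∀ e : ↥E, ∀ x y : ↥P, mk x = mk y → mk (cj e x) = mk (cj e y) := fun e x y h => by
    rw [hmk] at h ⊢
    obtain ⟨h1, h2⟩ := Subgroup.mem_inf.mp h
    have e1 : ((cj e x : ↥P) : G)⁻¹ * (cj e y : ↥P) = (e : G) * ((x : G)⁻¹ * y) * (e : G)⁻¹ := by
      show ((e : G) * x * (e : G)⁻¹)⁻¹ * ((e : G) * y * (e : G)⁻¹) = _
      group
    rw [e1]
    refine Subgroup.mem_inf.mpr ⟨(Subgroup.mem_normalizer_iff.mp (hEP e.2) _).mp h1, fun k hk => ?_⟩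
    have c1 : Commute (e : G) k := hcomm k hk e e.2
    exact (((c1.symm).mul_right (show Commute k ((x : G)⁻¹ * y) from h2 k hk)).mul_right c1.symm.inv_right).eq
  letI : MulAction ↥E (↥P ⧸ C.subgroupOf P) :=
    { smul := fun e a => mk (cj e a.out)
      one_smul := fun a => by
        show mk (cj 1 a.out) = a
        conv_rhs => rw [← QuotientGroup.out_eq' a]
        show mk _ = mk _
        congr 1
        exact Subtype.ext (show (1 : G) * _ * (1 : G)⁻¹ = _ by simp)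
      mul_smul := fun e f a => by
        show mk (cj (e * f) a.out) = mk (cj e (mk (cj f a.out)).out)
        rw [hwd e (mk (cj f a.out)).out (cj f a.out) (QuotientGroup.out_eq' _)]
        congr 1
        exact Subtype.ext (show (e : G) * f * _ * ((e : G) * f)⁻¹ = (e : G) * ((f : G) * _ * (f : G)⁻¹) * (e : G)⁻¹ by group) }
  obtain ⟨n, hn⟩ := hP.exists_card_eq
  obtain ⟨m, -, hm⟩ := (Nat.dvd_prime_pow hp.out).mp (hn ▸ Subgroup.index_dvd_card (C.subgroupOf P))
  have hm0 : m ≠ 0 := fun h0 => hCP (Subgroup.index_eq_one.mp (by rw [hm, h0, pow_zero]))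
  have h1fix : mk 1 ∈ MulAction.fixedPoints ↥E (↥P ⧸ C.subgroupOf P) := fun e => by
    show mk (cj e _) = mk 1
    rw [hwd e (mk 1).out 1 (QuotientGroup.out_eq' _)]
    congr 1
    exact Subtype.ext (show (e : G) * (1 : G) * (e : G)⁻¹ = 1 by simp)
  obtain ⟨a, ha, ha1⟩ := hE.exists_fixed_point_of_prime_dvd_card_of_fixed_point (↥P ⧸ C.subgroupOf P)
    (by show p ∣ (C.subgroupOf P).index; rw [hm]; exact dvd_pow_self p hm0) h1fix
  set x : ↥P := a.out with hx
  refine ha1 ?_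
  rw [← QuotientGroup.out_eq' a]
  refine (hmk 1 x).mpr ?_
  rw [Subgroup.coe_one, inv_one, one_mul]
  refine Subgroup.mem_inf.mpr ⟨x.2, fun k hk => ?_⟩
  have hkP : k * (x : G) * k⁻¹ ∈ P := (Subgroup.mem_normalizer_iff.mp (hKP hk) x).mp x.2
  have hcP : ⁅k, (x : G)⁆ ∈ P := by rw [commutatorElement_def]; exact mul_mem hkP (inv_mem x.2)
  have hfx : ∀ e ∈ E, e * ⁅k, (x : G)⁆ = ⁅k, (x : G)⁆ * e := by
    intro e he
    have h : mk (cj ⟨e, he⟩ x) = mk x := (ha ⟨e, he⟩).trans (QuotientGroup.out_eq' a).symm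
    have hc := (Subgroup.mem_inf.mp ((hmk _ _).mp h.symm)).2 k hk
    set c := (x : G)⁻¹ * (cj ⟨e, he⟩ x : ↥P)
    have ex : e * (x : G) * e⁻¹ = (x : G) * c := (mul_inv_cancel_left (x : G) _).symm
    refine mul_inv_eq_iff_eq_mul.mp ?_
    calc e * ⁅k, (x : G)⁆ * e⁻¹ = (e * k * e⁻¹) * (e * x * e⁻¹) * (e * k * e⁻¹)⁻¹ * (e * x * e⁻¹)⁻¹ := by
          rw [commutatorElement_def]; group
      _ = k * ((x : G) * c) * k⁻¹ * ((x : G) * c)⁻¹ := by rw [hcomm k hk e he, mul_inv_cancel_right, ex]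
      _ = k * x * (c * k⁻¹) * c⁻¹ * (x : G)⁻¹ := by group
      _ = k * x * (k⁻¹ * c) * c⁻¹ * (x : G)⁻¹ := by rw [((show Commute k c from hc).inv_left).eq]
      _ = ⁅k, (x : G)⁆ := by rw [commutatorElement_def]; group
  obtain ⟨j, hj⟩ := hP ⟨_, hcP⟩
  exact (commute_of_commutator_fixed (hfix _ hcP hfx k hk) (j := j) (by simpa using congrArg Subtype.val hj)
    (hK.coprime_dvd_left (Subgroup.orderOf_dvd_natCard _ hk)))

/-- An invariant `p'`-subgroup of a constrained group lies in the `p'`-core. -/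
theorem le_pPrimeCore (hG : Cfsg.IsPConstrained p G) {E K : Subgroup G} (hE : IsPGroup p ↥E)
    (hcl : p = 2 → ∀ Q : Subgroup G, IsPGroup p ↥Q → ∀ a ∈ Q, ∀ b ∈ Q, ∀ c ∈ Q, ⁅a, b⁆ * c = c * ⁅a, b⁆)
    (hfull : ∀ x ∈ Subgroup.centralizer (E : Set G), (∃ k, x ^ p ^ k = 1) → x ∈ E)
    (hK : (Nat.card ↥K).Coprime p) (hEK : E ≤ Subgroup.normalizer (K : Set G)) : K ≤ Cfsg.pPrimeCore p G := by
  classical
  haveI := CfsgLib.PConstrained.pPrimeCore_normal (G := G) (p := p)
  set π := QuotientGroup.mk' (Cfsg.pPrimeCore p G) with hπ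
  have hπs := QuotientGroup.mk'_surjective (Cfsg.pPrimeCore p G)
  have hker : (Nat.card π.ker).Coprime p := by
    rw [hπ, QuotientGroup.ker_mk']; exact CfsgLib.Core.card_pPrimeCore_coprime p
  have hch := CfsgLib.PConstrained.isPConstrained_iff.mp hG
  set P := Cfsg.pCore p (G ⧸ Cfsg.pPrimeCore p G) with hP
  haveI := CfsgLib.Core.pCore_characteristic (G := G ⧸ Cfsg.pPrimeCore p G) p
  have hPp : IsPGroup p ↥P := CfsgLib.Core.isPGroup_pCore p
  have hEb : IsPGroup p ↥(E.map π) := hE.map π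
  have hKb : (Nat.card ↥(K.map π)).Coprime p := hK.coprime_dvd_left (Subgroup.card_map_dvd K π)
  have hEKb : E.map π ≤ Subgroup.normalizer ((K.map π : Subgroup _) : Set _) :=
    (Subgroup.map_mono hEK).trans (Subgroup.le_normalizer_map π)
  have hfix : ∀ x ∈ P, (∀ e ∈ E.map π, e * x = x * e) → ∀ k ∈ K.map π, k * x = x * k := by
    intro x hxP hxE k hk
    have hxC : x ∈ (Subgroup.centralizer (E : Set G)).map π := by
      rw [CfsgLib.PConstrained.centralizer_map_eq π hπs hker hE]; exact hxE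
    obtain ⟨c, hc, rfl⟩ := hxC
    obtain ⟨α, β, hα, hβ, hab, hj, hβo⟩ := CfsgLib.ThompsonNPC.exists_mul_parts p c
    have hπβ : π β = 1 := by
      obtain ⟨i, hi⟩ := hPp ⟨_, hxP⟩
      obtain ⟨l, rfl⟩ := Subgroup.mem_zpowers_iff.mp hβ
      refine orderOf_eq_one_iff.mp (Nat.eq_one_of_dvd_coprimes (hβo.pow_right i) (orderOf_map_dvd π _)
        (orderOf_dvd_of_pow_eq_one ?_))
      have hi' : π c ^ p ^ i = 1 := by simpa using congrArg Subtype.val hi
      rw [map_zpow, ← zpow_natCast, ← zpow_mul, mul_comm, zpow_mul, zpow_natCast, hi', one_zpow]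
    have hπα : π α = π c := by rw [← hab, map_mul, hπβ, mul_one]
    have hxE' : π c ∈ E.map π :=
      ⟨α, hfull α (Subgroup.zpowers_le.mpr hc hα) hj, hπα⟩
    have hk' : π c * k * (π c)⁻¹ ∈ K.map π := (Subgroup.mem_normalizer_iff.mp (hEKb hxE') k).mp hk
    have h1 : k * π c * k⁻¹ * (π c)⁻¹ ∈ K.map π ⊓ P := Subgroup.mem_inf.mpr
      ⟨by rw [show k * π c * k⁻¹ * (π c)⁻¹ = k * (π c * k⁻¹ * (π c)⁻¹) by group]
          exact mul_mem hk ((Subgroup.mem_normalizer_iff.mp (hEKb hxE') _).mp (inv_mem hk)),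
        mul_mem ((inferInstance : P.Normal).conj_mem _ hxP k) (inv_mem hxP)⟩
    rw [inf_comm, CfsgLib.PConstrained.inf_eq_bot_of_coprime hPp hKb, Subgroup.mem_bot, mul_inv_eq_one] at h1
    exact mul_inv_eq_iff_eq_mul.mp h1
  have hnP : ∀ X : Subgroup (G ⧸ Cfsg.pPrimeCore p G), X ≤ Subgroup.normalizer (P : Set _) := fun X => by
    rw [Subgroup.normalizer_eq_top]; exact le_top
  have hfaith : ∀ k ∈ K.map π, (∀ x ∈ P, k * x = x * k) → k = 1 := fun k hk h =>
    CfsgLib.CharP.eq_one_of_centralizes hch (hKb.coprime_dvd_left (Subgroup.orderOf_dvd_natCard _ hk)) h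
  have hcent : ∀ k ∈ K.map π, ∀ x ∈ P, k * x = x * k := by
    by_cases hp2 : p = 2
    · have hclb : ∀ Q : Subgroup (G ⧸ Cfsg.pPrimeCore p G), IsPGroup p ↥Q → ∀ a ∈ Q, ∀ b ∈ Q, ∀ c ∈ Q,
          ⁅a, b⁆ * c = c * ⁅a, b⁆ := by
        intro Q hQ a ha b hb c hc
        obtain ⟨T, hT⟩ := hQ.exists_le_sylow
        obtain ⟨γ, hγ⟩ := MulAction.exists_smul_eq (G ⧸ Cfsg.pPrimeCore p G) ((default : Sylow p G).mapSurjective hπs) T
        obtain ⟨g, rfl⟩ := hπs γ
        set S : Subgroup G := ((default : Sylow p G) : Subgroup G).map (MulAut.conj g).toMonoidHom with hS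
        have hlift : ∀ z ∈ Q, ∃ s ∈ S, π s = z := fun z hz => by
          have h := hT hz
          rw [← hγ, Sylow.coe_subgroup_smul] at h
          obtain ⟨_, ⟨s, hs, rfl⟩, rfl⟩ := h
          exact ⟨g * s * g⁻¹, ⟨s, hs, rfl⟩, by rw [map_mul, map_mul, map_inv]; rfl⟩
        obtain ⟨a', ha', rfl⟩ := hlift a ha
        obtain ⟨b', hb', rfl⟩ := hlift b hb
        obtain ⟨c', hc', rfl⟩ := hlift c hc
        rw [← map_commutatorElement, ← map_mul, ← map_mul,
          hcl hp2 S ((default : Sylow p G).2.map _) a' ha' b' hb' c' hc']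
      exact centralizes_of_commute hEb hPp hKb (hnP _) (hnP _)
        (centralizes_of_fixed_two hEb hPp hKb (hnP _) (hnP _) hEKb hclb hfix hfaith) hfix
    · exact centralizes_of_fixed hp2 hEb hKb hEKb _ P rfl hPp (hnP _) (hnP _) hfix
  intro k hk
  exact (QuotientGroup.eq_one_iff k).mp (hfaith _ ⟨k, hk, rfl⟩ (hcent _ ⟨k, hk, rfl⟩))

end CfsgLib.InvariantCore
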