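import Cfsg.Agent.Lib.FunctorNPC
import Cfsg.Agent.Lib.Glauberman.NPC
import Cfsg.Agent.Lib.Dickson.Section

/-! Groups of characteristic `p` with a maximal Sylow subgroup and closed `p'`-elements modulo `O_p` (owner helper5). -/

set_option autoImplicit false
set_option linter.style.haveILetI false
set_option linter.unusedSimpArgs false

universe u

namespace CfsgLib.LayerStable

open Cfsg CfsgLib.ThompsonNPC CfsgLib.CharP CfsgLib.FunctorNPC
open scoped commutatorElement Matrix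

variable {G : Type u} [Group G] [Finite G] {p : ℕ} [hp : Fact p.Prime]

/-- The `p'`-layer is abelian. -/
theorem layer_comm [(pCore p G).Normal] (hq : PCOn p (⊤ : Subgroup (G ⧸ pCore p G)))
    (T : Sylow p G) (hT : IsCoatom (T : Subgroup G)) :
    ∀ x ∈ pcore' hq, ∀ y ∈ pcore' hq, x * y = y * x := by
  set π := QuotientGroup.mk' (pCore p G)
  have hπs : Function.Surjective π := QuotientGroup.mk'_surjective _
  set Pb := T.mapSurjective hπs
  have hPb : (Pb : Subgroup (G ⧸ pCore p G)) = (T : Subgroup G).map π := rfl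
  set Kb := pcore' hq
  haveI hKbn : Kb.Normal := pcore'_normal hq inferInstance
  have hirr : ∀ X : Subgroup (G ⧸ pCore p G), X ≤ Kb →
      (Pb : Subgroup (G ⧸ pCore p G)) ≤ Subgroup.normalizer (X : Set (G ⧸ pCore p G)) → X = ⊥ ∨ X = Kb := by
    intro X hXK hPX
    have hle : (T : Subgroup G) ≤ (X ⊔ (Pb : Subgroup (G ⧸ pCore p G))).comap π := fun x hx =>
      Subgroup.mem_sup_right (hPb ▸ Subgroup.mem_map_of_mem π hx)
    rcases hle.lt_or_eq with h | h
    · refine Or.inr (le_antisymm hXK fun z hz => ?_)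
      obtain ⟨g, rfl⟩ := hπs z
      have hg : g ∈ (X ⊔ (Pb : Subgroup (G ⧸ pCore p G))).comap π := (hT.2 _ h).symm ▸ Subgroup.mem_top g
      obtain ⟨x, hx, s, hs, hxs⟩ := (CfsgLib.GroupB.Coprime.mem_sup_of_le_normalizer hPX).mp hg
      have hs' : s ∈ Kb := by
        rw [show s = x⁻¹ * π g by rw [← hxs, inv_mul_cancel_left]]
        exact Kb.mul_mem (Kb.inv_mem (hXK hx)) hz
      rw [eq_one_of_coprime_of_mem Pb.2 hs hs'.2, mul_one] at hxs
      exact hxs ▸ hx
    · refine Or.inl ((Subgroup.eq_bot_iff_forall _).mpr fun z hz => ?_)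
      obtain ⟨g, rfl⟩ := hπs z
      have hg : g ∈ (T : Subgroup G) := h ▸ Subgroup.mem_sup_left hz
      exact eq_one_of_coprime_of_mem Pb.2 (hPb ▸ Subgroup.mem_map_of_mem π hg) (hXK hz).2
  rcases eq_or_ne Kb ⊥ with h | hKb1
  · intro x hx y hy
    rw [h, Subgroup.mem_bot] at hx hy
    rw [hx, hy]
  set q := (Nat.card Kb).minFac
  have hq' : q.Prime := Nat.minFac_prime ((Subgroup.one_lt_card_iff_ne_bot Kb).mpr hKb1).ne'
  haveI := Fact.mk hq'
  have hPN : (Pb : Subgroup (G ⧸ pCore p G)) ≤ Subgroup.normalizer (Kb : Set (G ⧸ pCore p G)) :=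
    (Subgroup.normalizer_eq_top_iff.mpr hKbn).symm ▸ le_top
  obtain ⟨m, hm⟩ := IsPGroup.iff_card.mp Pb.2
  haveI := Pb.2.isNilpotent
  obtain ⟨R, hR, hRn⟩ := (CfsgLib.GroupB.Coprime.invariant_sylow hPN
    (by rw [hm]; exact (card_pcore'_coprime hq).symm.pow_left m) (Or.inr inferInstance) q).1
  have hR1 : R ≠ ⊥ := by
    intro h
    have h' := hR.2
    rw [h, Subgroup.card_bot] at h'
    have : 0 < (Nat.card Kb).factorization q :=
      hq'.factorization_pos_of_dvd Nat.card_pos.ne' (Nat.minFac_dvd _)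
    exact absurd h'.symm (ne_of_gt (Nat.one_lt_pow this.ne' hq'.one_lt))
  have hKq : IsPGroup q Kb := (hirr R hR.1 hRn).resolve_left hR1 ▸ hR.isPGroup
  rcases hirr (Z Kb) (Z_le Kb) (hPN.trans (normalizer_le_normalizer_Z Kb)) with h | h
  · exact absurd h (Z_ne_bot hKq hKb1)
  · intro x hx y hy
    exact (mem_Z.mp (h.symm ▸ hy : y ∈ Z Kb)).2 x hx

/-- An element of order `4`. -/
def w0 : Matrix.SpecialLinearGroup (Fin 2) (ZMod p) := ⟨!![0, -1; 1, 0], by simp [Matrix.det_fin_two]⟩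

/-- A transvection. -/
def u0 : Matrix.SpecialLinearGroup (Fin 2) (ZMod p) := ⟨!![1, 1; 0, 1], by simp [Matrix.det_fin_two]⟩

theorem w0_coe : ((w0 : Matrix.SpecialLinearGroup (Fin 2) (ZMod p)) : Matrix (Fin 2) (Fin 2) (ZMod p)) = !![0, -1; 1, 0] := rfl

theorem u0_coe : ((u0 : Matrix.SpecialLinearGroup (Fin 2) (ZMod p)) : Matrix (Fin 2) (Fin 2) (ZMod p)) = !![1, 1; 0, 1] := rfl

theorem w0_inv : ((w0⁻¹ : Matrix.SpecialLinearGroup (Fin 2) (ZMod p)) : Matrix (Fin 2) (Fin 2) (ZMod p)) = !![0, 1; -1, 0] := by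
  rw [Matrix.SpecialLinearGroup.coe_inv, w0_coe, Matrix.adjugate_fin_two]; simp

theorem u0_inv : ((u0⁻¹ : Matrix.SpecialLinearGroup (Fin 2) (ZMod p)) : Matrix (Fin 2) (Fin 2) (ZMod p)) = !![1, -1; 0, 1] := by
  rw [Matrix.SpecialLinearGroup.coe_inv, u0_coe, Matrix.adjugate_fin_two]; simp

/-- A normal `p`-subgroup of `SL₂(p)` is trivial for odd `p`. -/
theorem normal_p_eq_bot (hp2 : p ≠ 2) {N : Subgroup (Matrix.SpecialLinearGroup (Fin 2) (ZMod p))} (hn : N.Normal)
    (hN : IsPGroup p ↥N) : N = ⊥ := by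
  have htr : ∀ n ∈ N, (n : Matrix (Fin 2) (Fin 2) (ZMod p)) 0 0 + (n : Matrix (Fin 2) (Fin 2) (ZMod p)) 1 1 = 2 := by
    intro n hnN
    obtain ⟨k, hk⟩ := hN ⟨n, hnN⟩
    have h1 : (n : Matrix (Fin 2) (Fin 2) (ZMod p)) ^ p ^ k = 1 := by
      have := congrArg (fun z : ↥N => ((z : Matrix.SpecialLinearGroup (Fin 2) (ZMod p)) : Matrix (Fin 2) (Fin 2) (ZMod p))) hk
      simpa using this
    have hnil : IsNilpotent ((n : Matrix (Fin 2) (Fin 2) (ZMod p)) - 1) :=
      ⟨p ^ k, by rw [sub_pow_char_pow_of_commute p k (Commute.one_right _), h1, one_pow, sub_self]⟩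
    have h2 := (Matrix.isNilpotent_trace_of_isNilpotent hnil).eq_zero
    rw [Matrix.trace_fin_two] at h2
    simp only [Matrix.sub_apply, Matrix.one_apply_eq] at h2
    linear_combination h2
  have h2' : (2 : ZMod p) ≠ 0 := by
    intro h
    have : ((2 : ℕ) : ZMod p) = 0 := by exact_mod_cast h
    rw [ZMod.natCast_eq_zero_iff] at this
    exact hp2 ((Nat.prime_dvd_prime_iff_eq hp.out Nat.prime_two).mp this)
  have hbc : ∀ n ∈ N, (n : Matrix (Fin 2) (Fin 2) (ZMod p)) 0 1 = (n : Matrix (Fin 2) (Fin 2) (ZMod p)) 1 0 := by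
    intro n hnN
    have h3 := htr _ (mul_mem hnN (hn.conj_mem n hnN w0))
    have hd := n.2
    rw [Matrix.det_fin_two] at hd
    have h4 := htr n hnN
    simp [Matrix.SpecialLinearGroup.coe_mul, w0_coe, w0_inv, Matrix.mul_apply, Matrix.vecMul, dotProduct, Fin.sum_univ_two] at h3
    refine sub_eq_zero.mp (eq_zero_of_pow_eq_zero (n := 2) ?_)
    linear_combination 2 * hd - h3
  refine (Subgroup.eq_bot_iff_forall _).mpr fun n hnN => ?_
  have e1 := hbc _ (hn.conj_mem n hnN u0)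
  have e2 := hbc _ (hn.conj_mem n hnN u0⁻¹)
  have e3 := hbc n hnN
  have e4 := htr n hnN
  simp [Matrix.SpecialLinearGroup.coe_mul, u0_coe, u0_inv, inv_inv, Matrix.mul_apply, Matrix.vecMul, dotProduct, Fin.sum_univ_two] at e1 e2
  have hc : (n : Matrix (Fin 2) (Fin 2) (ZMod p)) 1 0 = 0 :=
    mul_left_cancel₀ h2' (by rw [mul_zero]; linear_combination -e1 - e2 + 2 * e3)
  have hb : (n : Matrix (Fin 2) (Fin 2) (ZMod p)) 0 1 = 0 := e3.trans hc
  have had : (n : Matrix (Fin 2) (Fin 2) (ZMod p)) 0 0 = (n : Matrix (Fin 2) (Fin 2) (ZMod p)) 1 1 := by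
    linear_combination e2 - e3 + hc
  have ha : (n : Matrix (Fin 2) (Fin 2) (ZMod p)) 0 0 = 1 := mul_left_cancel₀ h2' (by linear_combination e4 + had)
  refine Subtype.ext ?_
  show (n : Matrix (Fin 2) (Fin 2) (ZMod p)) = 1
  ext i j
  fin_cases i <;> fin_cases j <;> simp [ha, hb, hc, ← had]

/-- `SL₂(p)` is not involved. -/
theorem slFree (hp2 : p ≠ 2) [(pCore p G).Normal] (hq : PCOn p (⊤ : Subgroup (G ⧸ pCore p G)))
    (T : Sylow p G) (hT : IsCoatom (T : Subgroup G)) : CfsgLib.Dickson.SLFree p G := by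
  intro M f hf
  let W' : Matrix.SpecialLinearGroup (Fin 2) (ZMod p) := u0 * w0 * u0⁻¹
  have hW4 : (w0 : Matrix.SpecialLinearGroup (Fin 2) (ZMod p)) ^ 4 = 1 := by
    refine Subtype.ext ?_
    show (!![0, -1; 1, 0] : Matrix (Fin 2) (Fin 2) (ZMod p)) ^ 4 = 1
    simp [pow_succ, Matrix.one_fin_two]
  have hW'4 : W' ^ 4 = 1 := by simp only [W', conj_pow, hW4, mul_one, mul_inv_cancel]
  have hne : w0 * W' ≠ W' * w0 := by
    intro h
    have h1 : w0 * (u0 * w0 * u0⁻¹) = (u0 * w0 * u0⁻¹) * w0 := h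
    have h2 := congrArg (fun z : Matrix.SpecialLinearGroup (Fin 2) (ZMod p) => (z : Matrix (Fin 2) (Fin 2) (ZMod p))) h1
    simp [Matrix.SpecialLinearGroup.coe_mul, w0_coe, u0_coe, u0_inv] at h2
  have hcop : (4 : ℕ).Coprime p := by
    rw [show (4 : ℕ) = 2 ^ 2 from rfl]
    exact Nat.Coprime.pow_left 2 ((Nat.coprime_primes Nat.prime_two hp.out).mpr (Ne.symm hp2))
  -- lift to elements of order prime to `p`
  have hlift : ∀ z : Matrix.SpecialLinearGroup (Fin 2) (ZMod p), z ^ 4 = 1 →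
      ∃ x : ↥M, f x = z ∧ QuotientGroup.mk' (pCore p G) (x : G) ∈ pcore' hq := by
    intro z hz
    obtain ⟨x, rfl⟩ := hf z
    obtain ⟨b, -, hb, hbc⟩ := exists_coprime_lift (p := p) f (x := x)
      (hcop.coprime_dvd_left (orderOf_dvd_of_pow_eq_one hz))
    exact ⟨b, hb, trivial, (hbc.coprime_dvd_left (orderOf_map_dvd ((QuotientGroup.mk' (pCore p G)).comp M.subtype) b))⟩
  obtain ⟨x, hx, hxK⟩ := hlift w0 hW4
  obtain ⟨y, hy, hyK⟩ := hlift W' hW'4
  have hxy : (⁅x, y⁆ : ↥M) ∈ (pCore p G).subgroupOf M := by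
    rw [Subgroup.mem_subgroupOf, ← QuotientGroup.eq_one_iff (N := pCore p G)]
    show (QuotientGroup.mk' (pCore p G)) (M.subtype ⁅x, y⁆) = 1
    rw [map_commutatorElement, map_commutatorElement, commutatorElement_eq_one_iff_mul_comm]
    exact layer_comm hq T hT _ hxK _ hyK
  have hNp : IsPGroup p ↥(((pCore p G).subgroupOf M).map f) :=
    (CfsgLib.Core.isPGroup_pCore (G := G) p).comap_subtype.map f
  haveI hNn : (((pCore p G).subgroupOf M).map f).Normal := (inferInstance : ((pCore p G).subgroupOf M).Normal).map f hf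
  have hmem : ⁅w0, W'⁆ ∈ ((pCore p G).subgroupOf M).map f := ⟨_, hxy, by rw [map_commutatorElement, hx, hy]⟩
  -- a normal `p`-subgroup is trivial
  have hN1 : ((pCore p G).subgroupOf M).map f = ⊥ := normal_p_eq_bot hp2 hNn hNp
  rw [hN1, Subgroup.mem_bot, commutatorElement_eq_one_iff_mul_comm] at hmem
  exact hne hmem

/-- All sections are stable. -/
theorem stable_sections {Q : Type u} [Group Q] [Finite Q] (hp2 : p ≠ 2) (h : CfsgLib.Dickson.SLFree p Q)
    (K R : Subgroup Q) [(R.subgroupOf K).Normal] : IsNormalizerPStable p (↥K ⧸ R.subgroupOf K) :=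
  CfsgLib.Dickson.isNormalizerPStable_of_stable fun _ _ =>
    CfsgLib.Dickson.stable_of_slFree hp2
      (((h.of_subgroup K).of_surjective _ (QuotientGroup.mk'_surjective _)).of_subgroup _)

end CfsgLib.LayerStable
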