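import Cfsg.Agent.S1450
import Cfsg.Agent.S1453
import Cfsg.Agent.S0093
import Cfsg.Agent.S0096
import Cfsg.Agent.S0120
import Cfsg.Agent.S0121

/-! Odd solvable groups acting on `p`-groups with a small centralizer of an elementary subgroup (owner lead). -/

set_option autoImplicit false
set_option linter.all false

open scoped commutatorElement

namespace CfsgLib.NarrowAut

variable {R : Type*} [Group R] [Finite R] {p : ℕ} [Fact p.Prime]

/-- Two automorphisms of a group of prime order commute. -/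
theorem aut_comm {Q : Type*} [Group Q] (hq : Nat.card Q ≤ p) (hQ : IsPGroup p Q) [Finite Q] (a b : MulAut Q) : a * b = b * a := by
  obtain ⟨n, hn⟩ := IsPGroup.iff_card.mp hQ
  haveI : IsCyclic Q := by
    rcases (show n = 0 ∨ n = 1 by
      by_contra h
      have h2 : p ^ 2 ≤ p ^ n := Nat.pow_le_pow_right (Fact.out : p.Prime).pos (by omega)
      have := (Fact.out : p.Prime).two_le
      nlinarith) with rfl | rfl
    · haveI : Subsingleton Q := (Nat.card_eq_one_iff_unique.mp (by rw [hn, pow_zero])).1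
      infer_instance
    · exact isCyclic_of_prime_card (p := p) (by rw [hn, pow_one])
  obtain ⟨g, hg⟩ := IsCyclic.exists_generator (α := Q)
  refine MulEquiv.ext fun x => ?_
  obtain ⟨i, rfl⟩ := Subgroup.mem_zpowers_iff.mp (hg x)
  obtain ⟨j, hj⟩ := Subgroup.mem_zpowers_iff.mp (hg (a g))
  obtain ⟨k, hk⟩ := Subgroup.mem_zpowers_iff.mp (hg (b g))
  rw [MulAut.mul_apply, MulAut.mul_apply, map_zpow, map_zpow, map_zpow, map_zpow, ← hk, map_zpow, ← hj, map_zpow, ← hk]
  simp only [← zpow_mul]
  congr 1; ring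

/-- An element killed by every action on a group of order `≤ p` is trivial on invariant sections of order `≤ p`. -/
theorem sec_trivial {X : Type*} [Group X] (φ : X →* MulAut R) (N : Subgroup R) (M : Subgroup R) [N.Normal]
    (hN : ∀ (x : X), ∀ r ∈ N, φ x r ∈ N) (hM : ∀ (x : X), ∀ r ∈ M, φ x r ∈ M)
    (c : X) (hc : ∀ θ : X →* MulAut (M.map (QuotientGroup.mk' N)), θ c = 1) : ∀ r ∈ M, r⁻¹ * φ c r ∈ N := by
  have hmap : ∀ x : X, N.map (φ x).toMonoidHom = N := fun x =>
    Subgroup.eq_of_le_of_card_ge (by rintro _ ⟨r, hr, rfl⟩; exact hN x r hr) (Subgroup.card_map_of_injective (φ x).injective).ge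
  let ψ : X →* MulAut (R ⧸ N) :=
    { toFun := fun x => QuotientGroup.congr N N (φ x) (hmap x)
      map_one' := MulEquiv.ext fun q => by
        induction q using QuotientGroup.induction_on with
        | H r => show ((φ 1 r : R) : R ⧸ N) = r; rw [map_one]; rfl
      map_mul' := fun x y => MulEquiv.ext fun q => by
        induction q using QuotientGroup.induction_on with
        | H r => show ((φ (x * y) r : R) : R ⧸ N) = ((φ x (φ y r) : R) : R ⧸ N); rw [map_mul]; rfl }
  set Q := M.map (QuotientGroup.mk' N) with hQ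
  have hQinv : ∀ x : X, Q.map (ψ x).toMonoidHom = Q := fun x => by
    refine Subgroup.eq_of_le_of_card_ge ?_ (Subgroup.card_map_of_injective (ψ x).injective).ge
    rintro _ ⟨_, ⟨r, hr, rfl⟩, rfl⟩
    exact ⟨φ x r, hM x r hr, rfl⟩
  let θ : X →* MulAut Q :=
    { toFun := fun x => ((ψ x).subgroupMap Q).trans (MulEquiv.subgroupCongr (hQinv x))
      map_one' := MulEquiv.ext fun q => Subtype.ext (by show ψ 1 (q : R ⧸ N) = q; rw [map_one]; rfl)
      map_mul' := fun x y => MulEquiv.ext fun q => Subtype.ext (by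
        show ψ (x * y) (q : R ⧸ N) = ψ x (ψ y (q : R ⧸ N)); rw [map_mul]; rfl) }
  intro r hr
  have h0 : ψ c (r : R ⧸ N) = (r : R ⧸ N) :=
    congrArg (fun f : MulAut Q => ((f ⟨(r : R ⧸ N), r, hr, rfl⟩ : Q) : R ⧸ N)) (hc θ)
  exact QuotientGroup.eq.mp h0.symm

/-- Commutators of acting automorphisms are trivial on invariant sections of order `≤ p`. -/
theorem comm_trivial {X : Type*} [Group X] (φ : X →* MulAut R) (hR : IsPGroup p R) (N : Subgroup R) (M : Subgroup R) [N.Normal]
    (hN : ∀ (x : X), ∀ r ∈ N, φ x r ∈ N) (hM : ∀ (x : X), ∀ r ∈ M, φ x r ∈ M)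
    (hcard : Nat.card (M.map (QuotientGroup.mk' N)) ≤ p) : ∀ c ∈ commutator X, ∀ r ∈ M, r⁻¹ * φ c r ∈ N := fun c hc =>
  sec_trivial φ N M hN hM c fun θ => by
    have hker : commutator X ≤ θ.ker := by
      rw [commutator_def, Subgroup.commutator_le]
      intro u _ v _
      rw [MonoidHom.mem_ker, map_commutatorElement, commutatorElement_eq_one_iff_mul_comm]
      exact aut_comm hcard ((hR.to_quotient N).to_subgroup _) _ _
    exact MonoidHom.mem_ker.mp (hker hc)

/-- A coprime automorphism stabilizing a two-step chain is trivial. -/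
theorem fix_of_chain (hR : IsPGroup p R) (a : MulAut R) (ha : (orderOf a).Coprime p) (r : R) (y : R) (hy : a r = r * y) (hfix : a y = y) :
    a r = r := by
  have h : ∀ m : ℕ, (a ^ m : MulAut R) r = r * y ^ m := by
    intro m
    induction m with
    | zero => simp
    | succ m ih => rw [pow_succ', MulAut.mul_apply, ih, map_mul, map_pow, hy, hfix, mul_assoc, ← pow_succ']
  have h1 := h (orderOf a)
  rw [pow_orderOf_eq_one] at h1
  have h2 : y ^ orderOf a = 1 := mul_eq_left.mp h1.symm
  obtain ⟨k, hk⟩ := hR y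
  have h3 := Nat.dvd_gcd (orderOf_dvd_of_pow_eq_one h2) (orderOf_dvd_of_pow_eq_one hk)
  rw [Nat.Coprime.pow_right k ha, Nat.dvd_one, orderOf_eq_one_iff] at h3
  rw [hy, h3, mul_one]

/-- A maximal elementary abelian subgroup contains the elements of order `p` centralizing it. -/
theorem mem_of_commute {E F : Subgroup R} (hFe : Cfsg.IsElementaryAbelian p F) (hEF : E ≤ F)
    (hFmax : ∀ ⦃B : Subgroup R⦄, B ∈ {F : Subgroup R | E ≤ F ∧ Cfsg.IsElementaryAbelian p F} → id F ≤ id B → id B ≤ id F)
    {x : R} (hx : x ^ p = 1) (hxF : ∀ u ∈ F, u * x = x * u) : x ∈ F := by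
  have hc : ∀ u ∈ F ⊔ Subgroup.zpowers x, ∀ v ∈ F ⊔ Subgroup.zpowers x, u * v = v * u := by
    have key : F ⊔ Subgroup.zpowers x ≤ Subgroup.centralizer ((F ⊔ Subgroup.zpowers x : Subgroup R) : Set R) := by
      refine sup_le (fun u hu => ?_) (Subgroup.zpowers_le.mpr ?_)
      · refine Subgroup.mem_centralizer_iff.mpr fun v hv => ?_
        have : F ⊔ Subgroup.zpowers x ≤ Subgroup.centralizer ({u} : Set R) :=
          sup_le (fun w hw => Subgroup.mem_centralizer_singleton_iff.mpr (congrArg Subtype.val (hFe.1.is_comm.comm ⟨w, hw⟩ ⟨u, hu⟩)))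
            (Subgroup.zpowers_le.mpr (Subgroup.mem_centralizer_singleton_iff.mpr (hxF u hu).symm))
        exact Subgroup.mem_centralizer_singleton_iff.mp (this hv)
      · refine Subgroup.mem_centralizer_iff.mpr fun v hv => ?_
        have : F ⊔ Subgroup.zpowers x ≤ Subgroup.centralizer ({x} : Set R) :=
          sup_le (fun w hw => Subgroup.mem_centralizer_singleton_iff.mpr (hxF w hw))
            (Subgroup.zpowers_le.mpr (Subgroup.mem_centralizer_singleton_iff.mpr rfl))
        exact Subgroup.mem_centralizer_singleton_iff.mp (this hv)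
    exact fun u hu v hv => Subgroup.mem_centralizer_iff.mp (key hv) u hu
  let B : Subgroup R :=
    { carrier := {v | v ^ p = 1 ∧ v ∈ F ⊔ Subgroup.zpowers x}
      one_mem' := ⟨one_pow p, one_mem _⟩
      mul_mem' := fun {a b} ha hb =>
        ⟨by rw [(show Commute a b from hc a ha.2 b hb.2).mul_pow, ha.1, hb.1, one_mul], mul_mem ha.2 hb.2⟩
      inv_mem' := fun {a} ha => ⟨by rw [inv_pow, ha.1, inv_one], inv_mem ha.2⟩ }
  have hFB : F ≤ B := fun u hu => ⟨hFe.2 u hu, Subgroup.mem_sup_left hu⟩
  exact hFmax ⟨hEF.trans hFB, ⟨⟨fun a b => Subtype.ext (hc a a.2.2 b b.2.2)⟩⟩, fun a ha => ha.1⟩ hFB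
    ⟨hx, Subgroup.mem_sup_right (Subgroup.mem_zpowers x)⟩

/-- A coprime automorphism trivial on the characteristic sections of order `≤ p` is trivial when some elementary
abelian subgroup has a centralizer of rank at most two and `R` itself has larger rank. -/
theorem eq_one_of_sections (hp : p ≠ 2) (hR : IsPGroup p R) (E : Subgroup R) (hEe : Cfsg.IsElementaryAbelian p E)
    (hC : Cfsg.PRankLE p 2 ↥(Subgroup.centralizer (E : Set R))) (hr : ¬ Cfsg.PRankLE p 2 R)
    (a : MulAut R) (haco : (orderOf a).Coprime p)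
    (hsec : ∀ (N M : Subgroup R) [N.Normal], N.Characteristic → M.Characteristic →
      Nat.card (M.map (QuotientGroup.mk' N)) ≤ p → ∀ r ∈ M, r⁻¹ * a r ∈ N) : a = 1 := by
  classical
  have hpp : p.Prime := Fact.out
  have hbound : ∀ A : Subgroup R, IsMulCommutative A → (∀ a ∈ A, a ^ p = 1) → A ≤ Subgroup.centralizer (E : Set R) → Nat.card A ≤ p ^ 2 := by
    intro A hA hAe hAC
    have h0 := hC (A.subgroupOf (Subgroup.centralizer (E : Set R))) inferInstance (fun a ha => Subtype.ext (by
      rw [SubgroupClass.coe_pow]; exact hAe _ ha))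
    rwa [Nat.card_congr (Subgroup.subgroupOfEquivOfLe hAC).toEquiv] at h0
  -- a maximal elementary abelian subgroup above `E`
  obtain ⟨F, ⟨hEF, hFe⟩, hFmax⟩ := Set.Finite.exists_maximalFor id {F : Subgroup R | E ≤ F ∧ Cfsg.IsElementaryAbelian p F} (Set.toFinite _) ⟨E, le_rfl, hEe⟩
  have hFE : F ≤ Subgroup.centralizer (E : Set R) := fun u hu => Subgroup.mem_centralizer_iff.mpr fun v hv =>
    congrArg Subtype.val (hFe.1.is_comm.comm (⟨v, hEF hv⟩ : F) ⟨u, hu⟩)
  have hF2 : Nat.card F = p ^ 2 := by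
    refine le_antisymm (hbound F hFe.1 hFe.2 hFE) ?_
    obtain ⟨k, hk⟩ := IsPGroup.iff_card.mp (hR.to_subgroup F)
    rw [hk]
    refine Nat.pow_le_pow_right hpp.pos ?_
    by_contra hk2
    -- otherwise the centralizer of `E` contains all central elements of order `p`, forcing rank two
    haveI : Nontrivial R := by
      by_contra hnt
      haveI := not_nontrivial_iff_subsingleton.mp hnt
      exact hr fun A _ _ => (Finite.card_le_one_iff_subsingleton.mpr inferInstance).trans (Nat.one_le_pow _ _ hpp.pos)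
    obtain ⟨j, hj0, hj⟩ := (hR.to_subgroup (Subgroup.center R)).nontrivial_iff_card.mp hR.center_nontrivial
    obtain ⟨z, hz⟩ := exists_prime_orderOf_dvd_card' p (hj ▸ dvd_pow_self p hj0.ne')
    have hzp : (z : R) ^ p = 1 := by rw [← SubgroupClass.coe_pow, ← hz, pow_orderOf_eq_one]; rfl
    have hzC : ∀ u : R, u * z = z * u := Subgroup.mem_center_iff.mp z.2
    have hzF : (z : R) ∈ F := mem_of_commute hFe hEF hFmax hzp fun u _ => hzC u
    have hFz : F = Subgroup.zpowers (z : R) := by
      refine (Subgroup.eq_of_le_of_card_ge (Subgroup.zpowers_le.mpr hzF) ?_).symm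
      rw [hk, Nat.card_zpowers, Subgroup.orderOf_coe, hz]
      exact (Nat.pow_le_pow_right hpp.pos (show k ≤ 1 by omega)).trans (pow_one p).le
    exact hr fun A hA hAe => hbound A hA hAe fun u _ => Subgroup.mem_centralizer_iff.mpr fun v hv => by
      obtain ⟨i, hi⟩ := Subgroup.mem_zpowers_iff.mp (hFz ▸ hEF hv)
      rw [← hi]; exact ((show Commute u (z : R) from hzC u).zpow_right i).symm.eq
  obtain ⟨hFT, hZ1, ⟨hW2e, hW2c⟩, hTc, hTi⟩ := Cfsg.Agent.S1453.result p hp hR hr F hFe hF2
    (fun B hB hFB => le_antisymm (hFmax ⟨hEF.trans hFB, hB⟩ hFB) hFB)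
  set T := Subgroup.centralizer ((Subgroup.closure {x : R | x ∈ Subgroup.upperCentralSeries R 2 ∧ x ^ p = 1} : Subgroup R) : Set R) with hT
  haveI := hTc
  set Z1 := Subgroup.closure {x : R | x ∈ Subgroup.center R ∧ x ^ p = 1} with hZ1def
  obtain ⟨e, he, heT⟩ := SetLike.not_le_iff_exists.mp hFT
  -- elements of order `p` of `T` centralizing `e`
  have hTF : ∀ x, x ∈ T → x ^ p = 1 → x * e = e * x → x ∈ Subgroup.center R := by
    intro x hxT hxp hxe
    -- `F = ⟨Z1, e⟩`
    have hZF : Z1 ≤ F := by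
      intro z hz
      obtain ⟨hzc, hzp⟩ : z ∈ Subgroup.center R ∧ z ^ p = 1 := by
        induction hz using Subgroup.closure_induction with
        | mem y hy => exact hy
        | one => exact ⟨one_mem _, one_pow p⟩
        | mul a b _ _ ha hb =>
          exact ⟨mul_mem ha.1 hb.1, by rw [(show Commute a b from Subgroup.mem_center_iff.mp hb.1 a).mul_pow, ha.2, hb.2, one_mul]⟩
        | inv a _ ha => exact ⟨inv_mem ha.1, by rw [inv_pow, ha.2, inv_one]⟩
      exact mem_of_commute hFe hEF hFmax hzp fun u _ => Subgroup.mem_center_iff.mp hzc u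
    have hZT : Z1 ≤ T := by
      rw [hZ1def, Subgroup.closure_le]
      intro z hz
      exact Subgroup.center_le_centralizer _ hz.1
    have heZ : e ∉ Z1 := fun h => heT (hZT h)
    have hgen : Z1 ⊔ Subgroup.zpowers e = F := by
      have hle : Z1 ⊔ Subgroup.zpowers e ≤ F := sup_le hZF (Subgroup.zpowers_le.mpr he)
      refine Subgroup.eq_of_le_of_card_ge hle ?_
      obtain ⟨k, hk2, hk⟩ := (Nat.dvd_prime_pow hpp).mp (hF2 ▸ Subgroup.card_dvd_of_le hle)
      rw [hF2, hk]
      refine Nat.pow_le_pow_right hpp.pos ?_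
      by_contra hk3
      have hle' : Nat.card ↥(Z1 ⊔ Subgroup.zpowers e) ≤ p :=
        hk ▸ (Nat.pow_le_pow_right hpp.pos (by omega : k ≤ 1)).trans (pow_one p).le
      exact heZ ((Subgroup.eq_of_le_of_card_ge le_sup_left (hZ1.symm ▸ hle')).symm ▸ Subgroup.mem_sup_right (Subgroup.mem_zpowers e))
    have hxF : x ∈ F := by
      refine mem_of_commute hFe hEF hFmax hxp fun u hu => ?_
      have hle : F ≤ Subgroup.centralizer ({x} : Set R) := by
        rw [← hgen]
        refine sup_le ?_ (Subgroup.zpowers_le.mpr (Subgroup.mem_centralizer_singleton_iff.mpr hxe.symm))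
        rw [hZ1def, Subgroup.closure_le]
        intro z hz
        exact Subgroup.mem_centralizer_singleton_iff.mpr (Subgroup.mem_center_iff.mp hz.1 x).symm
      exact Subgroup.mem_centralizer_singleton_iff.mp (hle hu)
    by_contra hxc
    have hxZ : x ∉ Z1 := fun h => hxc (by
      have : Z1 ≤ Subgroup.center R := by rw [hZ1def, Subgroup.closure_le]; exact fun z hz => hz.1
      exact this h)
    apply hFT
    have hle : Z1 ⊔ Subgroup.zpowers x ≤ F := sup_le hZF (Subgroup.zpowers_le.mpr hxF)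
    refine le_trans ?_ (sup_le hZT (Subgroup.zpowers_le.mpr hxT))
    obtain ⟨k, hk2, hk⟩ := (Nat.dvd_prime_pow hpp).mp (hF2 ▸ Subgroup.card_dvd_of_le hle)
    refine (Subgroup.eq_of_le_of_card_ge hle ?_).ge
    rw [hF2, hk]
    refine Nat.pow_le_pow_right hpp.pos ?_
    by_contra hk3
    have hle' : Nat.card ↥(Z1 ⊔ Subgroup.zpowers x) ≤ p :=
      hk ▸ (Nat.pow_le_pow_right hpp.pos (by omega : k ≤ 1)).trans (pow_one p).le
    exact hxZ ((Subgroup.eq_of_le_of_card_ge le_sup_left (hZ1.symm ▸ hle')).symm ▸ Subgroup.mem_sup_right (Subgroup.mem_zpowers x))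
  -- a characteristic subgroup of exponent `p`
  obtain ⟨H, hHc, h1, h2, h3⟩ := Cfsg.Agent.S0093.result hR
  haveI := hHc
  have hHp : IsPGroup p H := hR.to_subgroup H
  have hcl : ⁅commutator H, (⊤ : Subgroup H)⁆ = ⊥ := by
    rw [Subgroup.commutator_eq_bot_iff_le_centralizer, commutator_def, Subgroup.commutator_le]
    intro u _ v _
    refine Subgroup.mem_centralizer_iff.mpr fun w _ => Subtype.ext ?_
    exact Subgroup.mem_centralizer_iff.mp (h2 (Subgroup.commutator_mem_commutator u.2 (Subgroup.mem_top (v : R)))).2 w w.2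
  set K := (Subgroup.closure {x : H | x ^ p = 1}).map H.subtype with hK
  have hKmem : ∀ x : R, x ∈ K ↔ x ∈ H ∧ x ^ p = 1 := by
    intro x
    constructor
    · rintro ⟨u, hu, rfl⟩
      exact ⟨u.2, congrArg Subtype.val (Cfsg.Agent.S0096.result hp hHp hcl u hu)⟩
    · rintro ⟨hx, hxp⟩
      exact ⟨⟨x, hx⟩, Subgroup.subset_closure (Subtype.ext hxp), rfl⟩
  haveI hKc : K.Characteristic := by
    rw [Subgroup.characteristic_iff_map_le]
    rintro ψ _ ⟨x, hx, rfl⟩
    obtain ⟨hxH, hxp⟩ := (hKmem x).mp hx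
    exact (hKmem _).mpr ⟨Subgroup.characteristic_iff_map_le.mp hHc ψ ⟨x, hxH, rfl⟩,
      (map_pow ψ x p).symm.trans ((congrArg ψ hxp).trans (map_one ψ))⟩
  set K' := K ⊓ T with hK'
  -- the series
  let L : ℕ → Subgroup R := fun i => K' ⊓ Subgroup.upperCentralSeries R i
  have hLc : ∀ i, (L i).Characteristic := fun i => inferInstance
  have hLfix : ∀ i, ∀ r ∈ L i, a r = r := by
    intro i
    induction i with
    | zero =>
      intro r hr'
      have : r = 1 := by simpa [L, Subgroup.upperCentralSeries_zero] using hr'.2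
      rw [this, map_one]
    | succ i ih =>
      haveI := hLc i
      have hcard : Nat.card ((L (i + 1)).map (QuotientGroup.mk' (L i))) ≤ p := by
        have hcomm : ∀ k ∈ L (i + 1), k * e * k⁻¹ * e⁻¹ ∈ L i := by
          intro k hk
          refine ⟨?_, Subgroup.mem_upperCentralSeries_succ_iff.mp hk.2 e⟩
          have hn : K'.Normal := inferInstance
          rw [show k * e * k⁻¹ * e⁻¹ = k * (e * k⁻¹ * e⁻¹) by group]
          exact mul_mem hk.1 (hn.conj_mem _ (inv_mem hk.1) e)
        have h4 : ((Subgroup.centralizer ({e} : Set R)).subgroupOf (L (i + 1))).index ≤ Nat.card (L i) := by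
          refine Nat.card_le_card_of_injective (Quotient.lift (fun k : L (i + 1) => (⟨(k : R) * e * (k : R)⁻¹ * e⁻¹, hcomm k k.2⟩ : L i)) ?_) ?_
          · intro u v huv
            have h := Subgroup.mem_centralizer_singleton_iff.mp (show u⁻¹ * v ∈ (Subgroup.centralizer ({e} : Set R)).subgroupOf (L (i + 1)) from QuotientGroup.leftRel_apply.mp huv)
            simp only [Subgroup.coe_subtype, Subgroup.coe_mul, Subgroup.coe_inv] at h
            refine Subtype.ext ?_
            show (u : R) * e * (u : R)⁻¹ * e⁻¹ = (v : R) * e * (v : R)⁻¹ * e⁻¹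
            calc (u : R) * e * (u : R)⁻¹ * e⁻¹ = u * (e * ((u : R)⁻¹ * v)) * (v : R)⁻¹ * e⁻¹ := by group
              _ = u * ((u : R)⁻¹ * v * e) * (v : R)⁻¹ * e⁻¹ := by rw [h]
              _ = (v : R) * e * (v : R)⁻¹ * e⁻¹ := by group
          · rintro ⟨u⟩ ⟨v⟩ huv
            have h6 : (u : R) * e * (u : R)⁻¹ = (v : R) * e * (v : R)⁻¹ := mul_right_cancel (congrArg Subtype.val huv :)
            refine Quotient.sound (QuotientGroup.leftRel_apply.mpr (Subgroup.mem_centralizer_singleton_iff.mpr ?_))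
            simp only [Subgroup.coe_subtype, Subgroup.coe_mul, Subgroup.coe_inv]
            calc (u : R)⁻¹ * v * e = (u : R)⁻¹ * ((v : R) * e * (v : R)⁻¹) * v := by group
              _ = (u : R)⁻¹ * ((u : R) * e * (u : R)⁻¹) * v := by rw [h6]
              _ = e * ((u : R)⁻¹ * v) := by group
        have h5 : Nat.card ((Subgroup.centralizer ({e} : Set R)).subgroupOf (L (i + 1))) ≤ p := by
          rw [← hZ1]
          refine Nat.card_le_card_of_injective (fun k => (⟨((k : L (i + 1)) : R), ?_⟩ : Z1)) ?_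
          · exact Subgroup.subset_closure ⟨hTF _ (k : L (i + 1)).2.1.2 ((hKmem _).mp (k : L (i + 1)).2.1.1).2
              (Subgroup.mem_centralizer_singleton_iff.mp k.2), ((hKmem _).mp (k : L (i + 1)).2.1.1).2⟩
          · intro u v huv
            exact Subtype.ext (Subtype.ext (congrArg Subtype.val huv :))
        have h7 := ((Subgroup.centralizer ({e} : Set R)).subgroupOf (L (i + 1))).card_mul_index
        have hle : L i ≤ L (i + 1) := inf_le_inf le_rfl (Subgroup.upperCentralSeries_mono R (Nat.le_succ i))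
        have h8 : Nat.card ((L (i + 1)).map (QuotientGroup.mk' (L i))) * Nat.card (L i) = Nat.card (L (i + 1)) := by
          rw [← Subgroup.relIndex_ker, QuotientGroup.ker_mk']
          have := Subgroup.relIndex_mul_relIndex ⊥ (L i) (L (i + 1)) bot_le hle
          rw [Subgroup.relIndex_bot_left, Subgroup.relIndex_bot_left] at this
          rw [mul_comm]; exact this
        have h9 : Nat.card (L (i + 1)) ≤ p * Nat.card (L i) := by
          rw [← h7]; exact Nat.mul_le_mul h5 h4
        rw [← h8] at h9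
        exact Nat.le_of_mul_le_mul_right h9 Nat.card_pos
      intro r hr'
      have h0 := hsec (L i) (L (i + 1)) (hLc i) (hLc (i + 1)) hcard r hr'
      exact fix_of_chain hR a haco r _ (mul_inv_cancel_left r (a r)).symm (ih _ h0)
  have hK'fix : ∀ r ∈ K', a r = r := by
    intro r hr'
    haveI := hR.isNilpotent
    obtain ⟨m, hm⟩ := (inferInstance : Group.IsNilpotent R).nilpotent'
    exact hLfix m r ⟨hr', hm ▸ Subgroup.mem_top r⟩
  have hKfix : ∀ r ∈ K, a r = r := by
    intro r hr'
    have hcard : Nat.card ((⊤ : Subgroup R).map (QuotientGroup.mk' T)) ≤ p := by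
      rw [Subgroup.map_top_of_surjective _ (QuotientGroup.mk'_surjective T), Subgroup.card_top]
      exact hTi.le
    have h0 := hsec T ⊤ hTc inferInstance hcard r (Subgroup.mem_top r)
    have hK0 : r⁻¹ * a r ∈ K := mul_mem (inv_mem hr') (Subgroup.characteristic_iff_map_le.mp hKc a ⟨r, hr', rfl⟩)
    exact fix_of_chain hR a haco r _ (mul_inv_cancel_left r (a r)).symm (hK'fix _ ⟨hK0, h0⟩)
  refine Cfsg.Agent.S0121.result hR H hHc h1 h2 h3 a haco fun x hx => ?_
  have hmapH : H.map a.toMonoidHom = H := Subgroup.characteristic_iff_map_eq.mp hHc a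
  let aH : MulAut H := (a.subgroupMap H).trans (MulEquiv.subgroupCongr hmapH)
  have hpow : ∀ (m : ℕ) (y : H), ((((aH ^ m : MulAut H)) y : H) : R) = (a ^ m : MulAut R) y := by
    intro m
    induction m with
    | zero => intro y; rfl
    | succ m ih => intro y; rw [pow_succ', pow_succ', MulAut.mul_apply, MulAut.mul_apply, ← ih]; rfl
  have hco : (orderOf aH).Coprime p := haco.coprime_dvd_left (orderOf_dvd_of_pow_eq_one
    (MulEquiv.ext fun y => Subtype.ext (by rw [hpow, pow_orderOf_eq_one]; rfl)))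
  have h0 := Cfsg.Agent.S0120.result hp hHp aH hco fun y hy => Subtype.ext (hKfix (y : R) ((hKmem _).mpr ⟨y.2, congrArg Subtype.val hy⟩))
  exact congrArg (fun f : MulAut H => ((f ⟨x, hx⟩ : H) : R)) h0

/-- An automorphism to the power `p - 1` is trivial on groups of order `≤ p`. -/
theorem aut_pow_pred {Q : Type*} [Group Q] [Finite Q] (hq : Nat.card Q ≤ p) (hQ : IsPGroup p Q) (a : MulAut Q) :
    a ^ (p - 1) = 1 := by
  obtain ⟨n, hn⟩ := IsPGroup.iff_card.mp hQ
  rcases (show n = 0 ∨ n = 1 by
    by_contra h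
    have h2 : p ^ 2 ≤ p ^ n := Nat.pow_le_pow_right (Fact.out : p.Prime).pos (by omega)
    have := (Fact.out : p.Prime).two_le
    nlinarith) with rfl | rfl
  · haveI : Subsingleton Q := (Nat.card_eq_one_iff_unique.mp (by rw [hn, pow_zero])).1
    exact MulEquiv.ext fun x => Subsingleton.elim _ _
  · haveI : IsCyclic Q := isCyclic_of_prime_card (p := p) (by rw [hn, pow_one])
    have h := IsCyclic.card_mulAut (G := Q)
    rw [hn, pow_one, Nat.totient_prime (Fact.out : p.Prime)] at h
    rw [← h]; exact pow_card_eq_one'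

/-- An automorphism of order prime to `p` has order dividing `p - 1` when some elementary abelian subgroup has
a centralizer of rank at most two and `R` itself has larger rank. -/
theorem orderOf_dvd_pred (hp : p ≠ 2) (hR : IsPGroup p R) (E : Subgroup R) (hEe : Cfsg.IsElementaryAbelian p E)
    (hC : Cfsg.PRankLE p 2 ↥(Subgroup.centralizer (E : Set R))) (hr : ¬ Cfsg.PRankLE p 2 R)
    (a : MulAut R) (ha : (orderOf a).Coprime p) : orderOf a ∣ p - 1 := by
  refine orderOf_dvd_of_pow_eq_one (eq_one_of_sections hp hR E hEe hC hr _ (ha.coprime_dvd_left (orderOf_pow_dvd _)) ?_)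
  intro N M _ hN hM hcard r hr'
  exact sec_trivial (MonoidHom.id (MulAut R)) N M
    (fun x r hr => Subgroup.characteristic_iff_map_le.mp hN x ⟨r, hr, rfl⟩)
    (fun x r hr => Subgroup.characteristic_iff_map_le.mp hM x ⟨r, hr, rfl⟩) (a ^ (p - 1))
    (fun θ => by rw [map_pow]; exact aut_pow_pred hcard ((hR.to_quotient N).to_subgroup _) _) r hr'

/-- Commutators of an odd solvable group acting on `R` act as `p`-elements when some elementary abelian
subgroup has a centralizer of rank at most two. -/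
theorem comm_pElement {X : Type*} [Group X] [Finite X] [Group.IsSolvable X] (hXodd : Odd (Nat.card X)) (hp : p ≠ 2)
    (hR : IsPGroup p R) (E : Subgroup R) (hEe : Cfsg.IsElementaryAbelian p E)
    (hC : Cfsg.PRankLE p 2 ↥(Subgroup.centralizer (E : Set R))) (φ : X →* MulAut R) :
    ∀ c ∈ commutator X, ∃ n : ℕ, φ (c ^ (p ^ n)) = 1 := by
  classical
  by_cases hr : Cfsg.PRankLE p 2 R
  · exact Cfsg.Agent.S1450.comm_pElement hXodd hp hR hr φ
  have hpp : p.Prime := Fact.out
  intro c hc
  obtain ⟨n, d, hd, hnd⟩ := Nat.exists_eq_pow_mul_and_not_dvd (orderOf_pos (φ c)).ne' p hpp.ne_one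
  refine ⟨n, ?_⟩
  rw [map_pow]
  have haco : (orderOf (φ c ^ p ^ n)).Coprime p := by
    refine ((hpp.coprime_iff_not_dvd.mpr hd).symm).coprime_dvd_left (orderOf_dvd_of_pow_eq_one ?_)
    rw [← pow_mul, ← hnd, pow_orderOf_eq_one]
  refine eq_one_of_sections hp hR E hEe hC hr _ haco ?_
  intro N M _ hN hM hcard r hr'
  rw [← map_pow]
  exact comm_trivial φ hR N M (fun x r hr => Subgroup.characteristic_iff_map_le.mp hN (φ x) ⟨r, hr, rfl⟩)
    (fun x r hr => Subgroup.characteristic_iff_map_le.mp hM (φ x) ⟨r, hr, rfl⟩) hcard _ (pow_mem hc _) r hr'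

end CfsgLib.NarrowAut
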