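import Mathlib

/-! Odd-order solvable subgroups of GL₂(p) have derived subgroup of exponent dividing p (owner lead). -/

set_option autoImplicit false
set_option linter.all false

open scoped commutatorElement

namespace CfsgLib.OddGL2

open Matrix

variable {p : ℕ} [Fact p.Prime]

local notation "M2" p => Matrix (Fin 2) (Fin 2) (ZMod p)

theorem two_ne (hp : p ≠ 2) : (2 : ZMod p) ≠ 0 := fun e => hp
  ((Nat.prime_dvd_prime_iff_eq Fact.out Nat.prime_two).mp ((ZMod.natCast_eq_zero_iff 2 p).mp (by exact_mod_cast e)))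

theorem cayley (M : M2 p) : M * M = M.trace • M - M.det • 1 := by
  ext i j
  fin_cases i <;> fin_cases j <;>
    simp [Matrix.mul_apply, Fin.sum_univ_two, Matrix.trace_fin_two, Matrix.det_fin_two] <;> ring

theorem sq_zero {X : M2 p} (hX : X * X = 0) : X.trace = 0 ∧ X.det = 0 := by
  have hd : X.det = 0 := by
    have := congrArg Matrix.det hX; rw [Matrix.det_mul, Matrix.det_zero] at this
    exact mul_self_eq_zero.mp this
  refine ⟨?_, hd⟩
  have h1 := cayley X
  rw [hX, hd, zero_smul, sub_zero] at h1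
  rcases smul_eq_zero.mp h1.symm with e | e
  · exact e
  · simp [e]

theorem det_one_add (c : ZMod p) {X : M2 p} (hX : X * X = 0) : (1 + c • X).det = 1 := by
  obtain ⟨h1, h3⟩ := sq_zero hX
  rw [Matrix.trace_fin_two] at h1
  rw [Matrix.det_fin_two] at h3
  simp only [Matrix.det_fin_two, Matrix.add_apply, Matrix.smul_apply, smul_eq_mul, Matrix.one_apply_eq,
    Matrix.one_apply_ne (zero_ne_one : (0 : Fin 2) ≠ 1), Matrix.one_apply_ne (one_ne_zero : (1 : Fin 2) ≠ 0)]
  linear_combination c * h1 + c ^ 2 * h3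

theorem anticomm {N N' : M2 p} (hN : N * N = 0) (hN' : N' * N' = 0) (htr : (N * N').trace = 0) :
    N * N' + N' * N = 0 := by
  have a1 := (sq_zero hN).1
  have b1 := (sq_zero hN').1
  rw [Matrix.trace_fin_two] at a1 b1
  simp only [Matrix.trace_fin_two, Matrix.mul_apply, Fin.sum_univ_two] at htr
  have a2 : N 1 1 = -N 0 0 := by linear_combination a1
  have b2 : N' 1 1 = -N' 0 0 := by linear_combination b1
  rw [a2, b2] at htr
  ext i j
  fin_cases i <;> fin_cases j <;> simp [Matrix.add_apply, Matrix.mul_apply, Fin.sum_univ_two, a2, b2] <;>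
    first | linear_combination htr | ring

theorem kernel_line {N : M2 p} (hN : N ≠ 0) {v u : Fin 2 → ZMod p} (hv : v ≠ 0) (hNv : N *ᵥ v = 0)
    (hu : N *ᵥ u = 0) : ∃ l : ZMod p, u = l • v := by
  by_contra hcon
  push Not at hcon
  have hind : LinearIndependent (ZMod p) ![v, u] := (LinearIndependent.pair_iff' hv).mpr fun a e => hcon a e.symm
  let B := basisOfLinearIndependentOfCardEqFinrank hind (by simp)
  have h0 : Matrix.mulVecLin N = 0 := by
    refine B.ext fun i => ?_
    rw [coe_basisOfLinearIndependentOfCardEqFinrank]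
    fin_cases i
    · exact hNv
    · exact hu
  exact hN (Matrix.ext_of_mulVec_single fun i => by
    rw [Matrix.zero_mulVec]
    exact LinearMap.congr_fun h0 (Pi.single i 1))

theorem conj_sq {N : M2 p} (hNN : N * N = 0) (h : GL (Fin 2) (ZMod p)) :
    ((h : M2 p) * N * (↑h⁻¹ : M2 p)) * ((h : M2 p) * N * (↑h⁻¹ : M2 p)) = 0 := by
  have hi' : (↑h⁻¹ : M2 p) * (h : M2 p) = 1 := Units.inv_mul h
  calc ((h : M2 p) * N * (↑h⁻¹ : M2 p)) * ((h : M2 p) * N * (↑h⁻¹ : M2 p))
      = (h : M2 p) * (N * (((↑h⁻¹ : M2 p) * (h : M2 p)) * N)) * (↑h⁻¹ : M2 p) := by simp only [Matrix.mul_assoc]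
    _ = 0 := by rw [hi', Matrix.one_mul, hNN]; simp

variable (H : Subgroup (GL (Fin 2) (ZMod p)))

/-- A common invariant line. -/
def HasLine : Prop := ∃ v : Fin 2 → ZMod p, v ≠ 0 ∧ ∀ h ∈ H, ∃ l : ZMod p, (h : M2 p) *ᵥ v = l • v

theorem line_of_nilpotent {N : M2 p} (hN : N ≠ 0) (hNN : N * N = 0)
    (hconj : ∀ h ∈ H, N * ((h : M2 p) * N * (↑h⁻¹ : M2 p)) + ((h : M2 p) * N * (↑h⁻¹ : M2 p)) * N = 0) :
    HasLine H := by
  obtain ⟨w, hw⟩ : ∃ w, N *ᵥ w ≠ 0 := by
    by_contra hcon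
    push Not at hcon
    exact hN (Matrix.ext_of_mulVec_single fun i => by rw [hcon, Matrix.zero_mulVec])
  set v := N *ᵥ w with hv
  have hNv : N *ᵥ v = 0 := by rw [hv, Matrix.mulVec_mulVec, hNN, Matrix.zero_mulVec]
  refine ⟨v, hw, fun h hh => ?_⟩
  have hi : (h : M2 p) * (↑h⁻¹ : M2 p) = 1 := Units.mul_inv h
  have hi' : (↑h⁻¹ : M2 p) * (h : M2 p) = 1 := Units.inv_mul h
  have h3 := conj_sq hNN h
  have h0 := hconj h hh
  set N' := (h : M2 p) * N * (↑h⁻¹ : M2 p) with hN'
  have h1 : N *ᵥ (N' *ᵥ v) = 0 := by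
    have h0' := congrArg (fun X : M2 p => X *ᵥ v) h0
    simp only [Matrix.add_mulVec, Matrix.zero_mulVec, ← Matrix.mulVec_mulVec, hNv, Matrix.mulVec_zero, add_zero] at h0'
    exact h0'
  obtain ⟨μ, hμ⟩ := kernel_line hN hw hNv h1
  have hμ0 : μ = 0 := by
    have h4 := congrArg (fun X : M2 p => X *ᵥ v) h3
    simp only [Matrix.zero_mulVec, ← Matrix.mulVec_mulVec, hμ, Matrix.mulVec_smul, smul_smul] at h4
    rcases smul_eq_zero.mp h4 with e | e
    · exact mul_self_eq_zero.mp e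
    · exact absurd e hw
  rw [hμ0, zero_smul] at hμ
  obtain ⟨l, hl⟩ : ∃ l : ZMod p, (↑h⁻¹ : M2 p) *ᵥ v = l • v := by
    refine kernel_line hN hw hNv ?_
    have h5 : N * (↑h⁻¹ : M2 p) = (↑h⁻¹ : M2 p) * N' := by
      rw [hN', ← Matrix.mul_assoc, ← Matrix.mul_assoc, hi', Matrix.one_mul]
    rw [Matrix.mulVec_mulVec, h5, ← Matrix.mulVec_mulVec, hμ, Matrix.mulVec_zero]
  refine ⟨l⁻¹, ?_⟩
  have h5 : v = l • ((h : M2 p) *ᵥ v) := by
    rw [← Matrix.mulVec_smul, ← hl, Matrix.mulVec_mulVec, hi, Matrix.one_mulVec]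
  have hl0 : l ≠ 0 := by
    rintro rfl
    rw [zero_smul] at h5; exact hw h5
  conv_rhs => rw [h5]
  rw [smul_smul, inv_mul_cancel₀ hl0, one_smul]

theorem no_sq (hodd : Odd (Nat.card H)) {g : GL (Fin 2) (ZMod p)} (hg : g ∈ H) (hgg : g * g = 1) : g = 1 := by
  have h1 : orderOf g ∣ 2 := orderOf_dvd_of_pow_eq_one (by rw [pow_two, hgg])
  have h3 : orderOf g ∣ Nat.card H := by
    have := orderOf_dvd_natCard (⟨g, hg⟩ : H); rwa [Subgroup.orderOf_mk] at this
  have := Nat.dvd_gcd h1 h3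
  rw [Nat.coprime_two_left.mpr hodd] at this
  exact orderOf_eq_one_iff.mp (Nat.dvd_one.mp this)

theorem line_of_unipotent (hp : p ≠ 2) (hodd : Odd (Nat.card H)) {u : GL (Fin 2) (ZMod p)} (hu : u ∈ H)
    (hu1 : u ≠ 1) (hup : u ^ p = 1) : HasLine H := by
  have hpp : p.Prime := Fact.out
  set N := (u : M2 p) - 1 with hN
  have hNp : N ^ p = 0 := by
    rw [hN, sub_pow_char_of_commute (p := p) (Commute.one_right (u : M2 p)), one_pow, ← Units.val_pow_eq_pow_val, hup, Units.val_one, sub_self]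
  have hNN : N * N = 0 := by
    have hd : N.det = 0 := by
      have := congrArg Matrix.det hNp
      rw [Matrix.det_pow, Matrix.det_zero] at this
      exact (pow_eq_zero_iff hpp.ne_zero).mp this
    have h1 : N * N = N.trace • N := by rw [cayley N, hd, zero_smul, sub_zero]
    have h3 : ∀ k : ℕ, N ^ (k + 1) = N.trace ^ k • N := by
      intro k
      induction k with
      | zero => simp
      | succ k ih => rw [pow_succ, ih, Matrix.smul_mul, h1, smul_smul, pow_succ]
    have h4 := h3 (p - 1)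
    rw [Nat.sub_add_cancel hpp.pos, hNp] at h4
    rcases smul_eq_zero.mp h4.symm with e | e
    · rw [h1, (pow_eq_zero_iff (by have := hpp.two_le; omega)).mp e, zero_smul]
    · rw [e, Matrix.mul_zero]
  have hu' : (u : M2 p) = 1 + N := by rw [hN]; abel
  refine line_of_nilpotent H (fun e => hu1 (Units.ext (by rw [Units.val_one, hu', e, add_zero]))) hNN fun h hh => ?_
  have hN'N := conj_sq hNN h
  set N' := (h : M2 p) * N * (↑h⁻¹ : M2 p) with hN'
  refine anticomm hNN hN'N ?_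
  by_contra ht
  obtain ⟨k, hk⟩ : ∃ k : ℕ, (k : ZMod p) = -2 * ((N * N').trace)⁻¹ := ⟨_, ZMod.natCast_zmod_val _⟩
  have hpow : ∀ n : ℕ, ((u ^ n : GL (Fin 2) (ZMod p)) : M2 p) = 1 + (n : ZMod p) • N := by
    intro n
    induction n with
    | zero => simp
    | succ n ih =>
      rw [pow_succ, Units.val_mul, ih, hu', Matrix.add_mul, Matrix.one_mul, Matrix.smul_mul, Matrix.mul_add,
        Matrix.mul_one, hNN, add_zero]
      push_cast
      rw [add_smul, one_smul]; abel
  have hconjv : ((h * u * h⁻¹ : GL (Fin 2) (ZMod p)) : M2 p) = 1 + N' := by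
    rw [Units.val_mul, Units.val_mul, hu', Matrix.mul_add, Matrix.mul_one, Matrix.add_mul, Units.mul_inv]
  set g := u ^ k * (h * u * h⁻¹) with hg
  have hgH : g ∈ H := mul_mem (pow_mem hu k) (mul_mem (mul_mem hh hu) (inv_mem hh))
  have hgv : (g : M2 p) = (1 + (k : ZMod p) • N) * (1 + N') := by rw [hg, Units.val_mul, hpow, hconjv]
  have htg : (g : M2 p).trace = 0 := by
    rw [hgv, Matrix.add_mul, Matrix.one_mul, Matrix.smul_mul, Matrix.mul_add, Matrix.mul_one, smul_add]
    simp only [Matrix.trace_add, Matrix.trace_smul, Matrix.trace_one, (sq_zero hNN).1, (sq_zero hN'N).1, smul_eq_mul,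
      mul_zero, add_zero, zero_add, Fintype.card_fin, hk]
    rw [mul_assoc, inv_mul_cancel₀ ht]
    push_cast; ring
  have hdg : (g : M2 p).det = 1 := by
    rw [hgv, Matrix.det_mul, det_one_add _ hNN, ← one_smul (ZMod p) N', det_one_add _ hN'N, one_mul]
  have hg2 : (g : M2 p) * g = -1 := by rw [cayley, htg, hdg]; simp
  have hgg : g * g = 1 := no_sq H hodd (mul_mem hgH hgH) (Units.ext (by
    rw [Units.val_mul, Units.val_mul, hg2, neg_mul_neg, Matrix.one_mul, Units.val_one]))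
  have h6 := congrFun (congrFun (hg2.symm.trans ((congrArg Units.val hgg : ((g * g : GL (Fin 2) (ZMod p)) : M2 p) = _))) 0) 0
  simp only [Units.val_one, Matrix.neg_apply, Matrix.one_apply_eq] at h6
  exact two_ne hp (by linear_combination -h6)

theorem commutant {B : M2 p} (hB : ∀ l : ZMod p, B ≠ l • 1) {X : M2 p} (hX : X * B = B * X) :
    ∃ x y : ZMod p, X = x • 1 + y • B := by
  have e00 := congrFun (congrFun hX 0) 0
  have e01 := congrFun (congrFun hX 0) 1
  have e10 := congrFun (congrFun hX 1) 0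
  simp only [Matrix.mul_apply, Fin.sum_univ_two] at e00 e01 e10
  have ext2 : ∀ x y : ZMod p, X 0 0 = x + y * B 0 0 → X 0 1 = y * B 0 1 → X 1 0 = y * B 1 0 → X 1 1 = x + y * B 1 1 →
      X = x • 1 + y • B := by
    intro x y a b c d
    ext i j; fin_cases i <;> fin_cases j <;> simp [a, b, c, d]
  by_cases hb01 : B 0 1 = 0
  · by_cases hb10 : B 1 0 = 0
    · have hd : B 0 0 ≠ B 1 1 := fun e => hB (B 0 0) (by
        ext i j; fin_cases i <;> fin_cases j <;> simp [hb01, hb10, e])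
      have hne : B 0 0 - B 1 1 ≠ 0 := sub_ne_zero.mpr hd
      rw [hb01] at e01; rw [hb10] at e10
      have x01 : X 0 1 = 0 :=
        (mul_eq_zero.mp (show X 0 1 * (B 1 1 - B 0 0) = 0 by linear_combination e01)).resolve_right (sub_ne_zero.mpr (Ne.symm hd))
      have x10 : X 1 0 = 0 :=
        (mul_eq_zero.mp (show X 1 0 * (B 0 0 - B 1 1) = 0 by linear_combination e10)).resolve_right hne
      refine ⟨X 0 0 - (X 0 0 - X 1 1) / (B 0 0 - B 1 1) * B 0 0, (X 0 0 - X 1 1) / (B 0 0 - B 1 1), ext2 _ _ ?_ ?_ ?_ ?_⟩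
      · ring
      · rw [x01, hb01, mul_zero]
      · rw [x10, hb10, mul_zero]
      · field_simp; ring
    · rw [hb01] at e00
      have x01 : X 0 1 = 0 := (mul_eq_zero.mp (show X 0 1 * B 1 0 = 0 by linear_combination e00)).resolve_right hb10
      refine ⟨X 0 0 - X 1 0 / B 1 0 * B 0 0, X 1 0 / B 1 0, ext2 _ _ ?_ ?_ ?_ ?_⟩
      · ring
      · rw [x01, hb01, mul_zero]
      · rw [div_mul_cancel₀ _ hb10]
      · field_simp; first | linear_combination e10 | linear_combination -e10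
  · refine ⟨X 0 0 - X 0 1 / B 0 1 * B 0 0, X 0 1 / B 0 1, ext2 _ _ ?_ ?_ ?_ ?_⟩
    · ring
    · rw [div_mul_cancel₀ _ hb01]
    · field_simp; first | linear_combination e00 | linear_combination -e00
    · field_simp; first | linear_combination e01 | linear_combination -e01

theorem exists_abelian_normal [Group.IsSolvable H] (hodd : Odd (Nat.card H))
    (hab : ¬ ∀ a ∈ H, ∀ b ∈ H, a * b = b * a) :
    ∃ A : Subgroup (GL (Fin 2) (ZMod p)), A ≤ H ∧ (∀ h ∈ H, ∀ a ∈ A, h * a * h⁻¹ ∈ A) ∧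
      (∀ a ∈ A, ∀ a' ∈ A, a * a' = a' * a) ∧ ∃ b ∈ A, ∀ l : ZMod p, (b : M2 p) ≠ l • 1 := by
  classical
  let Z : Subgroup ↥H := Subgroup.center ↥H
  by_cases hsc : ∃ z ∈ Z, ∀ l : ZMod p, ((z : GL (Fin 2) (ZMod p)) : M2 p) ≠ l • 1
  · obtain ⟨z, hz, hzl⟩ := hsc
    refine ⟨Z.map H.subtype, Subgroup.map_subtype_le _, ?_, ?_, z, ⟨z, hz, rfl⟩, hzl⟩
    · rintro h hh _ ⟨a, ha, rfl⟩
      refine ⟨a, ha, ?_⟩
      have h0 : h * (a : GL (Fin 2) (ZMod p)) = a * h := congrArg Subtype.val (Subgroup.mem_center_iff.mp ha ⟨h, hh⟩)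
      show (a : GL (Fin 2) (ZMod p)) = h * a * h⁻¹
      rw [h0, mul_inv_cancel_right]
    · rintro _ ⟨a, ha, rfl⟩ _ ⟨a', ha', rfl⟩
      exact congrArg Subtype.val (Subgroup.mem_center_iff.mp ha' a)
  push Not at hsc
  haveI : Nontrivial (↥H ⧸ Z) := by
    refine QuotientGroup.nontrivial_iff.mpr fun e => hab fun a ha c hc => ?_
    exact congrArg Subtype.val (Subgroup.mem_center_iff.mp (e.symm ▸ Subgroup.mem_top (⟨c, hc⟩ : ↥H) : (⟨c, hc⟩ : ↥H) ∈ Z) ⟨a, ha⟩)
  obtain ⟨D, hD, hDn, hDc⟩ : ∃ D : Subgroup (↥H ⧸ Z), D ≠ ⊥ ∧ D.Normal ∧ IsMulCommutative D := by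
    have hex : ∃ d, derivedSeries (↥H ⧸ Z) d = ⊥ := Group.IsSolvable.solvable
    obtain ⟨hd, hmin⟩ := Nat.find_spec hex, fun {d} => Nat.find_min hex (m := d)
    rcases Nat.eq_zero_or_pos (Nat.find hex) with h0 | h0
    · rw [h0, derivedSeries_zero] at hd
      exact absurd hd top_ne_bot
    · obtain ⟨d, hd'⟩ := Nat.exists_eq_succ_of_ne_zero h0.ne'
      rw [hd', derivedSeries_succ] at hd
      refine ⟨derivedSeries _ d, hmin (by omega), derivedSeries_normal _ d, ⟨⟨fun a c => Subtype.ext ?_⟩⟩⟩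
      exact (Subgroup.mem_centralizer_iff.mp (Subgroup.commutator_eq_bot_iff_le_centralizer.mp hd a.2) c c.2).symm
  let A' := D.comap (QuotientGroup.mk' Z)
  refine ⟨A'.map H.subtype, Subgroup.map_subtype_le _, ?_, ?_, ?_⟩
  · rintro h hh _ ⟨a, ha, rfl⟩
    exact ⟨(⟨h, hh⟩ : ↥H) * a * (⟨h, hh⟩ : ↥H)⁻¹, (hDn.comap (QuotientGroup.mk' Z)).conj_mem a ha (⟨h, hh⟩ : ↥H), rfl⟩
  · rintro _ ⟨a, ha, rfl⟩ _ ⟨a', ha', rfl⟩
    have hz : a * a' * a⁻¹ * a'⁻¹ ∈ Z := by
      rw [← QuotientGroup.eq_one_iff]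
      simp only [QuotientGroup.mk_mul, QuotientGroup.mk_inv]
      rw [show (a : ↥H ⧸ Z) * a' = a' * a from congrArg Subtype.val (hDc.is_comm.comm (⟨_, ha⟩ : D) ⟨_, ha'⟩)]
      group
    obtain ⟨l, hl⟩ := hsc _ hz
    have hd := congrArg Matrix.det hl
    rw [Matrix.det_smul, Matrix.det_one, mul_one, Fintype.card_fin] at hd
    have hl2 : l ^ 2 = 1 := by
      rw [← hd]
      simp only [Subgroup.coe_mul, Subgroup.coe_inv, Units.val_mul, Matrix.det_mul]
      have e1 := congrArg Matrix.det (Units.mul_inv (a : GL (Fin 2) (ZMod p)))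
      have e2 := congrArg Matrix.det (Units.mul_inv (a' : GL (Fin 2) (ZMod p)))
      rw [Matrix.det_mul, Matrix.det_one] at e1 e2
      linear_combination e1 * ((a' : GL (Fin 2) (ZMod p)) : M2 p).det * (((a' : GL (Fin 2) (ZMod p))⁻¹ : GL (Fin 2) (ZMod p)) : M2 p).det + e2
    have h3 := no_sq H hodd (a * a' * a⁻¹ * a'⁻¹).2 (Units.ext (by
      rw [Units.val_mul, hl, Matrix.smul_mul, Matrix.one_mul, smul_smul, ← pow_two, hl2, one_smul, Units.val_one]))
    have h4 : a * a' * a⁻¹ * a'⁻¹ = 1 := Subtype.ext h3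
    exact congrArg Subtype.val (show a * a' = a' * a by
      calc a * a' = a * a' * a⁻¹ * a'⁻¹ * (a' * a) := by group
        _ = a' * a := by rw [h4, one_mul])
  · by_contra hall
    push Not at hall
    apply hD
    rw [eq_bot_iff]
    intro x hx
    obtain ⟨a, rfl⟩ := QuotientGroup.mk_surjective x
    refine Subgroup.mem_bot.mpr ((QuotientGroup.eq_one_iff a).mpr (Subgroup.mem_center_iff.mpr fun g => Subtype.ext (Units.ext ?_)))
    obtain ⟨l, hl⟩ := hall a ⟨a, hx, rfl⟩
    simp [hl]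

/-- The action on the commutant of a non-scalar element. -/
theorem conj_cases (hp : p ≠ 2) {B : M2 p} (hB : ∀ l : ZMod p, B ≠ l • 1) (h : GL (Fin 2) (ZMod p))
    (hc : ((h : M2 p) * B * (↑h⁻¹ : M2 p)) * B = B * ((h : M2 p) * B * (↑h⁻¹ : M2 p))) :
    ∃ x y : ZMod p, (h : M2 p) * B * (↑h⁻¹ : M2 p) = x • 1 + y • B ∧ 2 * x + y * B.trace = B.trace ∧
      (y * y - 1) * (B.trace * B.trace - 4 * B.det) = 0 := by
  obtain ⟨x, y, hxy⟩ := commutant hB hc
  have hi : (h : M2 p) * (↑h⁻¹ : M2 p) = 1 := Units.mul_inv h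
  have ht : ((h : M2 p) * B * (↑h⁻¹ : M2 p)).trace = B.trace := by
    rw [Matrix.trace_mul_cycle, Units.inv_mul, Matrix.one_mul]
  have hd : ((h : M2 p) * B * (↑h⁻¹ : M2 p)).det = B.det := by
    rw [Matrix.det_mul, Matrix.det_mul, mul_comm (h : M2 p).det, mul_assoc, ← Matrix.det_mul, hi, Matrix.det_one, mul_one]
  rw [hxy] at ht hd
  rw [Matrix.trace_fin_two] at ht
  rw [Matrix.det_fin_two] at hd
  simp only [Matrix.add_apply, Matrix.smul_apply, smul_eq_mul, Matrix.one_apply_eq,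
    Matrix.one_apply_ne (zero_ne_one : (0 : Fin 2) ≠ 1), Matrix.one_apply_ne (one_ne_zero : (1 : Fin 2) ≠ 0)] at ht hd
  have hxt : 2 * x + y * B.trace = B.trace := by
    rw [Matrix.trace_fin_two] at ht ⊢; linear_combination ht
  refine ⟨x, y, hxy, hxt, ?_⟩
  rw [Matrix.det_fin_two] at hd ⊢
  rw [Matrix.trace_fin_two] at hxt ⊢
  linear_combination (2 * x + y * (B 0 0 + B 1 1) + (B 0 0 + B 1 1)) * hxt - 4 * hd

theorem line_or_comm (hp : p ≠ 2) [Group.IsSolvable H] (hodd : Odd (Nat.card H)) :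
    HasLine H ∨ ∀ a ∈ H, ∀ b ∈ H, a * b = b * a := by
  by_cases hu : ∃ u ∈ H, u ≠ 1 ∧ u ^ p = 1
  · obtain ⟨u, hu, hu1, hup⟩ := hu
    exact Or.inl (line_of_unipotent H hp hodd hu hu1 hup)
  by_cases hab : ∀ a ∈ H, ∀ b ∈ H, a * b = b * a
  · exact Or.inr hab
  obtain ⟨A, hAH, hAn, hAc, b, hbA, hbns⟩ := exists_abelian_normal H hodd hab
  have hc : ∀ h ∈ H, ((h : M2 p) * b * (↑h⁻¹ : M2 p)) * b = (b : M2 p) * ((h : M2 p) * b * (↑h⁻¹ : M2 p)) := by
    intro h hh
    have := congrArg (fun x : GL (Fin 2) (ZMod p) => (x : M2 p)) (hAc _ (hAn h hh b hbA) b hbA)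
    simpa only [Units.val_mul] using this
  by_cases hdisc : (b : M2 p).trace * (b : M2 p).trace = 4 * (b : M2 p).det
  · left
    set t := (b : M2 p).trace / 2
    set N := (b : M2 p) - t • 1 with hN
    have h2 := two_ne hp
    have htN : N.trace = 0 := by
      rw [hN, Matrix.trace_sub, Matrix.trace_smul, Matrix.trace_one, Fintype.card_fin, smul_eq_mul]
      simp only [t]; push_cast; field_simp; ring
    have hdN : N.det = 0 := by
      have ht2 : (b : M2 p).trace = 2 * t := by simp only [t]; field_simp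
      rw [Matrix.det_fin_two] at hdisc ⊢
      rw [Matrix.trace_fin_two] at hdisc ht2
      simp only [hN, Matrix.sub_apply, Matrix.smul_apply, smul_eq_mul, Matrix.one_apply_eq,
        Matrix.one_apply_ne (zero_ne_one : (0 : Fin 2) ≠ 1), Matrix.one_apply_ne (one_ne_zero : (1 : Fin 2) ≠ 0)]
      have h4 : (4 : ZMod p) ≠ 0 := by rw [show (4 : ZMod p) = 2 * 2 by norm_num]; exact mul_ne_zero h2 h2
      refine mul_left_cancel₀ h4 ?_
      linear_combination (-1 : ZMod p) * hdisc + ((b : M2 p) 0 0 + (b : M2 p) 1 1 - 2 * t) * ht2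
    have hNN : N * N = 0 := by rw [cayley, htN, hdN]; simp
    refine line_of_nilpotent H (fun e => hbns t (sub_eq_zero.mp e)) hNN fun h hh => anticomm hNN (conj_sq hNN h) ?_
    obtain ⟨x, y, hxy, hxt, -⟩ := conj_cases hp hbns h (hc h hh)
    have hN' : (h : M2 p) * N * (↑h⁻¹ : M2 p) = (x + y * t - t) • 1 + y • N := by
      rw [hN, Matrix.mul_sub, Matrix.sub_mul, Matrix.mul_smul, Matrix.mul_one, Matrix.smul_mul, Units.mul_inv, hxy]
      ext i j; simp only [Matrix.sub_apply, Matrix.add_apply, Matrix.smul_apply, smul_eq_mul]; ring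
    have hs0 : x + y * t - t = 0 := by
      refine (mul_eq_zero.mp (show (x + y * t - t) * 2 = 0 from ?_)).resolve_right h2
      have ht2 : (b : M2 p).trace = 2 * t := by simp only [t]; field_simp
      rw [ht2] at hxt
      linear_combination hxt
    rw [hN', hs0, zero_smul, zero_add, Matrix.mul_smul, hNN, smul_zero, Matrix.trace_zero]
  · right
    have hC : ∀ h ∈ H, h * b = b * h := by
      intro h hh
      have hsq : (h * h) * b = b * (h * h) := by
        obtain ⟨x, y, hxy, hxt, hy⟩ := conj_cases hp hbns h (hc h hh)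
        have hMB : (h : M2 p) * b = (x • 1 + y • (b : M2 p)) * h := by
          rw [← hxy, Matrix.mul_assoc _ (↑h⁻¹ : M2 p), Units.inv_mul, Matrix.mul_one]
        rcases mul_eq_zero.mp hy with e | e
        · refine Units.ext ?_
          rw [Units.val_mul, Units.val_mul, Units.val_mul, Matrix.mul_assoc, hMB]
          simp only [Matrix.add_mul, Matrix.smul_mul, Matrix.one_mul, Matrix.mul_add, Matrix.mul_smul, ← Matrix.mul_assoc]
          rw [hMB]
          simp only [Matrix.add_mul, Matrix.smul_mul, Matrix.one_mul, smul_add, smul_smul]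
          have hxy0 : x * (1 + y) = 0 := by
            refine (mul_eq_zero.mp (show x * (1 + y) * 2 = 0 from ?_)).resolve_right (two_ne hp)
            linear_combination (1 + y) * hxt - (b : M2 p).trace * e
          rw [sub_eq_zero.mp e, one_smul, ← add_assoc, ← add_smul, show x + y * x = 0 by linear_combination hxy0,
            zero_smul, zero_add, Matrix.mul_assoc, Units.val_mul]
        · exact absurd (sub_eq_zero.mp e) hdisc
      obtain ⟨m, hm⟩ : Odd (orderOf h) := by
        refine Odd.of_dvd_nat hodd ?_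
        have := orderOf_dvd_natCard (⟨h, hh⟩ : H); rwa [Subgroup.orderOf_mk] at this
      have e : h = (h * h) ^ (m + 1) := by
        rw [← pow_two, ← pow_mul, show 2 * (m + 1) = orderOf h + 1 by omega, pow_succ, pow_orderOf_eq_one, one_mul]
      rw [e]
      exact ((show Commute (h * h) b from hsq).pow_left (m + 1)).eq
    intro a ha c hc'
    obtain ⟨x, y, hxy⟩ := commutant hbns (X := (a : M2 p)) (by
      simpa only [Units.val_mul] using congrArg (fun u : GL (Fin 2) (ZMod p) => (u : M2 p)) (hC a ha))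
    obtain ⟨x', y', hxy'⟩ := commutant hbns (X := (c : M2 p)) (by
      simpa only [Units.val_mul] using congrArg (fun u : GL (Fin 2) (ZMod p) => (u : M2 p)) (hC c hc'))
    refine Units.ext ?_
    rw [Units.val_mul, Units.val_mul, hxy, hxy']
    simp only [Matrix.add_mul, Matrix.mul_add, Matrix.smul_mul, Matrix.mul_smul, Matrix.one_mul, Matrix.mul_one, smul_smul]
    ext i j; simp only [Matrix.add_apply, Matrix.smul_apply, smul_eq_mul]; ring

theorem gl2_derived (hp : p ≠ 2) [Group.IsSolvable H] (hodd : Odd (Nat.card H)) :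
    ∀ c ∈ ⁅H, H⁆, c ^ p = 1 := by
  have hpp : p.Prime := Fact.out
  intro c hc
  rcases line_or_comm H hp hodd with ⟨v, hv, hinv⟩ | hab
  · have hfix : ∀ c ∈ ⁅H, H⁆, (c : M2 p) *ᵥ v = v ∧ (c : M2 p).det = 1 := by
      intro c hc
      rw [Subgroup.commutator_def] at hc
      induction hc using Subgroup.closure_induction with
      | mem g hg =>
        obtain ⟨a, ha, d, hd, rfl⟩ := hg
        obtain ⟨la, hla⟩ := hinv a ha
        obtain ⟨ld, hld⟩ := hinv d hd
        obtain ⟨lai, hlai⟩ := hinv a⁻¹ (inv_mem ha)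
        obtain ⟨ldi, hldi⟩ := hinv d⁻¹ (inv_mem hd)
        have e1 : lai * la = 1 := by
          have h1 : (↑a⁻¹ : M2 p) *ᵥ ((a : M2 p) *ᵥ v) = v := by rw [Matrix.mulVec_mulVec, Units.inv_mul, Matrix.one_mulVec]
          rw [hla, Matrix.mulVec_smul, hlai, smul_smul] at h1
          exact smul_left_injective (ZMod p) hv (show (lai * la) • v = (1 : ZMod p) • v by rw [one_smul, mul_comm]; exact h1)
        have e2 : ldi * ld = 1 := by
          have h1 : (↑d⁻¹ : M2 p) *ᵥ ((d : M2 p) *ᵥ v) = v := by rw [Matrix.mulVec_mulVec, Units.inv_mul, Matrix.one_mulVec]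
          rw [hld, Matrix.mulVec_smul, hldi, smul_smul] at h1
          exact smul_left_injective (ZMod p) hv (show (ldi * ld) • v = (1 : ZMod p) • v by rw [one_smul, mul_comm]; exact h1)
        refine ⟨?_, ?_⟩
        · simp only [commutatorElement_def, Units.val_mul, ← Matrix.mulVec_mulVec, hldi, hlai, hld, hla, Matrix.mulVec_smul, smul_smul]
          rw [show ldi * (lai * (ld * la)) = (lai * la) * (ldi * ld) by ring, e1, e2, one_mul, one_smul]
        · simp only [commutatorElement_def, Units.val_mul, Matrix.det_mul]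
          have f1 := congrArg Matrix.det (Units.mul_inv a)
          have f2 := congrArg Matrix.det (Units.mul_inv d)
          rw [Matrix.det_mul, Matrix.det_one] at f1 f2
          linear_combination f1 * (d : M2 p).det * (↑d⁻¹ : M2 p).det + f2
      | one => simp
      | mul a d _ _ ha hd => refine ⟨?_, ?_⟩ <;> simp [← Matrix.mulVec_mulVec, ha, hd]
      | inv a _ ha =>
        refine ⟨?_, ?_⟩
        · conv_lhs => rw [← ha.1, Matrix.mulVec_mulVec, Units.inv_mul, Matrix.one_mulVec]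
        · have f1 := congrArg Matrix.det (Units.mul_inv a)
          rw [Matrix.det_mul, Matrix.det_one, ha.2, one_mul] at f1
          exact f1
    obtain ⟨h1, hd⟩ := hfix c hc
    set N := (c : M2 p) - 1 with hN
    have hNv : N *ᵥ v = 0 := by rw [hN, Matrix.sub_mulVec, h1, Matrix.one_mulVec, sub_self]
    have hdN : N.det = 0 := Matrix.exists_mulVec_eq_zero_iff.mp ⟨v, hv, hNv⟩
    have htN : N.trace = 0 := by
      rw [Matrix.det_fin_two] at hd hdN
      rw [Matrix.trace_fin_two]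
      simp only [hN, Matrix.sub_apply, Matrix.one_apply_eq, Matrix.one_apply_ne (zero_ne_one : (0 : Fin 2) ≠ 1),
        Matrix.one_apply_ne (one_ne_zero : (1 : Fin 2) ≠ 0), sub_zero] at hdN ⊢
      linear_combination hd - hdN
    have hNN : N * N = 0 := by rw [cayley, htN, hdN]; simp
    refine Units.ext ?_
    have hz : N ^ p = 0 := by
      obtain ⟨k, hk⟩ : ∃ k, p = 2 + k := ⟨p - 2, by have := hpp.two_le; omega⟩
      exact pow_eq_zero_of_le (m := 2) (by omega) (by rw [pow_two, hNN])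
    rw [Units.val_pow_eq_pow_val, Units.val_one, show (c : M2 p) = N + 1 by rw [hN]; abel,
      add_pow_char_of_commute (p := p) (Commute.one_right N), one_pow, hz, zero_add]
  · have h0 : ⁅H, H⁆ = ⊥ := Subgroup.commutator_eq_bot_iff_le_centralizer.mpr fun a ha =>
      Subgroup.mem_centralizer_iff.mpr fun d hd => hab d hd a ha
    rw [h0, Subgroup.mem_bot] at hc
    rw [hc, one_pow]

end CfsgLib.OddGL2
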