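import Cfsg.Agent.Lib.GroupB.Zipper
import Cfsg.Agent.Lib.GroupB.Coprime
import Cfsg.Agent.Lib.PCoreOf
import Cfsg.Agent.Lib.Fusion.Basic
import Cfsg.Agent.Lib.LocalBasic

/-! A quadratic offender outside the `2`-core gives a `Sym(3)` on the module: spread argument (owner helper5). -/

set_option autoImplicit false
set_option linter.style.haveILetI false

universe u w

namespace CfsgLib.OffenderSym

open CfsgLib.PCoreOf

variable {Γ : Type u} [Group Γ] {V : Type w} [CommGroup V]

/-- The fixed points of a set of operators. -/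
def fix (φ : Γ →* MulAut V) (X : Subgroup Γ) : Subgroup V where
  carrier := {v | ∀ x ∈ X, φ x v = v}
  one_mem' := fun x _ => map_one _
  mul_mem' := fun {a b} ha hb x hx => by rw [map_mul, ha x hx, hb x hx]
  inv_mem' := fun {a} ha x hx => by rw [map_inv, ha x hx]

theorem mem_fix {φ : Γ →* MulAut V} {X : Subgroup Γ} {v : V} : v ∈ fix φ X ↔ ∀ x ∈ X, φ x v = v := Iff.rfl

theorem fix_anti {φ : Γ →* MulAut V} {X Y : Subgroup Γ} (h : X ≤ Y) : fix φ Y ≤ fix φ X := fun _ hv x hx => hv x (h hx)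

/-- The conclusion: two involutions generating a symmetric group of degree three on an invariant subgroup. -/
def HasSym (φ : Γ →* MulAut V) : Prop :=
  ∃ (a b : Γ) (U : Subgroup V), a * a = 1 ∧ b * b = 1 ∧ (∀ v ∈ U, φ a v ∈ U ∧ φ b v ∈ U) ∧
    (∀ v ∈ U, φ (a * b * a) v = φ (b * a * b) v) ∧ ∃ v ∈ U, φ (a * b) v ≠ v

theorem card_prod {G : Type*} [Group G] {H K : Subgroup G} (hK : K ≤ Subgroup.normalizer (H : Set G)) :
    Nat.card ↥(H ⊔ K) * Nat.card ↥(H ⊓ K) = Nat.card ↥H * Nat.card ↥K := by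
  have h1 := Subgroup.relIndex_mul_relIndex ⊥ H (H ⊔ K) bot_le le_sup_left
  have h2 := Subgroup.relIndex_mul_relIndex ⊥ (H ⊓ K) K bot_le inf_le_right
  rw [Subgroup.relIndex_bot_left, Subgroup.relIndex_bot_left, CfsgLib.GroupB.Coprime.relIndex_sup_of_le_normalizer hK] at h1
  rw [Subgroup.relIndex_bot_left, Subgroup.relIndex_bot_left, Subgroup.inf_relIndex_right] at h2
  rw [← h1, ← h2]; ring

variable [Finite Γ] [Finite V]

/-- Minimal configuration: every proper overgroup of the offender has it in its core. -/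
theorem hasSym_min (φ : Γ →* MulAut V) (hinj : Function.Injective φ) (hexp : ∀ v : V, v * v = 1)
    (hq : ∀ P : Subgroup Γ, IsPGroup 2 ↥P → ∀ a ∈ P, ∀ b ∈ P, ∀ v, φ b (φ a v * v) = φ a v * v)
    (E : Subgroup Γ) (hE : IsPGroup 2 ↥E)
    (hbest : ∀ B ≤ E, Nat.card ↥B * Nat.card ↥(fix φ B) ≤ Nat.card ↥E * Nat.card ↥(fix φ E)) (hEO : ¬ E ≤ Cfsg.pCore 2 Γ)
    (hsub : ∀ M : Subgroup Γ, E ≤ M → M ≠ ⊤ → E ≤ Cfsg.pCoreOf 2 M) : HasSym φ := by
  classical
  haveI : Fact (Nat.Prime 2) := ⟨Nat.prime_two⟩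
  have hinv : ∀ v : V, v⁻¹ = v := fun v => inv_eq_of_mul_eq_one_right (hexp v)
  -- two-subgroups are elementary abelian
  have hel : ∀ P : Subgroup Γ, IsPGroup 2 ↥P → (∀ a ∈ P, a * a = 1) ∧ ∀ a ∈ P, ∀ b ∈ P, a * b = b * a := by
    intro P hP
    have key : ∀ a ∈ P, ∀ b ∈ P, ∀ v, φ (a * b) v = v * (φ a v * v) * (φ b v * v) := by
      intro a ha b hb v
      rw [map_mul, MulAut.mul_apply]
      conv_lhs => rw [show φ b v = v * (φ b v * v) by rw [mul_comm (φ b v) v, ← mul_assoc, hexp, one_mul]]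
      rw [map_mul, hq P hP b hb a ha, show φ a v = v * (φ a v * v) by rw [mul_comm (φ a v) v, ← mul_assoc, hexp, one_mul]]
      congr 2
      rw [show v * (φ a v * v) = φ a v by rw [mul_comm (φ a v) v, ← mul_assoc, hexp, one_mul]]
    refine ⟨fun a ha => hinj (MulEquiv.ext fun v => ?_), fun a ha b hb => hinj (MulEquiv.ext fun v => ?_)⟩
    · rw [key a ha a ha, map_one, MulAut.one_apply, mul_assoc, hexp, mul_one]
    · rw [key a ha b hb, key b hb a ha, mul_right_comm]
  obtain ⟨hE2, hEc⟩ := hel E hE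
  have hd : ∀ a ∈ E, ∀ v, φ a v * v ∈ fix φ E := fun a ha v b hb => hq E hE a ha b hb v
  -- the maximal subgroup
  have hsb : CfsgLib.GroupB.Zipper.SubnormalBelow E := by
    intro H hEH hH
    have hQ : (Cfsg.pCore 2 ↥H).Normal := Cfsg.pCore_normal 2 ↥H
    have hle : E.subgroupOf H ≤ Cfsg.pCore 2 ↥H := by
      rw [← pcoreOf_subgroupOf]; exact Subgroup.comap_mono (hsub H hEH hH)
    haveI := (CfsgLib.Core.isPGroup_pCore (G := ↥H) 2).isNilpotent
    have hn : ((E.subgroupOf H).subgroupOf (Cfsg.pCore 2 ↥H)).Normal := ⟨fun y hy g => by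
      have h2 := (hel _ ((CfsgLib.Core.isPGroup_pCore (G := ↥H) 2).map H.subtype)).2 _ ⟨_, g.2, rfl⟩ _ ⟨_, y.2, rfl⟩
      have : g * y * g⁻¹ = y := by
        rw [mul_inv_eq_iff_eq_mul]
        exact Subtype.ext (Subtype.ext h2)
      rw [this]; exact hy⟩
    exact Subgroup.IsSubnormal.step _ _ hle hQ.isSubnormal hn
  have hns : ¬ E.IsSubnormal := fun h => hEO (CfsgLib.Core.isPGroup_subnormal_le_pCore h hE)
  obtain ⟨M, hM, hEM, hMuniq⟩ := CfsgLib.GroupB.Zipper.exists_unique_coatom hsb hns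
  have hMn : Subgroup.normalizer (M : Set Γ) ≠ ⊤ := fun h => by
    haveI := Subgroup.normalizer_eq_top_iff.mp h
    exact hEO ((hsub M hEM hM.1).trans (CfsgLib.Core.pCore_subgroup_map_le 2 M))
  have hconj : ∀ h : Γ, CfsgLib.Fusion.cj h E ≤ M → h ∈ M := by
    intro h hh
    have h1 : CfsgLib.Fusion.cj h⁻¹ M ≤ M := by
      refine hMuniq _ ?_ fun e => hM.1 ?_
      · rw [← CfsgLib.Fusion.cj_inv_cj h E]; exact CfsgLib.Fusion.cj_mono _ hh
      · rw [← Subgroup.card_eq_iff_eq_top, ← CfsgLib.Fusion.card_cj h⁻¹ M, e, Subgroup.card_top]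
    have h2 : h⁻¹ ∈ Subgroup.normalizer (M : Set Γ) :=
      CfsgLib.Fusion.mem_normalizer_iff_cj.mpr (Subgroup.eq_of_le_of_card_ge h1 (CfsgLib.Fusion.card_cj _ _).ge)
    simpa using inv_mem (hMuniq _ (hEM.trans Subgroup.le_normalizer) hMn h2)
  have hgen : ∀ h : Γ, h ∉ M → E ⊔ CfsgLib.Fusion.cj h E = ⊤ := by
    intro h hh
    by_contra hne
    exact hh (hconj h (le_sup_right.trans (hMuniq _ le_sup_left hne)))
  -- components
  set L := fix φ E with hL
  let comp : Γ → Subgroup V := fun g => L.map (φ g).toMonoidHom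
  have hcmem : ∀ g v, v ∈ comp g ↔ φ g⁻¹ v ∈ L := by
    intro g v
    show v ∈ L.map _ ↔ _
    rw [Subgroup.mem_map_equiv, map_inv]
    rfl
  have hcard : ∀ g, Nat.card ↥(comp g) = Nat.card ↥L := fun g => Subgroup.card_map_of_injective (φ g).injective
  have hcfix : ∀ g v, v ∈ comp g ↔ ∀ e ∈ E, φ (g * e * g⁻¹) v = v := by
    intro g v
    rw [hcmem, hL, mem_fix]
    refine forall₂_congr fun e _ => ?_
    rw [map_mul, map_mul, MulAut.mul_apply, MulAut.mul_apply]
    constructor
    · intro h; rw [h, ← MulAut.mul_apply, ← map_mul, mul_inv_cancel, map_one, MulAut.one_apply]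
    · intro h
      have := congrArg (φ g⁻¹) h
      rwa [← MulAut.mul_apply _ (φ g⁻¹) (φ g), ← map_mul, inv_mul_cancel, map_one, MulAut.one_apply] at this
  have hcmul : ∀ g g' v, v ∈ comp g' ↔ φ g v ∈ comp (g * g') := by
    intro g g' v
    rw [hcmem, hcmem, mul_inv_rev, map_mul, MulAut.mul_apply, ← MulAut.mul_apply _ (φ g⁻¹) (φ g), ← map_mul φ g⁻¹ g,
      inv_mul_cancel, map_one, MulAut.one_apply]
  let St : Subgroup Γ :=
    { carrier := {g | comp g = L}
      one_mem' := by show L.map (φ 1).toMonoidHom = L; rw [map_one]; exact Subgroup.map_id L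
      mul_mem' := fun {a b} (ha : comp a = L) (hb : comp b = L) => by
        show comp (a * b) = L
        ext v
        rw [← ha, hcmem (a * b), hcmem a, mul_inv_rev, map_mul, MulAut.mul_apply]
        conv_rhs => rw [← hb, hcmem]
      inv_mem' := fun {a} (ha : comp a = L) => by
        show comp a⁻¹ = L
        ext v
        rw [hcmem, inv_inv]
        conv_lhs => rw [← ha, hcmem, ← MulAut.mul_apply, ← map_mul, inv_mul_cancel, map_one, MulAut.one_apply] }
  have hESt : E ≤ St := fun e he => SetLike.ext fun v => by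
    rw [hcfix, hL, mem_fix]
    refine forall₂_congr fun e' he' => ?_
    rw [hEc e he e' he', mul_inv_cancel_right]
  have hStne : St ≠ ⊤ := fun hT => hEO (by
    have hLinv : ∀ g v, v ∈ L → φ g v ∈ L := fun g v hv => by
      have h : comp g = L := hT.ge (Subgroup.mem_top g)
      rw [← h, hcmem, ← MulAut.mul_apply, ← map_mul, inv_mul_cancel, map_one, MulAut.one_apply]
      exact hv
    let N : Subgroup Γ :=
      { carrier := {g | (∀ v ∈ L, φ g v = v) ∧ ∀ v, φ g v * v ∈ L}
        one_mem' := ⟨fun v _ => by rw [map_one, MulAut.one_apply], fun v => by rw [map_one, MulAut.one_apply, hexp]; exact one_mem L⟩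
        mul_mem' := fun {a b} ha hb => ⟨fun v hv => by rw [map_mul, MulAut.mul_apply, hb.1 v hv, ha.1 v hv], fun v => by
          have e : φ (a * b) v * v = φ a (φ b v * v) * (φ a v * v) := by
            rw [map_mul, MulAut.mul_apply, map_mul, mul_assoc, ← mul_assoc (φ a v), hexp, one_mul]
          rw [e, ha.1 _ (hb.2 v)]
          exact mul_mem (hb.2 v) (ha.2 v)⟩
        inv_mem' := fun {a} ha => ⟨fun v hv => by
          conv_lhs => rw [← ha.1 v hv]
          rw [← MulAut.mul_apply, ← map_mul, inv_mul_cancel, map_one, MulAut.one_apply], fun v => by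
          have h := ha.2 (φ a⁻¹ v)
          rwa [← MulAut.mul_apply, ← map_mul, mul_inv_cancel, map_one, MulAut.one_apply, mul_comm] at h⟩ }
    have hNn : N.Normal := ⟨fun n hn g => ⟨fun v hv => by
        rw [map_mul, map_mul, MulAut.mul_apply, MulAut.mul_apply, hn.1 _ (hLinv g⁻¹ v hv), ← MulAut.mul_apply, ← map_mul,
          mul_inv_cancel, map_one, MulAut.one_apply], fun v => by
        have h := hLinv g _ (hn.2 (φ g⁻¹ v))
        rw [map_mul, ← MulAut.mul_apply _ (φ g) (φ g⁻¹), ← map_mul φ g g⁻¹, mul_inv_cancel, map_one, MulAut.one_apply] at h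
        rwa [map_mul, map_mul, MulAut.mul_apply, MulAut.mul_apply]⟩⟩
    have hN2 : IsPGroup 2 ↥N := by
      intro n
      refine ⟨1, Subtype.ext (hinj (MulEquiv.ext fun v => ?_))⟩
      rw [pow_one, pow_two, Subgroup.coe_mul, map_mul, MulAut.mul_apply, Subgroup.coe_one, map_one, MulAut.one_apply]
      conv_lhs => rw [show φ (n : Γ) v = (φ (n : Γ) v * v) * v by rw [mul_assoc, hexp, mul_one]]
      rw [map_mul, n.2.1 _ (n.2.2 v), mul_comm (φ (n : Γ) v) v, mul_assoc, hexp, mul_one]
    exact le_trans (show E ≤ N from fun e he => show (∀ v ∈ L, φ e v = v) ∧ ∀ v, φ e v * v ∈ L from ⟨fun v hv => hv e he, hd e he⟩) (CfsgLib.Core.le_pCore hNn hN2))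
  have hStM : St ≤ M := hMuniq St hESt hStne
  -- distinct components meet in the fixed points
  have hmeet : ∀ g g', g⁻¹ * g' ∉ M → ∀ v, v ∈ comp g → v ∈ comp g' → ∀ x, φ x v = v := by
    intro g g' hgg v hv hv'
    let S : Subgroup Γ :=
      { carrier := {x | φ x v = v}
        one_mem' := by show φ 1 v = v; rw [map_one, MulAut.one_apply]
        mul_mem' := fun {a b} (ha : φ a v = v) (hb : φ b v = v) => show φ (a * b) v = v by rw [map_mul, MulAut.mul_apply, hb, ha]
        inv_mem' := fun {a} (ha : φ a v = v) => show φ a⁻¹ v = v by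
          conv_lhs => rw [← ha]
          rw [← MulAut.mul_apply, ← map_mul, inv_mul_cancel, map_one, MulAut.one_apply] }
    have h1 : CfsgLib.Fusion.cj g (E ⊔ CfsgLib.Fusion.cj (g⁻¹ * g') E) ≤ S := by
      rw [CfsgLib.Fusion.cj, Subgroup.map_sup]
      refine sup_le ?_ ?_
      · rintro _ ⟨e, he, rfl⟩
        exact (hcfix g v).mp hv e he
      · rintro _ ⟨_, ⟨e, he, rfl⟩, rfl⟩
        show φ (g * (g⁻¹ * g' * e * (g⁻¹ * g')⁻¹) * g⁻¹) v = v
        rw [show g * (g⁻¹ * g' * e * (g⁻¹ * g')⁻¹) * g⁻¹ = g' * e * g'⁻¹ by group]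
        exact (hcfix g' v).mp hv' e he
    rw [hgen _ hgg, CfsgLib.Fusion.cj, Subgroup.map_top_of_surjective _ (MulAut.conj g).surjective] at h1
    exact fun x => h1 (Subgroup.mem_top x)
  -- elements of `E` fixing another component are central
  let Z : Subgroup Γ := E ⊓ Subgroup.center Γ
  have hsemi : ∀ a ∈ E, ∀ h, h ∉ M → h⁻¹ * a * h ∈ M → a ∈ Z := by
    intro a ha h hh hmem
    refine Subgroup.mem_inf.mpr ⟨ha, ?_⟩
    by_contra hz
    have hCne : Subgroup.centralizer ({a} : Set Γ) ≠ ⊤ := fun e => hz (Subgroup.mem_center_iff.mpr fun g =>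
      Subgroup.mem_centralizer_singleton_iff.mp (e.ge (Subgroup.mem_top g)))
    have hEC : E ≤ Subgroup.centralizer ({a} : Set Γ) := fun e he =>
      Subgroup.mem_centralizer_singleton_iff.mpr (hEc e he a ha)
    have hCM := hMuniq _ hEC hCne
    set O := Cfsg.pCoreOf 2 M
    have hb : h⁻¹ * a * h ∈ Subgroup.normalizer (O : Set Γ) := le_normalizer_pcoreOf M hmem
    have hbp : IsPGroup 2 ↥(Subgroup.zpowers (h⁻¹ * a * h)) := by
      obtain ⟨i, -, hi⟩ := (Nat.dvd_prime_pow Nat.prime_two).mp (show orderOf (h⁻¹ * a * h) ∣ 2 ^ 1 from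
        orderOf_dvd_of_pow_eq_one (by
          rw [pow_one, pow_two, show h⁻¹ * a * h * (h⁻¹ * a * h) = h⁻¹ * (a * a) * h by group, hE2 a ha]; group))
      exact IsPGroup.of_card (n := i) (by rw [Nat.card_zpowers, hi])
    have hP : IsPGroup 2 ↥(O ⊔ Subgroup.zpowers (h⁻¹ * a * h)) :=
      IsPGroup.to_sup_of_normal_left' (isPGroup_pcoreOf M) hbp (Subgroup.zpowers_le.mpr hb)
    refine hh (hconj h ?_)
    rintro _ ⟨e, he, rfl⟩
    refine hCM (Subgroup.mem_centralizer_singleton_iff.mpr ?_)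
    have h2 := (hel _ hP).2 e (Subgroup.mem_sup_left (hsub M hEM hM.1 he)) _
      (Subgroup.mem_sup_right (Subgroup.mem_zpowers (h⁻¹ * a * h)))
    show h * e * h⁻¹ * a = a * (h * e * h⁻¹)
    calc h * e * h⁻¹ * a = h * (e * (h⁻¹ * a * h)) * h⁻¹ := by group
      _ = h * (h⁻¹ * a * h * e) * h⁻¹ := by rw [h2]
      _ = a * (h * e * h⁻¹) := by group
  obtain ⟨a, ha, haZ⟩ : ∃ a ∈ E, a ∉ Z := by
    by_contra hall
    push Not at hall
    have hEn : E.Normal := ⟨fun e he g => by
      rw [Subgroup.mem_center_iff.mp (Subgroup.mem_inf.mp (hall e he)).2 g, mul_inv_cancel_right]; exact he⟩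
    exact hEO (CfsgLib.Core.le_pCore hEn hE)
  obtain ⟨h, -, hh⟩ := SetLike.exists_of_lt (lt_top_iff_ne_top.mpr hM.1)
  have hahM : a * h ∉ M := fun hm => hh (by simpa using mul_mem (inv_mem (hEM ha)) hm)
  have hneq : h⁻¹ * a * h ∉ M := fun hm => haZ (hsemi a ha h hh hm)
  have hone : comp 1 = L := St.one_mem
  -- the covering
  have hcover0 : ∀ k : Γ, k ∉ M → ∀ v ∈ L ⊔ comp k, v ∈ L ∨ ∃ e ∈ E, v ∈ comp (e * k) := by
    intro k hk
    set L' := comp k with hL'
    set C0 := L ⊓ L' with hC0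
    set U := L ⊔ L' with hU
    have hUfix : U ≤ fix φ Z := by
      refine sup_le (fix_anti inf_le_left) fun v hv z hz => ?_
      obtain ⟨hzE, hzc⟩ := Subgroup.mem_inf.mp hz
      have h := (hcfix k v).mp hv z hzE
      rwa [Subgroup.mem_center_iff.mp hzc k, mul_inv_cancel_right] at h
    have hC0all : ∀ v ∈ C0, ∀ x, φ x v = v := fun v hv => by
      obtain ⟨h1, h2⟩ := Subgroup.mem_inf.mp hv
      exact hmeet 1 k (by simpa using hk) v (hone.ge h1) h2
    have hC0c : ∀ g, C0 ≤ comp g := fun g v hv => (hcfix g v).mpr fun e _ => hC0all v hv _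
    set c := Nat.card ↥C0 with hc
    set l := Nat.card ↥L with hl
    have hc0 : 0 < c := Nat.card_pos
    have hcl : c ∣ l := Subgroup.card_dvd_of_le inf_le_left
    obtain ⟨m, hm⟩ := hcl
    have hUcard : Nat.card ↥U * c = l * l := by
      rw [hc, card_prod (by rw [Subgroup.normalizer_eq_top]; exact le_top), hcard]
    have hlU : Nat.card ↥U = l * m := by
      refine Nat.eq_of_mul_eq_mul_right hc0 ?_
      rw [hUcard, hm]; ring
    -- index bound
    set q := Z.relIndex E with hq'
    have hqE : Nat.card ↥Z * q = Nat.card ↥E := by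
      have := Subgroup.relIndex_mul_relIndex ⊥ Z E bot_le inf_le_left
      rwa [Subgroup.relIndex_bot_left, Subgroup.relIndex_bot_left] at this
    have hmq : m ≤ q := by
      have h1 : Nat.card ↥Z * (l * m) ≤ Nat.card ↥Z * (l * q) :=
        calc Nat.card ↥Z * (l * m) ≤ Nat.card ↥Z * Nat.card ↥(fix φ Z) :=
              Nat.mul_le_mul le_rfl (hlU ▸ Subgroup.card_le_of_le hUfix)
          _ ≤ Nat.card ↥E * l := hbest Z inf_le_left
          _ = Nat.card ↥Z * (l * q) := by rw [← hqE]; ring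
      exact Nat.le_of_mul_le_mul_left (Nat.le_of_mul_le_mul_left h1 Nat.card_pos) Nat.card_pos
    have hm2 : 2 ≤ m := by
      rcases Nat.lt_or_ge 1 m with h1 | h1
      · exact h1
      · exfalso
        have hLC : L ≤ C0 := (Subgroup.eq_of_le_of_card_ge inf_le_left (by
          rw [← hl, ← hc, hm]; exact (Nat.mul_le_mul le_rfl h1).trans (mul_one c).le)).ge
        refine hk (hStM ?_)
        exact (Subgroup.eq_of_le_of_card_ge (hLC.trans inf_le_right) (hcard k).le).symm
    -- representatives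
    letI : Fintype (↥E ⧸ Z.subgroupOf E) := Fintype.ofFinite _
    let K : ↥E ⧸ Z.subgroupOf E → Γ := fun t => ((t.out : ↥E) : Γ) * k
    let f : Option (↥E ⧸ Z.subgroupOf E) → Subgroup V := fun o => o.elim L fun t => comp (K t)
    have hfC : ∀ o, C0 ≤ f o := fun o => by
      cases o with
      | none => exact inf_le_left
      | some t => exact hC0c _
    have hfU : ∀ o, f o ≤ U := fun o => by
      cases o with
      | none => exact le_sup_left
      | some t =>
        intro v hv
        set e : Γ := ((t.out : ↥E) : Γ)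
        have he : e ∈ E := (t.out : ↥E).2
        have h2 : φ e⁻¹ v ∈ L' := by
          have := (hcmul e⁻¹ (e * k) v).mp hv
          rwa [inv_mul_cancel_left] at this
        have h3 := Subgroup.mul_mem_sup (hd e he (φ e⁻¹ v)) h2
        rwa [← MulAut.mul_apply _ (φ e) (φ e⁻¹), ← map_mul φ e e⁻¹, mul_inv_cancel, map_one, MulAut.one_apply, mul_assoc,
          hexp, mul_one] at h3
    have hfcard : ∀ o, Nat.card ↥(f o) = l := fun o => by
      cases o with
      | none => rfl
      | some t => exact hcard _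
    have hfd : ∀ o o', o ≠ o' → ∀ v, v ∈ f o → v ∈ f o' → v ∈ C0 := by
      intro o o' hne v hv hv'
      suffices hall : ∀ x, φ x v = v from
        Subgroup.mem_inf.mpr ⟨fun x _ => hall x, (hcfix k v).mpr fun e _ => hall _⟩
      have hKM : ∀ t, K t ∉ M := fun t hm => hk (by
        simpa [K] using mul_mem (inv_mem (hEM (t.out : ↥E).2)) hm)
      cases o with
      | none =>
        cases o' with
        | none => exact absurd rfl hne
        | some t => exact hmeet 1 (K t) (by simpa using hKM t) v (hone.ge hv) hv'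
      | some t =>
        cases o' with
        | none => exact hmeet 1 (K t) (by simpa using hKM t) v (hone.ge hv') hv
        | some t' =>
          refine hmeet (K t) (K t') (fun hm => hne ?_) v hv hv'
          have hz := hsemi _ (mul_mem (inv_mem (t.out : ↥E).2) (t'.out : ↥E).2) k hk (by
            convert hm using 1; simp only [K]; group)
          congr 1
          rw [← QuotientGroup.out_eq' t, ← QuotientGroup.out_eq' t']
          exact QuotientGroup.eq.mpr hz
    -- count
    letI : Fintype V := Fintype.ofFinite V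
    let F : Option (↥E ⧸ Z.subgroupOf E) → Finset V := fun o => Finset.univ.filter fun v => v ∈ f o ∧ v ∉ C0
    have hcardF : ∀ o, (F o).card = l - c := by
      intro o
      have e1 : F o = (Finset.univ.filter fun v => v ∈ f o) \ (Finset.univ.filter fun v => v ∈ C0) := by
        ext v; simp [F]
      have hsub' : (Finset.univ.filter fun v => v ∈ C0) ⊆ (Finset.univ.filter fun v => v ∈ f o) := by
        intro v hv; simp at hv ⊢; exact hfC o hv
      rw [e1, Finset.card_sdiff_of_subset hsub', ← Fintype.card_subtype, ← Fintype.card_subtype,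
        ← Nat.card_eq_fintype_card, ← Nat.card_eq_fintype_card]
      exact congrArg₂ (· - ·) (hfcard o) hc.symm
    set UF := (Finset.univ.filter fun v => v ∈ U ∧ v ∉ C0) with hUF
    have hUFcard : UF.card = l * m - c := by
      have e1 : UF = (Finset.univ.filter fun v => v ∈ U) \ (Finset.univ.filter fun v => v ∈ C0) := by
        ext v; simp [UF]
      have hsub' : (Finset.univ.filter fun v => v ∈ C0) ⊆ (Finset.univ.filter fun v => v ∈ U) := by
        intro v hv; simp at hv ⊢; exact (inf_le_left.trans le_sup_left : C0 ≤ U) hv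
      rw [e1, Finset.card_sdiff_of_subset hsub', ← Fintype.card_subtype, ← Fintype.card_subtype,
        ← Nat.card_eq_fintype_card, ← Nat.card_eq_fintype_card]
      exact congrArg₂ (· - ·) hlU hc.symm
    have hdisj : ((Finset.univ : Finset (Option (↥E ⧸ Z.subgroupOf E))) : Set _).PairwiseDisjoint F := by
      intro o _ o' _ hne
      refine Finset.disjoint_left.mpr fun v hv hv' => ?_
      simp [F] at hv hv'
      exact hv.2 (hfd o o' hne v hv.1 hv'.1)
    have hsubU : Finset.univ.biUnion F ⊆ UF := by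
      intro v hv
      simp [F, UF] at hv ⊢
      obtain ⟨⟨o, h1⟩, h2⟩ := hv
      exact ⟨hfU o h1, h2⟩
    have heq : Finset.univ.biUnion F = UF := by
      refine Finset.eq_of_subset_of_card_le hsubU ?_
      rw [Finset.card_biUnion hdisj, hUFcard, Finset.sum_congr rfl fun o _ => hcardF o, Finset.sum_const, Finset.card_univ,
        Fintype.card_option, ← Nat.card_eq_fintype_card, smul_eq_mul,
        show Nat.card (↥E ⧸ Z.subgroupOf E) = q from rfl, hm]
      obtain ⟨m', rfl⟩ : ∃ m', m = m' + 1 := ⟨m - 1, by omega⟩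
      have e1 : c * (m' + 1) - c = c * m' := by rw [mul_add, mul_one, Nat.add_sub_cancel]
      rw [e1]
      calc c * (m' + 1) * (m' + 1) - c ≤ c * m' * (m' + 2) := by
            apply Nat.sub_le_iff_le_add.mpr
            exact le_of_eq (by ring)
        _ ≤ (q + 1) * (c * m') := by
            rw [mul_comm]
            exact Nat.mul_le_mul (by omega) le_rfl
    intro v hv
    by_cases hvC : v ∈ C0
    · exact Or.inl (Subgroup.mem_inf.mp hvC).1
    have : v ∈ Finset.univ.biUnion F := heq ▸ (by simp [UF, hvC]; exact hv)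
    simp [F] at this
    obtain ⟨⟨o, ho⟩, -⟩ := this
    cases o with
    | none => exact Or.inl ho
    | some t => exact Or.inr ⟨_, (t.out : ↥E).2, ho⟩
  -- the maximal subgroup stabilises the component
  have hstep : ∀ g v, φ g v * v ∈ L ⊔ comp h := by
    intro g
    let S : Subgroup Γ :=
      { carrier := {x | ∀ v, φ x v * v ∈ L ⊔ comp h}
        one_mem' := fun v => by rw [map_one, MulAut.one_apply, hexp]; exact one_mem _
        mul_mem' := fun {x y} hx hy v => by
          have e : φ (x * y) v * v = (φ x (φ y v) * φ y v) * (φ y v * v) := by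
            rw [map_mul, MulAut.mul_apply, mul_assoc, ← mul_assoc (φ y v), hexp, one_mul]
          rw [e]; exact mul_mem (hx _) (hy v)
        inv_mem' := fun {x} hx v => by
          have h1 := hx (φ x⁻¹ v)
          rwa [← MulAut.mul_apply, ← map_mul, mul_inv_cancel, map_one, MulAut.one_apply, mul_comm] at h1 }
    have hle : E ⊔ CfsgLib.Fusion.cj h E ≤ S := by
      refine sup_le (fun e he v => Subgroup.mem_sup_left (hd e he v)) ?_
      rintro _ ⟨e, he, rfl⟩ v
      refine Subgroup.mem_sup_right ((hcfix h _).mpr fun e' he' => ?_)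
      exact hq _ (hE.map (MulAut.conj h).toMonoidHom) _ ⟨e, he, rfl⟩ _ ⟨e', he', rfl⟩ v
    rw [hgen h hh] at hle
    exact fun v => hle (Subgroup.mem_top g) v
  have hUinv : ∀ g v, v ∈ L ⊔ comp h → φ g v ∈ L ⊔ comp h := fun g v hv => by
    have := mul_mem (hstep g v) hv
    rwa [mul_assoc, hexp, mul_one] at this
  have hMSt : M ≤ St := by
    intro m hm
    refine Subgroup.eq_of_le_of_card_ge (fun v hv => ?_) (hcard m).ge
    have h1 : φ m⁻¹ v ∈ L := (hcmem m v).mp hv
    have h2 := hUinv m _ (Subgroup.mem_sup_left h1)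
    rw [← MulAut.mul_apply, ← map_mul, mul_inv_cancel, map_one, MulAut.one_apply] at h2
    rcases hcover0 h hh v h2 with hL' | ⟨e, he, hve⟩
    · exact hL'
    · intro x _
      refine hmeet m (e * h) (fun hbad => hh ?_) v hv hve x
      have := mul_mem (mul_mem (inv_mem (hEM he)) hm) hbad
      simpa [mul_assoc] using this
  -- the two involutions
  have haa : a * a = 1 := hE2 a ha
  obtain ⟨w0, hw0, hw0C⟩ : ∃ v ∈ comp (a * h), ¬ ∀ x, φ x v = v := by
    by_contra hall
    push Not at hall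
    have hLfix : ∀ v ∈ L, ∀ x, φ x v = v := fun v hv x => by
      have h1 := hall (φ (a * h) v) (by
        have := (hcmul (a * h) 1 v).mp (hone.ge hv)
        rwa [mul_one] at this)
      have h2 : φ (a * h) v = v := (φ (a * h)).injective (h1 (a * h))
      rw [← h2]; exact h1 x
    refine hStne (eq_top_iff.mpr fun g _ => ?_)
    refine (Subgroup.eq_of_le_of_card_ge (fun v hv => ?_) (hcard g).le).symm
    exact (hcfix g v).mpr fun e _ => hLfix v hv _
  have hw0U : φ h⁻¹ w0 ∈ L ⊔ comp h⁻¹ := by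
    have h2 : w0 ∈ L ⊔ comp h := by
      have h1 := hUinv (a * h) _ (Subgroup.mem_sup_left ((hcmem (a * h) w0).mp hw0))
      rwa [← MulAut.mul_apply, ← map_mul, mul_inv_cancel, map_one, MulAut.one_apply] at h1
    obtain ⟨u1, hu1, u2, hu2, rfl⟩ := Subgroup.mem_sup.mp h2
    rw [map_mul, mul_comm]
    refine Subgroup.mul_mem_sup ?_ ?_
    · exact (hcmem h u2).mp hu2
    · have := (hcmul h⁻¹ 1 u1).mp (hone.ge hu1)
      rwa [mul_one] at this
  rcases hcover0 h⁻¹ (fun hm => hh (by simpa using inv_mem hm)) _ hw0U with hwL | ⟨e, he, hwe⟩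
  · exact absurd (hmeet h (a * h) (by rwa [← mul_assoc]) w0 ((hcmem h w0).mpr hwL) hw0) hw0C
  set b := h * e * h⁻¹ with hb
  have hwb : w0 ∈ comp b := by
    have := (hcmul h _ _).mp hwe
    rwa [← MulAut.mul_apply _ (φ h) (φ h⁻¹), ← map_mul φ h h⁻¹, mul_inv_cancel, map_one, MulAut.one_apply,
      ← mul_assoc] at this
  have hSteq : comp b = comp (a * h) := by
    by_cases hM' : b⁻¹ * (a * h) ∈ M
    · have hm : comp (b⁻¹ * (a * h)) = L := hMSt hM'
      ext v
      rw [hcmem b, ← hm, hcmul b, mul_inv_cancel_left, ← MulAut.mul_apply, ← map_mul, mul_inv_cancel, map_one, MulAut.one_apply]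
    · exact absurd (hmeet b (a * h) hM' w0 hwb hw0) hw0C
  have hbb : b * b = 1 := by
    rw [hb, show h * e * h⁻¹ * (h * e * h⁻¹) = h * (e * e) * h⁻¹ by group, hE2 e he]; group
  have hbh : ∀ v ∈ comp h, φ b v = v := fun v hv => (hcfix h v).mp hv e he
  refine ⟨a, b, L ⊔ comp h, haa, hbb, fun v hv => ⟨hUinv a v hv, hUinv b v hv⟩, fun v hv => ?_, ?_⟩
  · obtain ⟨u1, hu1, u2, hu2, rfl⟩ := Subgroup.mem_sup.mp hv
    rw [map_mul (φ (a * b * a)), map_mul (φ (b * a * b))]
    congr 1
    · have h1 : φ b u1 ∈ comp (a * h) := by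
        rw [← hSteq]
        have := (hcmul b 1 u1).mp (hone.ge hu1)
        rwa [mul_one] at this
      have h2 : φ a (φ b u1) ∈ comp h := by
        have := (hcmul a (a * h) _).mp h1
        rwa [← mul_assoc, haa, one_mul] at this
      simp only [map_mul, MulAut.mul_apply]
      rw [hu1 a ha, hbh _ h2]
    · have h1 : φ a u2 ∈ comp b := hSteq ▸ (hcmul a h u2).mp hu2
      have h2 : φ b (φ a u2) ∈ L := by
        have := (hcmul b b _).mp h1
        rw [hbb] at this
        exact hone.le this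
      simp only [map_mul, MulAut.mul_apply]
      rw [hbh u2 hu2]
      exact h2 a ha
  · by_contra hall
    push Not at hall
    refine hahM (hStM ?_)
    show comp (a * h) = L
    rw [← hSteq]
    refine (Subgroup.eq_of_le_of_card_ge (fun v hv => ?_) (hcard b).le).symm
    have h1 : φ b v = v := by
      have := congrArg (φ a) (hall v (Subgroup.mem_sup_left hv))
      rwa [map_mul, MulAut.mul_apply, ← MulAut.mul_apply _ (φ a) (φ a), ← map_mul φ a a, haa, map_one, MulAut.one_apply,
        hv a ha] at this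
    have := (hcmul b 1 v).mp (hone.ge hv)
    rwa [mul_one, h1] at this

/-- A quadratic best offender outside the core gives a symmetric group of degree three. -/
theorem hasSym : ∀ (n : ℕ) {Γ : Type u} [Group Γ] [Finite Γ] (φ : Γ →* MulAut V), Nat.card Γ = n → Function.Injective φ →
    (∀ v : V, v * v = 1) →
    (∀ P : Subgroup Γ, IsPGroup 2 ↥P → ∀ a ∈ P, ∀ b ∈ P, ∀ v, φ b (φ a v * v) = φ a v * v) →
    ∀ E : Subgroup Γ, IsPGroup 2 ↥E →
    (∀ B ≤ E, Nat.card ↥B * Nat.card ↥(fix φ B) ≤ Nat.card ↥E * Nat.card ↥(fix φ E)) → ¬ E ≤ Cfsg.pCore 2 Γ → HasSym φ := by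
  intro n
  induction n using Nat.strong_induction_on with
  | _ n ih =>
  intro Γ _ _ φ hn hinj hexp hq E hE hbest hEO
  by_cases hsub : ∀ M : Subgroup Γ, E ≤ M → M ≠ ⊤ → E ≤ Cfsg.pCoreOf 2 M
  · exact hasSym_min φ hinj hexp hq E hE hbest hEO hsub
  push Not at hsub
  obtain ⟨M, hEM, hM, hbad⟩ := hsub
  have hfix : ∀ B : Subgroup ↥M, fix (φ.comp M.subtype) B = fix φ (B.map M.subtype) := fun B => by
    ext v
    exact ⟨fun h x hx => by obtain ⟨y, hy, rfl⟩ := hx; exact h y hy, fun h x hx => h _ ⟨x, hx, rfl⟩⟩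
  have hEmap : (E.subgroupOf M).map M.subtype = E := Subgroup.map_subgroupOf_eq_of_le hEM
  have hlt : Nat.card ↥M < n := hn ▸ lt_of_le_of_ne (Subgroup.card_le_card_group M)
    fun e => hM (Subgroup.card_eq_iff_eq_top M |>.mp e)
  obtain ⟨a, b, U, h1, h2, h3, h4, h5⟩ := ih _ hlt (φ.comp M.subtype) rfl (hinj.comp M.subtype_injective) hexp
    (fun P hP a ha b hb v => hq _ (hP.map M.subtype) _ ⟨a, ha, rfl⟩ _ ⟨b, hb, rfl⟩ v)
    (E.subgroupOf M) hE.comap_subtype
    (fun B hB => by
      rw [hfix, hfix, hEmap, Nat.card_congr (Subgroup.subgroupOfEquivOfLe hEM).toEquiv,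
        ← Subgroup.card_map_of_injective (f := M.subtype) M.subtype_injective (K := B)]
      exact hbest _ ((Subgroup.map_mono hB).trans hEmap.le))
    (fun hle => hbad (hEmap.ge.trans (Subgroup.map_mono hle)))
  exact ⟨a, b, U, congrArg Subtype.val h1, congrArg Subtype.val h2, h3, h4, h5⟩

end CfsgLib.OffenderSym
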