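import Cfsg.Agent.Lib.PSolvable
import Cfsg.Agent.Lib.NarrowAut
import Cfsg.Agent.Lib.Solvable.HallBasic
import Cfsg.Agent.Lib.PConstrained
import Cfsg.Agent.Lib.Core
import Cfsg.Agent.S3790
import Mathlib

/-! Groups whose maximal subgroups are `p`-nilpotent or of prime index (owner lead). -/

set_option autoImplicit false
set_option linter.all false

namespace CfsgLib.PLenTwo

universe u

/-- The hypothesis on the maximal subgroups. -/
def MaxHyp (p : ℕ) (G : Type u) [Group G] : Prop :=
  ∀ M : Subgroup G, IsCoatom M →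
    (∃ K : Subgroup ↥M, K.Normal ∧ ¬ p ∣ Nat.card K ∧ ∃ k : ℕ, K.index = p ^ k) ∨ (M.index).Prime

theorem maxHyp_map {G : Type u} [Group G] [Finite G] {H : Type u} [Group H] {p : ℕ} [Fact p.Prime] (f : G →* H)
    (hf : Function.Surjective f) (h : MaxHyp p G) : MaxHyp p H := by
  intro M hM
  have hcm : IsCoatom (M.comap f) := by
    refine ⟨fun e => hM.1 ?_, fun N hN => ?_⟩
    · rw [← Subgroup.map_comap_eq_self_of_surjective hf M, e, Subgroup.map_top_of_surjective f hf]
    · have hker : f.ker ≤ N := (Subgroup.comap_mono bot_le).trans hN.le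
      have h1 : M < N.map f := by
        refine lt_of_le_of_ne ((Subgroup.map_comap_eq_self_of_surjective hf M).ge.trans (Subgroup.map_mono hN.le)) fun e => hN.ne ?_
        rw [e, Subgroup.comap_map_eq, sup_eq_left.mpr hker]
      rw [← sup_eq_left.mpr hker, ← Subgroup.comap_map_eq, hM.2 _ h1, Subgroup.comap_top]
  rcases h _ hcm with ⟨K, hKn, hKc, k, hk⟩ | hpr
  · left
    have hs := f.subgroupComap_surjective_of_surjective M hf
    refine ⟨K.map (f.subgroupComap M), hKn.map _ hs, fun hd => hKc (hd.trans (Subgroup.card_map_dvd K _)), ?_⟩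
    obtain ⟨j, -, hj⟩ := (Nat.dvd_prime_pow Fact.out).mp (hk ▸ Subgroup.index_map_dvd K hs)
    exact ⟨j, hj⟩
  · right
    rwa [Subgroup.index_comap_of_surjective M hf] at hpr

theorem reduced {G : Type u} [Group G] [Finite G] {p : ℕ} [Fact p.Prime] (hG : Cfsg.IsPSolvable p G)
    (hred : Cfsg.pPrimeCore p G = ⊥) (hmax : MaxHyp p G) :
    ∃ C : Subgroup G, C.Normal ∧ Cfsg.pCore p G ≤ C ∧ ((Cfsg.pCore p G).relIndex C).Coprime p ∧ ∃ k, C.index = p ^ k := by
  classical
  have hpp : p.Prime := Fact.out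
  set Q := Cfsg.pCore p G with hQdef
  haveI hQn : Q.Normal := inferInstance
  have hQp : IsPGroup p Q := CfsgLib.Core.isPGroup_pCore p
  have hsup : ∀ M : Subgroup G, IsCoatom M → ¬ Q ≤ M → M ⊔ Q = ⊤ := fun M hM h =>
    hM.2 _ (lt_of_le_of_ne le_sup_left fun e => h (e ▸ le_sup_right))
  by_cases hc : ∃ M : Subgroup G, IsCoatom M ∧ ¬ Q ≤ M ∧
      ∃ K : Subgroup ↥M, K.Normal ∧ ¬ p ∣ Nat.card K ∧ ∃ k : ℕ, K.index = p ^ k
  · obtain ⟨M, hM, hQM, K, hKn, hKc, k, hk⟩ := hc
    set K' := K.map M.subtype with hK'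
    have hKM : K' ≤ M := Subgroup.map_subtype_le K
    haveI hCn : (K' ⊔ Q).Normal := by
      rw [← Subgroup.normalizer_eq_top_iff, eq_top_iff, ← hsup M hM hQM]
      refine sup_le ?_ (le_sup_right.trans Subgroup.le_normalizer)
      intro m hm
      have h1 : m ∈ Subgroup.normalizer (K' : Set G) := by
        refine Subgroup.mem_normalizer_iff.mpr fun u => ⟨?_, ?_⟩
        · rintro ⟨v, hv, rfl⟩
          exact ⟨_, hKn.conj_mem v hv ⟨m, hm⟩, rfl⟩
        · rintro ⟨v, hv, hv'⟩
          refine ⟨_, hKn.conj_mem v hv ⟨m, hm⟩⁻¹, ?_⟩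
          show m⁻¹ * (v : G) * (m⁻¹)⁻¹ = u
          rw [show (v : G) = m * u * m⁻¹ from hv']; group
      have h2 : m ∈ Subgroup.normalizer (Q : Set G) := by rw [Subgroup.normalizer_eq_top]; trivial
      refine Subgroup.mem_normalizer_iff_map_conj_eq.mpr ?_
      rw [Subgroup.map_sup, Subgroup.mem_normalizer_iff_map_conj_eq.mp h1, Subgroup.mem_normalizer_iff_map_conj_eq.mp h2]
    refine ⟨K' ⊔ Q, hCn, le_sup_right, ?_, ?_⟩
    · rw [sup_comm, Cfsg.Agent.S3790.relIndex_dvd_sup]
      refine Nat.Coprime.coprime_dvd_left (Subgroup.relIndex_dvd_card Q K') ?_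
      rw [hK', Subgroup.card_map_of_injective M.subtype_injective]
      exact (hpp.coprime_iff_not_dvd.mpr hKc).symm
    · have h1 : (K' ⊔ Q).index = (K' ⊔ Q).relIndex M := by
        rw [← Cfsg.Agent.S3790.relIndex_dvd_sup, show K' ⊔ Q ⊔ M = ⊤ from top_le_iff.mp ((hsup M hM hQM).ge.trans
          (sup_le le_sup_right (le_sup_right.trans le_sup_left))), Subgroup.relIndex_top_right]
      have h2 : K'.relIndex M = p ^ k := by
        rw [← hk, Subgroup.relIndex, hK', Subgroup.subgroupOf, Subgroup.comap_map_eq_self_of_injective M.subtype_injective]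
      obtain ⟨j, -, hj⟩ := (Nat.dvd_prime_pow hpp).mp (h2 ▸ Subgroup.relIndex_dvd_of_le_left M (le_sup_left : K' ≤ K' ⊔ Q))
      exact ⟨j, h1.trans hj⟩
  push Not at hc
  -- the Frattini subgroup
  set Φ := frattini G with hΦ
  haveI : Φ.Normal := inferInstance
  haveI hΦnil : Group.IsNilpotent Φ := frattini_nilpotent
  have hΦp : IsPGroup p Φ := by
    intro x
    by_contra hx
    push Not at hx
    obtain ⟨q, hq, hqd, hqp⟩ : ∃ q, q.Prime ∧ q ∣ orderOf x ∧ q ≠ p := by
      by_contra hno
      push Not at hno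
      exact hx _ (by rw [← Nat.eq_prime_pow_of_unique_prime_dvd (orderOf_pos x).ne' (fun {d} hd hd' => hno d hd hd')]; exact pow_orderOf_eq_one x)
    haveI := Fact.mk hq
    obtain ⟨S⟩ := (inferInstance : Nonempty (Sylow q Φ))
    haveI hSn : (S : Subgroup Φ).Normal := Sylow.normal_of_normalizerCondition Group.normalizerCondition_of_isNilpotent S
    haveI : (S : Subgroup Φ).Characteristic := S.characteristic_of_normal hSn
    haveI : ((S : Subgroup Φ).map Φ.subtype).Normal := inferInstance
    obtain ⟨j, hj⟩ := IsPGroup.iff_card.mp S.2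
    have h1 : (S : Subgroup Φ).map Φ.subtype ≤ Cfsg.pPrimeCore p G := CfsgLib.Core.le_pPrimeCore inferInstance (by
      rw [Subgroup.card_map_of_injective Φ.subtype_injective, hj]
      exact Nat.Coprime.pow_left j ((Nat.coprime_primes hq hpp).mpr hqp))
    rw [hred, le_bot_iff, Subgroup.map_eq_bot_iff_of_injective _ Φ.subtype_injective] at h1
    have h2 := S.dvd_card_of_dvd_card (hqd.trans (orderOf_dvd_natCard x))
    rw [h1, Subgroup.card_bot] at h2
    exact hq.not_dvd_one h2
  set π := QuotientGroup.mk' Φ with hπ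
  have hπs : Function.Surjective π := QuotientGroup.mk'_surjective Φ
  have hΦQ : Φ ≤ Q := CfsgLib.Core.le_pCore inferInstance hΦp
  -- the quotient has no `p'`-core
  have hred' : Cfsg.pPrimeCore p (G ⧸ Φ) = ⊥ := by
    haveI : (Cfsg.pPrimeCore p (G ⧸ Φ)).Normal := CfsgLib.PConstrained.pPrimeCore_normal
    set L := (Cfsg.pPrimeCore p (G ⧸ Φ)).comap π with hL
    have hΦL : Φ ≤ L := fun u hu => by
      show π u ∈ Cfsg.pPrimeCore p (G ⧸ Φ)
      rw [show π u = 1 from (QuotientGroup.eq_one_iff u).mpr hu]; exact one_mem _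
    have hidx : (Φ.subgroupOf L).index.Coprime p := by
      show (Φ.relIndex L).Coprime p
      rw [← CfsgLib.PSeries.card_map_mk Φ L hΦL, ← hπ, hL, Subgroup.map_comap_eq_self_of_surjective hπs]
      exact CfsgLib.Core.card_pPrimeCore_coprime p
    obtain ⟨a, ha⟩ := IsPGroup.iff_card.mp hΦp
    have hcop : (Nat.card (Φ.subgroupOf L)).Coprime (Φ.subgroupOf L).index := by
      rw [Nat.card_congr (Subgroup.subgroupOfEquivOfLe hΦL).toEquiv, ha]
      exact Nat.Coprime.pow_left a hidx.symm
    obtain ⟨H, hH⟩ := Subgroup.exists_right_complement'_of_coprime hcop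
    haveI : Group.IsNilpotent (Φ.subgroupOf L) := Group.nilpotent_of_mulEquiv (Subgroup.subgroupOfEquivOfLe hΦL).symm
    set H' := H.map L.subtype with hH'
    -- the Frattini argument
    have hN : ∀ g : G, g ∈ Φ ⊔ Subgroup.normalizer (H' : Set G) := by
      intro g
      let c : MulAut L := MulAut.conjNormal g
      have hc' : Subgroup.IsComplement' (Φ.subgroupOf L) (H.map c.toMonoidHom) := by
        have e : (Φ.subgroupOf L).map c.toMonoidHom = Φ.subgroupOf L := by
          refine Subgroup.eq_of_le_of_card_ge ?_ (Subgroup.card_map_of_injective c.injective).ge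
          rintro _ ⟨u, hu, rfl⟩
          show ((MulAut.conjNormal g u : L) : G) ∈ Φ
          rw [MulAut.conjNormal_apply]
          exact (inferInstance : Φ.Normal).conj_mem _ hu g
        rw [← e]
        refine Subgroup.isComplement'_of_disjoint_and_mul_eq_univ ?_ ?_
        · rw [disjoint_iff, ← Subgroup.map_inf _ _ c.toMonoidHom c.injective, disjoint_iff.mp hH.disjoint, Subgroup.map_bot]
        · rw [Subgroup.coe_map, Subgroup.coe_map, ← Set.image_mul, hH.mul_eq]
          exact Set.image_univ_of_surjective c.surjective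
      obtain ⟨b, hb, hbe⟩ := CfsgLib.Solvable.HallBasic.conj_complement (Φ.subgroupOf L) hcop (Or.inl inferInstance) H _ hH hc'
      have h1 : H'.map (MulAut.conj (b : G)).toMonoidHom = H'.map (MulAut.conj g).toMonoidHom := by
        have h0 : (H.map (MulAut.conj b).toMonoidHom).map L.subtype = (H.map c.toMonoidHom).map L.subtype := by
          rw [← hbe]; rfl
        rw [Subgroup.map_map, Subgroup.map_map] at h0
        rw [hH', Subgroup.map_map, Subgroup.map_map,
          show (MulAut.conj (b : G)).toMonoidHom.comp L.subtype = L.subtype.comp (MulAut.conj b).toMonoidHom from MonoidHom.ext fun _ => rfl,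
          show (MulAut.conj g).toMonoidHom.comp L.subtype = L.subtype.comp c.toMonoidHom from MonoidHom.ext fun v => (MulAut.conjNormal_apply g v).symm]
        exact h0
      have h2 : (b : G)⁻¹ * g ∈ Subgroup.normalizer (H' : Set G) := by
        rw [Subgroup.mem_normalizer_iff_map_conj_eq]
        show H'.map (MulAut.conj ((b : G)⁻¹ * g)).toMonoidHom = H'
        rw [show (MulAut.conj ((b : G)⁻¹ * g)).toMonoidHom = (MulAut.conj (b : G)⁻¹).toMonoidHom.comp (MulAut.conj g).toMonoidHom from
          MonoidHom.ext fun u => by simp [mul_assoc], ← Subgroup.map_map, ← h1, Subgroup.map_map]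
        conv_rhs => rw [← Subgroup.map_id H']
        congr 1; ext u; simp [mul_assoc]
      have := Subgroup.mul_mem_sup (Subgroup.mem_subgroupOf.mp hb) h2
      rwa [mul_inv_cancel_left] at this
    have htop : Subgroup.normalizer (H' : Set G) = ⊤ :=
      frattini_nongenerating ((sup_comm _ _).trans (top_le_iff.mp fun g _ => hN g))
    have hH'n : H'.Normal := Subgroup.normalizer_eq_top_iff.mp htop
    have hH'b : H' ≤ Cfsg.pPrimeCore p G := CfsgLib.Core.le_pPrimeCore hH'n (by
      rw [hH', Subgroup.card_map_of_injective L.subtype_injective, ← hH.symm.index_eq_card]; exact hidx)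
    rw [hred, le_bot_iff, hH', Subgroup.map_eq_bot_iff_of_injective _ L.subtype_injective] at hH'b
    rw [hH'b, Subgroup.isComplement'_bot_right, Subgroup.subgroupOf_eq_top] at hH
    rw [← Subgroup.map_comap_eq_self_of_surjective hπs (Cfsg.pPrimeCore p (G ⧸ Φ)), ← hL, le_antisymm hH hΦL,
      hπ, QuotientGroup.map_mk'_self]
  -- the `p`-core of the quotient
  have hQbar : Cfsg.pCore p (G ⧸ Φ) ≤ Q.map π := by
    set T := (Cfsg.pCore p (G ⧸ Φ)).comap π with hT
    have hTQ : T ≤ Q := CfsgLib.Core.le_pCore inferInstance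
      ((CfsgLib.Core.isPGroup_pCore p).comap_of_ker_isPGroup π (by rw [hπ, QuotientGroup.ker_mk']; exact hΦp))
    rw [← Subgroup.map_comap_eq_self_of_surjective hπs (Cfsg.pCore p (G ⧸ Φ)), ← hT]
    exact Subgroup.map_mono hTQ
  -- commutators act trivially on the chief quotients of the core
  have htriv : ∀ c ∈ commutator G, ∀ u ∈ Q, u⁻¹ * (c * u * c⁻¹) ∈ Φ := by
    intro c hcc u hu
    show u⁻¹ * (c * u * c⁻¹) ∈ Order.radical (Subgroup G)
    rw [Order.radical, Subgroup.mem_iInf]
    intro M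
    rw [Subgroup.mem_iInf]
    intro hM
    have hM' : IsCoatom M := hM
    by_cases hQM : Q ≤ M
    · exact hQM (mul_mem (inv_mem hu) (hQn.conj_mem _ hu c))
    have hpr : M.index.Prime := (hmax M hM').resolve_left fun ⟨K, h1, h2, k, h3⟩ => hc M hM' hQM K h1 h2 k h3
    have hcard : M.index * Nat.card (Q.subgroupOf M) = Nat.card Q := by
      have h1 : Q.relIndex M = Q.index := by
        rw [← Cfsg.Agent.S3790.relIndex_dvd_sup, sup_comm, hsup M hM' hQM, Subgroup.relIndex_top_right]
      have h2 := M.card_mul_index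
      have h3 := Q.card_mul_index
      have h4 := (Q.subgroupOf M).card_mul_index
      rw [show (Q.subgroupOf M).index = Q.index from h1] at h4
      have h5 : 0 < Q.index := Nat.pos_of_ne_zero Subgroup.index_ne_zero_of_finite
      refine Nat.eq_of_mul_eq_mul_right h5 ?_
      rw [h3, ← h2, ← h4]; ring
    have hMp : M.index = p := by
      obtain ⟨a, ha⟩ := IsPGroup.iff_card.mp hQp
      exact (Nat.prime_dvd_prime_iff_eq hpr hpp).mp (hpr.dvd_of_dvd_pow (ha ▸ hcard ▸ dvd_mul_right _ _))
    set N := M.subgroupOf Q with hNdef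
    have hNi : N.index = p := by
      have h1 := N.card_mul_index
      have h2 : Nat.card N = Nat.card (Q.subgroupOf M) := Nat.card_congr
        { toFun := fun v => ⟨⟨(v : Q), v.2⟩, (v : Q).2⟩
          invFun := fun v => ⟨⟨(v : M), v.2⟩, (v : M).2⟩
          left_inv := fun v => rfl
          right_inv := fun v => rfl }
      rw [h2, ← hcard, mul_comm M.index, hMp] at h1
      exact Nat.eq_of_mul_eq_mul_left Nat.card_pos h1
    haveI : N.Normal := by
      haveI := hQp.isNilpotent
      refine Subgroup.NormalizerCondition.normal_of_coatom (H := N) Group.normalizerCondition_of_isNilpotent ⟨fun e => ?_, fun B hB => ?_⟩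
      · rw [e, Subgroup.index_top] at hNi; exact hpp.one_lt.ne hNi
      · have h1 := Subgroup.relIndex_mul_index hB.le
        rw [hNi] at h1
        rcases hpp.eq_one_or_self_of_dvd B.index (h1 ▸ dvd_mul_left _ _) with h2 | h2
        · exact Subgroup.index_eq_one.mp h2
        · rw [h2] at h1
          exact absurd (Subgroup.relIndex_eq_one.mp (Nat.eq_of_mul_eq_mul_right hpp.pos (by rw [one_mul]; exact h1))) hB.not_ge
    have hNinv : ∀ x : G, ∀ v ∈ N, MulAut.conjNormal x v ∈ N := by
      intro x v hv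
      have hx : x ∈ M ⊔ Q := (hsup M hM' hQM).symm ▸ Subgroup.mem_top x
      obtain ⟨m, hm, w, hw, rfl⟩ := Subgroup.mem_sup_of_normal_right.mp hx
      have h1 : ((MulAut.conjNormal w v : Q) : G) ∈ M := by
        have := (inferInstance : N.Normal).conj_mem v hv ⟨w, hw⟩
        rw [MulAut.conjNormal_apply]; exact this
      show ((MulAut.conjNormal (m * w) v : Q) : G) ∈ M
      rw [map_mul, MulAut.mul_apply, MulAut.conjNormal_apply]
      exact mul_mem (mul_mem hm h1) (inv_mem hm)
    have h0 := CfsgLib.NarrowAut.comm_trivial (p := p) (MulAut.conjNormal : G →* MulAut Q) hQp N ⊤ hNinv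
      (fun x r _ => Subgroup.mem_top _)
      (by rw [Subgroup.map_top_of_surjective _ (QuotientGroup.mk'_surjective N), Subgroup.card_top]; exact hNi.le)
      c hcc ⟨u, hu⟩ (Subgroup.mem_top _)
    have h6 : ((⟨u, hu⟩ : Q) : G)⁻¹ * ((MulAut.conjNormal c (⟨u, hu⟩ : Q) : Q) : G) ∈ M := h0
    rwa [MulAut.conjNormal_apply] at h6
  have hGQ : commutator G ≤ Q := by
    intro c hcc
    have hmem : π c ∈ Q.map π := by
      refine hQbar (CfsgLib.PSolvable.charP (CfsgLib.PSolvable.map π hπs hG) hred' ?_)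
      refine Subgroup.mem_centralizer_iff.mpr fun y hy => ?_
      obtain ⟨u, hu, rfl⟩ := hQbar hy
      have h1 : π (u⁻¹ * (c * u * c⁻¹)) = 1 := (QuotientGroup.eq_one_iff _).mpr (htriv c hcc u hu)
      rw [map_mul, map_inv, inv_mul_eq_one, map_mul, map_mul, map_inv, eq_mul_inv_iff_mul_eq] at h1
      exact h1
    obtain ⟨u, hu, hue⟩ := hmem
    have h2 := mul_mem hu (hΦQ (QuotientGroup.eq.mp hue))
    rwa [mul_inv_cancel_left] at h2
  refine ⟨⊤, inferInstance, le_top, ?_, ⟨0, Subgroup.index_top⟩⟩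
  rw [Subgroup.relIndex_top_right]
  refine (hpp.coprime_iff_not_dvd.mpr fun hd => ?_).symm
  obtain ⟨S⟩ := (inferInstance : Nonempty (Sylow p G))
  have hQS : Q ≤ (S : Subgroup G) := CfsgLib.Core.pCore_le_sylow S
  have hSn : (S : Subgroup G).Normal := ⟨fun s hs g => by
    have := mul_mem (hQS (hGQ (Subgroup.commutator_mem_commutator (Subgroup.mem_top g) (Subgroup.mem_top s)))) hs
    rwa [commutatorElement_def, inv_mul_cancel_right] at this⟩
  exact S.not_dvd_index ((le_antisymm hQS (CfsgLib.Core.le_pCore hSn S.2)) ▸ hd)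

theorem main {G : Type u} [Group G] [Finite G] {p : ℕ} [Fact p.Prime] (hG : Cfsg.IsPSolvable p G) (hmax : MaxHyp p G) :
    ∃ A B C : Subgroup G, A.Normal ∧ B.Normal ∧ C.Normal ∧ A ≤ B ∧ B ≤ C ∧ (Nat.card A).Coprime p ∧
      (∃ k : ℕ, A.relIndex B = p ^ k) ∧ (B.relIndex C).Coprime p ∧ ∃ k : ℕ, C.index = p ^ k := by
  set K := Cfsg.pPrimeCore p G with hK
  haveI hKn : K.Normal := CfsgLib.PConstrained.pPrimeCore_normal
  set π := QuotientGroup.mk' K with hπ
  have hs : Function.Surjective π := QuotientGroup.mk'_surjective K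
  obtain ⟨C, hCn, hQC, hrel, k, hk⟩ := reduced (CfsgLib.PSolvable.map π hs hG)
    (CfsgLib.Core.pPrimeCore_quotient_eq_bot p) (maxHyp_map π hs hmax)
  set Q := Cfsg.pCore p (G ⧸ K)
  have hKB : K ≤ Q.comap π := fun u hu => by
    show π u ∈ Q
    rw [show π u = 1 from (QuotientGroup.eq_one_iff u).mpr hu]; exact one_mem _
  refine ⟨K, Q.comap π, C.comap π, hKn, inferInstance, hCn.comap π, hKB, Subgroup.comap_mono hQC,
    CfsgLib.Core.card_pPrimeCore_coprime p, ?_, ?_, ⟨k, ?_⟩⟩
  · rw [← CfsgLib.PSeries.card_map_mk K _ hKB, ← hπ, Subgroup.map_comap_eq_self_of_surjective hs]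
    exact IsPGroup.iff_card.mp (CfsgLib.Core.isPGroup_pCore p)
  · rw [CfsgLib.PSeries.relIndex_comap_comap π hs]; exact hrel
  · rw [Subgroup.index_comap_of_surjective _ hs]; exact hk

end CfsgLib.PLenTwo
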