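import Cfsg.Agent.Lib.Fusion.Hyperfocal
import Cfsg.Agent.Lib.Fusion.Group
import Cfsg.Agent.Lib.FocalTransfer
import Cfsg.Agent.Lib.PResidual
import Cfsg.Agent.Lib.Thompson.PClosed

/-! Puig's hyperfocal subgroup theorem for groups. (helper7) -/

set_option autoImplicit false
set_option linter.style.haveILetI false
set_option linter.unusedSectionVars false

namespace CfsgLib.Puig

open Cfsg Cfsg.FusionSystem CfsgLib.Fusion CfsgLib.Biset
open scoped commutatorElement

universe u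

variable {G : Type u} [Group G] [Finite G] {p : ℕ} [Fact p.Prime]

theorem hyp_le_map (S V : Subgroup G) (hSV : S ≤ V)
    (hV : ∀ (P : Subgroup G) (g : G), P ≤ S → (∀ y : P, g * (y : G) * g⁻¹ ∈ S) →
      ∃ v ∈ V, ∀ y : P, v * (y : G) * v⁻¹ = g * (y : G) * g⁻¹) :
    (groupFusionSystem S).hyperfocalSubgroup p ≤ (Cfsg.pResidual p ↥V).map V.subtype := by
  refine (Subgroup.closure_le _).mpr ?_
  rintro _ ⟨P, α, x, hP, hα, rfl⟩
  set F := groupFusionSystem S with hF
  let K : Subgroup ↥(F.autGroup P) :=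
    { carrier := {β | ∃ c ∈ (Cfsg.pResidual p ↥V).map V.subtype, ∀ y : P, (((β : MulAut ↥P) y : P) : G) = c * (y : G) * c⁻¹}
      one_mem' := ⟨1, one_mem _, fun y => by simp⟩
      mul_mem' := by
        rintro a b ⟨c, hc, hac⟩ ⟨d, hd, hbd⟩
        refine ⟨c * d, mul_mem hc hd, fun y => ?_⟩
        show (((a : MulAut ↥P) ((b : MulAut ↥P) y) : P) : G) = _
        rw [hac, hbd]; group
      inv_mem' := by
        rintro a ⟨c, hc, hac⟩
        refine ⟨c⁻¹, inv_mem hc, fun y => ?_⟩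
        have h := hac ((((a⁻¹ : ↥(F.autGroup P))) : MulAut ↥P) y)
        rw [Subgroup.coe_inv, MulAut.apply_inv_self] at h
        rw [Subgroup.coe_inv, h]; group }
  have hle : Cfsg.pResidual p ↥(F.autGroup P) ≤ K := by
    refine (Subgroup.closure_le _).mpr fun β hβ => ?_
    obtain ⟨-, hgS, g₀, hg₀⟩ := (autGroup_carrier F hP (β : MulAut ↥P)).mp β.2
    obtain ⟨g, hgV, hgg⟩ := hV P g₀ hP (fun y => hg₀ y ▸ hgS y)
    have hg : ∀ y : P, (((β : MulAut ↥P) y : P) : G) = g * (y : G) * g⁻¹ := fun y => (hg₀ y).trans (hgg y).symm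
    have hgN : g ∈ Subgroup.normalizer (P : Set G) := by
      refine Subgroup.mem_normalizer_fintype (h := ?_)
      intro z hz
      rw [SetLike.mem_coe] at hz ⊢
      have e : (((β : MulAut ↥P) ⟨z, hz⟩ : P) : G) = g * z * g⁻¹ := hg ⟨z, hz⟩
      exact e ▸ ((β : MulAut ↥P) ⟨z, hz⟩).2
    have hfg : P.normalizerMonoidHom ⟨g, hgN⟩ = (β : MulAut ↥P) :=
      MulEquiv.ext fun y => Subtype.ext (hg y).symm
    set NV := (Subgroup.normalizer (P : Set G)).comap V.subtype with hNV
    let f : ↥NV →* MulAut ↥P := P.normalizerMonoidHom.comp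
      ((V.subtype.comp NV.subtype).codRestrict (Subgroup.normalizer (P : Set G)) fun x => x.2)
    have hf : f ⟨⟨g, hgV⟩, hgN⟩ = (β : MulAut ↥P) := hfg
    have hcop : (orderOf (f ⟨⟨g, hgV⟩, hgN⟩)).Coprime p := by
      rw [hf, Subgroup.orderOf_coe]; exact hβ
    obtain ⟨b, -, hb, hbc⟩ := CfsgLib.ThompsonNPC.exists_coprime_lift f hcop
    refine ⟨((b : ↥V) : G), ⟨(b : ↥V), CfsgLib.PResidual.mem_pResidual (by rwa [Subgroup.orderOf_coe]), rfl⟩,
      fun y => ?_⟩
    rw [← hf, ← hb]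
    rfl
  obtain ⟨_, ⟨c, hc, rfl⟩, hxc⟩ := hle hα
  rw [SetLike.mem_coe, hxc x]
  refine ⟨(⟨x, hSV (hP x.2)⟩ : ↥V)⁻¹ * c * (⟨x, hSV (hP x.2)⟩ : ↥V) * c⁻¹,
    mul_mem ?_ (inv_mem hc), by simp [mul_assoc]⟩
  have h := (inferInstance : (Cfsg.pResidual p ↥V).Normal).conj_mem c hc (⟨x, hSV (hP x.2)⟩ : ↥V)⁻¹
  simpa [mul_assoc] using h

theorem hyp_le (S : Sylow p G) :
    (groupFusionSystem (S : Subgroup G)).hyperfocalSubgroup p ≤ (S : Subgroup G) ⊓ Cfsg.pResidual p G := by
  refine le_inf (CfsgLib.Biset.hyp_le p _) ((hyp_le_map _ ⊤ le_top fun P g _ _ => ⟨g, Subgroup.mem_top g, fun _ => rfl⟩).trans ?_)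
  exact CfsgLib.PResidual.map_pResidual _

/-- Puig: the hyperfocal subgroup of `G` on `S` is `S ∩ O^p(G)`. -/
theorem hyp_eq (S : Sylow p G) :
    (groupFusionSystem (S : Subgroup G)).hyperfocalSubgroup p = (S : Subgroup G) ⊓ Cfsg.pResidual p G := by
  refine le_antisymm (hyp_le S) ?_
  set F := groupFusionSystem (S : Subgroup G) with hFdef
  have hF : F.IsSaturated p := group_isSaturated S
  set L := Cfsg.pResidual p G with hL
  set A := L.subgroupOf (S : Subgroup G) with hA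
  haveI : Group.IsNilpotent ↥(S : Subgroup G) := S.2.isNilpotent
  have key : A ≤ hypS p F ⊔ ⁅A, (⊤ : Subgroup ↥(S : Subgroup G))⁆ := by
    have hdvd : ¬ p ∣ ((S : Subgroup G).subgroupOf L).index := by
      rw [← Subgroup.relIndex, ← Subgroup.inf_relIndex_right]
      exact sylow_inf_normal (H := ⊤) (by rw [Subgroup.relIndex_top_right]; exact S.not_dvd_index) le_top le_top
        (by rw [Subgroup.normalizer_eq_top])
    set H := (S : Subgroup G).subgroupOf L with hH
    have hHp : IsPGroup p ↥H := S.2.comap_subtype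
    let T : Sylow p ↥L := hHp.toSylow hdvd
    have hTH : (T : Subgroup ↥L) = H := rfl
    obtain ⟨hfeq, N, hN, hNT, hsup⟩ := CfsgLib.FocalTransfer.coprime_focal (T : Subgroup ↥L)
      (CfsgLib.FocalTransfer.sylow_coprime_relIndex T)
    have hNtop : N = ⊤ := by
      haveI := hN
      have hp' : IsPGroup p (↥L ⧸ N) := by
        refine T.isPGroup'.of_surjective ((QuotientGroup.mk' N).comp (T : Subgroup ↥L).subtype) fun x => ?_
        obtain ⟨g, rfl⟩ := QuotientGroup.mk'_surjective N x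
        obtain ⟨u, hu, v, hv, rfl⟩ := Subgroup.mem_sup_of_normal_left.mp (hsup ▸ Subgroup.mem_top g)
        exact ⟨⟨v, hv⟩, by simp [(QuotientGroup.eq_one_iff u).mpr hu]⟩
      have hres : Cfsg.pResidual p ↥L = ⊤ := by
        have e : L ≤ (Cfsg.pResidual p ↥L).map L.subtype := by
          rw [hL, Cfsg.pResidual, Subgroup.closure_le]
          intro g hg
          have hgL : g ∈ Cfsg.pResidual p G := CfsgLib.PResidual.mem_pResidual hg
          refine ⟨⟨g, hgL⟩, CfsgLib.PResidual.mem_pResidual ?_, rfl⟩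
          have e := Subgroup.orderOf_coe (⟨g, hgL⟩ : ↥(Cfsg.pResidual p G))
          show Nat.Coprime _ p
          exact e ▸ hg
        refine eq_top_iff.mpr fun x _ => ?_
        obtain ⟨y, hy, hyx⟩ := e x.2
        rwa [← L.subtype_injective hyx]
      exact eq_top_iff.mpr (hres ▸ CfsgLib.PResidual.pResidual_le hp')
    have hfocal : (T : Subgroup ↥L) = Subgroup.focalSubgroup (T : Subgroup ↥L) := by
      rw [hfeq, ← hNT, hNtop, top_inf_eq]
    set B := hypS p F ⊔ ⁅A, (⊤ : Subgroup ↥(S : Subgroup G))⁆ with hB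
    have hgen : Subgroup.focalSubgroup (T : Subgroup ↥L) ≤ (B.map (S : Subgroup G).subtype).subgroupOf L := by
      refine (Subgroup.closure_le _).mpr ?_
      rintro _ ⟨hgT, x, hx, v, rfl⟩
      rw [hTH] at hgT hx
      rw [SetLike.mem_coe, Subgroup.mem_subgroupOf]
      set w := ((x : G))⁻¹ with hw
      have hwS : w ∈ (S : Subgroup G) := inv_mem hx
      have hwL : w ∈ L := inv_mem x.2
      have hvw : (v : G) * w * (v : G)⁻¹ ∈ (S : Subgroup G) := by
        have h1 := (S : Subgroup G).mul_mem hwS hgT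
        simpa [hw, commutatorElement_def, mul_assoc] using h1
      set P := Subgroup.zpowers w with hP
      let φ : ↥P →* G := (MulAut.conj (v : G)).toMonoidHom.comp P.subtype
      have hφ : φ ∈ F.Hom P := by
        refine ⟨Subgroup.zpowers_le.mpr hwS, fun y => ?_, v, fun y => rfl⟩
        have h2 : φ.range ≤ (S : Subgroup G) := by
          rw [MonoidHom.range_comp, Subgroup.range_subtype, hP, MonoidHom.map_zpowers]
          exact Subgroup.zpowers_le.mpr (by simpa using hvw)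
        exact h2 ⟨y, rfl⟩
      obtain ⟨q, hq⟩ := exists_conj_mod_hyp p S.2 hF hφ
      obtain ⟨s, rfl⟩ := QuotientGroup.mk_surjective q
      have h3 := hq ⟨w, Subgroup.mem_zpowers w⟩ hwS hvw
      set a : ↥(S : Subgroup G) := ⟨w, hwS⟩ with ha
      set b : ↥(S : Subgroup G) := ⟨(v : G) * w * (v : G)⁻¹, hvw⟩ with hb
      have h4 : (s * a * s⁻¹)⁻¹ * b ∈ hypS p F :=
        QuotientGroup.eq.mp (show (QuotientGroup.mk (s * a * s⁻¹) : ↥(S : Subgroup G) ⧸ hypS p F) =
          QuotientGroup.mk b from h3.symm)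
      have haA : a⁻¹ ∈ A := Subgroup.mem_subgroupOf.mpr (inv_mem hwL)
      have h5 : ⁅a⁻¹, s⁆ * ((s * a * s⁻¹)⁻¹ * b) ∈ B :=
        mul_mem (Subgroup.mem_sup_right (Subgroup.commutator_mem_commutator haA (Subgroup.mem_top s)))
          (Subgroup.mem_sup_left h4)
      refine ⟨_, h5, ?_⟩
      simp only [Subgroup.coe_subtype, commutatorElement_def, Subgroup.coe_mul, Subgroup.coe_inv, ha, hb, hw]
      group
    intro y hy
    have hyH : (⟨(y : G), hy⟩ : ↥L) ∈ H := y.2
    obtain ⟨z, hz, hzy⟩ := Subgroup.mem_subgroupOf.mp ((hgen.trans' hfocal.le) hyH)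
    exact Subtype.ext hzy ▸ hz
  rintro x ⟨hxS, hxL⟩
  exact Subgroup.mem_subgroupOf.mp
    (le_of_le_sup_commutator key (x := ⟨x, hxS⟩) (Subgroup.mem_subgroupOf.mpr hxL))

end CfsgLib.Puig
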