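import Cfsg.Agent.Lib.RigidAut
import Mathlib.GroupTheory.SpecificGroups.Cyclic

/-! Groups acting on a `p`-group fixing all subgroups of a given order (owner helper5). -/

set_option autoImplicit false
set_option linter.style.haveILetI false
open scoped commutatorElement

namespace CfsgLib.RigidGroup

open CfsgLib.RigidAut

universe u v

/-- Generated by the commutators and the `(p - 1)`-th powers. -/
def dGroup (A : Type v) [Group A] (p : ℕ) : Subgroup A :=
  Subgroup.closure ({x | ∃ a b : A, x = ⁅a, b⁆} ∪ {x | ∃ a : A, x = a ^ (p - 1)})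

instance dGroup_normal (A : Type v) [Group A] (p : ℕ) : (dGroup A p).Normal := by
  refine ⟨fun x hx g => ?_⟩
  induction hx using Subgroup.closure_induction with
  | mem z hz =>
    rcases hz with ⟨a, b, rfl⟩ | ⟨a, rfl⟩
    · exact Subgroup.subset_closure (Or.inl ⟨g * a * g⁻¹, g * b * g⁻¹, by simp [commutatorElement_def, mul_assoc]⟩)
    · exact Subgroup.subset_closure (Or.inr ⟨g * a * g⁻¹, by rw [conj_pow]⟩)
  | one => simp
  | mul a b _ _ ha hb => have := mul_mem ha hb; simpa [mul_assoc] using this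
  | inv a _ ha => have := inv_mem ha; simpa [mul_assoc] using this

variable {A : Type v} [Group A] {P : Type u} [Group P]

/-- The action on an invariant subgroup. -/
noncomputable def restrictHom [Finite P] (ρ : A →* MulAut P) (F : Subgroup P) (hF : ∀ (a : A), ∀ x ∈ F, ρ a x ∈ F) :
    A →* MulAut ↥F where
  toFun a := MulEquiv.ofBijective (((ρ a).toMonoidHom.comp F.subtype).codRestrict F fun x => hF a x x.2)
    ⟨fun x y h => Subtype.ext ((ρ a).injective (congrArg Subtype.val h)),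
      Finite.surjective_of_injective fun x y h => Subtype.ext ((ρ a).injective (congrArg Subtype.val h))⟩
  map_one' := by ext x; show ρ 1 (x : P) = x; rw [map_one]; rfl
  map_mul' a b := by ext x; show ρ (a * b) (x : P) = ρ a (ρ b x); rw [map_mul]; rfl

theorem restrictHom_apply [Finite P] (ρ : A →* MulAut P) (F : Subgroup P) (hF : ∀ (a : A), ∀ x ∈ F, ρ a x ∈ F)
    (a : A) (x : F) : ((restrictHom ρ F hF a x : F) : P) = ρ a x := rfl

theorem orderOf_restrictHom_dvd [Finite P] (ρ : A →* MulAut P) (F : Subgroup P)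
    (hF : ∀ (a : A), ∀ x ∈ F, ρ a x ∈ F) (a : A) : orderOf (restrictHom ρ F hF a) ∣ orderOf (ρ a) := by
  refine orderOf_dvd_of_pow_eq_one ?_
  rw [← map_pow]
  ext x
  rw [restrictHom_apply, map_pow, pow_orderOf_eq_one]; rfl

theorem quot_le {N : Subgroup P} (ρ : A →* MulAut P) (hN : ∀ (a : A), ∀ x ∈ N, ρ a x ∈ N) (a : A) :
    N ≤ N.comap (ρ a).toMonoidHom := fun x hx => hN a x hx

/-- The action on an invariant quotient. -/
noncomputable def quotHom [Finite P] (ρ : A →* MulAut P) (N : Subgroup P) [N.Normal]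
    (hN : ∀ (a : A), ∀ x ∈ N, ρ a x ∈ N) : A →* MulAut (P ⧸ N) where
  toFun a := MulEquiv.ofBijective (QuotientGroup.map N N (ρ a).toMonoidHom (quot_le ρ hN a))
    (Finite.surjective_iff_bijective.mp fun y => by
      obtain ⟨y, rfl⟩ := QuotientGroup.mk_surjective y
      exact ⟨((ρ a).symm y : P), congrArg QuotientGroup.mk ((ρ a).apply_symm_apply y)⟩)
  map_one' := by
    ext y; obtain ⟨y, rfl⟩ := QuotientGroup.mk_surjective y
    show ((ρ 1 y : P) : P ⧸ N) = _
    rw [map_one]; rfl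
  map_mul' a b := by
    ext y; obtain ⟨y, rfl⟩ := QuotientGroup.mk_surjective y
    show ((ρ (a * b) y : P) : P ⧸ N) = ((ρ a (ρ b y) : P) : P ⧸ N)
    rw [map_mul]; rfl

theorem quotHom_apply [Finite P] (ρ : A →* MulAut P) (N : Subgroup P) [N.Normal]
    (hN : ∀ (a : A), ∀ x ∈ N, ρ a x ∈ N) (a : A) (x : P) : quotHom ρ N hN a (x : P ⧸ N) = ((ρ a x : P) : P ⧸ N) := rfl

/-- Elements of `dGroup` act on a cyclic `p`-group as `p`-elements. -/
theorem fix_of_cyclic [Finite P] {p : ℕ} [hp : Fact p.Prime] (hP : IsPGroup p P) (ρ : A →* MulAut P) {δ : A}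
    (hδ : δ ∈ dGroup A p) (hco : (orderOf (ρ δ)).Coprime p) {x : P} (hx : ∀ a : A, ρ a x ∈ Subgroup.zpowers x) :
    ρ δ x = x := by
  set C := Subgroup.zpowers x
  have hC : ∀ (a : A), ∀ y ∈ C, ρ a y ∈ C := by
    rintro a _ ⟨m, rfl⟩
    rw [map_zpow]; exact zpow_mem (hx a) m
  set σ := restrictHom ρ C hC
  obtain ⟨i, hi⟩ := (hP.to_subgroup C).exists_card_eq
  let e := IsCyclic.mulAutMulEquiv (G := ↥C)
  have key : ∀ d ∈ dGroup A p, (e (σ d)) ^ p ^ i = 1 := by
    intro d hd
    induction hd using Subgroup.closure_induction with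
    | mem z hz =>
      rcases hz with ⟨a, b, rfl⟩ | ⟨a, rfl⟩
      · rw [commutatorElement_def, map_mul, map_mul, map_mul, map_inv, map_inv, map_mul, map_mul, map_mul, map_inv,
          map_inv, mul_comm (e (σ a)) (e (σ b))]
        simp
      · have hdvd : Nat.card (ZMod (Nat.card ↥C))ˣ ∣ (p - 1) * p ^ i := by
          haveI : NeZero (Nat.card ↥C) := ⟨Nat.card_pos.ne'⟩
          rw [Nat.card_eq_fintype_card, ZMod.card_units_eq_totient, hi]
          rcases Nat.eq_zero_or_pos i with rfl | hpos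
          · simp
          · rw [Nat.totient_prime_pow hp.out hpos, mul_comm]
            exact Nat.mul_dvd_mul_left _ (Nat.pow_dvd_pow p (Nat.sub_le i 1))
        rw [map_pow, map_pow, ← pow_mul]
        obtain ⟨c, hc⟩ := hdvd
        rw [hc, pow_mul, pow_card_eq_one', one_pow]
    | one => simp
    | mul a b _ _ ha hb => rw [map_mul, map_mul, mul_pow, ha, hb, one_mul]
    | inv a _ ha => rw [map_inv, map_inv, inv_pow, ha, inv_one]
  have h1 : orderOf (σ δ) = 1 := by
    refine Nat.eq_one_of_dvd_coprimes (hco.pow_right i) (orderOf_restrictHom_dvd ρ C hC δ) ?_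
    rw [← e.orderOf_eq]
    exact orderOf_dvd_of_pow_eq_one (key δ hδ)
  have h2 := restrictHom_apply ρ C hC δ ⟨x, Subgroup.mem_zpowers x⟩
  rw [show restrictHom ρ C hC δ = 1 from orderOf_eq_one_iff.mp h1] at h2
  exact h2.symm

/-- Elements of `dGroup` of order prime to `p` fix, modulo an invariant `N`, an element moved into its powers. -/
theorem fix_mod_group [Finite P] {p : ℕ} [Fact p.Prime] (hP : IsPGroup p P) (ρ : A →* MulAut P) {δ : A}
    (hδ : δ ∈ dGroup A p) (hco : (orderOf (ρ δ)).Coprime p) {N : Subgroup P} [N.Normal]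
    (hN : ∀ (a : A), ∀ x ∈ N, ρ a x ∈ N) {x : P} (hx : ∀ a : A, ∃ j : ℕ, ρ a x * (x ^ j)⁻¹ ∈ N) :
    x⁻¹ * ρ δ x ∈ N := by
  have hdvd : orderOf (quotHom ρ N hN δ) ∣ orderOf (ρ δ) := by
    refine orderOf_dvd_of_pow_eq_one ?_
    rw [← map_pow]
    ext y
    obtain ⟨y, rfl⟩ := QuotientGroup.mk_surjective y
    rw [quotHom_apply, map_pow, pow_orderOf_eq_one]; rfl
  have h := fix_of_cyclic (hP.to_quotient N) (quotHom ρ N hN) hδ (Nat.Coprime.coprime_dvd_left hdvd hco)
    (x := (x : P ⧸ N)) fun a => by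
      obtain ⟨j, hj⟩ := hx a
      refine mem_powers_iff_mem_zpowers.mp ⟨j, ?_⟩
      show (x : P ⧸ N) ^ j = _
      rw [quotHom_apply, ← QuotientGroup.mk_pow, eq_comm, QuotientGroup.eq_iff_div_mem, div_eq_mul_inv]
      exact hj
  rw [quotHom_apply] at h
  exact QuotientGroup.eq.mp h.symm

/-- In a group acting on a `p`-group so that every subgroup of order `d` is fixed, the elements of `dGroup` of order
prime to `p` in the action act trivially. -/
theorem eq_one_of_fix_order {p : ℕ} [hp : Fact p.Prime] {A : Type v} [Group A] {δ : A} (hδ : δ ∈ dGroup A p) (n : ℕ) : ∀ {P : Type u} [Group P] [Finite P], Nat.card P = n →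
    IsPGroup p P → ∀ ρ : A →* MulAut P, (orderOf (ρ δ)).Coprime p → ∀ k : ℕ, 0 < k → p ^ k < n →
    (∀ E : Subgroup P, (Nat.card E = p ^ k ∨ (p ^ k = 2 ∧ Nat.card E = 4)) → ∀ (a : A), ∀ x ∈ E, ρ a x ∈ E) → ρ δ = 1 := by
  induction n using Nat.strong_induction_on with
  | _ n ih =>
  intro P _ _ hn hP ρ hcop k hk hlt hfix'
  set α := ρ δ with hαdef
  have hfix : ∀ E : Subgroup P, (Nat.card E = p ^ k ∨ (p ^ k = 2 ∧ Nat.card E = 4)) → ∀ x ∈ E, α x ∈ E := fun E hE => hfix' E hE δ
  have hdvd : ∀ x : P, ∀ m, x ^ p ^ m = 1 → orderOf x ∣ p ^ m := fun x m h => orderOf_dvd_of_pow_eq_one h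
  have hsub : ∀ (H : Subgroup P) (m : ℕ), Nat.card ↥H ≤ p ^ m → p ^ m ≤ n → ∃ E : Subgroup P, H ≤ E ∧ Nat.card ↥E = p ^ m := by
    intro H m hH hm
    obtain ⟨a, ha⟩ := (hP.to_subgroup H).exists_card_eq
    obtain ⟨b, hb⟩ := hP.exists_card_eq
    obtain ⟨E, hE, hHE⟩ := Sylow.exists_subgroup_card_pow_prime_le p (n := a) (m := m) (G := P)
      (by rw [hb]; exact Nat.pow_dvd_pow p ((Nat.pow_le_pow_iff_right hp.out.one_lt).mp (hb ▸ hn.symm ▸ hm))) H ha
      ((Nat.pow_le_pow_iff_right hp.out.one_lt).mp (ha ▸ hH))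
    exact ⟨E, hHE, hE⟩
  set Φ := frattini P
  obtain ⟨hcom, hpow⟩ := Cfsg.Agent.S0012.result p hP
  have hinv' : ∀ (a : A), ∀ c ∈ Φ, ρ a c ∈ Φ := fun a c hc =>
    (Subgroup.characteristic_iff_map_le.mp (inferInstance : (frattini P).Characteristic) (ρ a)) ⟨c, hc, rfl⟩
  have hinv := hinv' δ
  obtain ⟨b, hb⟩ := hP.exists_card_eq
  have hkb : k < b := (Nat.pow_lt_pow_iff_right hp.out.one_lt).mp (hb ▸ hn.symm ▸ hlt)
  by_cases hd : p ^ k = 2
  · -- subgroups of order two and four
    obtain ⟨rfl, rfl⟩ : p = 2 ∧ k = 1 := by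
      have hp2 : p = 2 := (Nat.prime_dvd_prime_iff_eq hp.out Nat.prime_two).mp (hd ▸ dvd_pow_self p hk.ne')
      subst hp2
      exact ⟨rfl, Nat.pow_right_injective le_rfl (hd.trans (pow_one 2).symm)⟩
    refine eq_one_of_fix_small n hn hP α hcop fun x hx => fix_of_cyclic hP ρ hδ hcop fun a => ?_
    have h4 : x ^ 4 = 1 := by
      rcases hx with h | h
      · rw [show 4 = 2 * 2 from rfl, pow_mul, h, one_pow]
      · exact h.2
    obtain ⟨i, hi, hix⟩ := (Nat.dvd_prime_pow Nat.prime_two).mp (show orderOf x ∣ 2 ^ 2 from orderOf_dvd_of_pow_eq_one h4)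
    rcases Nat.eq_zero_or_pos i with rfl | hi0
    · rw [orderOf_eq_one_iff.mp hix, map_one]; exact one_mem _
    refine hfix' _ ?_ a x (Subgroup.mem_zpowers x)
    rw [Nat.card_zpowers, hix]
    rcases (show i = 1 ∨ i = 2 by omega) with rfl | rfl
    · exact Or.inl rfl
    · exact Or.inr ⟨rfl, rfl⟩
  by_cases hbase : b = k + 1
  · -- every maximal subgroup is fixed
    have hmod : ∀ x : P, x⁻¹ * α x ∈ Φ := by
      intro x
      refine fix_mod_group hP ρ hδ hcop hinv' fun a => ?_
      refine mem_of_coatoms hP (x := x) (y := ρ a x) fun H hH hxH => by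
        refine hfix' H (Or.inl ?_) a x hxH
        obtain ⟨a, ha⟩ := (hP.to_subgroup H).exists_card_eq
        have hle : p ^ a < p ^ b := by
          rw [← ha, ← hb]
          exact lt_of_le_of_ne (Subgroup.card_le_card_group H) fun he => hH.1 (Subgroup.eq_top_of_card_eq H he)
        have hab : a < b := (Nat.pow_lt_pow_iff_right hp.out.one_lt).mp hle
        rcases Nat.lt_or_ge a k with hak | hak
        · exfalso
          obtain ⟨E, hHE, hE⟩ := hsub H k (ha.le.trans (Nat.pow_le_pow_right hp.out.pos hak.le)) hlt.le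
          rcases eq_or_lt_of_le hHE with he | he
          · rw [he, hE] at ha; have := Nat.pow_right_injective hp.out.two_le ha; omega
          · rw [hH.2 E he, Subgroup.card_top, hn] at hE; omega
        · rw [ha, show a = k by omega]
    haveI := Fintype.ofFinite P
    let e := (Fintype.equivFin P).symm
    have hgen : Subgroup.closure (Set.range e) ⊔ frattini P = ⊤ := by
      rw [e.range_eq_univ, Subgroup.closure_univ, top_sup_eq]
    have h1 := CfsgLib.GroupB.AutPGroup.card_dvd_of_trivial hP hgen (Subgroup.zpowers α) (by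
      intro β hβ
      obtain ⟨m, rfl⟩ := mem_powers_iff_mem_zpowers.mpr hβ
      induction m with
      | zero => intro x; simp
      | succ m ihm =>
        intro x
        have h2 := ihm (Subgroup.npow_mem_zpowers α m) x
        have h3 := (inferInstance : (frattini P).Normal).conj_mem _ (hmod ((α ^ m) x)) ((α ^ m) x)
        show (α ^ (m + 1)) x * x⁻¹ ∈ frattini P
        rw [pow_succ', MulAut.mul_apply]
        have := mul_mem h3 h2
        simpa [mul_assoc] using this)
    rw [Nat.card_zpowers] at h1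
    obtain ⟨l, hl⟩ := (hP.to_subgroup (frattini P)).exists_card_eq
    rw [hl, ← pow_mul] at h1
    exact orderOf_eq_one_iff.mp (Nat.eq_one_of_dvd_coprimes (hcop.pow_right _) dvd_rfl h1)
  -- invariant proper subgroups of order larger than `p ^ k` are centralized
  have hproper : ∀ F : Subgroup P, F ≠ ⊤ → p ^ k < Nat.card ↥F → (∀ (a : A), ∀ x ∈ F, ρ a x ∈ F) → ∀ x ∈ F, α x = x := by
    intro F hF hcard hFinv x hx
    let β := restrictHom ρ F hFinv
    have hβ : ∀ (a : A) (y : F), ((β a y : F) : P) = ρ a y := fun a y => restrictHom_apply ρ F hFinv a y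
    have hlt' : Nat.card ↥F < n :=
      hn ▸ lt_of_le_of_ne (Subgroup.card_le_card_group F) fun he => hF (Subgroup.eq_top_of_card_eq F he)
    have h1 := ih _ hlt' rfl (hP.to_subgroup F) β (Nat.Coprime.coprime_dvd_left (orderOf_restrictHom_dvd ρ F hFinv δ) hcop) k hk hcard fun E hE a y hy => by
      have := hfix' (E.map F.subtype) (by rw [Subgroup.card_map_of_injective F.subtype_injective]; exact hE) a y ⟨y, hy, rfl⟩
      obtain ⟨z, hz, hzy⟩ := this
      rwa [show β a y = z from Subtype.ext ((hβ a y).trans hzy.symm)]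
    have h2 := hβ δ ⟨x, hx⟩
    rw [h1] at h2
    exact h2.symm
  have hmap : ∀ F F' : Subgroup P, (∀ (a : A), ∀ x ∈ F, ρ a x ∈ F) → (∀ (a : A), ∀ x ∈ F', ρ a x ∈ F') →
      ∀ (a : A), ∀ x ∈ F ⊔ F', ρ a x ∈ F ⊔ F' := by
    intro F F' h h' a x hx
    have : (F ⊔ F').map (ρ a).toMonoidHom ≤ F ⊔ F' := by
      rw [Subgroup.map_sup]
      refine sup_le_sup ?_ ?_ <;> rintro _ ⟨z, hz, rfl⟩
      exacts [h a z hz, h' a z hz]
    exact this ⟨x, hx, rfl⟩
  have htop : ∀ F : Subgroup P, F ⊔ Φ = ⊤ → F = ⊤ := fun F h => frattini_nongenerating h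
  refine eq_one_of_fix_small n hn hP α hcop fun x hx => ?_
  have hxd : Nat.card ↥(Subgroup.zpowers x) ≤ p ^ k := by
    rw [Nat.card_zpowers]
    rcases hx with h | ⟨rfl, h⟩
    · exact (Nat.le_of_dvd hp.out.pos (orderOf_dvd_of_pow_eq_one h)).trans (Nat.le_self_pow hk.ne' p)
    · have : 2 ≤ k := by
        by_contra hk2
        exact hd (by rw [show k = 1 by omega, pow_one])
      exact (Nat.le_of_dvd (by norm_num) (orderOf_dvd_of_pow_eq_one h)).trans ((Nat.pow_le_pow_right (by norm_num) this).trans_eq' (by norm_num))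
  obtain ⟨E, hxE, hE⟩ := hsub _ k hxd hlt.le
  replace hxE : x ∈ E := hxE (Subgroup.mem_zpowers x)
  have hEinv : ∀ (a : A), ∀ x ∈ E, ρ a x ∈ E := hfix' E (Or.inl hE)
  have hEtop : E ≠ ⊤ := fun h => by rw [h, Subgroup.card_top, hn] at hE; omega
  have hgt : ∀ F : Subgroup P, E < F → p ^ k < Nat.card ↥F := fun F hF => by
    refine hE ▸ lt_of_le_of_ne (Subgroup.card_le_of_le hF.le) fun he => ?_
    exact hF.ne (Subgroup.eq_of_le_of_card_ge hF.le he.ge)
  have finish : ∀ F : Subgroup P, E < F → F ≠ ⊤ → (∀ (a : A), ∀ x ∈ F, ρ a x ∈ F) → α x = x := fun F hF h1 h2 =>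
    hproper F h1 (hgt F hF) h2 x (hF.le hxE)
  by_cases hEn : Subgroup.normalizer (E : Set P) = ⊤
  swap
  · haveI := hP.isNilpotent
    refine finish _ (Group.normalizerCondition_of_isNilpotent E hEtop.lt_top) hEn fun a y hy => ?_
    have hbij : E.map (ρ a).toMonoidHom = E := Subgroup.eq_of_le_of_card_ge (by rintro _ ⟨v, hv, rfl⟩; exact hEinv a v hv)
      (by rw [Subgroup.card_map_of_injective (f := (ρ a).toMonoidHom) (ρ a).injective])
    have h1 := Subgroup.le_normalizer_map (H := E) (ρ a).toMonoidHom ⟨y, hy, rfl⟩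
    rwa [hbij] at h1
  haveI hEnormal : E.Normal := Subgroup.normalizer_eq_top_iff.mp hEn
  by_cases hΦE : Φ ≤ E
  swap
  · exact finish (E ⊔ Φ) (lt_of_le_of_ne le_sup_left fun h => hΦE (h ▸ le_sup_right)) (fun h => hEtop (htop _ h))
      (hmap _ _ hEinv hinv')
  rcases eq_or_lt_of_le hΦE with hEq | hlt'
  · by_cases hE' : ∃ E' : Subgroup P, Nat.card ↥E' = p ^ k ∧ E' ≠ E
    · obtain ⟨E', hE', hne⟩ := hE'
      refine finish (E' ⊔ E) (lt_of_le_of_ne le_sup_right fun h => hne (Subgroup.eq_of_le_of_card_ge (h ▸ le_sup_left) (by rw [hE, hE'])))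
        (fun h => ?_) (hmap _ _ (hfix' E' (Or.inl hE')) hEinv)
      rw [← hEq] at h
      have := htop E' h
      rw [this, Subgroup.card_top, hn] at hE'
      omega
    -- unique subgroup of order `p ^ k`, which is then cyclic
    simp only [not_exists, not_and, not_not] at hE'
    obtain ⟨z, hz⟩ : ∃ z, z ∉ E := by
      by_contra hc
      simp only [not_exists, not_not] at hc
      exact hEtop (eq_top_iff.mpr fun y _ => hc y)
    have hle : E ≤ Subgroup.zpowers z := by
      obtain ⟨a, ha⟩ := (hP.to_subgroup (Subgroup.zpowers z)).exists_card_eq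
      rcases Nat.lt_or_ge k a with hak | hak
      · obtain ⟨E', hE'c⟩ := Sylow.exists_subgroup_card_pow_prime p (G := ↥(Subgroup.zpowers z)) (n := k)
          (by rw [ha]; exact Nat.pow_dvd_pow p hak.le)
        have := hE' (E'.map (Subgroup.zpowers z).subtype) (by rw [Subgroup.card_map_of_injective (Subgroup.subtype_injective _)]; exact hE'c)
        exact this ▸ Subgroup.map_subtype_le _
      · exfalso
        obtain ⟨E', hzE', hE'c⟩ := hsub (Subgroup.zpowers z) k (ha.le.trans (Nat.pow_le_pow_right hp.out.pos hak)) hlt.le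
        exact hz (hE' E' hE'c ▸ hzE' (Subgroup.mem_zpowers z))
    obtain ⟨i, hi⟩ := hle hxE
    have hxz : Subgroup.zpowers x ≤ Subgroup.zpowers z := Subgroup.zpowers_le.mpr ⟨i, hi⟩
    have hcyc : IsCyclic ↥E := Subgroup.isCyclic_of_le hle
    obtain ⟨⟨e, heE⟩, he⟩ := hcyc.exists_zpow_surjective
    have hee : α e = e := by
      refine fix_of_cyclic hP ρ hδ hcop fun a => ?_
      obtain ⟨m, hm⟩ := he ⟨ρ a e, hEinv a e heE⟩
      exact ⟨m, congrArg Subtype.val hm⟩
    obtain ⟨m, hm⟩ := he ⟨x, hxE⟩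
    have hm' : e ^ m = x := congrArg Subtype.val hm
    rw [← hm', map_zpow, hee]
  · -- `Φ < E`
    obtain ⟨a, ha⟩ := (hP.to_subgroup Φ).exists_card_eq
    have hak : a < k := by
      refine (Nat.pow_lt_pow_iff_right hp.out.one_lt).mp ?_
      rw [← ha, ← hE]
      exact lt_of_le_of_ne (Subgroup.card_le_of_le hlt'.le) fun he => hlt'.ne (Subgroup.eq_of_le_of_card_ge hlt'.le he.ge)
    obtain ⟨E0', hE0c, hΦE0⟩ := Sylow.exists_subgroup_card_pow_prime_le p (n := a) (m := k - 1) (G := ↥E)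
      (by rw [hE]; exact Nat.pow_dvd_pow p (Nat.sub_le k 1)) (Φ.subgroupOf E)
      (by rw [Nat.card_congr (Subgroup.subgroupOfEquivOfLe hlt'.le).toEquiv, ha]) (by omega)
    set E0 := E0'.map E.subtype
    have hE0E : E0 ≤ E := Subgroup.map_subtype_le _
    have hE0card : Nat.card ↥E0 = p ^ (k - 1) := by rw [Subgroup.card_map_of_injective E.subtype_injective, hE0c]
    have hΦ0 : Φ ≤ E0 := fun c hc => ⟨⟨c, hlt'.le hc⟩, hΦE0 (Subgroup.mem_subgroupOf.mpr hc), rfl⟩
    haveI : E0.Normal := Subgroup.Normal.of_commutator_le _ (hcom.trans hΦ0)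
    obtain ⟨y, hy⟩ : ∃ y, y ∉ E := by
      by_contra hc
      simp only [not_exists, not_not] at hc
      exact hEtop (eq_top_iff.mpr fun y _ => hc y)
    set K := E0 ⊔ Subgroup.zpowers y
    have hKE : K ⊓ E ≤ E0 := by
      intro w hw
      obtain ⟨hw1, hw2⟩ := Subgroup.mem_inf.mp hw
      obtain ⟨e, he, v, hv, rfl⟩ := Subgroup.mem_sup_of_normal_left.mp hw1
      obtain ⟨i, rfl⟩ := mem_powers_iff_mem_zpowers.mpr hv
      have hyi : y ^ i ∈ E := (Subgroup.mul_mem_cancel_left E (hE0E he)).mp hw2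
      obtain ⟨l, rfl⟩ : p ∣ i := by
        by_contra hpi
        obtain ⟨a', ha'⟩ := Nat.exists_mul_mod_eq_one_of_coprime ((hp.out.coprime_iff_not_dvd.mpr hpi).symm) hp.out.one_lt
        have h1 : y ^ (i * a') ∈ E := by rw [pow_mul]; exact pow_mem hyi a'
        rw [← Nat.mod_add_div (i * a') p, ha'.2, pow_add, pow_one, pow_mul] at h1
        exact hy ((Subgroup.mul_mem_cancel_right E (pow_mem (hlt'.le (hpow y)) _)).mp h1)
      exact mul_mem he (by show y ^ (p * l) ∈ E0; rw [pow_mul]; exact pow_mem (hΦ0 (hpow y)) l)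
    have hKlt : p ^ (k - 1) < Nat.card ↥K := hE0card ▸ lt_of_le_of_ne (Subgroup.card_le_of_le le_sup_left) fun he =>
      hy (hE0E ((Subgroup.eq_of_le_of_card_ge le_sup_left he.ge).ge (le_sup_right (a := E0) (Subgroup.mem_zpowers y))))
    obtain ⟨c, hc⟩ := (hP.to_subgroup K).exists_card_eq
    have hkc : k ≤ c := by
      rw [hc] at hKlt
      have := (Nat.pow_lt_pow_iff_right hp.out.one_lt).mp hKlt
      omega
    obtain ⟨E1, hE1c⟩ := Sylow.exists_subgroup_card_pow_prime p (G := ↥K) (n := k) (by rw [hc]; exact Nat.pow_dvd_pow p hkc)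
    set E' := E1.map K.subtype
    have hE'K : E' ≤ K := Subgroup.map_subtype_le _
    have hE'card : Nat.card ↥E' = p ^ k := by rw [Subgroup.card_map_of_injective K.subtype_injective, hE1c]
    refine finish (E ⊔ E') (lt_of_le_of_ne le_sup_left fun h => ?_) (fun h => ?_) (hmap _ _ hEinv (hfix' E' (Or.inl hE'card)))
    · have h1 := Subgroup.card_le_of_le ((le_inf hE'K (h ▸ le_sup_right)).trans hKE)
      rw [hE'card, hE0card] at h1
      have := (Nat.pow_le_pow_iff_right hp.out.one_lt).mp h1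
      omega
    · -- `E⟨y⟩` has order at most `p ^ (k + 1)`
      have hsurj : ∀ w : P, ∃ z : ↥E × Fin p, (z.1 : P) * y ^ (z.2 : ℕ) = w := by
        intro w
        have hw : w ∈ E ⊔ Subgroup.zpowers y := by
          have : E ⊔ E' ≤ E ⊔ Subgroup.zpowers y :=
            sup_le le_sup_left (hE'K.trans (sup_le (hE0E.trans le_sup_left) le_sup_right))
          exact this (h ▸ Subgroup.mem_top w)
        obtain ⟨e, he, v, hv, rfl⟩ := Subgroup.mem_sup_of_normal_left.mp hw
        obtain ⟨i, rfl⟩ := mem_powers_iff_mem_zpowers.mpr hv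
        refine ⟨(⟨e * (y ^ p) ^ (i / p), mul_mem he (pow_mem (hlt'.le (hpow y)) _)⟩, ⟨i % p, Nat.mod_lt _ hp.out.pos⟩), ?_⟩
        show e * (y ^ p) ^ (i / p) * y ^ (i % p) = e * y ^ i
        rw [mul_assoc, ← pow_mul, ← pow_add, Nat.div_add_mod]
      have hcard := Nat.card_le_card_of_surjective _ hsurj
      rw [Nat.card_prod, Nat.card_fin, hE, hb, ← pow_succ] at hcard
      have := (Nat.pow_le_pow_iff_right hp.out.one_lt).mp hcard
      omega

end CfsgLib.RigidGroup
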