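import Cfsg.Agent.Lib.RigidGroup
import Cfsg.Agent.Lib.Supersolvable.Reach

/-! A normal `p`-subgroup all of whose subgroups of one order are normal has cyclic chief factors (owner helper5). -/

set_option autoImplicit false
set_option linter.style.haveILetI false
open scoped commutatorElement

namespace CfsgLib.RigidReach

variable {G : Type*} [Group G] {p : ℕ} [hp : Fact p.Prime]

/-- An endomorphism `T` of a nontrivial `𝔽_p`-space with `T ^ (p - 1) = 1` has an eigenvalue. -/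
theorem exists_eigen {M : Type*} [AddCommGroup M] [Module (ZMod p) M] (T : M →+ M)
    (hT : ∀ x, (⇑T)^[p - 1] x = x) {v : M} (hv : v ≠ 0) : ∃ (c : ZMod p) (w : M), w ≠ 0 ∧ T w = c • w := by
  classical
  let u : (ZMod p)ˣ → M := fun c => ∑ i ∈ Finset.range (p - 1), ((c : ZMod p) ^ i) • (⇑T)^[i] v
  obtain ⟨c, hc⟩ : ∃ c, u c ≠ 0 := by
    by_contra hcon
    simp only [not_exists, not_not] at hcon
    have h1 : ∑ c : (ZMod p)ˣ, u c = -v := by
      simp only [u]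
      rw [Finset.sum_comm]
      simp_rw [← Finset.sum_smul, FiniteField.sum_pow_units, ZMod.card]
      rw [Finset.sum_eq_single 0]
      · simp
      · intro i hi hi0
        have : ¬ (p - 1) ∣ i := fun hd => by
          have := Nat.le_of_dvd (Nat.pos_of_ne_zero hi0) hd
          have := Finset.mem_range.mp hi
          omega
        simp [this]
      · intro h
        simp only [Finset.mem_range, not_lt, Nat.le_zero] at h
        have := hp.out.two_le
        omega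
    rw [Finset.sum_eq_zero fun c _ => hcon c] at h1
    exact hv (neg_eq_zero.mp h1.symm)
  refine ⟨(c⁻¹ : (ZMod p)ˣ), u c, hc, ?_⟩
  have hshift : ∑ i ∈ Finset.range (p - 1), ((c : ZMod p) ^ (i + 1)) • (⇑T)^[i + 1] v = u c := by
    have h1 := Finset.sum_range_succ' (fun i => ((c : ZMod p) ^ i) • (⇑T)^[i] v) (p - 1)
    have h2 := Finset.sum_range_succ (fun i => ((c : ZMod p) ^ i) • (⇑T)^[i] v) (p - 1)
    rw [h2] at h1
    rw [hT v, ZMod.pow_card_sub_one_eq_one c.ne_zero, pow_zero, Function.iterate_zero_apply] at h1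
    exact (add_right_cancel h1).symm
  conv_rhs => rw [← hshift]
  rw [map_sum, Finset.smul_sum]
  refine Finset.sum_congr rfl fun i _ => ?_
  rw [ZMod.map_smul, smul_smul, Function.iterate_succ_apply' (⇑T) i, pow_succ' (c : ZMod p) i, ← mul_assoc,
    Units.inv_mul, one_mul]

/-- Multiplicative form: an automorphism of exponent `p - 1` of an elementary abelian group has a power eigenvector. -/
theorem exists_power_eigen {W : Type*} [CommGroup W] (hexp : ∀ x : W, x ^ p = 1) (f : W →* W)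
    (hf : ∀ x, (⇑f)^[p - 1] x = x) {v : W} (hv : v ≠ 1) : ∃ (j : ℕ) (w : W), w ≠ 1 ∧ f w = w ^ j := by
  letI : Module (ZMod p) (Additive W) := AddCommGroup.zmodModule fun x => congrArg Additive.ofMul (hexp (Additive.toMul x))
  let T : Additive W →+ Additive W := MonoidHom.toAdditive f
  have hT : ∀ (n : ℕ) (x : Additive W), (⇑T)^[n] x = Additive.ofMul ((⇑f)^[n] (Additive.toMul x)) := by
    intro n
    induction n with
    | zero => intro x; rfl
    | succ n ih => intro x; rw [Function.iterate_succ_apply', Function.iterate_succ_apply', ih]; rfl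
  obtain ⟨c, w, hw, hcw⟩ := exists_eigen T (fun x => by rw [hT, hf]; rfl) (v := Additive.ofMul v)
    (fun h => hv (congrArg Additive.toMul h))
  refine ⟨c.val, Additive.toMul w, fun h => hw (congrArg Additive.ofMul h), ?_⟩
  rw [← ZMod.natCast_zmod_val c, Nat.cast_smul_eq_nsmul] at hcw
  exact congrArg Additive.toMul hcw

variable [Finite G]

theorem exists_zpowers_normal (V : Subgroup G) [hVn : V.Normal] (hV1 : V ≠ ⊥) (hcomm : IsMulCommutative ↥V)
    (hexp : ∀ x ∈ V, x ^ p = 1) (hpow : ∀ g : G, ∀ x ∈ V, g ^ (p - 1) * x = x * g ^ (p - 1))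
    (hbr : ∀ g h : G, ∀ x ∈ V, ⁅g, h⁆ * x = x * ⁅g, h⁆) : ∃ x ∈ V, x ≠ 1 ∧ (Subgroup.zpowers x).Normal := by
  obtain ⟨W, ⟨hWV, hW1, hWn⟩, hmin⟩ := Set.Finite.exists_minimal
    (Set.toFinite {W : Subgroup G | W ≤ V ∧ W ≠ ⊥ ∧ W.Normal}) ⟨V, le_rfl, hV1, hVn⟩
  haveI := hWn
  obtain ⟨⟨v, hvW⟩, hv0⟩ := Subgroup.ne_bot_iff_exists_ne_one.mp hW1
  have hv1 : v ≠ 1 := fun h => hv0 (Subtype.ext h)
  have hc : ∀ a ∈ W, ∀ b ∈ W, a * b = b * a := fun a ha b hb => setLike_mul_comm (hWV ha) (hWV hb)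
  letI : CommGroup ↥W := { (inferInstance : Group ↥W) with mul_comm := fun a b => Subtype.ext (hc a a.2 b b.2) }
  have hscal : ∀ g : G, ∃ j : ℕ, ∀ w ∈ W, g * w * g⁻¹ = w ^ j := by
    intro g
    let f : ↥W →* ↥W := (MulAut.conjNormal g : MulAut ↥W).toMonoidHom
    have hfn : ∀ (n : ℕ) (x : ↥W), (((⇑f)^[n] x : ↥W) : G) = g ^ n * (x : G) * (g ^ n)⁻¹ := by
      intro n
      induction n with
      | zero => intro x; simp
      | succ n ih =>
        intro x
        rw [Function.iterate_succ_apply']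
        show g * (((⇑f)^[n] x : ↥W) : G) * g⁻¹ = _
        rw [ih, pow_succ']; group
    obtain ⟨j, w, hw, hjw⟩ := exists_power_eigen (p := p) (fun x : ↥W => Subtype.ext (hexp _ (hWV x.2))) f
      (fun x => Subtype.ext (by rw [hfn, hpow g _ (hWV x.2), mul_inv_cancel_right])) (v := (⟨v, hvW⟩ : ↥W)) hv0
    let Eg : Subgroup G :=
      { carrier := {x | x ∈ W ∧ g * x * g⁻¹ = x ^ j}
        one_mem' := ⟨one_mem _, by simp⟩
        mul_mem' := fun {a b} ha hb => ⟨mul_mem ha.1 hb.1, by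
          rw [(show Commute a b from hc a ha.1 b hb.1).mul_pow, ← ha.2, ← hb.2]; group⟩
        inv_mem' := fun {a} ha => ⟨inv_mem ha.1, by rw [inv_pow, ← ha.2]; group⟩ }
    have hEn : Eg.Normal := ⟨fun x hx h => ⟨hWn.conj_mem x hx.1 h, by
      have h1 := hbr g h _ (hWV (hWn.conj_mem _ (hWn.conj_mem x hx.1 g) h))
      calc g * (h * x * h⁻¹) * g⁻¹ = ⁅g, h⁆ * (h * (g * x * g⁻¹) * h⁻¹) * ⁅g, h⁆⁻¹ := by
            rw [commutatorElement_def]; group
        _ = h * (g * x * g⁻¹) * h⁻¹ := by rw [h1, mul_inv_cancel_right]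
        _ = (h * x * h⁻¹) ^ j := by rw [hx.2, conj_pow]⟩⟩
    have hwE : (w : G) ∈ Eg := ⟨w.2, congrArg Subtype.val hjw⟩
    have hEW : W ≤ Eg := hmin (y := Eg) ⟨fun x hx => hWV hx.1, fun hbot => hw (by
      rw [hbot, Subgroup.mem_bot] at hwE
      exact Subtype.ext hwE), hEn⟩ fun x hx => hx.1
    exact ⟨j, fun x hx => (hEW hx).2⟩
  refine ⟨v, hWV hvW, hv1, ⟨fun x hx h => ?_⟩⟩
  obtain ⟨m, rfl⟩ := hx
  obtain ⟨j, hj⟩ := hscal h
  rw [← conj_zpow, hj v hvW]
  exact zpow_mem (pow_mem (Subgroup.mem_zpowers v) j) m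

open CfsgLib.RigidGroup CfsgLib.Supersolvable

/-- A normal `p`-subgroup on which `dGroup` acts as a `p`-group is reached by cyclic steps. -/
theorem reach_of_dGroup (Q : Subgroup G) [Q.Normal] (hQ : IsPGroup p ↥Q)
    (hD : ∀ δ ∈ dGroup G p, ∃ m : ℕ, ∀ x ∈ Q, δ ^ p ^ m * x = x * δ ^ p ^ m) : Reach Q := by
  classical
  obtain ⟨L, ⟨hLQ, hL⟩, hmax⟩ := Set.Finite.exists_maximal (Set.toFinite {L : Subgroup G | L ≤ Q ∧ Reach L})
    ⟨⊥, bot_le, Reach.bot⟩
  rcases eq_or_lt_of_le hLQ with heq | hlt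
  · exact heq ▸ hL
  exfalso
  haveI := hL.normal
  set f := QuotientGroup.mk' L with hf
  set R := Q.map f
  have hf' : Function.Surjective f := QuotientGroup.mk'_surjective L
  haveI hRn : R.Normal := (inferInstance : Q.Normal).map f hf'
  have hR1 : R ≠ ⊥ := fun h => hlt.not_ge (by
    rw [← QuotientGroup.ker_mk' L]; exact (Subgroup.map_eq_bot_iff Q).mp h)
  have hRp : IsPGroup p ↥R := hQ.map f
  haveI : Nontrivial ↥R := Subgroup.nontrivial_iff_ne_bot R |>.mpr hR1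
  haveI : Nontrivial ↥(Subgroup.center ↥R) := hRp.center_nontrivial
  let V0 : Subgroup (G ⧸ L) :=
    { carrier := {x | x ∈ R ∧ (∀ y ∈ R, y * x = x * y) ∧ x ^ p = 1}
      one_mem' := ⟨one_mem _, fun y _ => by simp, one_pow _⟩
      mul_mem' := fun {a b} ha hb => ⟨mul_mem ha.1 hb.1, fun y hy => by
        rw [← mul_assoc, ha.2.1 y hy, mul_assoc, hb.2.1 y hy, ← mul_assoc],
        by rw [(show Commute a b from hb.2.1 a ha.1).mul_pow, ha.2.2, hb.2.2, one_mul]⟩
      inv_mem' := fun {a} ha => ⟨inv_mem ha.1, fun y hy => ((show Commute y a from ha.2.1 y hy).inv_right).eq,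
        by rw [inv_pow, ha.2.2, inv_one]⟩ }
  haveI hV0n : V0.Normal := ⟨fun x hx g => ⟨hRn.conj_mem x hx.1 g, fun y hy => by
      have h1 := hx.2.1 (g⁻¹ * y * g) (by simpa using hRn.conj_mem y hy g⁻¹)
      calc y * (g * x * g⁻¹) = g * (g⁻¹ * y * g * x) * g⁻¹ := by group
        _ = g * (x * (g⁻¹ * y * g)) * g⁻¹ := by rw [h1]
        _ = g * x * g⁻¹ * y := by group,
      by rw [conj_pow, hx.2.2, mul_one, mul_inv_cancel]⟩⟩
  have hV0p : p ∣ Nat.card ↥V0 := by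
    have hd : p ∣ Nat.card ↥(Subgroup.center ↥R) := by
      obtain ⟨a, ha⟩ := (hRp.to_subgroup (Subgroup.center ↥R)).exists_card_eq
      rw [ha]
      refine dvd_pow_self p fun h0 => ?_
      rw [h0, pow_zero] at ha
      exact (Finite.one_lt_card (α := ↥(Subgroup.center ↥R))).ne' ha
    obtain ⟨z, hz⟩ := exists_prime_orderOf_dvd_card' p hd
    have hz0 : (((z : ↥R)) : G ⧸ L) ∈ V0 := ⟨(z : ↥R).2, fun y hy => congrArg Subtype.val
      (Subgroup.mem_center_iff.mp z.2 ⟨y, hy⟩), by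
        rw [← Subgroup.coe_pow, ← Subgroup.coe_pow, ← hz, pow_orderOf_eq_one]; rfl⟩
    have h2 : orderOf (⟨_, hz0⟩ : ↥V0) = p := by
      rw [← Subgroup.orderOf_coe, Subgroup.coe_mk, Subgroup.orderOf_coe, Subgroup.orderOf_coe, hz]
    exact h2 ▸ orderOf_dvd_natCard _
  set D := (dGroup G p).map f
  haveI hDn : D.Normal := (inferInstance : (dGroup G p).Normal).map f hf'
  let ψ : ↥D →* MulAut ↥V0 := MulAut.conjNormal.comp D.subtype
  have hψ : IsPGroup p ↥ψ.range := by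
    rintro ⟨_, ⟨_, δ, hδ, rfl⟩, rfl⟩
    obtain ⟨m, hm⟩ := hD δ hδ
    refine ⟨m, Subtype.ext ?_⟩
    rw [Subgroup.coe_pow, ← map_pow]
    refine MulEquiv.ext fun x => Subtype.ext ?_
    obtain ⟨⟨q, hq, hqx⟩, -⟩ := x.2
    show (f δ) ^ p ^ m * (x : G ⧸ L) * ((f δ) ^ p ^ m)⁻¹ = x
    rw [← hqx, ← map_pow, ← map_inv, ← map_mul, ← map_mul, hm q hq, mul_inv_cancel_right]
  obtain ⟨b, hb, hb1⟩ := hψ.exists_fixed_point_of_prime_dvd_card_of_fixed_point ↥V0 hV0p (a := 1) fun g => smul_one g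
  set V := V0 ⊓ Subgroup.centralizer (D : Set (G ⧸ L))
  have hbV : (b : G ⧸ L) ∈ V := by
    refine Subgroup.mem_inf.mpr ⟨b.2, Subgroup.mem_centralizer_iff.mpr fun d hd => ?_⟩
    have h1 : d * (b : G ⧸ L) * d⁻¹ = b := congrArg Subtype.val (hb ⟨ψ ⟨d, hd⟩, ⟨_, rfl⟩⟩)
    exact mul_inv_eq_iff_eq_mul.mp h1
  haveI : (Subgroup.centralizer (D : Set (G ⧸ L))).Normal := inferInstance
  have hdc : ∀ g ∈ dGroup G p, ∀ x ∈ V, f g * x = x * f g := fun g hg x hx =>
    Subgroup.mem_centralizer_iff.mp (Subgroup.mem_inf.mp hx).2 _ ⟨g, hg, rfl⟩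
  obtain ⟨x, hxV, hx1, hxn⟩ := exists_zpowers_normal (p := p) V
    (fun h => hb1 (Subtype.ext (Subgroup.mem_bot.mp (h ▸ hbV)).symm))
    ⟨⟨fun a a' => Subtype.ext ((Subgroup.mem_inf.mp a'.2).1.2.1 _ (Subgroup.mem_inf.mp a.2).1.1)⟩⟩
    (fun y hy => (Subgroup.mem_inf.mp hy).1.2.2)
    (fun g y hy => by
      obtain ⟨g, rfl⟩ := hf' g
      rw [← map_pow]; exact hdc _ (Subgroup.subset_closure (Or.inr ⟨g, rfl⟩)) y hy)
    (fun g h y hy => by
      obtain ⟨g, rfl⟩ := hf' g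
      obtain ⟨h, rfl⟩ := hf' h
      rw [← map_commutatorElement]; exact hdc _ (Subgroup.subset_closure (Or.inl ⟨g, h, rfl⟩)) y hy)
  obtain ⟨q, hqQ, rfl⟩ := (Subgroup.mem_inf.mp hxV).1.1
  have he : (Subgroup.zpowers (f q)).comap f = L ⊔ Subgroup.zpowers q := by
    rw [← MonoidHom.map_zpowers, Subgroup.comap_map_eq, hf, QuotientGroup.ker_mk', sup_comm]
  have hR' : Reach (L ⊔ Subgroup.zpowers q) := Reach.step q hL (he ▸ hxn.comap f)
  exact hx1 ((QuotientGroup.eq_one_iff q).mpr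
    (hmax (y := L ⊔ Subgroup.zpowers q) ⟨sup_le hLQ (Subgroup.zpowers_le.mpr hqQ), hR'⟩ le_sup_left
      (le_sup_right (a := L) (Subgroup.mem_zpowers q))))

/-- A normal `p`-subgroup, cyclic or with all subgroups of an order `p ^ k` normal, is reached by cyclic steps. -/
theorem reach_of_order (Q : Subgroup G) [Q.Normal] (hQ : IsPGroup p ↥Q)
    (h : IsCyclic ↥Q ∨ ∃ k : ℕ, 0 < k ∧ p ^ k < Nat.card ↥Q ∧ ∀ F : Subgroup G, F ≤ Q →
      (Nat.card ↥F = p ^ k ∨ (p ^ k = 2 ∧ Nat.card ↥F = 4)) → F.Normal) : Reach Q := by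
  rcases h with hc | ⟨k, hk, hlt, hfix⟩
  · obtain ⟨g, hg⟩ := Subgroup.isCyclic_iff_exists_zpowers_eq_top Q |>.mp hc
    have := Reach.step g (Reach.bot (G := G)) (by rw [bot_sup_eq, hg]; infer_instance)
    rwa [bot_sup_eq, hg] at this
  refine reach_of_dGroup Q hQ fun δ hδ => ?_
  let ρ : G →* MulAut ↥Q := MulAut.conjNormal
  obtain ⟨m, n', hn', hmn⟩ := Nat.exists_eq_pow_mul_and_not_dvd (orderOf_pos (ρ δ)).ne' p hp.out.ne_one
  have hco : (orderOf (ρ (δ ^ p ^ m))).Coprime p := by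
    rw [map_pow, orderOf_pow' _ (pow_ne_zero _ hp.out.ne_zero), hmn, Nat.gcd_eq_right (dvd_mul_right _ _),
      Nat.mul_div_cancel_left _ (pow_pos hp.out.pos _)]
    exact (hp.out.coprime_iff_not_dvd.mpr hn').symm
  have h1 := CfsgLib.RigidGroup.eq_one_of_fix_order (pow_mem hδ _) _ rfl hQ ρ hco k hk hlt fun F hF g x hx => by
    haveI := hfix (F.map Q.subtype) (Subgroup.map_subtype_le _) (by rw [Subgroup.card_map_of_injective Q.subtype_injective]; exact hF)
    have h2 := this.conj_mem (x : G) ⟨x, hx, rfl⟩ g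
    obtain ⟨y, hy, hyx⟩ := h2
    rwa [show ρ g x = y from Subtype.ext hyx.symm]
  refine ⟨m, fun x hx => ?_⟩
  have h2 : δ ^ p ^ m * x * (δ ^ p ^ m)⁻¹ = x := congrArg (fun a : MulAut ↥Q => ((a ⟨x, hx⟩ : Q) : G)) h1
  exact mul_inv_eq_iff_eq_mul.mp h2

end CfsgLib.RigidReach
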