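import Cfsg.Prelude.Def_SolvableStructure
import Cfsg.Agent.S0071
import Cfsg.Agent.S0132
import Cfsg.Agent.S0012
import Cfsg.Agent.Lib.Thompson.Kegel
import Cfsg.Agent.Lib.GroupB.FrobBasic
import Cfsg.Agent.Lib.Solvable.Frattini

/-! The structure of minimal non-nilpotent groups. -/

set_option autoImplicit false
set_option linter.style.haveILetI false

namespace CfsgLib.Schmidt

universe u

variable {G : Type u} [Group G] [Finite G]

open CfsgLib.ThompsonNPC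

/-- A group with a normal complement for every prime is nilpotent. -/
theorem isNilpotent_of_forall_npc (h : ∀ (q : ℕ) [Fact q.Prime], Cfsg.HasNormalPComplement q G) :
    Group.IsNilpotent G := by
  refine ((Group.isNilpotent_of_finite_tfae (G := G)).out 0 3).mpr fun r hr P => ?_
  haveI := hr
  have hrp : r.Prime := hr.out
  have hmul : ∀ x y : G, (∃ k, orderOf x = r ^ k) → (∃ k, orderOf y = r ^ k) → ∃ k, orderOf (x * y) = r ^ k := by
    intro x y ⟨i, hi⟩ ⟨j, hj⟩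
    obtain ⟨k, m, hm, e⟩ := Nat.exists_eq_pow_mul_and_not_dvd (orderOf_pos (x * y)).ne' r hrp.ne_one
    by_cases hm1 : m = 1
    · exact ⟨k, by rw [e, hm1, mul_one]⟩
    obtain ⟨q, hq, hqm⟩ := Nat.exists_prime_and_dvd hm1
    haveI : Fact q.Prime := ⟨hq⟩
    have hqr : q ≠ r := fun e' => hm (e' ▸ hqm)
    have hcop : ∀ t, (r ^ t).Coprime q := fun t => ((Nat.coprime_primes hrp hq).mpr (Ne.symm hqr)).pow_left t
    have h1 := hasNPC_iff.mp (h q) x (Subgroup.mem_top x) y (Subgroup.mem_top y) (hi ▸ hcop i) (hj ▸ hcop j)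
    exact absurd (Nat.eq_one_of_dvd_coprimes h1 (hqm.trans (e ▸ dvd_mul_left m _)) dvd_rfl) hq.ne_one
  let R : Subgroup G :=
    { carrier := {x | ∃ k, orderOf x = r ^ k}
      one_mem' := ⟨0, by simp⟩
      mul_mem' := fun {x y} hx hy => hmul x y hx hy
      inv_mem' := fun {x} ⟨k, hk⟩ => ⟨k, by rw [orderOf_inv, hk]⟩ }
  have hR : IsPGroup r ↥R := IsPGroup.iff_orderOf.mpr fun x => by
    obtain ⟨k, hk⟩ := x.2
    exact ⟨k, by rwa [← Subgroup.orderOf_coe]⟩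
  have hPR : (P : Subgroup G) ≤ R := fun x hx => by
    obtain ⟨k, hk⟩ := IsPGroup.iff_orderOf.mp P.2 ⟨x, hx⟩
    exact ⟨k, by rwa [Subgroup.orderOf_mk] at hk⟩
  have hPe : R = (P : Subgroup G) := P.is_maximal' hR hPR
  refine ⟨fun x hx g => ?_⟩
  obtain ⟨k, hk⟩ := hPR hx
  have : g * x * g⁻¹ ∈ R := ⟨k, by rw [orderOf_conj_eq, hk]⟩
  rwa [hPe] at this

/-- The structure theorem: a normal Sylow `q`-subgroup and a cyclic Sylow `p`-subgroup. -/
theorem structure_thm (hG : Cfsg.IsMinimalNonNilpotent G) :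
    ∃ (p q : ℕ) (x : G), p.Prime ∧ q.Prime ∧ p ≠ q ∧ (∃ k, orderOf x = p ^ k) ∧
      ∃ Q : Sylow q G, (Q : Subgroup G).Normal ∧ Subgroup.zpowers x ⊔ (Q : Subgroup G) = ⊤ ∧
        x ∉ Subgroup.centralizer ((Q : Subgroup G) : Set G) := by
  classical
  obtain ⟨q, hqF, hq⟩ : ∃ (q : ℕ) (_ : Fact q.Prime), ¬ Cfsg.HasNormalPComplement q G := by
    by_contra hc
    push Not at hc
    exact hG.1 (isNilpotent_of_forall_npc fun q _ => hc q inferInstance)
  have hqp : q.Prime := hqF.out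
  obtain ⟨-, -, hnorm⟩ := Cfsg.Agent.S0132.result hq fun H hH =>
    hasNPC_iff.mpr (pcOn_of_isNilpotent (hG.2 H hH))
  obtain ⟨Q⟩ := (inferInstance : Nonempty (Sylow q G))
  haveI := hnorm Q
  obtain ⟨g, hg, hgC⟩ : ∃ g : G, (orderOf g).Coprime q ∧ g ∉ Subgroup.centralizer ((Q : Subgroup G) : Set G) := by
    by_contra hc
    push Not at hc
    obtain ⟨N, hN, hcpl⟩ := (Cfsg.Agent.S0071.result Q).mpr fun R hR g _ hgo =>
      Subgroup.centralizer_le hR (hc g hgo)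
    exact hq ⟨Q, N, hN, hcpl⟩
  obtain ⟨x, ⟨hx, hxC⟩, hmin⟩ : ∃ x : G, ((orderOf x).Coprime q ∧ x ∉ Subgroup.centralizer ((Q : Subgroup G) : Set G)) ∧
      ∀ y : G, (orderOf y).Coprime q → y ∉ Subgroup.centralizer ((Q : Subgroup G) : Set G) → orderOf x ≤ orderOf y := by
    have hex : ∃ n, ∃ y : G, orderOf y = n ∧ (orderOf y).Coprime q ∧
        y ∉ Subgroup.centralizer ((Q : Subgroup G) : Set G) := ⟨_, g, rfl, hg, hgC⟩
    obtain ⟨x, h1, h2, h3⟩ := Nat.find_spec hex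
    exact ⟨x, ⟨h2, h3⟩, fun y hy hyC => h1 ▸ Nat.find_min' hex ⟨y, rfl, hy, hyC⟩⟩
  have hx1 : orderOf x ≠ 1 := fun e => hxC (by rw [orderOf_eq_one_iff.mp e]; exact one_mem _)
  obtain ⟨p, hp, hpd⟩ := Nat.exists_prime_and_dvd hx1
  have hpq : p ≠ q := fun e => hqp.not_dvd_one (hx.gcd_eq_one ▸ Nat.dvd_gcd (e ▸ hpd) dvd_rfl)
  have hpow : ∃ k, orderOf x = p ^ k := by
    obtain ⟨k, m, hm, e⟩ := Nat.exists_eq_pow_mul_and_not_dvd (orderOf_pos x).ne' p hp.ne_one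
    refine ⟨k, ?_⟩
    by_contra hne
    have hm1 : m ≠ 1 := fun h1 => hne (by rw [e, h1, mul_one])
    have hm0 : m ≠ 0 := fun h0 => hm (h0 ▸ dvd_zero p)
    have hk : 1 < p ^ k := by
      refine Nat.one_lt_pow (fun h0 => hm ?_) hp.one_lt
      rw [h0, pow_zero, one_mul] at e
      exact e ▸ hpd
    have hsmall : ∀ d, d ∣ orderOf x → 1 < d → x ^ d ∈ Subgroup.centralizer ((Q : Subgroup G) : Set G) := by
      intro d hd h1
      by_contra hd'
      have h2 := hmin (x ^ d) (hx.coprime_dvd_left (orderOf_pow_dvd d)) hd'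
      rw [orderOf_pow_of_dvd (by omega) hd] at h2
      exact absurd h2 (not_le.mpr (Nat.div_lt_self (orderOf_pos x) h1))
    have ha := hsmall (p ^ k) (e ▸ dvd_mul_right _ _) hk
    have hb := hsmall m (e ▸ dvd_mul_left _ _) (by omega)
    have hg1 : Nat.gcd (p ^ k) m = 1 := ((hp.coprime_iff_not_dvd.mpr hm).pow_left k)
    apply hxC
    have h3 : x = (x ^ p ^ k) ^ Nat.gcdA (p ^ k) m * (x ^ m) ^ Nat.gcdB (p ^ k) m := by
      rw [← zpow_natCast, ← zpow_mul, ← zpow_natCast x m, ← zpow_mul, ← zpow_add, ← Nat.gcd_eq_gcd_ab, hg1]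
      simp
    rw [h3]
    exact mul_mem (zpow_mem ha _) (zpow_mem hb _)
  refine ⟨p, q, x, hp, hqp, hpq, hpow, Q, inferInstance, ?_, hxC⟩
  by_contra hne
  haveI := hG.2 _ hne
  refine hxC (Subgroup.mem_centralizer_iff.mpr fun y hy => ?_)
  obtain ⟨j, hj⟩ := IsPGroup.iff_orderOf.mp Q.2 ⟨y, hy⟩
  have h4 := CfsgLib.GroupB.FrobBasic.commute_of_coprime
    (G := ↥(Subgroup.zpowers x ⊔ (Q : Subgroup G))) (a := ⟨x, Subgroup.mem_sup_left (Subgroup.mem_zpowers x)⟩)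
    (b := ⟨y, Subgroup.mem_sup_right hy⟩) (by
      rw [Subgroup.orderOf_mk, Subgroup.orderOf_mk]
      rw [Subgroup.orderOf_mk] at hj
      rw [hj]; exact hx.pow_right j)
  exact (congrArg Subtype.val h4.eq).symm

/-- The cyclic factor is a Sylow subgroup. -/
theorem exists_sylow_eq {p q : ℕ} [Fact p.Prime] [Fact q.Prime] (hpq : p ≠ q) {x : G} {k : ℕ}
    (hx : orderOf x = p ^ k) (Q : Sylow q G) [(Q : Subgroup G).Normal]
    (h : Subgroup.zpowers x ⊔ (Q : Subgroup G) = ⊤) : ∃ P : Sylow p G, (P : Subgroup G) = Subgroup.zpowers x := by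
  have hX : IsPGroup p ↥(Subgroup.zpowers x) := IsPGroup.of_card (n := k) (by rw [Nat.card_zpowers, hx])
  obtain ⟨P, hP⟩ := hX.exists_le_sylow
  refine ⟨P, le_antisymm (fun y hy => ?_) hP⟩
  obtain ⟨u, hu, v, hv, e⟩ := Subgroup.mem_sup_of_normal_right.mp (h ▸ Subgroup.mem_top y)
  have hvP : v ∈ (P : Subgroup G) := by
    rw [show v = u⁻¹ * y by rw [← e, inv_mul_cancel_left]]
    exact (P : Subgroup G).mul_mem ((P : Subgroup G).inv_mem (hP hu)) hy
  obtain ⟨i, hi⟩ := IsPGroup.iff_orderOf.mp Q.2 ⟨v, hv⟩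
  obtain ⟨j, hj⟩ := IsPGroup.iff_orderOf.mp P.2 ⟨v, hvP⟩
  rw [Subgroup.orderOf_mk] at hi hj
  have hv1 : v = 1 := orderOf_eq_one_iff.mp (Nat.eq_one_of_dvd_coprimes
    (((Nat.coprime_primes (Fact.out : p.Prime) (Fact.out : q.Prime)).mpr hpq).pow j i) (hj ▸ dvd_rfl) (hi ▸ dvd_rfl))
  rw [← e, hv1, mul_one]
  exact hu

end CfsgLib.Schmidt
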