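import Cfsg.Agent.Lib.ExceptionalTIGen
import Cfsg.Agent.Lib.SmallSimple

/-! Degree restrictions from a self-centralising Sylow subgroup of prime order. -/

set_option autoImplicit false

namespace CfsgLib.SelfCentPrime

open Cfsg CfsgLib.Chars CfsgLib.Virtual CfsgLib.Coherence CfsgLib.SmallSimple
open CfsgLib.ExceptionalTI (Meets Nonconst)
open scoped ComplexConjugate

universe u

variable {G : Type u} [Group G] [Finite G] [IsSimpleGroup G]

theorem degree_data (hnc : ¬ IsMulCommutative G) {p e σ n : ℕ} [hp : Fact p.Prime] (hp2 : p ≠ 2)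
    (he : e.Prime) (hσ : 2 ≤ σ) (hpe : p = e * σ + 1) (hcard : Nat.card G = p * (n * e))
    (hpm : ¬ p ∣ n * e) (hn : ∀ d, d ∣ n * e → d % p = 1 → d ≠ 1 → d = n) :
    ∃ (T : Finset (IrrCharacter G)) (x a : ℤ) (z : IrrCharacter G → ℤ),
      x * x * σ - 2 * x + 1 + ∑ θ ∈ T, z θ * z θ = e ∧ 2 ≤ a.natAbs ∧ a.natAbs ∣ Nat.card G ∧
      (∀ θ ∈ T, z θ ≠ 0 ∧ 2 ≤ charDegree (θ : G → ℂ) ∧ charDegree (θ : G → ℂ) ∣ Nat.card G ∧
        charDegree (θ : G → ℂ) ^ 2 ≤ Nat.card G ∧ (p : ℤ) ∣ (charDegree (θ : G → ℂ) : ℤ) - z θ) ∧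
      1 + (x * σ - 1) * a + ∑ θ ∈ T, z θ * (charDegree (θ : G → ℂ) : ℤ) = 0 := by
  classical
  haveI : Fintype G := Fintype.ofFinite G
  have hdp : p ∣ Nat.card G := hcard ▸ dvd_mul_right _ _
  obtain ⟨P⟩ := (inferInstance : Nonempty (Sylow p G))
  obtain ⟨hP, hnd, hmod⟩ := card_sylow_mem (k := 1) (m := n * e) (by rw [hcard, pow_one]) hpm P
  rw [pow_one] at hP
  have hnum : Nat.card (Sylow p G) = n := hn _ hnd hmod (card_sylow_ne_one hnc hdp)
  have hN : Nat.card (Subgroup.normalizer ((P : Subgroup G) : Set G)) = p * e := by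
    have h2 := (Subgroup.normalizer ((P : Subgroup G) : Set G)).index_mul_card
    rw [show (Subgroup.normalizer ((P : Subgroup G) : Set G)).index = n from
      (Sylow.card_eq_index_normalizer P).symm.trans hnum, hcard] at h2
    have hn0 : 0 < n := hnum ▸ Nat.card_pos
    refine Nat.eq_of_mul_eq_mul_left hn0 (h2.trans ?_)
    ring
  have hne : (P : Subgroup G) ≠ ⊥ := sylow_ne_bot hdp P
  haveI hcyc : IsCyclic (P : Subgroup G) := isCyclic_of_prime_card hP
  have hgen : ∀ k ∈ (P : Subgroup G), k ≠ 1 → Subgroup.zpowers k = (P : Subgroup G) := by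
    intro k hk hk1
    refine Subgroup.eq_of_le_of_card_ge (Subgroup.zpowers_le.2 hk) ?_
    rw [Nat.card_zpowers, hP]
    have h2 := Subgroup.orderOf_dvd_natCard _ hk
    rw [hP] at h2
    exact (((Nat.dvd_prime Fact.out).1 h2).resolve_left fun h => hk1 (orderOf_eq_one_iff.1 h)).ge
  have hle : (P : Subgroup G) ≤ Subgroup.centralizer ((P : Subgroup G) : Set G) := fun x hx => by
    rw [Subgroup.mem_centralizer_iff]
    intro y hy
    exact congrArg Subtype.val ((IsCyclic.commutative (α := (P : Subgroup G))).is_comm.comm ⟨y, hy⟩ ⟨x, hx⟩)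
  have hPC : (P : Subgroup G) = Subgroup.centralizer ((P : Subgroup G) : Set G) := by
    refine Subgroup.eq_of_le_of_card_ge hle ?_
    have hd1 := Subgroup.card_dvd_of_le hle
    have hd2 := Subgroup.card_dvd_of_le (Subgroup.centralizer_le_normalizer ((P : Subgroup G) : Set G))
    rw [hP] at hd1
    rw [hN] at hd2
    obtain ⟨c, hc⟩ := hd1
    rw [hc] at hd2
    rcases (Nat.dvd_prime he).1 (Nat.dvd_of_mul_dvd_mul_left hp.out.pos hd2) with rfl | rfl
    · rw [hc, hP, mul_one]
    · refine absurd (le_of_eq (Subgroup.eq_of_le_of_card_ge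
        (Subgroup.centralizer_le_normalizer ((P : Subgroup G) : Set G)) ?_).symm)
        (not_normalizer_le_centralizer hnc hdp P)
      rw [hc, hN]
  have hC : ∀ k ∈ (P : Subgroup G), k ≠ 1 → Subgroup.centralizer ({k} : Set G) ≤ (P : Subgroup G) := by
    intro k hk hk1 g hg
    rw [hPC, Subgroup.mem_centralizer_iff]
    intro y hy
    rw [SetLike.mem_coe, ← hgen k hk hk1] at hy
    obtain ⟨i, rfl⟩ := hy
    exact ((show Commute g k from Subgroup.mem_centralizer_singleton_iff.1 hg).zpow_right i).eq.symm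
  have hTI : IsTISubset ((P : Subgroup G) : Set G) := by
    intro g hg x hx hxg
    by_contra hx1
    refine hg ?_
    have hmap : (P : Subgroup G).map (MulAut.conj g).toMonoidHom = P := by
      refine Subgroup.eq_of_le_of_card_ge ?_ (by rw [Subgroup.card_map_of_injective (MulAut.conj g).injective])
      conv_lhs => rw [← hgen x hx hx1]
      rw [MonoidHom.map_zpowers]
      exact Subgroup.zpowers_le.2 hxg
    rw [Subgroup.mem_normalizer_iff]
    intro u
    constructor
    · intro hu; rw [← SetLike.mem_coe, ← hmap]; exact ⟨u, hu, rfl⟩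
    · intro hu
      rw [← SetLike.mem_coe, ← hmap] at hu
      obtain ⟨v, hv, hve⟩ := hu
      exact (mul_left_cancel (mul_right_cancel (hve :)) : v = u) ▸ hv
  have hlt : (P : Subgroup G) < Subgroup.normalizer ((P : Subgroup G) : Set G) :=
    lt_of_le_of_ne Subgroup.le_normalizer fun h => by
      have h' := congrArg (fun K : Subgroup G => Nat.card K) h
      simp only [hP, hN] at h'
      nlinarith [he.two_le, hp.out.two_le]
  obtain ⟨D⟩ := CfsgLib.ExceptionalTIGen.exists_data (P : Subgroup G) hne hTI hlt hC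
    (by rw [hP]; exact hp.out.odd_of_ne_two hp2)
    (by
      rw [hN, hP]
      intro h
      have h' := Nat.eq_of_mul_eq_mul_left hp.out.pos h
      rw [hpe, Nat.add_sub_cancel] at h'
      nlinarith [he.two_le])
  have hDe : D.e = e := by
    have := D.card_norm
    rw [hN, hP, mul_comm p e] at this
    exact (Nat.eq_of_mul_eq_mul_right hp.out.pos this).symm
  have hDσ : D.σ = σ := by
    have := D.card_eq
    rw [hP, hDe] at this
    have h2 : e * D.σ + 1 = e * σ + 1 := this.symm.trans hpe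
    exact Nat.eq_of_mul_eq_mul_left he.pos (Nat.add_right_cancel h2)
  obtain ⟨z, hz, hzA⟩ := exists_coord D.A_gen
  obtain ⟨x, hx⟩ := D.A_exc
  have hμ' : ∀ ξ : D.X, ∃ (ε : ℤ) (μ : IrrCharacter G), (ε = 1 ∨ ε = -1) ∧
      D.exc ξ = (ε : ℂ) • (μ : G → ℂ) := fun ξ => by
    obtain ⟨ε, μ, hε, he⟩ := exists_single (D.exc_gen ξ) (by rw [D.exc_orth, if_pos rfl])
    rcases hε with rfl | rfl
    · exact ⟨1, μ, Or.inl rfl, by rw [he, Int.cast_one]⟩
    · exact ⟨-1, μ, Or.inr rfl, by rw [he]; simp⟩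
  choose ε μ hε hμ using hμ'
  have hμz : ∀ ξ, z (μ ξ) = ε ξ * (x * D.D ξ - if ξ = D.η then 1 else 0) := by
    intro ξ
    have h := hx ξ
    rw [hμ ξ, ci_smul_right, hz, map_intCast] at h
    have h2 : ε ξ * z (μ ξ) = x * D.D ξ - if ξ = D.η then 1 else 0 := by
      apply (Int.cast_injective (α := ℂ))
      push_cast
      rw [h]
      all_goals (by_cases hξ : ξ = D.η <;> simp [hξ])
    rcases hε ξ with h1 | h1 <;> rw [h1] at h2 ⊢ <;> linarith
  have hinj : Function.Injective μ := fun a b hab => by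
    by_contra hne'
    have h := D.exc_orth a b
    rw [if_neg hne', hμ, hμ, hab, ci_smul_left, ci_smul_right, inner_irr_self (μ b).2, map_intCast] at h
    rcases hε a with h1 | h1 <;> rcases hε b with h2 | h2 <;> rw [h1, h2] at h <;> norm_num at h
  have hexc : ∀ θ : IrrCharacter G, Nonconst (P : Subgroup G) (θ : G → ℂ) ↔ θ ∈ Finset.univ.image μ := by
    intro θ
    rw [← D.exc_iff θ, Finset.mem_image]
    constructor
    · rintro ⟨ξ, hξ⟩
      refine ⟨ξ, Finset.mem_univ _, ?_⟩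
      by_contra hne'
      rcases hξ with hξ | hξ <;>
        (have h2 := congrArg (fun F => classInner F (θ : G → ℂ)) ((hμ ξ).symm.trans hξ)
         simp only [ci_smul_left, ci_neg_left, classInner_irr, if_neg hne', inner_irr_self θ.2] at h2
         norm_num at h2)
    · rintro ⟨ξ, -, rfl⟩
      refine ⟨ξ, ?_⟩
      rcases hε ξ with h1 | h1 <;> simp [hμ ξ, h1]
  let one : IrrCharacter G := ⟨fun _ => 1, isIrrCharacter_one G⟩
  have hz1 : z one = 1 := by
    have h := hz one
    rw [show classInner D.A (one : G → ℂ) = 1 from D.A_one] at h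
    exact_mod_cast h.symm
  have hone : one ∉ Finset.univ.image μ := fun h => by
    obtain ⟨a, -, b, -, -, -, hab⟩ := (hexc one).2 h
    exact hab rfl
  set R := (Finset.univ \ Finset.univ.image μ).erase one with hR
  set T := R.filter fun θ => z θ ≠ 0 with hT
  have hsplit : ∀ F : IrrCharacter G → ℤ, (∀ θ, z θ = 0 → F θ = 0) →
      ∑ θ, F θ = F one + ∑ ξ, F (μ ξ) + ∑ θ ∈ T, F θ := by
    intro F hF
    rw [hT, Finset.sum_filter_of_ne (p := fun θ => z θ ≠ 0) (fun θ _ h h' => h (hF θ h')),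
      ← Finset.sum_sdiff (Finset.subset_univ (Finset.univ.image μ)),
      ← Finset.add_sum_erase _ F (Finset.mem_sdiff.2 ⟨Finset.mem_univ one, hone⟩),
      Finset.sum_image fun a _ b _ h => hinj h, hR]
    ring
  have hsD : (σ : ℤ) = ∑ ξ : D.X, ((D.D ξ : ℤ)) ^ 2 := by
    rw [← hDσ, ← D.sum_D]; push_cast; rfl
  have hnorm : ∑ θ : IrrCharacter G, z θ * z θ = (e : ℤ) + 1 := by
    have h := inner_eq_sum_coord hzA hzA
    rw [D.A_norm, hDe] at h
    have h' : (((e : ℤ) + 1 : ℤ) : ℂ) = ((∑ θ : IrrCharacter G, z θ * z θ : ℤ) : ℂ) := by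
      rw [← h]; push_cast; ring
    exact_mod_cast h'.symm
  have hdeg0 : ∑ θ : IrrCharacter G, z θ * (charDegree (θ : G → ℂ) : ℤ) = 0 := by
    have h := congrFun hzA 1
    rw [D.A_supp 1 (fun h => h.1 rfl), Finset.sum_apply] at h
    simp only [Pi.smul_apply, smul_eq_mul, irr_apply_one] at h
    have h' : ((0 : ℤ) : ℂ) = ((∑ θ : IrrCharacter G, z θ * (charDegree (θ : G → ℂ) : ℤ) : ℤ) : ℂ) := by
      push_cast; exact h
    exact_mod_cast h'.symm
  set a : ℤ := ε D.η * (charDegree (μ D.η : G → ℂ) : ℤ) with ha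
  have hexcdeg : ∀ ξ, ε ξ * (charDegree (μ ξ : G → ℂ) : ℤ) = D.D ξ * a := by
    intro ξ
    have h := D.exc_prop ξ 1 fun h => h.1 rfl
    rw [hμ, hμ, Pi.smul_apply, Pi.smul_apply, smul_eq_mul, smul_eq_mul, irr_apply_one, irr_apply_one] at h
    rw [ha]
    exact_mod_cast h
  have hperf : ∀ f : G →* ℂˣ, f = 1 := by
    intro f
    rcases (inferInstance : f.ker.Normal).eq_bot_or_eq_top with h | h
    · refine absurd (⟨⟨fun a b => ?_⟩⟩ : IsMulCommutative G) hnc
      exact (MonoidHom.ker_eq_bot_iff f).1 h (by rw [map_mul, map_mul, mul_comm])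
    · exact MonoidHom.ext fun g => MonoidHom.mem_ker.1 (h ▸ Subgroup.mem_top g)
  have hdeg2 : ∀ θ : IrrCharacter G, θ ≠ one → 2 ≤ charDegree (θ : G → ℂ) := by
    intro θ hθ
    by_contra hlt
    have hd1 : charDegree (θ : G → ℂ) = 1 := by have := charDegree_pos θ; omega
    obtain ⟨f, hf⟩ := exists_homIrr θ hd1
    apply hθ
    rw [← hf, hperf f]
    exact Subtype.ext (funext fun g => by show (((1 : G →* ℂˣ) g : ℂˣ) : ℂ) = 1; simp)
  have habs : a.natAbs = charDegree (μ D.η : G → ℂ) := by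
    rcases hε D.η with h1 | h1 <;> simp [ha, h1]
  refine ⟨T, x, a, z, ?_, ?_, ?_, ?_, ?_⟩
  · rw [hsplit (fun θ => z θ * z θ) (fun θ h => by rw [h, mul_zero]), hz1] at hnorm
    have h2 : ∑ ξ, z (μ ξ) * z (μ ξ) = x * x * σ - 2 * x + 1 := by
      rw [hsD, Finset.mul_sum,
        Finset.sum_congr rfl (g := fun ξ => x * x * ((D.D ξ : ℤ)) ^ 2 + (if ξ = D.η then 1 - 2 * x else 0))
          (fun ξ _ => ?_), Finset.sum_add_distrib, Finset.sum_ite_eq', if_pos (Finset.mem_univ _)]
      · ring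
      · rw [hμz, mul_mul_mul_comm, show ε ξ * ε ξ = 1 by rcases hε ξ with h | h <;> simp [h], one_mul]
        by_cases h : ξ = D.η
        · rw [if_pos h, if_pos h, h, D.D_eta]; push_cast; ring
        · rw [if_neg h, if_neg h]; ring
    rw [h2] at hnorm
    linarith
  · rw [habs]; exact hdeg2 _ fun h => hone (h ▸ Finset.mem_image_of_mem μ (Finset.mem_univ _))
  · rw [habs]; exact charDegree_dvd _
  · intro θ hθ
    obtain ⟨hθR, hθz⟩ := Finset.mem_filter.1 hθ
    obtain ⟨hθ1, hθi⟩ := Finset.mem_erase.1 hθR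
    refine ⟨hθz, hdeg2 θ hθ1, charDegree_dvd θ, ?_, ?_⟩
    · rw [← sum_deg_sq (G := G)]
      exact Finset.single_le_sum (f := fun θ : IrrCharacter G => charDegree (θ : G → ℂ) ^ 2)
        (fun _ _ => Nat.zero_le _) (Finset.mem_univ θ)
    · have hcst : ¬ Nonconst (P : Subgroup G) (θ : G → ℂ) := fun h =>
        (Finset.mem_sdiff.1 hθi).2 ((hexc θ).1 h)
      obtain ⟨k, hk⟩ := Subgroup.ne_bot_iff_exists_ne_one.1 hne
      have hk1 : (k : G) ≠ 1 := fun h => hk (Subtype.ext h)
      have hall : ∀ y ∈ (P : Subgroup G), y ≠ 1 → (θ : G → ℂ) y = (θ : G → ℂ) k := fun y hy hy1 => by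
        by_contra h
        exact hcst ⟨y, hy, k, k.2, hy1, hk1, h⟩
      have hA := D.A_const _ (IsCharacter.isClassFunction (isCharacter_irr θ)) _ hall
      rw [hz θ] at hA
      have hval : ∀ y ∈ (P : Subgroup G), y ≠ 1 → (θ : G → ℂ) y = (z θ : ℂ) := fun y hy hy1 => by
        rw [hall y hy hy1, ← Complex.conj_conj ((θ : G → ℂ) k), ← hA, map_intCast]
      obtain ⟨m, hm⟩ := exists_mult_character (IsCharacter.restrict (isCharacter_irr θ) (P : Subgroup G))
        (IsIrrCharacter.isCharacter (isIrrCharacter_one (P : Subgroup G)))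
      rw [classInner, hP, inv_mul_eq_iff_eq_mul₀ (Nat.cast_ne_zero.2 hp.out.ne_zero)] at hm
      simp only [map_one, mul_one] at hm
      rw [← Finset.add_sum_erase _ _ (Finset.mem_univ 1), OneMemClass.coe_one, irr_apply_one,
        Finset.sum_congr (s₁ := (Finset.univ : Finset ↥(P : Subgroup G)).erase 1) rfl (g := fun _ => (z θ : ℂ))
          (fun y hy => hval y y.2 fun h => (Finset.mem_erase.1 hy).1 (Subtype.ext h)), Finset.sum_const,
        Finset.card_erase_of_mem (Finset.mem_univ _), Finset.card_univ, ← Nat.card_eq_fintype_card, hP,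
        nsmul_eq_mul, Nat.cast_sub hp.out.one_le, Nat.cast_one] at hm
      refine ⟨(m : ℤ) - z θ, ?_⟩
      have hm' : (((charDegree (θ : G → ℂ) : ℤ) - z θ : ℤ) : ℂ) = (((p : ℤ) * ((m : ℤ) - z θ) : ℤ) : ℂ) := by
        push_cast at hm ⊢
        linear_combination hm
      exact_mod_cast hm'
  · rw [hsplit (fun θ => z θ * (charDegree (θ : G → ℂ) : ℤ)) (fun θ h => by rw [h, zero_mul]), hz1,
      show charDegree (one : G → ℂ) = 1 by
        have h : (1 : ℂ) = (charDegree (one : G → ℂ) : ℂ) := irr_apply_one one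
        exact_mod_cast h.symm] at hdeg0
    have h2 : ∑ ξ, z (μ ξ) * (charDegree (μ ξ : G → ℂ) : ℤ) = (x * σ - 1) * a := by
      rw [hsD, Finset.mul_sum, sub_mul, Finset.sum_mul,
        Finset.sum_congr rfl (g := fun ξ => x * ((D.D ξ : ℤ)) ^ 2 * a - (if ξ = D.η then a else 0))
          (fun ξ _ => ?_), Finset.sum_sub_distrib, Finset.sum_ite_eq', if_pos (Finset.mem_univ _), one_mul]
      rw [hμz, mul_comm (ε ξ), mul_assoc, hexcdeg]
      by_cases h : ξ = D.η
      · rw [if_pos h, if_pos h, h, D.D_eta]; push_cast; ring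
      · rw [if_neg h, if_neg h]; ring
    rw [h2] at hdeg0
    simpa using hdeg0

end CfsgLib.SelfCentPrime
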