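import Mathlib.LinearAlgebra.Lagrange
import Mathlib.FieldTheory.Finite.Basic
import Mathlib.Data.Nat.Prime.Factorial
import Mathlib.Tactic

/-! Rédei–Lovász–Schrijver: a map of `ZMod p` with few slopes is affine (hence Burnside's theorem
on permutation groups of prime degree). -/

namespace CfsgLib.Slopes

open Polynomial

variable {p : ℕ} [Fact p.Prime]

theorem sum_pow_card_sub_one : ∑ x : ZMod p, x ^ (p - 1) = -1 := by
  classical
  have hp := (Fact.out : p.Prime).two_le
  rw [← Finset.add_sum_erase _ _ (Finset.mem_univ (0 : ZMod p)), zero_pow (by omega), zero_add,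
    Finset.sum_congr rfl fun x hx => ZMod.pow_card_sub_one_eq_one (Finset.ne_of_mem_erase hx),
    Finset.sum_const, Finset.card_erase_of_mem (Finset.mem_univ _), Finset.card_univ, ZMod.card,
    nsmul_eq_mul, mul_one, Nat.cast_sub (by omega), ZMod.natCast_self]
  simp

theorem sum_eval {P : (ZMod p)[X]} (hP : P.natDegree ≤ p - 1) :
    ∑ x : ZMod p, P.eval x = -P.coeff (p - 1) := by
  simp only [eval_eq_sum_range' (Nat.lt_succ_of_le hP)]
  rw [Finset.sum_comm, Finset.sum_eq_single (p - 1)]
  · rw [← Finset.mul_sum, sum_pow_card_sub_one, mul_neg, mul_one]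
  · intro i hi hne
    have hi' := Finset.mem_range.1 hi
    rw [← Finset.mul_sum, FiniteField.sum_pow_lt_card_sub_one, mul_zero]
    rw [ZMod.card]; omega
  · intro h; exact absurd (Finset.mem_range.2 (Nat.lt_succ_self _)) h

theorem moments {f : ZMod p → ZMod p} {S : Finset (ZMod p)} {m : ℕ} (hp : p = 2 * m + 1)
    (hS : S.card ≤ m) (h : ∀ x y, x ≠ y → (f x - f y) / (x - y) ∈ S) {i j : ℕ} (hij : i + j ≤ m) :
    ∑ x : ZMod p, x ^ i * f x ^ j = 0 := by
  classical
  have hp2 := (Fact.out : p.Prime).two_le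
  set k := i + j
  let P : (ZMod p)[X] := ∑ x : ZMod p, (C (-x) * X + C (f x)) ^ k
  have hdeg : P.natDegree ≤ k := by
    refine natDegree_sum_le_of_forall_le _ _ fun x _ => natDegree_pow_le.trans ?_
    calc k * (C (-x) * X + C (f x)).natDegree ≤ k * 1 :=
          Nat.mul_le_mul_left _ natDegree_linear_le
      _ = k := mul_one k
  have hroot : ∀ c ∈ (Sᶜ : Finset (ZMod p)), P.eval c = 0 := by
    intro c hc
    simp only [P, eval_finset_sum, eval_pow, eval_add, eval_mul, eval_C, eval_X]
    let g : ZMod p → ZMod p := fun x => -x * c + f x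
    have hg : Function.Injective g := by
      intro x y hxy
      by_contra hne
      refine (Finset.mem_compl.1 hc) ?_
      have hd : x - y ≠ 0 := sub_ne_zero.2 hne
      have he : (f x - f y) / (x - y) = c := by
        rw [div_eq_iff hd]
        simp only [g] at hxy
        linear_combination hxy
      exact he ▸ h x y hne
    show ∑ x : ZMod p, g x ^ k = 0
    rw [Fintype.sum_bijective g (Finite.injective_iff_bijective.1 hg) (fun x => g x ^ k)
      (fun x => x ^ k) (fun x => rfl)]
    exact FiniteField.sum_pow_lt_card_sub_one (K := ZMod p) k (by rw [ZMod.card]; omega)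
  have hP : P = 0 := by
    refine eq_zero_of_natDegree_lt_card_of_eval_eq_zero' P (Sᶜ) hroot ?_
    rw [Finset.card_compl, ZMod.card]; omega
  have hc := congrArg (fun Q : (ZMod p)[X] => Q.coeff i) hP
  simp only [P, finset_sum_coeff, coeff_zero] at hc
  have hcoef : ∀ x : ZMod p, ((C (-x) * X + C (f x)) ^ k).coeff i =
      ((-1) ^ i * (k.choose i : ZMod p)) * (x ^ i * f x ^ j) := by
    intro x
    rw [add_pow, finset_sum_coeff, Finset.sum_eq_single i]
    · rw [mul_pow, ← C_pow, ← C_pow, show (k.choose i : (ZMod p)[X]) = C (k.choose i : ZMod p) by simp,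
        show C ((-x) ^ i) * X ^ i * C (f x ^ (k - i)) * C (k.choose i : ZMod p) =
          C ((-x) ^ i * f x ^ (k - i) * (k.choose i : ZMod p)) * X ^ i by simp only [map_mul]; ring,
        coeff_C_mul_X_pow, if_pos rfl, show k - i = j by omega, neg_pow]
      ring
    · intro l hl hne
      rw [mul_pow, ← C_pow, ← C_pow, show (k.choose l : (ZMod p)[X]) = C (k.choose l : ZMod p) by simp,
        show C ((-x) ^ l) * X ^ l * C (f x ^ (k - l)) * C (k.choose l : ZMod p) =
          C ((-x) ^ l * f x ^ (k - l) * (k.choose l : ZMod p)) * X ^ l by simp only [map_mul]; ring,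
        coeff_C_mul_X_pow, if_neg (Ne.symm hne)]
    · intro h; exact absurd (Finset.mem_range.2 (by omega)) h
  rw [Finset.sum_congr rfl fun x _ => hcoef x, ← Finset.mul_sum] at hc
  refine (mul_eq_zero.1 hc).resolve_left (mul_ne_zero (pow_ne_zero _ (neg_ne_zero.2 one_ne_zero)) ?_)
  rw [Ne, CharP.cast_eq_zero_iff (ZMod p) p]
  intro hdvd
  have hpk : p ∣ k.factorial := by
    rw [← Nat.choose_mul_factorial_mul_factorial (show i ≤ k by omega)]
    exact Dvd.dvd.mul_right (Dvd.dvd.mul_right hdvd _) _
  have := (Nat.Prime.dvd_factorial (Fact.out : Nat.Prime p)).1 hpk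
  omega

/-- Few slopes implies affine. -/
theorem affine_of_few_slopes {f : ZMod p → ZMod p} {S : Finset (ZMod p)} (hodd : p ≠ 2)
    (hS : 2 * S.card + 1 ≤ p) (h : ∀ x y, x ≠ y → (f x - f y) / (x - y) ∈ S) :
    ∃ a b : ZMod p, ∀ x, f x = a * x + b := by
  classical
  obtain ⟨m, hp⟩ := (Fact.out : p.Prime).odd_of_ne_two hodd
  let F := Lagrange.interpolate (Finset.univ : Finset (ZMod p)) id f
  have hinj : Set.InjOn (id : ZMod p → ZMod p) ↑(Finset.univ : Finset (ZMod p)) := fun x _ y _ e => e
  have heval : ∀ x, F.eval x = f x := fun x =>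
    Lagrange.eval_interpolate_at_node f hinj (Finset.mem_univ x)
  have hFdeg : F.natDegree ≤ p - 1 := by
    have := Lagrange.degree_interpolate_lt f hinj
    rw [Finset.card_univ, ZMod.card] at this
    refine Nat.le_sub_one_of_lt ?_
    by_cases h0 : F = 0
    · rw [h0, natDegree_zero]; exact (Fact.out : p.Prime).pos
    · exact (natDegree_lt_iff_degree_lt h0).2 this
  rcases Nat.lt_or_ge F.natDegree 2 with hn | hn
  · obtain ⟨a, b, hab⟩ := Polynomial.exists_eq_X_add_C_of_natDegree_le_one (Nat.le_of_lt_succ hn)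
    exact ⟨a, b, fun x => by rw [← heval, hab]; simp⟩
  exfalso
  set n := F.natDegree
  have hF0 : F ≠ 0 := fun h0 => by simp [n, h0] at hn
  have key : ∀ i j, i + j * n = p - 1 → i + j ≤ m → False := by
    intro i j he hij
    have h0 := moments hp (by omega) h hij
    rw [Finset.sum_congr rfl fun x _ => show x ^ i * f x ^ j = (X ^ i * F ^ j).eval x by simp [heval]] at h0
    have hd : (X ^ i * F ^ j).natDegree = p - 1 := by
      rw [natDegree_mul (pow_ne_zero _ X_ne_zero) (pow_ne_zero _ hF0), natDegree_pow, natDegree_pow,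
        natDegree_X, mul_one, he]
    rw [sum_eval hd.le, ← hd, neg_eq_zero] at h0
    exact (mul_ne_zero (pow_ne_zero _ X_ne_zero) (pow_ne_zero _ hF0)) (leadingCoeff_eq_zero.1 h0)
  rcases Nat.lt_or_ge m n with hmn | hmn
  · exact key (p - 1 - n) 1 (by omega) (by omega)
  · have hdiv := Nat.div_add_mod (p - 1) n
    have hr := Nat.mod_lt (p - 1) (show 0 < n by omega)
    refine key ((p - 1) % n) ((p - 1) / n) (by rw [mul_comm, add_comm]; exact hdiv) ?_
    set j := (p - 1) / n
    set i := (p - 1) % n
    have hj : 2 ≤ j := (Nat.le_div_iff_mul_le (by omega)).2 (by omega)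
    rcases Nat.lt_or_ge n 3 with h3 | h3
    · have : n = 2 := by omega
      rw [this] at hdiv hr
      omega
    · have he : n * j + i = 2 * m := by omega
      nlinarith [Nat.mul_le_mul (show 2 ≤ j from hj) h3]

end CfsgLib.Slopes
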