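import Cfsg.Prelude.Def_SylowChains
import Cfsg.Prelude.Def_SylowControl
import Mathlib.GroupTheory.Sylow

set_option autoImplicit false
open Cfsg
open scoped Pointwise

namespace CfsgLib.SylowChainRel

open Subgroup

section
variable {G : Type*} [Group G] {p : ℕ}

/-- One step of a controlling chain keeping `A`. -/
def Step (𝓕 : Set (Subgroup G)) (A : Subgroup G) (U V : Sylow p G) : Prop :=
  ∃ (X : Subgroup G) (x : G), X ∈ Cfsg.sylowMembers p 𝓕 (U : Subgroup G) ∧ X ∈ Cfsg.sylowMembers p 𝓕 (V : Subgroup G) ∧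
    x ∈ X ∧ Cfsg.subgroupConjRight x (V : Subgroup G) = (U : Subgroup G) ∧ A ≤ (V : Subgroup G) ⊓ X

theorem chain_of_rel {𝓕 : Set (Subgroup G)} {A : Subgroup G} {U V : Sylow p G}
    (h : Relation.ReflTransGen (Step 𝓕 A) U V) :
    ∃ (n : ℕ) (c : Fin (n + 1) → Sylow p G) (X : Fin n → Subgroup G) (x : Fin n → G),
      c 0 = U ∧ c (Fin.last n) = V ∧
      ∀ i : Fin n,
        X i ∈ Cfsg.sylowMembers p 𝓕 (c i.castSucc : Subgroup G) ∧ X i ∈ Cfsg.sylowMembers p 𝓕 (c i.succ : Subgroup G) ∧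
        x i ∈ X i ∧ Cfsg.subgroupConjRight (x i) (c i.succ : Subgroup G) = (c i.castSucc : Subgroup G) ∧
        A ≤ (c i.succ : Subgroup G) ⊓ X i := by
  induction h using Relation.ReflTransGen.head_induction_on with
  | refl => exact ⟨0, fun _ => V, fun i => i.elim0, fun i => i.elim0, rfl, rfl, fun i => i.elim0⟩
  | @head a b hab _ ih =>
    obtain ⟨n, c, X, x, h0, hl, hs⟩ := ih
    obtain ⟨Y, y, h1, h2, h3, h4, h5⟩ := hab
    refine ⟨n + 1, Fin.cons a c, Fin.cons Y X, Fin.cons y x, rfl, ?_, fun i => ?_⟩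
    · rw [← Fin.succ_last, Fin.cons_succ, hl]
    · induction i using Fin.cases with
      | zero =>
        simp only [Fin.castSucc_zero, Fin.cons_zero, Fin.cons_succ, h0]
        exact ⟨h1, h2, h3, h4, h5⟩
      | succ i => simpa [← Fin.succ_castSucc] using hs i

theorem rel_mem {𝓕 : Set (Subgroup G)} {A : Subgroup G} {U V : Sylow p G}
    (h : Relation.ReflTransGen (Step 𝓕 A) U V) (hU : A ≤ (U : Subgroup G)) : A ≤ (V : Subgroup G) := by
  rcases Relation.ReflTransGen.cases_tail h with h | ⟨W, -, X, x, -, -, -, -, h5⟩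
  · exact h ▸ hU
  · exact h5.trans inf_le_left

end

theorem sylow_of_sub {G : Type*} [Group G] [Finite G] {p : ℕ} [Fact p.Prime] (S : Sylow p G) {M : Subgroup G}
    (hM : (S : Subgroup G) ≤ M) (P : Sylow p M) :
    ∃ U : Sylow p G, (U : Subgroup G) = (P : Subgroup M).map M.subtype := by
  obtain ⟨m, hm⟩ := MulAction.exists_smul_eq M (S.subtype hM) P
  refine ⟨(m : G) • S, ?_⟩
  rw [← hm, Sylow.coe_subgroup_smul, Sylow.coe_subgroup_smul]
  ext z
  simp only [mem_map, MulDistribMulAction.toMonoidEnd_apply]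
  constructor
  · intro hz
    rw [mem_pointwise_smul_iff_inv_smul_mem] at hz
    refine ⟨⟨z, ?_⟩, ?_, rfl⟩
    · have := mul_mem (mul_mem m.2 (hM hz)) (inv_mem m.2)
      simpa [MulAut.smul_def, mul_assoc] using this
    · rw [mem_pointwise_smul_iff_inv_smul_mem, Sylow.coe_subtype, mem_subgroupOf]
      simpa [MulAut.smul_def] using hz
  · rintro ⟨w, hw, rfl⟩
    rw [mem_pointwise_smul_iff_inv_smul_mem, Sylow.coe_subtype, mem_subgroupOf] at hw
    rw [mem_pointwise_smul_iff_inv_smul_mem]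
    simpa [MulAut.smul_def] using hw

theorem rel_in_sub {G : Type*} [Group G] [Finite G] {p : ℕ} [Fact p.Prime] {f : Subgroup G → Set (Subgroup G)}
    (hf : Cfsg.IsNormalizerFunctor p f) (S : Sylow p G) {M : Subgroup G} (hM : (S : Subgroup G) ≤ M)
    (hr : Cfsg.IsFunctorRegular p f M) (𝓕 : Set (Subgroup G))
    (h𝓕 : ∀ P : Sylow p G, ∀ F ∈ f (P : Subgroup G), normalizer (F : Set G) ∈ 𝓕)
    (U V : Sylow p G) (hU : (U : Subgroup G) ≤ M) (hV : (V : Subgroup G) ≤ M)
    (A : Subgroup G) (hA : A ≠ ⊥) (hAU : A ≤ (U : Subgroup G)) (hAV : A ≤ (V : Subgroup G)) :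
    Relation.ReflTransGen (Step 𝓕 A) U V := by
  classical
  by_cases hUV : U = V
  · subst hUV; exact .refl
  have hne : U.subtype hU ≠ V.subtype hV := fun h => hUV <| Sylow.ext <| by
    have h1 := congrArg (fun Q : Sylow p M => (Q : Subgroup M).map M.subtype) h
    simpa [Sylow.coe_subtype, subgroupOf_map_subtype, inf_eq_left.mpr hU, inf_eq_left.mpr hV] using h1
  have hinf : ((U.subtype hU : Sylow p M) : Subgroup M) ⊓ (V.subtype hV : Sylow p M) ≠ ⊥ := by
    intro h
    refine hA (eq_bot_iff.mpr fun a ha => ?_)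
    have : (⟨a, hU (hAU ha)⟩ : M) ∈ ((U.subtype hU : Sylow p M) : Subgroup M) ⊓ (V.subtype hV : Sylow p M) :=
      ⟨by rw [Sylow.coe_subtype]; exact hAU ha, by rw [Sylow.coe_subtype]; exact hAV ha⟩
    rw [h, mem_bot] at this
    exact mem_bot.mpr (congrArg Subtype.val this)
  obtain ⟨n, c, X, x, hc0, hcl, hstep⟩ := hr _ _ hne hinf
  have hlift : ∀ Q : Sylow p M, ∃ W : Sylow p G, (W : Subgroup G) = (Q : Subgroup M).map M.subtype :=
    fun Q => sylow_of_sub S hM Q
  choose L hL using hlift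
  have hLU : ∀ (W : Sylow p G) (hW : (W : Subgroup G) ≤ M), L (W.subtype hW) = W := fun W hW => Sylow.ext (by
    rw [hL, Sylow.coe_subtype, subgroupOf_map_subtype, inf_eq_left.mpr hW])
  suffices h : ∀ i : Fin (n + 1), Relation.ReflTransGen (Step 𝓕 A) U (L (c i)) by
    have := h (Fin.last n)
    rwa [hcl, hLU V hV] at this
  intro i
  induction i using Fin.induction with
  | zero => rw [hc0, hLU U hU]
  | succ i ih =>
    refine ih.tail ?_
    obtain ⟨h1, h2, h3, h4, h5⟩ := hstep i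
    obtain ⟨Y, hY, hYX⟩ := h1.1
    obtain ⟨P, F, hF, rfl⟩ := hY
    obtain ⟨W, hW⟩ := sylow_of_sub S hM P
    rw [← hW] at hF
    have hWN : (W : Subgroup G) ≤ normalizer (F : Set G) :=
      le_normalizer.trans ((hf _ W.2).1 F hF).2
    have hWX : (P : Subgroup M) ≤ X i := by
      rw [← hYX]
      intro y hy
      refine mem_subgroupOf.mpr ⟨y.2, hWN ?_⟩
      rw [hW]
      exact ⟨y, hy, rfl⟩
    have hfull : ∀ Q : Sylow p M, X i ∈ Cfsg.sylowMembers p ((fun X : Subgroup G => X.subgroupOf M) '' Cfsg.functorFamily p f M) (Q : Subgroup M) →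
        (Q : Subgroup M) ≤ X i := by
      rintro Q ⟨-, R, hR⟩
      have h6 : Nat.card (R : Subgroup (X i)) = Nat.card (P.subtype hWX : Subgroup (X i)) := by
        rw [Sylow.card_eq_multiplicity, Sylow.card_eq_multiplicity]
      rw [Sylow.coe_subtype, Nat.card_congr (subgroupOfEquivOfLe hWX).toEquiv] at h6
      have h7 : Nat.card ((Q : Subgroup M) ⊓ X i : Subgroup M) = Nat.card (P : Subgroup M) := by
        rw [← hR, card_map_of_injective (X i).subtype_injective, h6]
      have h8 : Nat.card (P : Subgroup M) = Nat.card (Q : Subgroup M) := by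
        rw [Sylow.card_eq_multiplicity, Sylow.card_eq_multiplicity]
      exact inf_eq_left.mp (eq_of_le_of_card_ge inf_le_left (h8.symm.le.trans h7.symm.le))
    have hmem : ∀ Q : Sylow p M, (Q : Subgroup M) ≤ X i →
        normalizer (F : Set G) ∈ Cfsg.sylowMembers p 𝓕 (L Q : Subgroup G) := by
      intro Q hQ
      have hle : (L Q : Subgroup G) ≤ normalizer (F : Set G) := by
        rw [hL, map_le_iff_le_comap]
        intro y hy
        have h9 := hQ hy
        rw [← hYX] at h9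
        exact (mem_subgroupOf.mp h9).2
      refine ⟨h𝓕 W F hF, (L Q).subtype hle, ?_⟩
      rw [Sylow.coe_subtype, subgroupOf_map_subtype]
    refine ⟨normalizer (F : Set G), (x i : G), hmem _ (hfull _ h1), hmem _ (hfull _ h2), ?_, ?_, ?_⟩
    · rw [← hYX] at h3
      exact (mem_subgroupOf.mp h3).2
    · have h10 := congrArg (Subgroup.map M.subtype) h4
      rw [hL, hL, ← h10, Cfsg.subgroupConjRight, Cfsg.subgroupConjRight, map_map, map_map]
      congr 1
    · intro a ha
      have h11 : (⟨a, hU (hAU ha)⟩ : M) ∈ (c i.succ : Subgroup M) ⊓ X i := h5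
        ⟨by rw [Sylow.coe_subtype]; exact hAU ha, by rw [Sylow.coe_subtype]; exact hAV ha⟩
      refine ⟨?_, ?_⟩
      · rw [SetLike.mem_coe, hL]; exact ⟨_, h11.1, rfl⟩
      · have h12 := h11.2
        rw [← hYX] at h12
        exact (mem_subgroupOf.mp h12).2

theorem rel_conj {G : Type*} [Group G] [Finite G] {p : ℕ} [Fact p.Prime] {𝓕 : Set (Subgroup G)}
    (h𝓕 : ∀ X ∈ 𝓕, ∀ g : G, X.map (MulAut.conj g).toMonoidHom ∈ 𝓕) {A : Subgroup G} (g : G) {U V : Sylow p G}
    (h : Relation.ReflTransGen (Step 𝓕 A) U V) :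
    Relation.ReflTransGen (Step 𝓕 (A.map (MulAut.conj g).toMonoidHom)) (g • U) (g • V) := by
  refine h.lift (g • ·) ?_
  rintro a b ⟨X, x, h1, h2, h3, h4, h5⟩
  have hco : ∀ W : Sylow p G, ((g • W : Sylow p G) : Subgroup G) = (W : Subgroup G).map (MulAut.conj g).toMonoidHom :=
    fun W => rfl
  have hm : ∀ W : Sylow p G, X ∈ Cfsg.sylowMembers p 𝓕 (W : Subgroup G) →
      X.map (MulAut.conj g).toMonoidHom ∈ Cfsg.sylowMembers p 𝓕 ((g • W : Sylow p G) : Subgroup G) := by
    rintro W ⟨hX, P, hP⟩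
    have hinj : Function.Injective (MulAut.conj g).toMonoidHom := (MulAut.conj g).injective
    have hsur : Function.Surjective (X.equivMapOfInjective (MulAut.conj g).toMonoidHom hinj).toMonoidHom :=
      (X.equivMapOfInjective (MulAut.conj g).toMonoidHom hinj).surjective
    refine ⟨h𝓕 X hX g, P.mapSurjective hsur, ?_⟩
    rw [Sylow.coe_mapSurjective, map_map, hco, ← map_inf _ _ _ (MulEquiv.injective (MulAut.conj g)), ← hP, map_map]
    rfl
  refine ⟨X.map (MulAut.conj g).toMonoidHom, g * x * g⁻¹, hm a h1, hm b h2, ⟨x, h3, rfl⟩, ?_, ?_⟩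
  · rw [hco, hco, ← h4, Cfsg.subgroupConjRight, Cfsg.subgroupConjRight, map_map, map_map]
    congr 1
    ext; simp [mul_assoc]
  · rw [hco, ← map_inf _ _ _ (MulEquiv.injective (MulAut.conj g))]
    exact map_mono h5


end CfsgLib.SylowChainRel
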