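import Cfsg.Agent.Lib.Glauberman.NPCMain
import Cfsg.Agent.Lib.Thompson.PClosed
import Cfsg.Agent.Lib.GroupB.Coprime
import Cfsg.Agent.Lib.PConstrained
import Cfsg.Agent.Lib.Fusion.Saturated
import Cfsg.Agent.Lib.Fusion.Group
import Cfsg.Agent.Lib.PStep
import Cfsg.Prelude.Def_LocalEven

/-! `Z J` of a strongly closed subgroup controls fusion when the p-locals are stable and constrained. (owner helper5) -/

set_option autoImplicit false
set_option linter.style.haveILetI false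
set_option linter.unusedSectionVars false

namespace CfsgLib.ZJFusion

open Cfsg Cfsg.FusionSystem CfsgLib.Fusion CfsgLib.Glauberman CfsgLib.ThompsonNPC
open scoped commutatorElement Pointwise

section Step

variable {M : Type*} [Group M] [Finite M] {p : ℕ} [hp : Fact p.Prime]

/-- Stability of a quotient by a `p'`-group from stability at lifted `p`-subgroups. -/
theorem stable_of_lift {Q : Type*} [Group Q] [Finite Q] (π : M →* Q) (hπ : Function.Surjective π)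
    (hker : (Nat.card π.ker).Coprime p)
    (hst : ∀ U : Subgroup M, IsPGroup p ↥U → (U.map π).Normal → ∀ (n : M) (hn : n ∈ Subgroup.normalizer (U : Set M)),
      ⁅⁅U, Subgroup.zpowers n⁆, Subgroup.zpowers n⁆ = ⊥ →
        (QuotientGroup.mk (s := (Subgroup.centralizer (U : Set M)).subgroupOf (Subgroup.normalizer (U : Set M)))
            (⟨n, hn⟩ : ↥(Subgroup.normalizer (U : Set M)))) ∈
          Cfsg.pCore p (↥(Subgroup.normalizer (U : Set M)) ⧸
            (Subgroup.centralizer (U : Set M)).subgroupOf (Subgroup.normalizer (U : Set M)))) : Stable p Q := by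
  intro V hV hVp a ha
  have hpK : IsPGroup p ↥V := hVp
  obtain ⟨U⟩ := (inferInstance : Nonempty (Sylow p ↥(V.comap π)))
  set U₀ := (U : Subgroup ↥(V.comap π)).map (V.comap π).subtype
  have hU₀ : IsPGroup p ↥U₀ := U.2.map _
  have hUV : U₀.map π = V := by
    let f : ↥(V.comap π) →* ↥V := (π.comp (V.comap π).subtype).codRestrict V fun x => x.2
    have hf : Function.Surjective f := fun y => by
      obtain ⟨x, hx⟩ := hπ y
      exact ⟨⟨x, by rw [Subgroup.mem_comap, hx]; exact y.2⟩, Subtype.ext hx⟩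
    have htop : ((U.mapSurjective hf : Sylow p ↥V) : Subgroup ↥V) = ⊤ := by
      obtain ⟨W, hW⟩ := (hpK.of_equiv Subgroup.topEquiv.symm : IsPGroup p ↥(⊤ : Subgroup ↥V)).exists_le_sylow
      have h1 := Sylow.card_eq_multiplicity (U.mapSurjective hf)
      have h2 := Sylow.card_eq_multiplicity W
      refine Subgroup.eq_top_of_card_eq _ ?_
      rw [h1, ← h2, top_le_iff.mp hW, Subgroup.card_top]
    rw [Sylow.coe_mapSurjective] at htop
    calc U₀.map π = ((U : Subgroup ↥(V.comap π)).map f).map V.subtype := by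
          rw [Subgroup.map_map, Subgroup.map_map]; rfl
      _ = V := by rw [htop, ← MonoidHom.range_eq_map, Subgroup.range_subtype]
  have haN : a ∈ (Subgroup.normalizer (U₀ : Set M)).map π := by
    rw [CfsgLib.PConstrained.normalizer_map_eq π hπ hker hU₀, hUV, Subgroup.normalizer_eq_top V]
    exact Subgroup.mem_top a
  obtain ⟨n, hn, rfl⟩ := haN
  have hq : ⁅⁅U₀, Subgroup.zpowers n⁆, Subgroup.zpowers n⁆ = ⊥ := by
    rw [eq_bot_iff, ← CfsgLib.PConstrained.inf_eq_bot_of_coprime hU₀ hker]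
    have hnU : Subgroup.zpowers n ≤ Subgroup.normalizer (U₀ : Set M) := Subgroup.zpowers_le.mpr hn
    refine le_inf ?_ ?_
    · have h1 : ⁅U₀, Subgroup.zpowers n⁆ ≤ U₀ := by
        rw [Subgroup.commutator_le]
        intro u hu z hz
        rw [show ⁅u, z⁆ = u * (z * u⁻¹ * z⁻¹) by rw [commutatorElement_def]; group]
        exact U₀.mul_mem hu ((Subgroup.mem_normalizer_iff.mp (hnU hz) _).mp (U₀.inv_mem hu))
      exact (Subgroup.commutator_mono h1 le_rfl).trans h1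
    · rw [← Subgroup.map_eq_bot_iff, Subgroup.map_commutator, Subgroup.map_commutator, hUV, MonoidHom.map_zpowers]
      exact comm_zpowers_eq_bot ha
  have h0 := hst U₀ hU₀ (hUV.symm ▸ hV) n hn hq
  set N := Subgroup.normalizer (U₀ : Set M)
  let ψ : ↥N ⧸ (Subgroup.centralizer (U₀ : Set M)).subgroupOf N →* Q ⧸ Subgroup.centralizer (V : Set Q) :=
    QuotientGroup.map _ _ (π.comp N.subtype) (fun x hx => by
      show π (x : M) ∈ Subgroup.centralizer (V : Set Q)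
      rw [← hUV, ← CfsgLib.PConstrained.centralizer_map_eq π hπ hker hU₀]
      exact ⟨x, hx, rfl⟩)
  have hψ : Function.Surjective ψ := fun y => by
    obtain ⟨x, rfl⟩ := QuotientGroup.mk'_surjective _ y
    obtain ⟨m, hm, rfl⟩ : x ∈ N.map π := by
      rw [CfsgLib.PConstrained.normalizer_map_eq π hπ hker hU₀, hUV, Subgroup.normalizer_eq_top V]
      exact Subgroup.mem_top x
    exact ⟨QuotientGroup.mk ⟨m, hm⟩, rfl⟩
  exact CfsgLib.Core.pCore_map_le ψ hψ p ⟨_, h0, rfl⟩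

/-- Stability in the normalizer form. -/
theorem stableMod_of_normalizer (hst : Cfsg.IsNormalizerPStable p M) [(Cfsg.pPrimeCore p M).Normal] :
    Stable p (M ⧸ Cfsg.pPrimeCore p M) :=
  stable_of_lift (QuotientGroup.mk' _) (QuotientGroup.mk'_surjective _)
    (by rw [QuotientGroup.ker_mk']; exact CfsgLib.Core.card_pPrimeCore_coprime p) fun U hU _ n hn hq => hst U hU n hn hq

/-- Stability with an acting `p`-subgroup. -/
theorem stableMod_of_pStable (hst : Cfsg.IsPStable p M) [(Cfsg.pPrimeCore p M).Normal] :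
    Stable p (M ⧸ Cfsg.pPrimeCore p M) := by
  set π := QuotientGroup.mk' (Cfsg.pPrimeCore p M) with hπd
  refine stable_of_lift π (QuotientGroup.mk'_surjective _)
    (by rw [QuotientGroup.ker_mk']; exact CfsgLib.Core.card_pPrimeCore_coprime p) fun U hU hUn n hn hq => ?_
  set N := Subgroup.normalizer (U : Set M)
  have hsub : ∀ c ∈ Subgroup.zpowers n, ⁅⁅U, Subgroup.zpowers c⁆, Subgroup.zpowers c⁆ = ⊥ := fun c hc => by
    have hle : Subgroup.zpowers c ≤ Subgroup.zpowers n := Subgroup.zpowers_le.mpr hc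
    rw [eq_bot_iff, ← hq]
    exact Subgroup.commutator_mono (Subgroup.commutator_mono le_rfl hle) hle
  obtain ⟨a, b, ha, hb, hab, ⟨k, hak⟩, hbc⟩ := CfsgLib.ThompsonNPC.exists_mul_parts p n
  have haN : a ∈ N := Subgroup.zpowers_le.mpr hn ha
  have hbN : b ∈ N := Subgroup.zpowers_le.mpr hn hb
  have hbC : b ∈ Subgroup.centralizer (U : Set M) := by
    obtain ⟨i, hi⟩ := hU.exists_card_eq
    have h1 := CfsgLib.GroupB.Coprime.le_centralizer_of_commutator_commutator (G := U) (A := Subgroup.zpowers b)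
      (Subgroup.zpowers_le.mpr hbN) (by rw [Nat.card_zpowers, hi]; exact hbc.pow_right i)
      (Or.inr inferInstance) (hsub b hb)
    exact Subgroup.mem_centralizer_iff.mpr fun u hu =>
      (Subgroup.mem_centralizer_iff.mp (h1 hu) b (Subgroup.mem_zpowers b)).symm
  have hA : IsPGroup p ↥(Subgroup.zpowers a) := by
    obtain ⟨j, -, hj⟩ := (Nat.dvd_prime_pow hp.out).mp (orderOf_dvd_of_pow_eq_one hak)
    exact IsPGroup.of_card (n := j) (by rw [Nat.card_zpowers, hj])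
  have hsat : Cfsg.pPrimeCore p M ⊔ U = (U.map π).comap π := by
    rw [Subgroup.comap_map_eq, QuotientGroup.ker_mk', sup_comm]
  have h2 := hst.2.2 (Subgroup.zpowers a) U hA hU
    (fun c hc u hu => (Subgroup.mem_normalizer_iff.mp (Subgroup.zpowers_le.mpr haN hc) u).mp hu)
    (fun u hu => CfsgLib.Core.le_pCore hUn (hU.map π) ⟨u, hu, rfl⟩)
    (by rw [hsat]; exact hUn.comap π) (hsub a ha)
  have h3 : (QuotientGroup.mk (⟨a, haN⟩ : ↥N) : ↥N ⧸ (Subgroup.centralizer (U : Set M)).subgroupOf N) ∈ Cfsg.pCore p _ :=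
    h2 ⟨⟨a, haN⟩, Subgroup.mem_zpowers a, rfl⟩
  rw [show (⟨n, hn⟩ : ↥N) = ⟨a, haN⟩ * ⟨b, hbN⟩ from Subtype.ext hab.symm, QuotientGroup.mk_mul,
    (QuotientGroup.eq_one_iff (⟨b, hbN⟩ : ↥N)).mpr hbC, mul_one]
  exact h3

/-- The constrained stable step. -/
theorem normalizer_zMeet_sup (hp2 : p ≠ 2) {e : ℕ} (he : e = 0 ∨ e = p) [(Cfsg.pPrimeCore p M).Normal]
    (hst : Stable p (M ⧸ Cfsg.pPrimeCore p M))
    (hc : Cfsg.IsPConstrained p M) (T : Sylow p M) (E : Subgroup M) (hE : Cfsg.IsStronglyClosed E (T : Subgroup M)) :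
    Subgroup.normalizer (zMeet e E : Set M) ⊔ Cfsg.pPrimeCore p M = ⊤ := by
  set π := QuotientGroup.mk' (Cfsg.pPrimeCore p M)
  have hπ : Function.Surjective π := QuotientGroup.mk'_surjective _
  have hker : (Nat.card π.ker).Coprime p := by
    rw [QuotientGroup.ker_mk']; exact CfsgLib.Core.card_pPrimeCore_coprime p
  have hEp : IsPGroup p ↥E := T.2.to_le hE.1
  have hsc : Cfsg.IsStronglyClosed (E.map π) ((T.mapSurjective hπ : Sylow p _) : Subgroup _) := by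
    rw [Sylow.coe_mapSurjective]
    refine ⟨Subgroup.map_mono hE.1, ?_⟩
    rintro _ ⟨x, hx, rfl⟩ g hg
    obtain ⟨g, rfl⟩ := hπ g
    rw [← map_inv, ← map_mul, ← map_mul] at hg ⊢
    set H := ((T : Subgroup M).map π).comap π
    have hTH : (T : Subgroup M) ≤ H := Subgroup.le_comap_map _ _
    obtain ⟨h, hh, hle⟩ := exists_conj_le T.2
      (fun hd => T.not_dvd_index (hd.trans (Dvd.intro _ (Subgroup.relIndex_mul_index hTH))))
      (Y := Subgroup.zpowers (g * x * g⁻¹))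
      (by
        rw [show Subgroup.zpowers (g * x * g⁻¹) = (Subgroup.zpowers x).map (MulAut.conj g).toMonoidHom by
          rw [MonoidHom.map_zpowers]; rfl]
        exact (hEp.to_le (Subgroup.zpowers_le.mpr hx)).map _)
      (Subgroup.zpowers_le.mpr hg : _ ≤ H)
    have h1 : h * (g * x * g⁻¹) * h⁻¹ ∈ (T : Subgroup M) := hle ⟨_, Subgroup.mem_zpowers _, rfl⟩
    have e1 : h * (g * x * g⁻¹) * h⁻¹ = (h * g) * x * (h * g)⁻¹ := by group
    have h2 : h * (g * x * g⁻¹) * h⁻¹ ∈ E := e1.symm ▸ hE.2 x hx _ (e1 ▸ h1)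
    obtain ⟨t, ht, hte⟩ := (hh : π h ∈ (T : Subgroup M).map π)
    have h3 : t⁻¹ * (h * (g * x * g⁻¹) * h⁻¹) * t ∈ E := by
      have h4 := hE.2 _ h2 t⁻¹ (by
        rw [inv_inv]
        exact (T : Subgroup M).mul_mem ((T : Subgroup M).mul_mem ((T : Subgroup M).inv_mem ht) (hE.1 h2)) ht)
      simpa using h4
    refine ⟨_, h3, ?_⟩
    simp only [map_mul, map_inv, hte]
    group
  have hinj : Set.InjOn π (E : Set M) := by
    intro a ha b hb hab
    have h1 : a⁻¹ * b ∈ E ⊓ π.ker := ⟨E.mul_mem (E.inv_mem ha) hb, by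
      show π (a⁻¹ * b) = 1
      rw [map_mul, map_inv, hab, inv_mul_cancel]⟩
    rw [CfsgLib.PConstrained.inf_eq_bot_of_coprime hEp hker, Subgroup.mem_bot, inv_mul_eq_one] at h1
    exact h1
  have hn : (zMeet e (E.map π)).Normal := zj_normal hp2 he (T.mapSurjective hπ) (E.map π) hsc
    hst (CfsgLib.PConstrained.isPConstrained_iff.mp hc)
  rw [← zMeet_map e hinj] at hn
  have hmap := CfsgLib.PConstrained.normalizer_map_eq π hπ hker (hEp.to_le (zMeet_le e E))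
  rw [Subgroup.normalizer_eq_top_iff.mpr hn] at hmap
  refine eq_top_iff.mpr fun g _ => ?_
  obtain ⟨n, hn', hng⟩ := hmap.ge (Subgroup.mem_top (π g))
  have h1 : n⁻¹ * g ∈ Cfsg.pPrimeCore p M := QuotientGroup.eq.mp hng
  rw [show g = n * (n⁻¹ * g) by group]
  exact Subgroup.mul_mem_sup hn' h1

end Step

universe u

variable {G : Type u} [Group G] [Finite G] {p : ℕ} [hp : Fact p.Prime]

/-- The fusion step inside a local subgroup. -/
theorem exists_agree (hp2 : p ≠ 2) {e : ℕ} (he : e = 0 ∨ e = p) (P : Sylow p G)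
    {D : Subgroup G} (hD : Cfsg.IsStronglyClosed D (P : Subgroup G)) (M : Subgroup G)
    (hi : ¬ p ∣ ((P : Subgroup G) ⊓ M).relIndex M) (hc : Cfsg.IsPConstrained p ↥M)
    [(Cfsg.pPrimeCore p ↥M).Normal] (hstM : Stable p (↥M ⧸ Cfsg.pPrimeCore p ↥M))
    {Q : Subgroup G} (hQ : Q ≤ (P : Subgroup G) ⊓ M) {x : G} (hx : x ∈ M)
    (hxQ : ∀ q ∈ Q, x * q * x⁻¹ ∈ (P : Subgroup G)) :
    ∃ y ∈ M, y ∈ Subgroup.normalizer (zMeet e (D ⊓ M) : Set G) ∧ ∀ q ∈ Q, y * q * y⁻¹ = x * q * x⁻¹ := by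
  set T := (P : Subgroup G) ⊓ M
  obtain ⟨Ts, hTs⟩ := (exists_sylow_iff (p := p) (inf_le_right : T ≤ M)).mpr ⟨P.2.to_le inf_le_left, hi⟩
  set E := (D ⊓ M).subgroupOf M
  have hE : Cfsg.IsStronglyClosed E (Ts : Subgroup ↥M) := by
    rw [hTs]
    refine ⟨fun z hz => ⟨hD.1 hz.1, hz.2⟩, fun z hz g hg => ?_⟩
    have hg' : ((g * z * g⁻¹ : ↥M) : G) ∈ T := hg
    exact ⟨hD.2 _ hz.1 (g : G) hg'.1, (g * z * g⁻¹ : ↥M).2⟩
  have hEm : E.map M.subtype = D ⊓ M := Subgroup.map_subgroupOf_eq_of_le inf_le_right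
  have hsup := normalizer_zMeet_sup hp2 he hstM hc Ts E hE
  have hYm : (zMeet e E).map M.subtype = zMeet e (D ⊓ M) := by
    rw [zMeet_map e (injOn_of_injective M.subtype_injective E), hEm]
  set O := Cfsg.pPrimeCore p ↥M
  haveI : O.Normal := CfsgLib.PConstrained.pPrimeCore_normal (p := p)
  have hOc : (Nat.card ↥O).Coprime p := CfsgLib.Core.card_pPrimeCore_coprime p
  obtain ⟨o, ho, y, hy, hoy⟩ : ∃ o ∈ O, ∃ y ∈ Subgroup.normalizer (zMeet e E : Set ↥M), o * y = ⟨x, hx⟩ := by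
    have h1 : (⟨x, hx⟩ : ↥M) ∈ O ⊔ Subgroup.normalizer (zMeet e E : Set ↥M) := by
      rw [sup_comm, hsup]; exact Subgroup.mem_top _
    have h2 : (⟨x, hx⟩ : ↥M) ∈ ((O ⊔ Subgroup.normalizer (zMeet e E : Set ↥M) : Subgroup ↥M) : Set ↥M) := h1
    rw [Subgroup.coe_mul_of_right_le_normalizer_left O _ (by rw [Subgroup.normalizer_eq_top O]; exact le_top)] at h2
    obtain ⟨o, ho, y, hy, h⟩ := h2
    exact ⟨o, ho, y, hy, h⟩
  set NY := Subgroup.normalizer (zMeet e E : Set ↥M)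
  have hTN : (Ts : Subgroup ↥M) ≤ NY := by
    refine le_trans ?_ (normalizer_le_normalizer_zMeet e E)
    intro t ht
    refine Subgroup.mem_normalizer_fintype fun z hz => hE.2 z hz t ?_
    exact (Ts : Subgroup ↥M).mul_mem ((Ts : Subgroup ↥M).mul_mem ht (hE.1 hz)) ((Ts : Subgroup ↥M).inv_mem ht)
  set H := (Ts : Subgroup ↥M) ⊔ (O ⊓ NY)
  set Q' := (Q.subgroupOf M).map (MulAut.conj y).toMonoidHom
  have hQ'p : IsPGroup p ↥Q' :=
    ((P.2.to_le (hQ.trans inf_le_left)).comap_of_injective M.subtype M.subtype_injective).map _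
  have hQ'H : Q' ≤ H := by
    rintro _ ⟨q, hq, rfl⟩
    show y * q * y⁻¹ ∈ H
    set t : ↥M := o * (y * q * y⁻¹) * o⁻¹ with ht
    have htT : t ∈ (Ts : Subgroup ↥M) := by
      rw [hTs, ht, show o * (y * q * y⁻¹) * o⁻¹ = (o * y) * q * (o * y)⁻¹ by group, hoy]
      exact ⟨hxQ q hq, ((⟨x, hx⟩ : ↥M) * q * (⟨x, hx⟩ : ↥M)⁻¹).2⟩
    have hyN : y * q * y⁻¹ ∈ NY := NY.mul_mem (NY.mul_mem hy (hTN (hTs.ge ⟨(hQ hq).1, q.2⟩))) (NY.inv_mem hy)
    have h1 : t⁻¹ * (y * q * y⁻¹) ∈ O := by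
      rw [ht, show (o * (y * q * y⁻¹) * o⁻¹)⁻¹ * (y * q * y⁻¹) = o * ((y * q * y⁻¹)⁻¹ * o⁻¹ * (y * q * y⁻¹)) by group]
      have h2 := (inferInstance : O.Normal).conj_mem o⁻¹ (O.inv_mem ho) (y * q * y⁻¹)⁻¹
      rw [inv_inv] at h2
      exact O.mul_mem ho h2
    rw [show y * q * y⁻¹ = t * (t⁻¹ * (y * q * y⁻¹)) by group]
    exact Subgroup.mul_mem_sup htT ⟨h1, NY.mul_mem (NY.inv_mem (hTN htT)) hyN⟩
  have hiH : ¬ p ∣ (Ts : Subgroup ↥M).relIndex H := fun hd =>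
    Ts.not_dvd_index (hd.trans (Dvd.intro _ (Subgroup.relIndex_mul_index (le_sup_left : (Ts : Subgroup ↥M) ≤ H))))
  obtain ⟨h, hh, hle⟩ := exists_conj_le Ts.2 hiH hQ'p hQ'H
  obtain ⟨t, ht, o₁, ho₁, rfl⟩ : ∃ t ∈ (Ts : Subgroup ↥M), ∃ o₁ ∈ O ⊓ NY, t * o₁ = h := by
    have hnor : (Ts : Subgroup ↥M) ≤ Subgroup.normalizer ((O ⊓ NY : Subgroup ↥M) : Set ↥M) := fun t ht =>
      Subgroup.mem_normalizer_fintype fun z hz =>
        ⟨(inferInstance : O.Normal).conj_mem z hz.1 t, NY.mul_mem (NY.mul_mem (hTN ht) hz.2) (NY.inv_mem (hTN ht))⟩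
    have h2 : h ∈ (((Ts : Subgroup ↥M) ⊔ (O ⊓ NY) : Subgroup ↥M) : Set ↥M) := hh
    rw [Subgroup.coe_mul_of_left_le_normalizer_right _ _ hnor] at h2
    exact h2
  refine ⟨((o₁ * y : ↥M) : G), (o₁ * y : ↥M).2, ?_, fun q hq => ?_⟩
  · refine Subgroup.mem_normalizer_fintype ?_
    rw [← hYm]
    rintro _ ⟨z, hz, rfl⟩
    exact ⟨(o₁ * y) * z * (o₁ * y)⁻¹, (Subgroup.mem_normalizer_iff.mp (NY.mul_mem ho₁.2 hy) z).mp hz, rfl⟩
  set qm : ↥M := ⟨q, (hQ hq).2⟩
  have h1 : (o₁ * y) * qm * (o₁ * y)⁻¹ ∈ (Ts : Subgroup ↥M) := by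
    have h2 := hle ⟨_, ⟨qm, hq, rfl⟩, rfl⟩
    have h3 : t⁻¹ * ((MulAut.conj (t * o₁)).toMonoidHom ((MulAut.conj y).toMonoidHom qm)) * t ∈ (Ts : Subgroup ↥M) :=
      (Ts : Subgroup ↥M).mul_mem ((Ts : Subgroup ↥M).mul_mem ((Ts : Subgroup ↥M).inv_mem ht) h2) ht
    convert h3 using 1
    simp [mul_assoc]
  have h4 : (o * o₁⁻¹) * ((o₁ * y) * qm * (o₁ * y)⁻¹) * (o * o₁⁻¹)⁻¹ ∈ (Ts : Subgroup ↥M) := by
    rw [show (o * o₁⁻¹) * ((o₁ * y) * qm * (o₁ * y)⁻¹) * (o * o₁⁻¹)⁻¹ = (o * y) * qm * (o * y)⁻¹ by group, hoy, hTs]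
    exact ⟨hxQ q hq, ((⟨x, hx⟩ : ↥M) * qm * (⟨x, hx⟩ : ↥M)⁻¹).2⟩
  set a := (o₁ * y) * qm * (o₁ * y)⁻¹
  have hoO : o * o₁⁻¹ ∈ O := O.mul_mem ho (O.inv_mem ho₁.1)
  have h5 : (o * o₁⁻¹) * a * (o * o₁⁻¹)⁻¹ * a⁻¹ ∈ (Ts : Subgroup ↥M) ⊓ O := by
    refine ⟨(Ts : Subgroup ↥M).mul_mem h4 ((Ts : Subgroup ↥M).inv_mem h1), ?_⟩
    rw [show (o * o₁⁻¹) * a * (o * o₁⁻¹)⁻¹ * a⁻¹ = (o * o₁⁻¹) * (a * (o * o₁⁻¹)⁻¹ * a⁻¹) by group]
    exact O.mul_mem hoO ((inferInstance : O.Normal).conj_mem _ (O.inv_mem hoO) a)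
  rw [CfsgLib.PConstrained.inf_eq_bot_of_coprime Ts.2 hOc, Subgroup.mem_bot, mul_inv_eq_one] at h5
  have h6 : (o₁ * y) * qm * (o₁ * y)⁻¹ = ⟨x, hx⟩ * qm * (⟨x, hx⟩ : ↥M)⁻¹ := by
    rw [← hoy]
    calc a = (o * o₁⁻¹) * a * (o * o₁⁻¹)⁻¹ := h5.symm
      _ = _ := by simp only [a]; group
  exact congrArg Subtype.val h6

/-- `N(zMeet D)` agrees with every fusion map on big subgroups. -/
theorem agree (hp2 : p ≠ 2) {e : ℕ} (he : e = 0 ∨ e = p) (P : Sylow p G)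
    {D : Subgroup G} (hD : Cfsg.IsStronglyClosed D (P : Subgroup G))
    (hstM : ∀ (U : Subgroup G), U ≤ (P : Subgroup G) → U ≠ ⊥ →
      ∀ [(Cfsg.pPrimeCore p ↥(Subgroup.normalizer (U : Set G))).Normal],
        Stable p (↥(Subgroup.normalizer (U : Set G)) ⧸ Cfsg.pPrimeCore p ↥(Subgroup.normalizer (U : Set G))))
    (hc : ∀ U : Subgroup G, U ≤ (P : Subgroup G) → U ≠ ⊥ → Cfsg.IsPConstrained p ↥(Subgroup.normalizer (U : Set G))) :
    ∀ (k : ℕ) (X : Subgroup G), (groupFusionSystem (P : Subgroup G)).IsFullyNormalized X → X ≠ ⊥ →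
      Nat.card ↥(P : Subgroup G) - Nat.card ↥(normalizerIn (P : Subgroup G) X) = k →
      ∀ (Q : Subgroup G), Q ≤ normalizerIn (P : Subgroup G) X → ∀ x ∈ Subgroup.normalizer (X : Set G),
        (∀ q ∈ Q, x * q * x⁻¹ ∈ (P : Subgroup G)) →
        ∃ n ∈ Subgroup.normalizer (zMeet e D : Set G), ∀ q ∈ Q, n * q * n⁻¹ = x * q * x⁻¹ := by
  have hpe : p ∣ e := by rcases he with rfl | rfl <;> simp
  have hPD : (P : Subgroup G) ≤ Subgroup.normalizer (D : Set G) := fun t ht =>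
    Subgroup.mem_normalizer_fintype fun z hz =>
      hD.2 z hz t ((P : Subgroup G).mul_mem ((P : Subgroup G).mul_mem ht (hD.1 hz)) ((P : Subgroup G).inv_mem ht))
  rcases eq_or_ne D ⊥ with rfl | hDne
  · intro k X _ _ _ Q _ x _ _
    exact ⟨x, by rw [zMeet_bot, Subgroup.normalizer_eq_top (⊥ : Subgroup G)]; exact Subgroup.mem_top x, fun _ _ => rfl⟩
  intro k
  induction k using Nat.strong_induction_on with
  | _ k ih =>
  intro X hX hXne hk Q hQ x hx hxQ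
  set M := Subgroup.normalizer (X : Set G) with hM
  set T := normalizerIn (P : Subgroup G) X with hT
  have hi : ¬ p ∣ ((P : Subgroup G) ⊓ M).relIndex M := (group_fullyNormalized_iff P hX.1).mp hX
  haveI : (Cfsg.pPrimeCore p ↥M).Normal := CfsgLib.PConstrained.pPrimeCore_normal
  obtain ⟨y, hyM, hyY, hyQ⟩ := exists_agree hp2 he P hD M hi (hc X hX.1 hXne) (hstM X hX.1 hXne) hQ hx hxQ
  by_cases hTP : T = (P : Subgroup G)
  · have hDM : D ⊓ M = D := inf_eq_left.mpr (hD.1.trans (inf_eq_left.mp hTP))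
    rw [hDM] at hyY
    exact ⟨y, hyY, hyQ⟩
  set Y := zMeet e (D ⊓ M)
  have hYP : Y ≤ (P : Subgroup G) := (zMeet_le e _).trans (inf_le_left.trans hD.1)
  have hDMne : D ⊓ M ≠ ⊥ := by
    intro h
    haveI : (D.subgroupOf (P : Subgroup G)).Normal := (Subgroup.normal_subgroupOf_iff_le_normalizer hD.1).mpr hPD
    refine CfsgLib.PStep.normal_inf_center_ne_bot P.2 (N := D.subgroupOf (P : Subgroup G)) inferInstance
      (fun h0 => hDne (le_bot_iff.mp fun d hd => ?_)) ((Subgroup.eq_bot_iff_forall _).mpr fun z hz => ?_)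
    · have h1 : (⟨d, hD.1 hd⟩ : ↥(P : Subgroup G)) ∈ D.subgroupOf (P : Subgroup G) := hd
      rw [h0, Subgroup.mem_bot] at h1
      exact Subgroup.mem_bot.mpr (congrArg Subtype.val h1)
    · have h1 : (z : G) ∈ D ⊓ M := by
        refine ⟨hz.1, Subgroup.centralizer_le_normalizer _ ?_⟩
        exact Subgroup.mem_centralizer_iff.mpr fun w hw =>
          congrArg Subtype.val (Subgroup.mem_center_iff.mp hz.2 ⟨w, hX.1 hw⟩)
      rw [h, Subgroup.mem_bot] at h1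
      exact Subtype.ext h1
  have hYne : Y ≠ ⊥ := zMeet_ne_bot hpe (P.2.to_le (inf_le_left.trans hD.1)) hDMne
  have hTlt : T < normalizerIn (P : Subgroup G) T := lt_normalizerIn p P.2 (lt_of_le_of_ne inf_le_left hTP)
  have hTY : normalizerIn (P : Subgroup G) T ≤ normalizerIn (P : Subgroup G) Y := by
    refine le_inf inf_le_left fun t ht => normalizer_le_normalizer_zMeet e _ ?_
    refine Subgroup.mem_normalizer_fintype fun z hz => ?_
    have h1 := (Subgroup.mem_normalizer_iff.mp ht.2 z).mp ⟨hD.1 hz.1, hz.2⟩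
    exact ⟨hD.2 z hz.1 t h1.1, h1.2⟩
  obtain ⟨g₀, hg₀P, hg₀⟩ := exists_conj_sylow_normalizer P hYP
  set Y' := cj g₀ Y
  obtain ⟨m, hm, hmle⟩ := exists_conj_le (isPGroup_normalizerIn P Y') hg₀
    (Y := cj g₀ (normalizerIn (P : Subgroup G) Y)) ((isPGroup_normalizerIn P Y).map _)
    ((cj_mono _ inf_le_right).trans (cj_normalizer g₀ Y).le)
  set g := m * g₀ with hg
  have hgY : cj g Y = Y' := by
    rw [hg, cj_mul]
    ext z
    rw [mem_cj']
    exact (Subgroup.mem_normalizer_iff''.mp hm z).symm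
  have hgN : cj g (normalizerIn (P : Subgroup G) Y) ≤ normalizerIn (P : Subgroup G) Y' := by
    rw [hg, cj_mul]; exact hmle
  have hY'f : (groupFusionSystem (P : Subgroup G)).IsFullyNormalized Y' := (group_fullyNormalized_iff P hg₀P).mpr hg₀
  have hY'ne : Y' ≠ ⊥ := fun h => hYne (Subgroup.card_eq_one.mp (by rw [← card_cj g₀ Y]; exact Subgroup.card_eq_one.mpr h))
  have hTN' : Nat.card ↥T < Nat.card ↥(normalizerIn (P : Subgroup G) Y) :=
    lt_of_lt_of_le (Set.Finite.card_lt_card (Set.toFinite _) hTlt) (Subgroup.card_le_of_le hTY)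
  have hN' : Nat.card ↥(normalizerIn (P : Subgroup G) Y) ≤ Nat.card ↥(normalizerIn (P : Subgroup G) Y') := by
    rw [← card_cj g]; exact Subgroup.card_le_of_le hgN
  have hle' : Nat.card ↥(normalizerIn (P : Subgroup G) Y') ≤ Nat.card ↥(P : Subgroup G) := Subgroup.card_le_of_le inf_le_left
  have hk' : Nat.card ↥(P : Subgroup G) - Nat.card ↥(normalizerIn (P : Subgroup G) Y') < k := by omega
  -- fusion of big subgroups is already controlled
  let F := groupFusionSystem (P : Subgroup G)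
  let R : ∀ R : Subgroup G, (↥R →* G) → Prop := fun R φ =>
    Nat.card ↥R ≤ Nat.card ↥T ∨ ∃ n ∈ Subgroup.normalizer (zMeet e D : Set G), ∀ z : ↥R, φ z = n * (z : G) * n⁻¹
  let E : FusionSystem (P : Subgroup G) := subsystem F R
    (fun {_ g} _ hg => Or.inr ⟨g, normalizer_le_normalizer_zMeet e D (hPD hg), fun z => rfl⟩)
    (fun {A B φ ψ} hφ h1 _ h2 hv => by
      rcases h1 with h1 | ⟨a, ha, h1⟩
      · exact Or.inl h1
      rcases h2 with h2 | ⟨b, hb, h2⟩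
      · refine Or.inl (le_trans ?_ h2)
        exact Nat.card_le_card_of_injective (φ.codRestrict B hv) fun u w huw =>
          F.injective_of_mem hφ (congrArg Subtype.val huw)
      · refine Or.inr ⟨b * a, mul_mem hb ha, fun z => ?_⟩
        show ψ ⟨φ z, hv z⟩ = _
        rw [h2]
        show b * φ z * b⁻¹ = _
        rw [h1]; group)
    (fun {A φ} hφ h1 ψ _ hinv => by
      rcases h1 with h1 | ⟨a, ha, h1⟩
      · exact Or.inl (by rw [card_range hφ]; exact h1)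
      · refine Or.inr ⟨a⁻¹, inv_mem ha, ?_⟩
        rintro ⟨_, z, rfl⟩
        rw [hinv z]
        show (z : G) = a⁻¹ * φ z * a⁻¹⁻¹
        rw [h1]; group)
  have hFE : F ≤ E := by
    refine le_of_autGroup p P.2 (group_isSaturated P) E fun R' hR' _ α hα => ?_
    have hα' := (autGroup_carrier F hR'.1 α).mp hα
    refine (autGroup_carrier E hR'.1 α).mpr ⟨hα', ?_⟩
    by_cases hsmall : Nat.card ↥R' ≤ Nat.card ↥T
    · exact Or.inl hsmall
    push Not at hsmall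
    obtain ⟨-, -, a, ha⟩ := hα'
    have haN : a ∈ Subgroup.normalizer (R' : Set G) := Subgroup.mem_normalizer_fintype fun z hz => by
      have h1 := ha ⟨z, hz⟩
      rw [← h1]; exact (α ⟨z, hz⟩).2
    have hRle : R' ≤ normalizerIn (P : Subgroup G) R' := le_inf hR'.1 Subgroup.le_normalizer
    have hcR : Nat.card ↥R' ≤ Nat.card ↥(normalizerIn (P : Subgroup G) R') := Subgroup.card_le_of_le hRle
    have hcR' : Nat.card ↥(normalizerIn (P : Subgroup G) R') ≤ Nat.card ↥(P : Subgroup G) :=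
      Subgroup.card_le_of_le inf_le_left
    have hTpos : 0 < Nat.card ↥T := Nat.card_pos
    obtain ⟨n, hn, hne⟩ := ih _ (by omega) R' hR' (fun h => by rw [h, Subgroup.card_bot] at hsmall; omega) rfl R' hRle a haN
      fun q hq => hR'.1 ((Subgroup.mem_normalizer_iff.mp haN q).mp hq)
    exact Or.inr ⟨n, hn, fun z => (ha z).trans (hne z z.2).symm⟩
  obtain ⟨-, hng⟩ := hFE (normalizerIn (P : Subgroup G) Y) (show conjHom (normalizerIn (P : Subgroup G) Y) g ∈ F.Hom _ from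
    ⟨inf_le_left, fun z => (hgN ⟨z, z.2, rfl⟩).1, g, fun z => rfl⟩)
  rcases hng with hbad | ⟨n₁, hn₁, hn₁e⟩
  · omega
  have hTY' : T ≤ normalizerIn (P : Subgroup G) Y := hTlt.le.trans hTY
  have key1 : ∀ z ∈ normalizerIn (P : Subgroup G) Y, n₁ * z * n₁⁻¹ = g * z * g⁻¹ := fun z hz => (hn₁e ⟨z, hz⟩).symm
  obtain ⟨n₂, hn₂, hn₂e⟩ := ih _ hk' Y' hY'f hY'ne rfl (cj g Q)
    ((cj_mono g (hQ.trans hTY')).trans hgN) (g * y * g⁻¹) (by
      rw [← hgY, ← cj_normalizer]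
      exact ⟨y, hyY, rfl⟩) (by
      rintro _ ⟨q, hq, rfl⟩
      have h1 : y * q * y⁻¹ ∈ T := ⟨by rw [hyQ q hq]; exact hxQ q hq, M.mul_mem (M.mul_mem hyM (hQ hq).2) (M.inv_mem hyM)⟩
      have h2 : g * (y * q * y⁻¹) * g⁻¹ ∈ (P : Subgroup G) := (hgN ⟨_, hTY' h1, rfl⟩).1
      show g * y * g⁻¹ * (g * q * g⁻¹) * (g * y * g⁻¹)⁻¹ ∈ (P : Subgroup G)
      convert h2 using 1
      group)
  refine ⟨n₁⁻¹ * n₂ * n₁, mul_mem (mul_mem (inv_mem hn₁) hn₂) hn₁, fun q hq => ?_⟩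
  have h1 : y * q * y⁻¹ ∈ T := ⟨by rw [hyQ q hq]; exact hxQ q hq, M.mul_mem (M.mul_mem hyM (hQ hq).2) (M.inv_mem hyM)⟩
  have h2 := hn₂e (g * q * g⁻¹) ⟨q, hq, rfl⟩
  have h3 : g * y * g⁻¹ * (g * q * g⁻¹) * (g * y * g⁻¹)⁻¹ = g * (y * q * y⁻¹) * g⁻¹ := by group
  rw [h3, ← key1 _ (hTY' h1), ← key1 q (hTY' (hQ hq))] at h2
  rw [← hyQ q hq]
  calc n₁⁻¹ * n₂ * n₁ * q * (n₁⁻¹ * n₂ * n₁)⁻¹ = n₁⁻¹ * (n₂ * (n₁ * q * n₁⁻¹) * n₂⁻¹) * n₁ := by group
    _ = _ := by rw [h2]; group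

/-- Control of strong fusion by `N(zMeet e D)`. -/
theorem controls (hp2 : p ≠ 2) {e : ℕ} (he : e = 0 ∨ e = p) (P : Sylow p G)
    {D : Subgroup G} (hD : Cfsg.IsStronglyClosed D (P : Subgroup G))
    (hstM : ∀ (U : Subgroup G), U ≤ (P : Subgroup G) → U ≠ ⊥ →
      ∀ [(Cfsg.pPrimeCore p ↥(Subgroup.normalizer (U : Set G))).Normal],
        Stable p (↥(Subgroup.normalizer (U : Set G)) ⧸ Cfsg.pPrimeCore p ↥(Subgroup.normalizer (U : Set G))))
    (hc : ∀ U : Subgroup G, U ≤ (P : Subgroup G) → U ≠ ⊥ → Cfsg.IsPConstrained p ↥(Subgroup.normalizer (U : Set G)))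
    (A : Set G) (hA : A ⊆ (P : Subgroup G)) :
    Cfsg.ControlsStrongFusionOf (Subgroup.normalizer (zMeet e D : Set G)) (P : Subgroup G) A := by
  refine ⟨hA, fun g hg => ?_⟩
  have hPD : (P : Subgroup G) ≤ Subgroup.normalizer (D : Set G) := fun t ht =>
    Subgroup.mem_normalizer_fintype fun z hz =>
      hD.2 z hz t ((P : Subgroup G).mul_mem ((P : Subgroup G).mul_mem ht (hD.1 hz)) ((P : Subgroup G).inv_mem ht))
  let F := groupFusionSystem (P : Subgroup G)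
  let E : FusionSystem (P : Subgroup G) := subsystem F
    (fun R φ => ∃ n ∈ Subgroup.normalizer (zMeet e D : Set G), ∀ z : ↥R, φ z = n * (z : G) * n⁻¹)
    (fun {_ g} _ hg => ⟨g, normalizer_le_normalizer_zMeet e D (hPD hg), fun z => rfl⟩)
    (fun {A B φ ψ} _ h1 _ h2 hv => by
      obtain ⟨a, ha, h1⟩ := h1
      obtain ⟨b, hb, h2⟩ := h2
      refine ⟨b * a, mul_mem hb ha, fun z => ?_⟩
      show ψ ⟨φ z, hv z⟩ = _
      rw [h2]
      show b * φ z * b⁻¹ = _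
      rw [h1]; group)
    (fun {A φ} _ h1 ψ _ hinv => by
      obtain ⟨a, ha, h1⟩ := h1
      refine ⟨a⁻¹, inv_mem ha, ?_⟩
      rintro ⟨_, z, rfl⟩
      rw [hinv z]
      show (z : G) = a⁻¹ * φ z * a⁻¹⁻¹
      rw [h1]; group)
  have hFE : F ≤ E := by
    refine le_of_autGroup p P.2 (group_isSaturated P) E fun R hR _ α hα => ?_
    have hα' := (autGroup_carrier F hR.1 α).mp hα
    refine (autGroup_carrier E hR.1 α).mpr ⟨hα', ?_⟩
    rcases eq_or_ne R ⊥ with rfl | hRne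
    · refine ⟨1, one_mem _, fun z => ?_⟩
      obtain rfl : z = 1 := Subsingleton.elim _ _
      simp
    obtain ⟨-, -, a, ha⟩ := hα'
    have haN : a ∈ Subgroup.normalizer (R : Set G) := Subgroup.mem_normalizer_fintype fun z hz => by
      have h1 := ha ⟨z, hz⟩
      rw [← h1]; exact (α ⟨z, hz⟩).2
    obtain ⟨n, hn, hne⟩ := agree hp2 he P hD hstM hc _ R hR hRne rfl R (le_inf hR.1 Subgroup.le_normalizer) a haN
      fun q hq => hR.1 ((Subgroup.mem_normalizer_iff.mp haN q).mp hq)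
    exact ⟨n, hn, fun z => (ha z).trans (hne z z.2).symm⟩
  have hcl : Subgroup.closure A ≤ ((P : Subgroup G).comap (MulAut.conj g).toMonoidHom) :=
    (Subgroup.closure_le _).mpr fun a ha => hg ⟨a, ha, rfl⟩
  obtain ⟨-, n, hn, hne⟩ := hFE (Subgroup.closure A) (show conjHom (Subgroup.closure A) g ∈ F.Hom _ from
    ⟨(Subgroup.closure_le _).mpr hA, fun z => hcl z.2, g, fun z => rfl⟩)
  exact ⟨n, hn, fun a ha => hne ⟨a, Subgroup.subset_closure ha⟩⟩

end CfsgLib.ZJFusion
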